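/- Tower SIM, chapter D: a fixed functional of a `p`-group (job SIM-D-N2). -/
import Cfsg.Agent.H11.SimDSpec

set_option autoImplicit false

namespace H65.SimN2

open Subgroup Cfsg H98 Matrix H0.Sim H11.SimD

variable {n : ℕ} {F : Type} [Field F]

/-- The inverse transpose. -/
def it : GL (Fin n) F →* GL (Fin n) F where
  toFun y := ⟨((y⁻¹ : GL (Fin n) F) : Mt n F)ᵀ, (y : Mt n F)ᵀ,
    by rw [← transpose_mul, Units.mul_inv, transpose_one],
    by rw [← transpose_mul, Units.inv_mul, transpose_one]⟩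
  map_one' := Units.ext (by simp)
  map_mul' a b := Units.ext (by
    show (((a * b)⁻¹ : GL (Fin n) F) : Mt n F)ᵀ =
      ((a⁻¹ : GL (Fin n) F) : Mt n F)ᵀ * ((b⁻¹ : GL (Fin n) F) : Mt n F)ᵀ
    rw [_root_.mul_inv_rev, Units.val_mul, transpose_mul])

theorem it_dot (y : GL (Fin n) F) (φ x : Fin n → F) :
    ((it y : GL (Fin n) F) : Mt n F) *ᵥ φ ⬝ᵥ x = φ ⬝ᵥ (((y⁻¹ : GL (Fin n) F) : Mt n F) *ᵥ x) := by
  show ((y⁻¹ : GL (Fin n) F) : Mt n F)ᵀ *ᵥ φ ⬝ᵥ x = _
  rw [mulVec_transpose, dotProduct_mulVec]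

/-- The annihilator for the dot product. -/
def ann (X : Submodule F (Fin n → F)) : Submodule F (Fin n → F) where
  carrier := {φ | ∀ x ∈ X, φ ⬝ᵥ x = 0}
  add_mem' := fun {a b} ha hb x hx => by rw [add_dotProduct, ha x hx, hb x hx, add_zero]
  zero_mem' := fun x _ => zero_dotProduct x
  smul_mem' := fun c v hv x hx => by rw [smul_dotProduct, hv x hx, smul_zero]

theorem ann_ne_bot {X : Submodule F (Fin n → F)} (h : X ≠ ⊤) : ann X ≠ ⊥ := by
  obtain ⟨f, f0, hf⟩ := Submodule.exists_le_ker_of_lt_top X (lt_top_iff_ne_top.2 h)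
  have key : ∀ x : Fin n → F, (fun i => f (Pi.single i 1)) ⬝ᵥ x = f x := by
    intro x
    rw [LinearMap.pi_apply_eq_sum_univ f x, dotProduct]
    refine Finset.sum_congr rfl fun i _ => ?_
    rw [smul_eq_mul, mul_comm]
    congr 2
    ext j
    rw [Pi.single_apply]
    simp only [eq_comm]
  refine (Submodule.ne_bot_iff _).2 ⟨fun i => f (Pi.single i 1), fun x hx => ?_, fun e => f0 ?_⟩
  · rw [key]
    exact hf hx
  · refine LinearMap.ext fun x => ?_
    rw [← key, e, zero_dotProduct, LinearMap.zero_apply]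

theorem jobD_N2 : H11.SimD.JobN2 := by
  intro n1 n F _ _ P X hP hX hs
  obtain ⟨φ, h1, h2, h3⟩ := n1 n F (P.map it) (ann X) (hP.map it) (ann_ne_bot hX) (by
    rintro _ ⟨y, hy, rfl⟩ φ hφ x hx
    rw [it_dot]
    exact hφ _ (hs _ (inv_mem hy) x hx))
  refine ⟨φ, h2, h1, fun y hy x => ?_⟩
  have := it_dot y⁻¹ φ x
  rw [inv_inv, h3 _ ⟨y⁻¹, inv_mem hy, rfl⟩] at this
  exact this.symm

end H65.SimN2
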