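/- STD-R (S3323, blueprints/STDR.md): standard subgroups of type ²F₄(q).  Spec, part 1: the general
kit and the definitions of all the subgroups. -/
import Cfsg.Agent.H63.OcSpec
import Cfsg.Agent.H64.SGUF
import Cfsg.Prelude.Def_ChevF4
import Cfsg.Prelude.Def_Quasithin

set_option autoImplicit false
set_option linter.unusedSectionVars false
set_option linter.unusedVariables false

open Subgroup H63.Oc H64.SG
open scoped commutatorElement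

universe u v

namespace H65.SR

section Gen
variable {G : Type*} [Group G]

/-- The elements normalising `Y` and the coset `t Y` (for an involution `t`: `g t g⁻¹ = t ⁅t, g⁆`). -/
def Up (t : G) (Y : Subgroup G) : Subgroup G where
  carrier := {g | g ∈ Ns Y ∧ t⁻¹ * (g * t * g⁻¹) ∈ Y}
  one_mem' := ⟨one_mem _, by simp⟩
  mul_mem' := fun {a b} ha hb => ⟨mul_mem ha.1 hb.1, by
    have := mul_mem ha.2 ((mem_normalizer_iff.1 ha.1 _).1 hb.2)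
    convert this using 1; group⟩
  inv_mem' := fun {a} ha => ⟨inv_mem ha.1, by
    have := inv_mem ((mem_normalizer_iff.1 (inv_mem ha.1) _).1 ha.2)
    convert this using 1; group⟩

theorem mem_Up {t g : G} {Y : Subgroup G} : g ∈ Up t Y ↔ g ∈ Ns Y ∧ t⁻¹ * (g * t * g⁻¹) ∈ Y := Iff.rfl

/-- The elements normalising `Y₀` and centralising `Y` modulo `Y₀`. -/
def Cm (Y Y₀ : Subgroup G) : Subgroup G where
  carrier := {g | g ∈ Ns Y₀ ∧ ∀ y ∈ Y, ⁅g, y⁆ ∈ Y₀}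
  one_mem' := ⟨one_mem _, fun y _ => by simp⟩
  mul_mem' := fun {a b} ha hb => ⟨mul_mem ha.1 hb.1, fun y hy => by
    have := mul_mem ((mem_normalizer_iff.1 ha.1 _).1 (hb.2 y hy)) (ha.2 y hy)
    convert this using 1; simp only [commutatorElement_def]; group⟩
  inv_mem' := fun {a} ha => ⟨inv_mem ha.1, fun y hy => by
    have := inv_mem ((mem_normalizer_iff.1 (inv_mem ha.1) _).1 (ha.2 y hy))
    convert this using 1; simp only [commutatorElement_def]; group⟩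

theorem mem_Cm {g : G} {Y Y₀ : Subgroup G} : g ∈ Cm Y Y₀ ↔ g ∈ Ns Y₀ ∧ ∀ y ∈ Y, ⁅g, y⁆ ∈ Y₀ := Iff.rfl

/-- `Y / Y₀` is elementary abelian, `t` acts freely on it with fixed points `X Y₀ / Y₀`. -/
structure Db (t : G) (Y₀ X Y : Subgroup G) : Prop where
  le0 : Y₀ ≤ Y
  leX : X ≤ Y
  cX : X ≤ Cz t
  tY : t ∈ Ns Y
  tY0 : t ∈ Ns Y₀
  nor : Y ≤ Ns Y₀
  sq : ∀ y ∈ Y, y * y ∈ Y₀
  fix : ∀ y ∈ Y, ⁅t, y⁆ ∈ Y₀ → y ∈ X ⊔ Y₀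
  onto : ∀ x ∈ X, ∃ y ∈ Y, ⁅t, y⁆ * x⁻¹ ∈ Y₀

/-- `Y` is a `2`-group normalised by `t`, `C_Y(t) = X`, the involutions of `t Y` are conjugate to `t`
under `Y`, and `|Y| = |X|²`. -/
structure Fr (t : G) (X Y : Subgroup G) : Prop where
  two : IsPGroup 2 Y
  tY : t ∈ Ns Y
  fix : Y ⊓ Cz t = X
  h1 : ∀ y ∈ Y, t * y * (t * y) = 1 → ∃ u ∈ Y, u * t * u⁻¹ = t * y
  card : Nat.card Y = Nat.card X ^ 2

end Gen

/-- The general lemmas (proved in `H65/SRKit.lean` as `H65.SR.kit`). -/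
structure Kit : Prop where
  /-- extension of a free action -/
  ext : ∀ {G : Type u} [Group G] [Finite G] {t : G} {X₀ Y₀ X Y : Subgroup G}, Inv2 t → Fr t X₀ Y₀ →
    Db t Y₀ X Y → X₀ ≤ X → Fr t X Y
  bot : ∀ {G : Type u} [Group G] [Finite G] {t : G} {X Y : Subgroup G}, Inv2 t → Db t ⊥ X Y → Fr t X Y
  /-- `Db.fix` is automatic over a free `Y₀` -/
  mkDb : ∀ {G : Type u} [Group G] [Finite G] {t : G} {X₀ Y₀ X Y : Subgroup G}, Inv2 t → Fr t X₀ Y₀ →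
    Y₀ ≤ Y → Y ≤ Ns Y₀ → t ∈ Ns Y → (∀ y ∈ Y, y * y ∈ Y₀) → Y ⊓ Cz t = X →
    (∀ x ∈ X, ∃ y ∈ Y, ⁅t, y⁆ * x⁻¹ ∈ Y₀) → Db t Y₀ X Y
  /-- an element centralising `t` modulo `Y` lies in `Y C(t)` -/
  lift : ∀ {G : Type u} [Group G] [Finite G] {t g : G} {X Y : Subgroup G}, Inv2 t → Fr t X Y →
    ⁅t, g⁆ ∈ Y → ∃ u ∈ Y, u⁻¹ * g ∈ Cz t
  /-- SELF -/
  self : ∀ {G : Type u} [Group G] [Finite G] {t : G} {X₀ Y₀ Y : Subgroup G}, Inv2 t → Fr t X₀ Y₀ →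
    Y₀ ≤ Y → IsPGroup 2 Y → t ∈ Ns Y → Y ⊓ Cz t ≤ Y₀ → Y = Y₀
  triv : ∀ {G : Type u} [Group G] [Finite G] {t : G} {Y : Subgroup G}, Inv2 t → IsPGroup 2 Y →
    t ∈ Ns Y → Y ⊓ Cz t = ⊥ → Y = ⊥
  /-- GEN -/
  gen : ∀ {G : Type u} [Group G] [Finite G] {t : G} {Y₀ X Y J : Subgroup G}, Inv2 t → Db t Y₀ X Y →
    J ≤ Y → Y₀ ≤ J → X ≤ J → (∀ x ∈ X, ∃ y ∈ J, ⁅t, y⁆ * x⁻¹ ∈ Y₀) → J = Y
  /-- `y ↦ ⁅t, y⁆` is a homomorphism modulo `Y₀`, with values in `X Y₀`; `Y / Y₀` is abelian -/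
  hom : ∀ {G : Type u} [Group G] [Finite G] {t : G} {Y₀ X Y : Subgroup G}, Inv2 t → Db t Y₀ X Y →
    ∀ y ∈ Y, ⁅t, y⁆ ∈ X ⊔ Y₀ ∧ ∀ y' ∈ Y, ⁅y, y'⁆ ∈ Y₀ ∧ ⁅t, y * y'⁆ * (⁅t, y⁆ * ⁅t, y'⁆)⁻¹ ∈ Y₀
  /-- fixed points of a group of odd order -/
  dbC : ∀ {G : Type u} [Group G] [Finite G] {t : G} {Y₀ X Y H : Subgroup G}, Inv2 t → Db t Y₀ X Y →
    IsPGroup 2 Y → Odd (Nat.card H) → H ≤ Cz t → H ≤ Ns Y → H ≤ Ns Y₀ → H ≤ Ns X →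
    Db t (Y₀ ⊓ Cs H) (X ⊓ Cs H) (Y ⊓ Cs H)
  /-- COP: coprime action on a coset -/
  cop : ∀ {G : Type u} [Group G] [Finite G] {Y₀ H : Subgroup G} {y : G}, IsPGroup 2 Y₀ →
    Odd (Nat.card H) → H ≤ Ns Y₀ → y ∈ Ns Y₀ → (∀ h ∈ H, ⁅h, y⁆ ∈ Y₀) → ∃ y₀ ∈ Y₀, y₀ * y ∈ Cs H
  /-- an element of odd order stabilising a chain in a `2`-group -/
  stab : ∀ {G : Type u} [Group G] [Finite G] {Y₀ Y : Subgroup G} {g : G}, IsPGroup 2 Y₀ →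
    Odd (orderOf g) → g ∈ Cs Y₀ → (∀ y ∈ Y, ⁅g, y⁆ ∈ Y₀) → g ∈ Cs Y
  /-- a fixed point free element -/
  surj : ∀ {G : Type u} [Group G] [Finite G] {P : Subgroup G} {h : G}, h ∈ Ns P → P ⊓ Cz h = ⊥ →
    ∀ p ∈ P, ∃ p' ∈ P, p = ⁅p', h⁆
  /-- FPF -/
  fpf : ∀ {G : Type u} [Group G] [Finite G] {P N N₀ : Subgroup G} {h : G}, h ∈ Ns P → P ⊓ Cz h = ⊥ →
    P ≤ Ns N → P ≤ Ns N₀ → h ∈ Cm N N₀ → P ≤ Cm N N₀
  /-- KER -/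
  ker : ∀ {G : Type u} [Group G] [Finite G] {t : G} {N : Subgroup G}, Inv2 t → t ∈ Ns N →
    N ⊓ Cz t = ⊥ → Odd (Nat.card N) ∧ (∀ k ∈ N, t * k * t⁻¹ = k⁻¹) ∧ N ≤ Cs N ∧
      ∀ x ∈ Ns N, ⁅t, x⁆ ∈ Cs N
  /-- ODD: a relation that holds up to a central element of odd order holds -/
  odd : ∀ {G : Type u} [Group G] [Finite G] {a b w z : G}, a * a = 1 → w * w = 1 → Commute a w →
    Commute z a → Commute z w → Odd (orderOf z) → ⁅a, b⁆ = w * z → z = 1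
  odd' : ∀ {G : Type u} [Group G] [Finite G] {a b : G}, Is2 a → Commute ⁅a, b⁆ a →
    Odd (orderOf ⁅a, b⁆) → Commute a b
  /-- products of free actions -/
  prod : ∀ {G : Type u} [Group G] [Finite G] {t : G} {X Y X' Y' : Subgroup G}, Inv2 t → Fr t X Y →
    Fr t X' Y' → Y' ≤ Ns Y → X ⊓ X' = ⊥ → Fr t (X ⊔ X') (Y ⊔ Y')
  /-- fixed point free on `X`, hence on `Y` -/
  fix0 : ∀ {G : Type u} [Group G] [Finite G] {t h : G} {X Y : Subgroup G}, Inv2 t → Fr t X Y →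
    h ∈ Cz t → X ⊓ Cz h = ⊥ → Y ⊓ Cz h = ⊥
  /-- conjugation by an element centralising `t` -/
  dbJ : ∀ {G : Type u} [Group G] {t g : G} {Y₀ X Y : Subgroup G}, g ∈ Cz t → Db t Y₀ X Y →
    Db t (cjs g Y₀) (cjs g X) (cjs g Y)
  frJ : ∀ {G : Type u} [Group G] {t g : G} {X Y : Subgroup G}, g ∈ Cz t → Fr t X Y →
    Fr t (cjs g X) (cjs g Y)
  /-- `Cm` is checked on generators -/
  cmG : ∀ {G : Type u} [Group G] {g : G} {N₀ : Subgroup G} {S : Set G}, g ∈ Ns N₀ →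
    (∀ s ∈ S, s ∈ Ns N₀ ∧ ⁅g, s⁆ ∈ N₀) → g ∈ Cm (closure S) N₀
  cmS : ∀ {G : Type u} [Group G] {g : G} {N₀ X Y : Subgroup G}, X ≤ Ns N₀ → Y ≤ Ns N₀ →
    g ∈ Cm X N₀ → g ∈ Cm Y N₀ → g ∈ Cm (X ⊔ Y) N₀
  /-- `P` normalises `X ⊔ N₀` if it normalises `N₀` and `⁅P, X⁆ ≤ X ⊔ N₀` -/
  nsS : ∀ {G : Type u} [Group G] [Finite G] {g : G} {N₀ X : Subgroup G}, g ∈ Ns N₀ →
    (∀ x ∈ X, ⁅g, x⁆ ∈ X ⊔ N₀) → g ∈ Ns (X ⊔ N₀)

section Coord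
variable {K : Type*} [Field K] [CharP K 2] (T : TF K)

/-- `U₁` -/
def sU1 : Subgroup (Co T) where
  carrier := {c | c.b2 = 0 ∧ c.a2 = 0 ∧ c.a3 = 0 ∧ c.b4 = 0 ∧ c.a4 = 0 ∧ c.a5 = 0 ∧ c.b6 = 0 ∧ c.a6 = 0 ∧ c.a7 = 0 ∧ c.b8 = 0 ∧ c.a8 = 0}
  one_mem' := by simp
  mul_mem' := fun {c d} hc hd => by simp_all
  inv_mem' := fun {c} hc => by simp_all
theorem mem_sU1 {c : Co T} : c ∈ sU1 T ↔ c.b2 = 0 ∧ c.a2 = 0 ∧ c.a3 = 0 ∧ c.b4 = 0 ∧ c.a4 = 0 ∧ c.a5 = 0 ∧ c.b6 = 0 ∧ c.a6 = 0 ∧ c.a7 = 0 ∧ c.b8 = 0 ∧ c.a8 = 0 := Iff.rfl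

/-- `U₂` -/
def sU2 : Subgroup (Co T) where
  carrier := {c | c.a1 = 0 ∧ c.a3 = 0 ∧ c.b4 = 0 ∧ c.a4 = 0 ∧ c.a5 = 0 ∧ c.b6 = 0 ∧ c.a6 = 0 ∧ c.a7 = 0 ∧ c.b8 = 0 ∧ c.a8 = 0}
  one_mem' := by simp
  mul_mem' := fun {c d} hc hd => by simp_all
  inv_mem' := fun {c} hc => by simp_all
theorem mem_sU2 {c : Co T} : c ∈ sU2 T ↔ c.a1 = 0 ∧ c.a3 = 0 ∧ c.b4 = 0 ∧ c.a4 = 0 ∧ c.a5 = 0 ∧ c.b6 = 0 ∧ c.a6 = 0 ∧ c.a7 = 0 ∧ c.b8 = 0 ∧ c.a8 = 0 := Iff.rfl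

/-- `V₂ = Z(U₂)` -/
def sZ2 : Subgroup (Co T) where
  carrier := {c | c.a1 = 0 ∧ c.b2 = 0 ∧ c.a3 = 0 ∧ c.b4 = 0 ∧ c.a4 = 0 ∧ c.a5 = 0 ∧ c.b6 = 0 ∧ c.a6 = 0 ∧ c.a7 = 0 ∧ c.b8 = 0 ∧ c.a8 = 0}
  one_mem' := by simp
  mul_mem' := fun {c d} hc hd => by simp_all
  inv_mem' := fun {c} hc => by simp_all
theorem mem_sZ2 {c : Co T} : c ∈ sZ2 T ↔ c.a1 = 0 ∧ c.b2 = 0 ∧ c.a3 = 0 ∧ c.b4 = 0 ∧ c.a4 = 0 ∧ c.a5 = 0 ∧ c.b6 = 0 ∧ c.a6 = 0 ∧ c.a7 = 0 ∧ c.b8 = 0 ∧ c.a8 = 0 := Iff.rfl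

/-- `U₃` -/
def sU3 : Subgroup (Co T) where
  carrier := {c | c.a1 = 0 ∧ c.b2 = 0 ∧ c.a2 = 0 ∧ c.b4 = 0 ∧ c.a4 = 0 ∧ c.a5 = 0 ∧ c.b6 = 0 ∧ c.a6 = 0 ∧ c.a7 = 0 ∧ c.b8 = 0 ∧ c.a8 = 0}
  one_mem' := by simp
  mul_mem' := fun {c d} hc hd => by simp_all
  inv_mem' := fun {c} hc => by simp_all
theorem mem_sU3 {c : Co T} : c ∈ sU3 T ↔ c.a1 = 0 ∧ c.b2 = 0 ∧ c.a2 = 0 ∧ c.b4 = 0 ∧ c.a4 = 0 ∧ c.a5 = 0 ∧ c.b6 = 0 ∧ c.a6 = 0 ∧ c.a7 = 0 ∧ c.b8 = 0 ∧ c.a8 = 0 := Iff.rfl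

/-- `U₄` -/
def sU4 : Subgroup (Co T) where
  carrier := {c | c.a1 = 0 ∧ c.b2 = 0 ∧ c.a2 = 0 ∧ c.a3 = 0 ∧ c.a5 = 0 ∧ c.b6 = 0 ∧ c.a6 = 0 ∧ c.a7 = 0 ∧ c.b8 = 0 ∧ c.a8 = 0}
  one_mem' := by simp
  mul_mem' := fun {c d} hc hd => by simp_all
  inv_mem' := fun {c} hc => by simp_all
theorem mem_sU4 {c : Co T} : c ∈ sU4 T ↔ c.a1 = 0 ∧ c.b2 = 0 ∧ c.a2 = 0 ∧ c.a3 = 0 ∧ c.a5 = 0 ∧ c.b6 = 0 ∧ c.a6 = 0 ∧ c.a7 = 0 ∧ c.b8 = 0 ∧ c.a8 = 0 := Iff.rfl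

/-- `U₅` -/
def sU5 : Subgroup (Co T) where
  carrier := {c | c.a1 = 0 ∧ c.b2 = 0 ∧ c.a2 = 0 ∧ c.a3 = 0 ∧ c.b4 = 0 ∧ c.a4 = 0 ∧ c.b6 = 0 ∧ c.a6 = 0 ∧ c.a7 = 0 ∧ c.b8 = 0 ∧ c.a8 = 0}
  one_mem' := by simp
  mul_mem' := fun {c d} hc hd => by simp_all
  inv_mem' := fun {c} hc => by simp_all
theorem mem_sU5 {c : Co T} : c ∈ sU5 T ↔ c.a1 = 0 ∧ c.b2 = 0 ∧ c.a2 = 0 ∧ c.a3 = 0 ∧ c.b4 = 0 ∧ c.a4 = 0 ∧ c.b6 = 0 ∧ c.a6 = 0 ∧ c.a7 = 0 ∧ c.b8 = 0 ∧ c.a8 = 0 := Iff.rfl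

/-- `U₆` -/
def sU6 : Subgroup (Co T) where
  carrier := {c | c.a1 = 0 ∧ c.b2 = 0 ∧ c.a2 = 0 ∧ c.a3 = 0 ∧ c.b4 = 0 ∧ c.a4 = 0 ∧ c.a5 = 0 ∧ c.a7 = 0 ∧ c.b8 = 0 ∧ c.a8 = 0}
  one_mem' := by simp
  mul_mem' := fun {c d} hc hd => by simp_all
  inv_mem' := fun {c} hc => by simp_all
theorem mem_sU6 {c : Co T} : c ∈ sU6 T ↔ c.a1 = 0 ∧ c.b2 = 0 ∧ c.a2 = 0 ∧ c.a3 = 0 ∧ c.b4 = 0 ∧ c.a4 = 0 ∧ c.a5 = 0 ∧ c.a7 = 0 ∧ c.b8 = 0 ∧ c.a8 = 0 := Iff.rfl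

/-- `U₇` -/
def sU7 : Subgroup (Co T) where
  carrier := {c | c.a1 = 0 ∧ c.b2 = 0 ∧ c.a2 = 0 ∧ c.a3 = 0 ∧ c.b4 = 0 ∧ c.a4 = 0 ∧ c.a5 = 0 ∧ c.b6 = 0 ∧ c.a6 = 0 ∧ c.b8 = 0 ∧ c.a8 = 0}
  one_mem' := by simp
  mul_mem' := fun {c d} hc hd => by simp_all
  inv_mem' := fun {c} hc => by simp_all
theorem mem_sU7 {c : Co T} : c ∈ sU7 T ↔ c.a1 = 0 ∧ c.b2 = 0 ∧ c.a2 = 0 ∧ c.a3 = 0 ∧ c.b4 = 0 ∧ c.a4 = 0 ∧ c.a5 = 0 ∧ c.b6 = 0 ∧ c.a6 = 0 ∧ c.b8 = 0 ∧ c.a8 = 0 := Iff.rfl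

/-- `V₈ = Z(U₈)` -/
def sZ8 : Subgroup (Co T) where
  carrier := {c | c.a1 = 0 ∧ c.b2 = 0 ∧ c.a2 = 0 ∧ c.a3 = 0 ∧ c.b4 = 0 ∧ c.a4 = 0 ∧ c.a5 = 0 ∧ c.b6 = 0 ∧ c.a6 = 0 ∧ c.a7 = 0 ∧ c.b8 = 0}
  one_mem' := by simp
  mul_mem' := fun {c d} hc hd => by simp_all
  inv_mem' := fun {c} hc => by simp_all
theorem mem_sZ8 {c : Co T} : c ∈ sZ8 T ↔ c.a1 = 0 ∧ c.b2 = 0 ∧ c.a2 = 0 ∧ c.a3 = 0 ∧ c.b4 = 0 ∧ c.a4 = 0 ∧ c.a5 = 0 ∧ c.b6 = 0 ∧ c.a6 = 0 ∧ c.a7 = 0 ∧ c.b8 = 0 := Iff.rfl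

/-- `U₂⋯U₇` -/
def sU27 : Subgroup (Co T) where
  carrier := {c | c.a1 = 0 ∧ c.b8 = 0 ∧ c.a8 = 0}
  one_mem' := by simp
  mul_mem' := fun {c d} hc hd => by simp_all
  inv_mem' := fun {c} hc => by simp_all
theorem mem_sU27 {c : Co T} : c ∈ sU27 T ↔ c.a1 = 0 ∧ c.b8 = 0 ∧ c.a8 = 0 := Iff.rfl

/-- `U₃⋯U₇` -/
def sU37 : Subgroup (Co T) where
  carrier := {c | c.a1 = 0 ∧ c.b2 = 0 ∧ c.a2 = 0 ∧ c.b8 = 0 ∧ c.a8 = 0}
  one_mem' := by simp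
  mul_mem' := fun {c d} hc hd => by simp_all
  inv_mem' := fun {c} hc => by simp_all
theorem mem_sU37 {c : Co T} : c ∈ sU37 T ↔ c.a1 = 0 ∧ c.b2 = 0 ∧ c.a2 = 0 ∧ c.b8 = 0 ∧ c.a8 = 0 := Iff.rfl


/-- the root subgroup `U_i` in coordinates (`1 ≤ i ≤ 8`) -/
def sU : ℕ → Subgroup (Co T)
  | 1 => sU1 T | 2 => sU2 T | 3 => sU3 T | 4 => sU4 T | 5 => sU5 T | 6 => sU6 T | 7 => sU7 T
  | _ => sU8 T

end Coord

section Fld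
variable {K : Type*} [Field K] [CharP K 2] {T : TF K}

theorem exists_s [Fintype K] (hK : 8 ≤ Fintype.card K) : ∃ s : K, T.σ s ≠ s := by
  classical
  by_contra h
  push Not at h
  have h1 : (Finset.univ : Finset K) ⊆ {0, 1} := fun x _ => by
    have := T.sq x
    rw [h, h] at this
    by_cases h0 : x = 0
    · simp [h0]
    · have : x = 1 := mul_left_cancel₀ h0 (by rw [← sq, ← this, mul_one])
      simp [this]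
  have := (Finset.card_le_card h1).trans (Finset.card_le_two (a := (0 : K)) (b := 1))
  rw [Finset.card_univ] at this
  omega

variable {M N : Type*} [AddCommGroup M] [AddCommGroup N] [Module K M] [Module K N]

/-- `μ ↦ μ σ(μ)` is not additive, first form -/
theorem na1 {s : K} (hs : T.σ s ≠ s) (f : M →+ N) (g : K →+* K)
    (h : ∀ μ : K, μ ≠ 0 → ∀ e, f ((μ * T.σ μ) • e) = g μ • f e) : f = 0 := by
  have h0 : s ≠ 0 := by rintro rfl; simp at hs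
  have h1 : 1 + s ≠ 0 := fun e => hs (by
    have : s = 1 := by grind
    rw [this, map_one])
  have h2 : s + T.σ s ≠ 0 := fun e => hs (by grind)
  ext e
  have e1 := h _ h1 ((s + T.σ s)⁻¹ • e)
  have e2 := h _ h0 ((s + T.σ s)⁻¹ • e)
  rw [map_add, map_one, show (1 + s) * (1 + T.σ s) = 1 + s * T.σ s + (s + T.σ s) by ring, add_smul,
    add_smul, map_add, map_add, e2, smul_inv_smul₀ h2, map_add, map_one, add_smul, one_smul,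
    one_smul] at e1
  simpa using e1

/-- `μ ↦ μ σ(μ)` is not additive, second form -/
theorem na2 {s : K} (hs : T.σ s ≠ s) (f : M →+ N) (g : K →+* K)
    (h : ∀ μ : K, μ ≠ 0 → ∀ e, f (g μ • e) = (μ * T.σ μ) • f e) : f = 0 := by
  have h0 : s ≠ 0 := by rintro rfl; simp at hs
  have h1 : 1 + s ≠ 0 := fun e => hs (by
    have : s = 1 := by grind
    rw [this, map_one])
  have h2 : s + T.σ s ≠ 0 := fun e => hs (by grind)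
  ext e
  have e1 := h _ h1 e
  have e2 := h _ h0 e
  rw [map_add, map_one, add_smul, one_smul, map_add, e2, map_add, map_one,
    show (1 + s) * (1 + T.σ s) = 1 + s * T.σ s + (s + T.σ s) by ring, add_smul, add_smul, one_smul,
    left_eq_add, smul_eq_zero] at e1
  simpa using e1.resolve_left h2

/-- an additive map invariant under a scalar `≠ 1` vanishes -/
theorem na0 {l : K} (hl : l ≠ 1) (f : M →+ N) (h : ∀ e, f (l • e) = f e) : f = 0 := by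
  ext e
  have h1 : l - 1 ≠ 0 := sub_ne_zero.2 hl
  have := h ((l - 1)⁻¹ • e)
  rw [← sub_eq_zero, ← map_sub] at this
  have e1 : l • (l - 1)⁻¹ • e - (l - 1)⁻¹ • e = e := by
    rw [show l • (l - 1)⁻¹ • e - (l - 1)⁻¹ • e = (l - 1) • (l - 1)⁻¹ • e by rw [sub_smul, one_smul],
      smul_inv_smul₀ h1]
  rw [e1] at this
  simpa using this

section Par
variable {G : Type*} [Group G] {P : Subgroup G} {φ ψ : G → K}

theorem exists_par (hφ : ∀ p ∈ P, ∀ p' ∈ P, φ (p * p') = φ p + φ p')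
    (hψ : ∀ p ∈ P, ∀ p' ∈ P, ψ (p * p') = ψ p + ψ p') (onto : ∀ e, ∃ p ∈ P, φ p = e)
    (ker : ∀ p ∈ P, φ p = 0 → ψ p = 0) : ∃ f : K →+ K, ∀ p ∈ P, f (φ p) = ψ p := by
  choose r hr er using onto
  have key : ∀ p ∈ P, ∀ p' ∈ P, φ p = φ p' → ψ p = ψ p' := fun p hp p' hp' e => by
    have := ker _ (mul_mem hp hp') (by rw [hφ _ hp _ hp', e]; grind)
    rw [hψ _ hp _ hp'] at this; grind
  refine ⟨AddMonoidHom.mk' (fun e => ψ (r e)) fun a b => ?_, fun p hp => key _ (hr _) _ hp (er _)⟩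
  rw [← hψ _ (hr a) _ (hr b)]
  exact key _ (hr _) _ (mul_mem (hr a) (hr b)) (by rw [hφ _ (hr a) _ (hr b), er, er, er])

/-- `na1` for a group `P` with two additive coordinates: `φ` has weight `μ σ μ`, `ψ` has weight `g μ` -/
theorem par1 {s : K} (hs : T.σ s ≠ s) (g : K →+* K) (hφ : ∀ p ∈ P, ∀ p' ∈ P, φ (p * p') = φ p + φ p')
    (hψ : ∀ p ∈ P, ∀ p' ∈ P, ψ (p * p') = ψ p + ψ p') (onto : ∀ e, ∃ p ∈ P, φ p = e)
    (ker : ∀ p ∈ P, φ p = 0 → ψ p = 0)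
    (h : ∀ μ : K, μ ≠ 0 → ∀ p ∈ P, ∃ p' ∈ P, φ p' = μ * T.σ μ * φ p ∧ ψ p' = g μ * ψ p) :
    ∀ p ∈ P, ψ p = 0 := by
  obtain ⟨f, hf⟩ := exists_par hφ hψ onto ker
  have := na1 hs f g fun μ hμ e => by
    obtain ⟨p, hp, rfl⟩ := onto e
    obtain ⟨p', hp', e1, e2⟩ := h μ hμ p hp
    rw [smul_eq_mul, smul_eq_mul, ← e1, hf _ hp', hf _ hp, e2]
  intro p hp
  rw [← hf p hp, this]; rfl

/-- `na2` for a group `P`: `φ` has weight `g μ`, `ψ` has weight `μ σ μ` -/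
theorem par2 {s : K} (hs : T.σ s ≠ s) (g : K →+* K) (hφ : ∀ p ∈ P, ∀ p' ∈ P, φ (p * p') = φ p + φ p')
    (hψ : ∀ p ∈ P, ∀ p' ∈ P, ψ (p * p') = ψ p + ψ p') (onto : ∀ e, ∃ p ∈ P, φ p = e)
    (ker : ∀ p ∈ P, φ p = 0 → ψ p = 0)
    (h : ∀ μ : K, μ ≠ 0 → ∀ p ∈ P, ∃ p' ∈ P, φ p' = g μ * φ p ∧ ψ p' = μ * T.σ μ * ψ p) :
    ∀ p ∈ P, ψ p = 0 := by
  obtain ⟨f, hf⟩ := exists_par hφ hψ onto ker
  have := na2 hs f g fun μ hμ e => by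
    obtain ⟨p, hp, rfl⟩ := onto e
    obtain ⟨p', hp', e1, e2⟩ := h μ hμ p hp
    rw [smul_eq_mul, smul_eq_mul, ← e1, hf _ hp', hf _ hp, e2]
  intro p hp
  rw [← hf p hp, this]; rfl

end Par

end Fld

section Map
variable {K : Type*} [Field K] [CharP K 2] {T : TF K} {G G' : Type*} [Group G] [Group G']

theorem ι_mem (A : AD T G) (c : Co T) : A.ι c ∈ A.G0 := subset_closure (Or.inl (Or.inl ⟨c, rfl⟩))
theorem h_mem (A : AD T G) (p : Kˣ × Kˣ) : A.h p ∈ A.G0 := subset_closure (Or.inl (Or.inr ⟨p, rfl⟩))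
theorem n1_mem (A : AD T G) : A.n1 ∈ A.G0 := subset_closure (Or.inr (Or.inl rfl))
theorem n8_mem (A : AD T G) : A.n8 ∈ A.G0 := subset_closure (Or.inr (Or.inr rfl))

/-- transport of the amalgam along a homomorphism defined on an overgroup of `G0`, injective on `U` -/
def mapAD (A : AD T G) (H : Subgroup G) (hH : A.G0 ≤ H) (φ : H →* G')
    (hφ : ∀ c, φ ⟨A.ι c, hH (ι_mem A c)⟩ = 1 → c = 1) : AD T G' where
  ι := φ.comp (A.ι.codRestrict H fun c => hH (ι_mem A c))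
  inj := (injective_iff_map_eq_one _).2 hφ
  n8 := φ ⟨A.n8, hH (n8_mem A)⟩
  h0 := φ.comp (A.h0.codRestrict H fun p => hH (A.tor.h_h0 p ▸ h_mem A p))
  h0_conj := fun p c => by
    simp only [MonoidHom.comp_apply, ← map_inv φ, ← map_mul φ]
    exact congrArg φ (Subtype.ext (A.h0_conj p c))
  n8_sq := by rw [← map_mul, ← map_one φ]; exact congrArg φ (Subtype.ext A.n8_sq)
  n8_conj := fun c hc => by
    simp only [MonoidHom.comp_apply, ← map_mul φ]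
    exact congrArg φ (Subtype.ext (A.n8_conj c hc))
  n8_h0 := fun p => by
    simp only [MonoidHom.comp_apply, ← map_inv φ, ← map_mul φ]
    exact congrArg φ (Subtype.ext (A.n8_h0 p))
  rank8 := fun u hu h1 => by
    obtain ⟨u', hu', u'', hu'', p, h⟩ := A.rank8 u hu h1
    refine ⟨u', hu', u'', hu'', p, ?_⟩
    simp only [MonoidHom.comp_apply, ← map_mul φ]
    exact congrArg φ (Subtype.ext h)
  h := φ.comp (A.h.codRestrict H fun p => hH (h_mem A p))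
  n1 := φ ⟨A.n1, hH (n1_mem A)⟩
  tor :=
    { h_h0 := fun p => congrArg φ (Subtype.ext (A.tor.h_h0 p))
      h_conj := fun p c => by
        simp only [MonoidHom.comp_apply, ← map_inv φ, ← map_mul φ]
        exact congrArg φ (Subtype.ext (A.tor.h_conj p c))
      n8_h := fun p => by
        simp only [MonoidHom.comp_apply, ← map_mul φ]
        exact congrArg φ (Subtype.ext (A.tor.n8_h p)) }
  n1_sq := by rw [← map_mul, ← map_one φ]; exact congrArg φ (Subtype.ext A.n1_sq)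
  n1_conj := fun c hc => by
    simp only [MonoidHom.comp_apply, ← map_mul φ]
    exact congrArg φ (Subtype.ext (A.n1_conj c hc))
  n1_h := fun p => by
    simp only [MonoidHom.comp_apply, ← map_mul φ]
    exact congrArg φ (Subtype.ext (A.n1_h p))
  rank1 := by
    simp only [MonoidHom.comp_apply, ← map_mul φ, ← map_pow φ]
    rw [← map_one φ]
    exact congrArg φ (Subtype.ext A.rank1)

theorem mapAD_G0 (A : AD T G) (H : Subgroup G) (hH : A.G0 ≤ H) (φ : H →* G')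
    (hφ : ∀ c, φ ⟨A.ι c, hH (ι_mem A c)⟩ = 1 → c = 1) :
    (mapAD A H hH φ hφ).G0 = (A.G0.subgroupOf H).map φ := by
  apply le_antisymm
  · refine (closure_le _).2 ?_
    rintro _ ((⟨c, rfl⟩ | ⟨p, rfl⟩) | rfl | rfl)
    exacts [⟨_, ι_mem A c, rfl⟩, ⟨_, h_mem A p, rfl⟩, ⟨_, n1_mem A, rfl⟩, ⟨_, n8_mem A, rfl⟩]
  · rintro _ ⟨⟨x, hx'⟩, hx, rfl⟩
    replace hx : x ∈ A.G0 := hx
    induction hx using closure_induction with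
    | mem x hx =>
      rcases hx with (⟨c, rfl⟩ | ⟨p, rfl⟩) | rfl | rfl
      exacts [ι_mem (mapAD A H hH φ hφ) c, h_mem (mapAD A H hH φ hφ) p, n1_mem (mapAD A H hH φ hφ),
        n8_mem (mapAD A H hH φ hφ)]
    | one => exact (congrArg (· ∈ _) (map_one φ)).mpr (one_mem _)
    | mul x y hx hy ihx ihy =>
      exact (congrArg (· ∈ _) (map_mul φ ⟨x, hH hx⟩ ⟨y, hH hy⟩)).mpr (mul_mem (ihx _) (ihy _))
    | inv x hx ih => exact (congrArg (· ∈ _) (map_inv φ ⟨x, hH hx⟩)).mpr (inv_mem (ih _))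

theorem mapAD_braid (A : AD T G) (H : Subgroup G) (hH : A.G0 ≤ H) (φ : H →* G')
    (hφ : ∀ c, φ ⟨A.ι c, hH (ι_mem A c)⟩ = 1 → c = 1) (hb : A.Braid) : (mapAD A H hH φ hφ).Braid := by
  change (φ _ * φ _) ^ 8 = 1
  rw [← map_mul, ← map_pow, ← map_one φ]
  exact congrArg φ (Subtype.ext hb)

end Map

section Wt
variable {R : Type*} [CommRing R]

/-- The weight of `x_i` (`i` odd), of `y_i` (`i` even) for the torus element `(a, b)`; `θ` is the Tits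
endomorphism.  The weight of `x_i` for even `i` is `wt i * θ (wt i)`. -/
def wt (θ : R → R) (a b : R) : ℕ → R
  | 1 => a | 2 => a * b | 3 => a * θ a * (b ^ 2 * θ b) | 4 => θ a * (b * θ b)
  | 5 => a * θ a * (b ^ 2 * θ b ^ 2) | 6 => a * (b * θ b) | 7 => a * (b ^ 2 * θ b) | _ => b

end Wt

section Sub
variable {K : Type*} [Field K] [CharP K 2] {T : TF K} {G : Type*} [Group G] (A : AD T G) (t : G)

/-- the subtorus centralising `U_i`; `TT A 4` is the range of `h0` -/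
def TT (i : ℕ) : Subgroup G := closure {g | ∃ p : Kˣ × Kˣ, wt T.σ (p.1 : K) p.2 i = 1 ∧ g = A.h p}

/-- centralises `C / Q`, `Q / V`, `V / Z`, `Z` and normalises `t Z` -/
def N2 : Subgroup G := Cm A.C (A.im (sQ T)) ⊓ Cm (A.im (sQ T)) (A.im (sV T)) ⊓
  Cm (A.im (sV T)) (A.im (sZ T)) ⊓ Cs (A.im (sZ T)) ⊓ Up t (A.im (sZ T))

/-- `A₄`: elementary of order `q²`, centralises `C = C_L(Z)`, `[A₄, t] = Z` -/
def A4 : Subgroup G :=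
  closure {g | g ∈ Cs A.C ⊓ Up t (A.im (sZ T)) ∧ g * g = 1 ∧ t * g ∉ A.im (sZ T)}
def A6 : Subgroup G := cjs A.n1 (A4 A t)
def A2 : Subgroup G := cjs A.n8 (A6 A t)
def A8 : Subgroup G := cjs A.n1 (A2 A t)
/-- `V*`, elementary of order `q¹⁰` -/
def Vs : Subgroup G := Cs (A.im (sR T)) ⊓ Cs (A4 A t) ⊓ Up t (A.im (sV T))
def B5 : Subgroup G := Vs A t ⊓ Cs (TT A 5)
def B3 : Subgroup G := cjs A.n8 (B5 A t)
def B7 : Subgroup G := cjs A.n1 (B3 A t)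
def B1 : Subgroup G := cjs A.n8 (B7 A t)
def B9 : Subgroup G := cjs A.n1 (B1 A t)
/-- `B₃A₄B₅A₆B₇` -/
def A7s : Subgroup G := Cs (A.im (sA7 T)) ⊓ Cs (A4 A t) ⊓ Up t (A.im (sA7 T))
/-- `A₄B₅A₆` -/
def sAs : Subgroup G := Vs A t ⊓ cjs A.n1 (Vs A t)
/-- `Q*`, of order `q²⁰` -/
def Qs : Subgroup G := Cm (Vs A t) (A4 A t) ⊓ Cs (A4 A t) ⊓ Cm (A.im (sQ T)) (Vs A t) ⊓
  Up t (A.im (sQ T) ⊔ Vs A t)
def U4s : Subgroup G := Qs A t ⊓ Cs (TT A 4)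
def U6s : Subgroup G := cjs A.n1 (U4s A t)
def U2s : Subgroup G := cjs A.n8 (U6s A t)
def U8s : Subgroup G := cjs A.n1 (U2s A t)
def U0s : Subgroup G := cjs A.n8 (U8s A t)
/-- `U*₃⋯U*₇` -/
def I37 : Subgroup G := Qs A t ⊓ cjs A.n1 (Qs A t)
/-- `U*₂⋯U*₇` -/
def I27 : Subgroup G := Qs A t ⊓ Cs (A6 A t)
/-- `U*₂⋯U*₈` -/
def Qbs : Subgroup G := I27 A t ⊔ U8s A t
/-- `U*`, of order `q²⁴` -/
def Us : Subgroup G := Qs A t ⊔ U8s A t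
/-- the doubled root subgroups -/
def Ui : ℕ → Subgroup G
  | 1 => B1 A t | 2 => U2s A t | 3 => B3 A t | 4 => U4s A t | 5 => B5 A t | 6 => U6s A t
  | 7 => B7 A t | _ => U8s A t

/-- from direction 4 to direction 6 -/
def c6 (g : G) : G := A.n1 * g * A.n1
/-- from direction 4 to direction 2 -/
def c2 (g : G) : G := A.n8 * c6 A g * A.n8
/-- from direction 4 to direction 8 -/
def c8 (g : G) : G := A.n1 * c2 A g * A.n1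
/-- from direction 4 to direction 0 -/
def c0 (g : G) : G := A.n8 * c8 A g * A.n8
/-- from direction 4 to direction 10 -/
def c10 (g : G) : G := A.n1 * c0 A g * A.n1
/-- from direction 5 to direction 3 -/
def c3 (g : G) : G := A.n8 * g * A.n8
/-- from direction 5 to direction 7 -/
def c7 (g : G) : G := A.n1 * c3 A g * A.n1
/-- from direction 5 to direction 1 -/
def c1 (g : G) : G := A.n8 * c7 A g * A.n8
/-- from direction 5 to direction 9 -/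
def c9 (g : G) : G := A.n1 * c1 A g * A.n1
/-- the longest element -/
def w0 : G := (A.n1 * A.n8) ^ 4

end Sub

end H65.SR
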