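/- STD-R (S3323, blueprints/STDR.md): standard subgroups of type ²F₄(q).  Spec, part 2: hypotheses,
facts on `L`, and the doubling of the Sylow 2-subgroup. -/
import Cfsg.Agent.H65.SRDef
import Cfsg.Prelude.Def_Local

set_option autoImplicit false
set_option linter.unusedSectionVars false
set_option linter.unusedVariables false

open Subgroup H63.Oc H64.SG
open scoped commutatorElement

universe u v

namespace H65.SR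

section Str
variable {K : Type*} [Field K] [Fintype K] [CharP K 2] {T : TF K} {G : Type*} [Group G]

/-- `L = A.G0` is the Ree group. -/
structure Bs (A : AD T G) : Prop where
  card : 8 ≤ Fintype.card K
  braid : A.Braid
  syl : ∀ P : Subgroup G, P ≤ A.G0 → IsPGroup 2 P → ∃ g ∈ A.G0, ∀ x ∈ P, g * x * g⁻¹ ∈ A.S
  iso : ∃ m : ℕ, 1 ≤ m ∧ Fintype.card K = 2 ^ (2 * m + 1) ∧
    Nonempty (A.G0 ≃* Cfsg.Lie.twistedF4 K (2 ^ m))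

/-- The hypothesis of the row, in coordinates. -/
structure Pre (A : AD T G) (t : G) : Prop extends Bs A where
  inv : Inv2 t
  cen : t ∈ Cs A.G0
  nrm : Cz t ≤ Ns A.G0
  out : ∀ g ∈ Ns A.G0, Is2 g → ∃ l ∈ A.G0, l⁻¹ * g ∈ Cs A.G0
  cyc : ∀ R : Subgroup G, R ≤ Cs A.G0 → IsPGroup 2 R → IsCyclic R
  zs : ∃ g, g * t * g⁻¹ ≠ t ∧ g * t * g⁻¹ ∈ Cz t

/-- The configuration: `C(t) ∩ C(L) = ⟨t⟩ × O`. -/
structure Cf0 (A : AD T G) (t : G) (O : Subgroup G) : Prop extends Bs A where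
  inv : Inv2 t
  cen : t ∈ Cs A.G0
  nrm : Cz t ≤ Ns A.G0
  odd : Odd (Nat.card O)
  Ot : O ≤ Cz t
  OL : O ≤ Cs A.G0
  cc : Cz t ⊓ Cs A.G0 ≤ zpowers t ⊔ O
  nO : Cz t ≤ Ns O
  two : ∀ g ∈ Cz t, Is2 g → g ∈ A.G0 ∨ t * g ∈ A.G0
  mv : ∃ g, Is2 g ∧ g ∈ Ns O ∧ g ∈ Ns (zpowers t ⊔ A.S) ∧ g ∉ Cz t

/-- The configuration with `O = 1`. -/
abbrev Cf (A : AD T G) (t : G) : Prop := Cf0 A t ⊥

/-- Facts on `U`, `H`, `C` (no braid relation needed). -/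
structure LB (A : AD T G) : Prop where
  bc : BC A.toCS
  ty : TY A.toCS
  twoU : IsPGroup 2 A.S
  cardU : Nat.card A.S = Fintype.card K ^ 12
  cardZ : Nat.card (A.im (sZ T)) = Fintype.card K
  oddH : Odd (Nat.card A.h.range)
  /-- `H ≤ N(X)` for the coordinate subgroups and for `C` -/
  hN : ∀ X ∈ [sZ T, sW T, sA T, sV0 T, sV T, sR T, sA7 T, sQ T, sQ1 T, sU27 T, sU37 T, sZ2 T, sZ8 T, ⊤],
    A.h.range ≤ Ns (A.im X)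
  hU : ∀ i, A.h.range ≤ Ns (A.im (sU T i))
  hC : A.h.range ≤ Ns A.C
  mem_TT : ∀ i g, g ∈ TT A i ↔ ∃ p : Kˣ × Kˣ, wt T.σ (p.1 : K) p.2 i = 1 ∧ g = A.h p
  tt4 : TT A 4 = A.h0.range
  ttU : ∀ i, TT A i ≤ Cs (A.im (sU T i))
  exT : ∀ i, ∃ h ∈ TT A i, h ≠ 1
  /-- the fixed points of a nontrivial element of `TT A i` on `U` -/
  cU : ∀ i, ∀ h ∈ TT A i, h ≠ 1 → A.S ⊓ Cz h = A.im (sU T i)
  cT : ∀ i, A.S ⊓ Cs (TT A i) = A.im (sU T i)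
  tt1 : ∀ i, 2 ≤ i → i ≤ 8 → cjs A.n1 (TT A i) = TT A (10 - i)
  tt8 : ∀ i, 1 ≤ i → i ≤ 7 → cjs A.n8 (TT A i) = TT A (8 - i)
  tt11 : A.n1 ∈ Cs (TT A 1)
  tt88 : A.n8 ∈ Cs (TT A 8)
  uu1 : ∀ i, 2 ≤ i → i ≤ 8 → cjs A.n1 (A.im (sU T i)) = A.im (sU T (10 - i))
  uu8 : ∀ i, 1 ≤ i → i ≤ 7 → cjs A.n8 (A.im (sU T i)) = A.im (sU T (8 - i))
  /-- `Z₂(Q) = V`, `C_C(V) = R`, `C_Q(R) = V` -/
  qq : A.im (sQ T) ⊓ Cm (A.im (sQ T)) (A.im (sZ T)) = A.im (sV T)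
  cCV : A.C ⊓ Cs (A.im (sV T)) = A.im (sR T)
  cQR : A.im (sQ T) ⊓ Cs (A.im (sR T)) = A.im (sV T)
  cCQ : A.C ⊓ Cm A.C (A.im (sQ T)) = A.im (sQ T)
  cVZ : A.C ⊓ Cm (A.im (sV T)) (A.im (sZ T)) = A.im (sQ T)
  /-- `Q / V` is uniserial -/
  irr : ∀ J : Subgroup G, A.im (sV T) ≤ J → J ≤ A.im (sQ T) → A.C ≤ Ns J →
    J ≤ A.im (sR T) ∨ J = A.im (sQ T)
  perf : ⁅A.C, A.C⁆ = A.C
  genC : A.C = A.im (sQ T) ⊔ (A.im (sU8 T) ⊔ zpowers A.n8)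
  /-- the normal closure of `V₈` in the Suzuki group -/
  n8m : ∀ N : Subgroup G, A.im (sZ8 T) ≤ N → A.im (sU8 T) ≤ Ns N → A.n8 ∈ Ns N →
    TT A 4 ≤ N ∧ A.n8 ∈ N
  idx2 : ∀ U₀ : Subgroup G, U₀ ≤ A.S → U₀.relIndex A.S ≤ 2 → A.S ⊓ Cs U₀ ≤ A.im (sZ T)
  hn : ∀ c : Kˣ, A.ι (x1 T c) * (A.n1 * A.ι (x1 T (c⁻¹ : Kˣ)) * A.n1) * A.ι (x1 T c) * A.n1 =
    A.h (c ^ 2, c⁻¹)
  genL : A.G0 = A.im (sU1 T) ⊔ cjs A.n1 (A.im (sU1 T)) ⊔ (A.im (sU8 T) ⊔ cjs A.n8 (A.im (sU8 T)))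

/-- Facts on `L`. -/
structure LA (A : AD T G) : Prop extends LB A where
  rig : Rig A.toCS
  cz : ∀ c : K, c ≠ 0 → A.G0 ⊓ Cz (A.ι (x4 T c)) = A.C
  cls : ∀ x ∈ A.G0, Inv2 x → ∃ g ∈ A.G0, g * x * g⁻¹ = A.ι (x4 T 1) ∨ g * x * g⁻¹ = A.ι (x5 T 1)
  n45 : ∀ g ∈ A.G0, g * A.ι (x4 T 1) * g⁻¹ ≠ A.ι (x5 T 1)
  cl4 : ∀ a : K, a ≠ 0 → ∃ p, A.h p * A.ι (x4 T a) * (A.h p)⁻¹ = A.ι (x4 T 1)
  cl5 : ∀ a b : K, b ≠ 0 → ∃ g ∈ A.G0, g * A.ι (x4 T a * x5 T b) * g⁻¹ = A.ι (x5 T 1)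
  /-- every involution is a commutator of `2`-elements centralising it -/
  com : ∀ x ∈ A.G0, Inv2 x → ∃ a ∈ A.G0, ∃ b ∈ A.G0, a ∈ Cz x ∧ b ∈ Cz x ∧
    IsPGroup 2 (closure ({a, b} : Set G)) ∧ x = ⁅a, b⁆
  syl5 : ∀ P : Subgroup G, IsPGroup 2 P → A.im (sT5 T) ≤ P → P ≤ A.G0 ⊓ Cz (A.ι (x5 T 1)) →
    P = A.im (sT5 T)
  o5 : ∀ g, g ∈ A.im (sT5 T) ⊓ Cs (A.im (sT5 T)) ↔ ∃ a b, g = A.ι (x4 T a * x5 T b)
  zU : A.G0 ⊓ Cs A.S = A.im (sZ T)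
  cen : A.G0 ⊓ Cs A.G0 = ⊥
  rigL : ∀ g ∈ Ns A.G0, Odd (orderOf g) → g ∈ Cs (A.im (sQ T)) → g ∈ Cs A.G0
  /-- `Out (Sz q)` has odd order -/
  semi : ∀ g ∈ Ns A.C, g ∈ Ns A.S → Is2 g → ∃ u ∈ A.S, g * u ∈ Cm A.C (A.im (sQ T))

/-- Facts on `C(t)`. -/
structure LT (A : AD T G) (t : G) : Prop where
  nT : ∀ g, g * t * g⁻¹ ∉ A.G0
  nsq : ∀ g y, y * y ≠ g * t * g⁻¹
  nz : Up t (A.im (sZ T)) ≤ Ns A.C
  nC : ∀ X ∈ [sZ T, sV T, sR T, sQ T], Ns A.C ≤ Ns (A.im X)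
  cl : ∀ g ∈ Cz t, g ∈ Cs (A.im (sW T)) → g ∈ A.im (sQ1 T) ∨ t * g ∈ A.im (sQ1 T)
  cvz : ∀ g ∈ Cz t, g ∈ Cm (A.im (sV T)) (A.im (sZ T)) → g ∈ Cs (A.im (sZ T)) →
    g ∈ A.im (sQ T) ∨ t * g ∈ A.im (sQ T)
  cR : ∀ g ∈ Cz t, g ∈ Cs (A.im (sR T)) → g ∈ A.im (sV T) ∨ t * g ∈ A.im (sV T)
  cA7 : ∀ g ∈ Cz t, g ∈ Cs (A.im (sA7 T)) → g ∈ A.im (sA7 T) ∨ t * g ∈ A.im (sA7 T)
  cQ1 : ∀ g ∈ Cz t, g ∈ Cs (A.im (sQ1 T)) → g ∈ A.im (sW T) ∨ t * g ∈ A.im (sW T)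
  cQ : ∀ g ∈ Cz t, g ∈ Cs (A.im (sQ T)) → g ∈ A.im (sZ T) ∨ t * g ∈ A.im (sZ T)
  /-- the first moving element -/
  mv2 : ∃ g ∈ N2 A t, g ∉ Cz t

/-- The first approximation to `A₄`. -/
structure SA1 (A : AD T G) (t : G) (A' : Subgroup G) : Prop where
  le : A.im (sZ T) ≤ A'
  n2 : A' ≤ N2 A t
  two : IsPGroup 2 A'
  onto : ∀ z ∈ A.im (sZ T), ∃ a ∈ A', ⁅t, a⁆ = z
  fix : A' ⊓ Cz t = A.im (sZ T)
  sq : ∀ a ∈ A', a * a ∈ A.im (sZ T)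
  nH : A.h.range ≤ Ns A'
  n8 : A.n8 ∈ Ns A'
  cD : A' ≤ Cs (TT A 4)

structure SA2 (A : AD T G) (t : G) (A' : Subgroup G) : Prop extends SA1 A t A' where
  cQ : A' ≤ Cm (A.im (sQ T)) (A.im (sZ T))
  cC : A' ≤ Cm A.C (A.im (sV T))

/-- `A₄`. -/
structure SA (A : AD T G) (t : G) : Prop where
  db : Db t ⊥ (A.im (sZ T)) (A4 A t)
  cC : A4 A t ≤ Cs A.C
  nrm : Up t (A.im (sZ T)) ≤ Ns (A4 A t)
  nt : t ∉ Cs (A4 A t)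
  c46 : A6 A t ≤ Cs (A4 A t)
  c61 : A.im (sU1 T) ≤ Cm (A6 A t) (A4 A t)

/-- `V*`. -/
structure SV (A : AD T G) (t : G) : Prop where
  db : Db t ⊥ (A.im (sV T)) (Vs A t)
  nrm : Cz t ⊓ Ns (A.im (sZ T)) ≤ Ns (Vs A t)
  le4 : A4 A t ≤ Vs A t
  le6 : A6 A t ≤ Vs A t
  cQ : A.im (sQ T) ≤ Cm (Vs A t) (A4 A t)
  c4 : Vs A t ⊓ Cs (TT A 4) = A4 A t
  c6 : Vs A t ⊓ Cs (TT A 6) = A6 A t
  b5 : Db t ⊥ (A.im (sU5 T)) (B5 A t)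
  b51 : B5 A t ≤ Cs (A.im (sU1 T))
  b57 : B5 A t ≤ Cs (A.im (sU7 T))
  gen : Vs A t = A2 A t ⊔ B3 A t ⊔ A4 A t ⊔ B5 A t ⊔ A6 A t

/-- `B₃A₄B₅A₆B₇`. -/
structure SV2 (A : AD T G) (t : G) : Prop where
  db7 : Db t ⊥ (A.im (sA7 T)) (A7s A t)
  gen7 : A7s A t = B3 A t ⊔ A4 A t ⊔ B5 A t ⊔ A6 A t ⊔ B7 A t
  n17 : A.n1 ∈ Ns (A7s A t)
  u7 : A.S ≤ Ns (A7s A t)
  h7 : A.h.range ≤ Ns (A7s A t)
  n15 : A.n1 ∈ Cs (B5 A t)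
  dbA : Db t ⊥ (A.im (sA T)) (sAs A t)
  genA : sAs A t = A4 A t ⊔ B5 A t ⊔ A6 A t
  gen0 : A7s A t ⊓ Vs A t = B3 A t ⊔ sAs A t
  b7 : B7 A t ≤ Cm (Vs A t) (A4 A t)

/-- `Q*`. -/
structure SQ (A : AD T G) (t : G) : Prop where
  db : Db t (Vs A t) (A.im (sQ T)) (Qs A t)
  fr : Fr t (A.im (sQ T)) (Qs A t)
  nrm : Cz t ⊓ Ns (A.im (sZ T)) ≤ Ns (Qs A t)
  b7 : B7 A t ≤ Qs A t

/-- `U*₄`. -/
structure SQ2 (A : AD T G) (t : G) : Prop where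
  db4 : Db t (A4 A t) (A.im (sU4 T)) (U4s A t)
  fr4 : Fr t (A.im (sU4 T)) (U4s A t)
  cV : U4s A t ≤ Cs (Vs A t)
  c8 : U4s A t ≤ Cs (A.im (sU8 T))
  n8 : A.n8 ∈ Cs (U4s A t)
  q6 : Qs A t ⊓ Cs (TT A 6) = U6s A t
  c26 : U2s A t ≤ Cs (A6 A t)

structure SU1 (A : AD T G) (t : G) : Prop where
  db37 : Db t (sAs A t) (A.im (sU37 T)) (I37 A t)
  gen37 : I37 A t = B3 A t ⊔ U4s A t ⊔ B5 A t ⊔ U6s A t ⊔ B7 A t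
  db27 : Db t (Vs A t) (A.im (sU27 T)) (I27 A t)
  gen27 : I27 A t = U2s A t ⊔ I37 A t
  genQ : Qs A t = B1 A t ⊔ I27 A t
  n237 : U2s A t ≤ Ns (I37 A t)
  c82 : U8s A t ≤ Cm (U2s A t) (I37 A t)

/-- `U*`. -/
structure SU (A : AD T G) (t : G) : Prop where
  c81 : U8s A t ≤ Cm (B1 A t) (I27 A t)
  fr : Fr t A.S (Us A t)
  nt : t ∉ Us A t
  cA : Us A t ≤ Cs (A4 A t)
  nQ : U8s A t ≤ Ns (Qs A t)
  nV : U8s A t ≤ Ns (Vs A t)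
  b1b : B1 A t ≤ Ns (Qbs A t)
  n1b : A.n1 ∈ Ns (Qbs A t)
  hU : A.h.range ≤ Ns (Us A t)
  frU : ∀ i, Fr t (A.im (sU T i)) (Ui A t i)
  cT : ∀ i, Us A t ⊓ Cs (TT A i) = Ui A t i
  hgen : ∀ J : Subgroup G, J ≤ Us A t → A.h.range ≤ Ns J → J ≤ ⨆ i, J ⊓ Ui A t i
  c46 : ∀ y ∈ U4s A t, ∀ y' ∈ U6s A t, ⁅y, y'⁆ ∈ B5 A t

structure H0 (A : AD T G) (t : G) : Prop where
  cf : Cf A t
  la : LA A
  lt : LT A t
structure H1 (A : AD T G) (t : G) : Prop extends H0 A t where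
  sa : SA A t
structure H2 (A : AD T G) (t : G) : Prop extends H1 A t where
  sv : SV A t
structure H3 (A : AD T G) (t : G) : Prop extends H2 A t where
  sv2 : SV2 A t
structure H4 (A : AD T G) (t : G) : Prop extends H3 A t where
  sq : SQ A t
structure H5 (A : AD T G) (t : G) : Prop extends H4 A t where
  sq2 : SQ2 A t
structure H6 (A : AD T G) (t : G) : Prop extends H5 A t where
  su1 : SU1 A t
structure H7 (A : AD T G) (t : G) : Prop extends H6 A t where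
  su : SU A t

/-- The doubled Sylow subgroup. -/
structure TwoP (A : AD T G) (t : G) (P B : Subgroup G) : Prop where
  fr : Fr t A.S P
  nt : t ∉ P
  le : B ≤ P
  cen : P ≤ Cs B
  db : Db t ⊥ (A.im (sZ T)) B

/-- The big subgroup. -/
structure GenP (A : AD T G) (G₀ : Subgroup G) : Prop where
  le : A.G0 ≤ G₀
  ncl : ∀ N : Subgroup G, A.G0 ≤ N → G₀ ≤ Ns N → G₀ ≤ N
  iso : Nonempty (G₀ ≃* Cfsg.Lie.chevF4.group K) ∨ ∃ L₁ L₂ : Subgroup G, G₀ = L₁ ⊔ L₂ ∧ L₁ ≤ Cs L₂ ∧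
    Nonempty (L₁ ≃* A.G0) ∧ Nonempty (L₂ ≃* A.G0)

/-- The passage to `N(O) / O`. -/
structure Cv (A : AD T G) (t : G) (O : Subgroup G) {G' : Type*} [Group G'] (φ : Ns O →* G')
    (A' : AD T G') (t' : G') : Prop where
  surj : Function.Surjective φ
  ker : φ.ker = O.subgroupOf (Ns O)
  hL : A.G0 ≤ Ns O
  ht : ∃ h : t ∈ Ns O, φ ⟨t, h⟩ = t'
  mapL : (A.G0.subgroupOf (Ns O)).map φ = A'.G0
  hι : ∀ c (h : A.ι c ∈ Ns O), φ ⟨A.ι c, h⟩ = A'.ι c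
  iso : Nonempty (A'.G0 ≃* A.G0)

end Str

/-- S1: coordinates and the `Z*`-theorem. -/
def JobS1 : Prop := ∀ (G : Type u) [Group G] [Finite G],
  IsSimpleGroup (Cfsg.generalizedFittingSubgroup G) →
  ¬ IsMulCommutative (Cfsg.generalizedFittingSubgroup G) →
  ∀ (L : Subgroup G), Cfsg.IsStandardSubgroup L →
  ∀ (K : Type v) [Field K] [Fintype K] [CharP K 2] (m : ℕ), 1 ≤ m →
  Fintype.card K = 2 ^ (2 * m + 1) → Nonempty (L ≃* Cfsg.Lie.twistedF4 K (2 ^ m)) →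
  (∀ R : Sylow 2 (centralizer (L : Set G)), IsCyclic R) →
  ∃ (T : TF K) (A : AD T G) (t : G), A.G0 = L ∧ Pre A t

/-- The common prefix of the jobs. -/
def Job (p : ∀ (K : Type v) [Field K] [Fintype K] [CharP K 2] (T : TF K) (G : Type u) [Group G]
    (A : AD T G) (t : G), Prop) : Prop :=
  Kit.{u} → ∀ (K : Type v) [Field K] [Fintype K] [CharP K 2] (T : TF K) (G : Type u) [Group G]
    [Finite G] (A : AD T G) (t : G), p K T G A t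

def JobLB : Prop := Job.{u, v} fun K _ _ _ T G _ A t => 8 ≤ Fintype.card K → LB A
/-- `semi` alone -/
def JobSemi : Prop := Job.{u, v} fun K _ _ _ T G _ A t => 8 ≤ Fintype.card K → LB A →
  ∀ g ∈ Ns A.C, g ∈ Ns A.S → Is2 g → ∃ u ∈ A.S, g * u ∈ Cm A.C (A.im (sQ T))
def JobLA : Prop := JobSemi.{u, v} → Job.{u, v} fun K _ _ _ T G _ A t => Bs A → LB A → LA A
def JobS2a : Prop := Job.{u, v} fun K _ _ _ T G _ A t => Pre A t → LA A →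
  (∀ g, g * t * g⁻¹ ∉ A.G0) ∧ ∃ g, g * t * g⁻¹ = t * A.ι (x4 T 1)
def JobS2b : Prop := Job.{u, v} fun K _ _ _ T G _ A t => Pre A t → LA A →
  (∀ g, g * t * g⁻¹ ∉ A.G0) → (∃ g, g * t * g⁻¹ = t * A.ι (x4 T 1)) → ∃ O, Cf0 A t O
def JobLT : Prop := Job.{u, v} fun K _ _ _ T G _ A t => Cf A t → LA A → LT A t
def JobA1 : Prop := Job.{u, v} fun K _ _ _ T G _ A t => H0 A t → ∃ A', SA1 A t A'
def JobA1c : Prop := Job.{u, v} fun K _ _ _ T G _ A t => H0 A t → ∀ A', SA1 A t A' → SA2 A t A'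
def JobA2 : Prop := Job.{u, v} fun K _ _ _ T G _ A t => H0 A t → ∀ A', SA2 A t A' → A' ≤ Cs A.C
def JobA3 : Prop := Job.{u, v} fun K _ _ _ T G _ A t => H0 A t → ∀ A', SA2 A t A' → A' ≤ Cs A.C →
  SA A t
def JobV1 : Prop := Job.{u, v} fun K _ _ _ T G _ A t => H1 A t → SV A t
def JobV2 : Prop := Job.{u, v} fun K _ _ _ T G _ A t => H2 A t → SV2 A t
def JobQ1 : Prop := Job.{u, v} fun K _ _ _ T G _ A t => H3 A t → SQ A t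
def JobQ2 : Prop := Job.{u, v} fun K _ _ _ T G _ A t => H4 A t → SQ2 A t
def JobU1 : Prop := Job.{u, v} fun K _ _ _ T G _ A t => H5 A t → SU1 A t
def JobU2 : Prop := Job.{u, v} fun K _ _ _ T G _ A t => H6 A t → SU A t

/-- Passage to the quotient. -/
def JobLiftA : Prop := Job.{u, v} fun K _ _ _ T G _ A t => ∀ O, Cf0 A t O → LA A →
  ∃ (G' : Type u) (_ : Group G') (_ : Finite G') (φ : Ns O →* G') (A' : AD T G') (t' : G'),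
    Cv A t O φ A' t' ∧ Cf A' t'
def JobLiftB : Prop := Job.{u, v} fun K _ _ _ T G _ A t => ∀ O, Cf0 A t O → LA A →
  ∀ (G' : Type u) [Group G'] (φ : Ns O →* G') (A' : AD T G') (t' : G'), Cv A t O φ A' t' →
    ∀ P' B', TwoP A' t' P' B' → ∃ P B, TwoP A t P B
def JobLiftC : Prop := Job.{u, v} fun K _ _ _ T G _ A t => ∀ O, Cf0 A t O → LA A →
  ∀ (G' : Type u) [Group G'] (φ : Ns O →* G') (A' : AD T G') (t' : G'), Cv A t O φ A' t' →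
    ∀ G₀', GenP A' G₀' → ∃ G₀ : Subgroup G, Nonempty (G₀ ≃* Cfsg.Lie.chevF4.group K) ∨
      Nonempty (G₀ ≃* A.G0 × A.G0)
/-- Sylow subgroup and transfer. -/
def JobEnd : Prop := Job.{u, v} fun K _ _ _ T G _ A t => ∀ O, Cf0 A t O → LA A →
  ∀ P B, TwoP A t P B → ∀ S : Subgroup G, S ≤ Cfsg.oddGenerated ⊤ → IsPGroup 2 S →
    Nat.card S ≤ Fintype.card K ^ 24

end H65.SR
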