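/- STD-R (S3323, blueprints/STDR.md): standard subgroups of type ²F₄(q).  Spec, part 3: coordinates in
the doubled root subgroups and the identification of the big subgroup. -/
import Cfsg.Agent.H65.SRSpec

set_option autoImplicit false
set_option linter.unusedSectionVars false
set_option linter.unusedVariables false

open Subgroup H63.Oc H64.SG
open scoped commutatorElement

universe u v

namespace H65.SR

section Str
variable {K : Type*} [Field K] [Fintype K] [CharP K 2] {T : TF K} {G : Type*} [Group G]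

/-- Coordinates on `A₄` and `B₅` in a quadratic algebra `R`. -/
structure Par (A : AD T G) (t : G) (R : Type*) [CommRing R] [Algebra K R] where
  a : R → G
  b : R → G
  bar : R ≃ₐ[K] R
  η : R
  bar_η : bar η = η + 1
  span : ∀ r : R, ∃ x y : K, r = algebraMap K R x + y • η
  a_add : ∀ r s, a (r + s) = a r * a s
  b_add : ∀ r s, b (r + s) = b r * b s
  a_inj : Function.Injective a
  b_inj : Function.Injective b
  a_mem : ∀ g, g ∈ A4 A t ↔ ∃ r, g = a r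
  b_mem : ∀ g, g ∈ B5 A t ↔ ∃ r, g = b r
  a_alg : ∀ c, a (algebraMap K R c) = A.ι (x4 T c)
  b_alg : ∀ c, b (algebraMap K R c) = A.ι (x5 T c)
  t_a : ∀ r, t * a r * t = a (bar r)
  t_b : ∀ r, t * b r * t = b (bar r)
  h_a : ∀ (p : Kˣ × Kˣ) r, A.h p * a r * (A.h p)⁻¹ = a (chi4 T p.1 p.2 • r)
  h_b : ∀ (p : Kˣ × Kˣ) r, A.h p * b r * (A.h p)⁻¹ = b (wt T.σ (p.1 : K) p.2 5 • r)
  R1 : ∀ r s, c1 A (b r) * c6 A (a s) * (c1 A (b r))⁻¹ = c6 A (a s) * a (r * s)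

section Gen
variable {A : AD T G} {t : G} {R : Type*} [CommRing R] [Algebra K R]

/-- the monomial element of `⟨B₁, B₉⟩ = SL₂(R)` -/
def Par.nn (P : Par A t R) (r : Rˣ) : G := c1 A (P.b r) * c9 A (P.b (r⁻¹ : Rˣ)) * c1 A (P.b r)

/-- the kernel of `⟨B₁, B₉⟩` on `A₄A₆` -/
def N1 (A : AD T G) (t : G) : Subgroup G := (B1 A t ⊔ B9 A t) ⊓ Cs (A4 A t) ⊓ Cs (A6 A t)

/-- the kernel of `⟨U*₈, U*₀⟩` on `V* / A₄` -/
def N8 (A : AD T G) (t : G) : Subgroup G := (U8s A t ⊔ U0s A t) ⊓ Cm (Vs A t) (A4 A t)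

/-- The rank one group `⟨B₁, B₉⟩`. -/
structure SLf (P : Par A t R) : Prop where
  nn1 : P.nn 1 = A.n1
  nn_b : ∀ (r : Rˣ) s, P.nn r * c1 A (P.b s) * P.nn r = c9 A (P.b ((r⁻¹ : Rˣ) ^ 2 * s))
  nn_a : ∀ (r : Rˣ) s, P.nn r * P.a s * P.nn r = c6 A (P.a ((r⁻¹ : Rˣ) * s))
  nn_sq : ∀ r, P.nn r * P.nn r = 1
  odd : Odd (Nat.card (N1 A t))
  cen : N1 A t ≤ Cs (B1 A t ⊔ B9 A t)
  c5 : B1 A t ⊔ B9 A t ≤ Cs (B5 A t)
  mul : ∀ r s, P.nn r * A.n1 * (P.nn s * A.n1) * (P.nn (r * s) * A.n1)⁻¹ ∈ N1 A t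

end Gen

/-- The Tits endomorphism of `K × K`; `sw = false` leads to `L × L`, `sw = true` to `F₄(q)`. -/
def th (T : TF K) (sw : Bool) : K × K →+* K × K :=
  if sw then (T.σ.comp (RingHom.snd K K)).prod (T.σ.comp (RingHom.fst K K)) else T.σ.prodMap T.σ

theorem th_true (r : K × K) : th T true r = (T.σ r.2, T.σ r.1) := rfl
theorem th_false (r : K × K) : th T false r = (T.σ r.1, T.σ r.2) := rfl
theorem th_th (sw : Bool) (r : K × K) : th T sw (th T sw r) = r ^ 2 := by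
  cases sw <;> ext <;> simp [th_true, th_false, T.sq]

variable {A : AD T G} {t : G}

/-- Split coordinates. -/
structure Sp2 (P : Par A t (K × K)) (sw : Bool) : Prop where
  bar : ∀ r, P.bar r = r.swap
  R2 : ∀ r s, ⁅c1 A (P.b r), c7 A (P.b s)⁆ * (c3 A (P.b (th T sw r * s)) * P.b (r * th T sw s)) ∈ A4 A t

/-- The coordinate on `U*₄ / A₄`. -/
structure RP (P : Par A t (K × K)) (π : G → K × K) : Prop where
  mul : ∀ y ∈ U4s A t, ∀ y' ∈ U4s A t, π (y * y') = π y + π y'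
  onto : ∀ s, ∃ y ∈ U4s A t, π y = s
  ker : ∀ y ∈ U4s A t, (π y = 0 ↔ y ∈ A4 A t)
  piL : ∀ c d, π (A.ι (y4 T c * x4 T d)) = (c, c)
  pit : ∀ y ∈ U4s A t, π (t * y * t) = (π y).swap
  pih : ∀ (p : Kˣ × Kˣ), ∀ y ∈ U4s A t, π (A.h p * y * (A.h p)⁻¹) = wt T.σ (p.1 : K) p.2 4 • π y
  R3 : ∀ y ∈ U4s A t, ∀ r, c6 A y * c3 A (P.b r) * (c6 A y)⁻¹ = c3 A (P.b r) * P.a (π y * r)
  c19 : ∀ x y : K, Commute (c1 A (P.b (x, 0))) (c9 A (P.b (0, y)))
  /-- `B24` -/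
  b46 : ∀ y ∈ U4s A t, ∀ y' ∈ U4s A t, ⁅y, c6 A y'⁆ = P.b (π y * π y')

/-- `k` acts on the direction `c` of type `B` with weight `w`. -/
def DB (P : Par A t (K × K)) (k : G) (c : G → G) (w : K × K) : Prop :=
  ∀ r, k * c (P.b r) * k⁻¹ = c (P.b (w * r))

/-- `k` acts on the direction `c` of type `U*` with weights `w` on `U* / A` and `w'` on `A`. -/
def DU (P : Par A t (K × K)) (π : G → K × K) (k : G) (c : G → G) (w w' : K × K) : Prop :=
  (∀ r, k * c (P.a r) * k⁻¹ = c (P.a (w' * r))) ∧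
    ∀ y ∈ U4s A t, ∃ y' ∈ U4s A t, k * c y * k⁻¹ = c y' ∧ π y' = w * π y

/-- `k` is diagonal on `U*` with characters `a` on `B₁` and `b` on `U*₈ / A₈`. -/
structure Dg (P : Par A t (K × K)) (sw : Bool) (π : G → K × K) (k : G) (a b : K × K) : Prop where
  cH : k ∈ Cs A.h.range
  d1 : DB P k (c1 A) (wt (th T sw) a b 1)
  d3 : DB P k (c3 A) (wt (th T sw) a b 3)
  d5 : DB P k id (wt (th T sw) a b 5)
  d7 : DB P k (c7 A) (wt (th T sw) a b 7)
  d2 : DU P π k (c2 A) (wt (th T sw) a b 2) (wt (th T sw) a b 2 * th T sw (wt (th T sw) a b 2))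
  d4 : DU P π k id (wt (th T sw) a b 4) (wt (th T sw) a b 4 * th T sw (wt (th T sw) a b 4))
  d6 : DU P π k (c6 A) (wt (th T sw) a b 6) (wt (th T sw) a b 6 * th T sw (wt (th T sw) a b 6))
  d8 : DU P π k (c8 A) (wt (th T sw) a b 8) (wt (th T sw) a b 8 * th T sw (wt (th T sw) a b 8))

/-- `k` is diagonal on `U*` and on the opposite group. -/
def Dg2 (P : Par A t (K × K)) (sw : Bool) (π : G → K × K) (k : G) (a b : (K × K)ˣ) : Prop :=
  Dg P sw π k a b ∧ Dg P sw π (w0 A * k * (w0 A)⁻¹) (a⁻¹ : (K × K)ˣ) (b⁻¹ : (K × K)ˣ)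

/-- the unit `θ b` -/
abbrev thU (T : TF K) (sw : Bool) (b : (K × K)ˣ) : (K × K)ˣ := Units.map (th T sw : K × K →* K × K) b
/-- the unit `swap b` -/
abbrev swU (b : (K × K)ˣ) : (K × K)ˣ := Units.map (RingEquiv.prodComm : K × K ≃+* K × K).toMonoidHom b
/-- the unit `(c, c)` -/
abbrev dU (c : Kˣ) : (K × K)ˣ := Units.map (algebraMap K (K × K)).toMonoidHom c

/-- The Weyl group. -/
structure WF (A : AD T G) (t : G) : Prop where
  sq : w0 A * w0 A = 1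
  n1 : Commute (w0 A) A.n1
  n8 : Commute (w0 A) A.n8
  ct : w0 A ∈ Cz t
  h : ∀ p, w0 A * A.h p * (w0 A)⁻¹ = A.h p⁻¹
  c9 : ∀ g ∈ B5 A t, w0 A * c1 A g * (w0 A)⁻¹ = c9 A g
  c0 : ∀ g ∈ U4s A t, w0 A * c8 A g * (w0 A)⁻¹ = c0 A g
  c10 : ∀ g ∈ U4s A t, w0 A * c2 A g * (w0 A)⁻¹ = c10 A g

/-- The diagonal elements form a group normalised by `n₁`, `n₈`, `t`. -/
structure DW (P : Par A t (K × K)) (sw : Bool) (π : G → K × K) : Prop where
  wf : WF A t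
  mul : ∀ {k k' a b a' b'}, Dg2 P sw π k a b → Dg2 P sw π k' a' b' → Dg2 P sw π (k * k') (a * a') (b * b')
  inv : ∀ {k a b}, Dg2 P sw π k a b → Dg2 P sw π k⁻¹ a⁻¹ b⁻¹
  n1 : ∀ {k a b}, Dg2 P sw π k a b → Dg2 P sw π (A.n1 * k * A.n1) a⁻¹ (a * b)
  n8 : ∀ {k a b}, Dg2 P sw π k a b → Dg2 P sw π (A.n8 * k * A.n8) (a * (b ^ 2 * thU T sw b)) b⁻¹
  w : ∀ {k a b}, Dg2 P sw π k a b → Dg2 P sw π (w0 A * k * (w0 A)⁻¹) a⁻¹ b⁻¹
  tt : ∀ {k a b}, Dg2 P sw π k a b → Dg2 P sw π (t * k * t) (swU a) (swU b)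
  h : ∀ p : Kˣ × Kˣ, Dg2 P sw π (A.h p) (dU p.1) (dU p.2)
  odd : ∀ {k a b}, Dg2 P sw π k a b → Odd (orderOf k)
  nU : ∀ {k a b}, Dg2 P sw π k a b → ∀ i, k ∈ Ns (Ui A t i)
  nUs : ∀ {k a b}, Dg2 P sw π k a b → k ∈ Ns (Us A t)
  cen : ∀ {k a b}, Dg2 P sw π k a b → ∀ i, wt (th T sw) (a : K × K) b i = 1 → k ∈ Cs (Ui A t i)

/-- Coordinates on `V* / A₄`. -/
def vv (P : Par A t (K × K)) (m : Fin 4 → K × K) : G :=
  c2 A (P.a (m 0)) * c3 A (P.b (m 1)) * P.b (m 2) * c6 A (P.a (m 3))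

/-- `g` acts on `V* / A₄` by the matrix `M`. -/
def Act (P : Par A t (K × K)) (g : G) (M : Matrix (Fin 4) (Fin 4) (K × K)) : Prop :=
  g ∈ Ns (A4 A t) ∧ ∀ m, g * vv P m * g⁻¹ * (vv P (M.mulVec m))⁻¹ ∈ A4 A t

/-- The action of `⟨U*₈, U*₀⟩` on `V* / A₄`. -/
structure SM (P : Par A t (K × K)) (sw : Bool) (π : G → K × K) : Prop where
  odd : Odd (Nat.card (N8 A t))
  cen : N8 A t ≤ Cs (U8s A t ⊔ U0s A t)
  mul : ∀ {g g' M M'}, Act P g M → Act P g' M' → Act P (g * g') (M * M')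
  inv : ∀ {g M M'}, Act P g M → M * M' = 1 → Act P g⁻¹ M'
  uniq : ∀ {g M M'}, Act P g M → Act P g M' → M = M'
  ker : ∀ {g}, Act P g 1 → g ∈ Cm (Vs A t) (A4 A t)
  my : ∀ y ∈ U4s A t, ∃ u v w, Act P (c8 A y)
    !![1, 0, 0, 0; π y, 1, 0, 0; u, th T sw (π y), 1, 0; w, v, π y, 1]
  ma : ∀ s, Act P (c8 A (P.a s)) !![1, 0, 0, 0; 0, 1, 0, 0; s, 0, 1, 0; th T sw s, s, 0, 1]
  mn : Act P A.n8 !![0, 0, 0, 1; 0, 0, 1, 0; 0, 1, 0, 0; 1, 0, 0, 0]
  md : ∀ {k a b}, Dg P sw π k a b → Act P k (Matrix.diagonal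
    ![wt (th T sw) a b 2 * th T sw (wt (th T sw) a b 2), wt (th T sw) a b 3, wt (th T sw) a b 5,
      wt (th T sw) a b 6 * th T sw (wt (th T sw) a b 6)])

/-- Everything on the coordinates. -/
structure H8 (P : Par A t (K × K)) (sw : Bool) (π : G → K × K) : Prop extends H7 A t where
  sl : SLf P
  sp : Sp2 P sw
  rp : RP P π
structure H9 (P : Par A t (K × K)) (sw : Bool) (π : G → K × K) : Prop extends H8 P sw π where
  dw : DW P sw π
structure H10 (P : Par A t (K × K)) (sw : Bool) (π : G → K × K) : Prop extends H9 P sw π where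
  tor : ∀ a b, ∃ k, Dg2 P sw π k a b
structure H11 (P : Par A t (K × K)) (sw : Bool) (π : G → K × K) : Prop extends H10 P sw π where
  sm : SM P sw π

/-- The diagonal elements that are trivial in the first component. -/
def T2 (P : Par A t (K × K)) (sw : Bool) (π : G → K × K) : Subgroup G :=
  closure {k | ∃ a b : (K × K)ˣ, Dg2 P sw π k a b ∧ (a : K × K).1 = 1 ∧ (b : K × K).1 = 1}

/-- the first component of `U*_i` (case `sw = false`) -/
def X1 (P : Par A t (K × K)) (π : G → K × K) (i : ℕ) : Subgroup G := Ui A t i ⊓ Cs (T2 P false π)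

/-- The splitting of `U*` in the case `sw = false`. -/
structure SW (P : Par A t (K × K)) (π : G → K × K) : Prop where
  comm : Us A t ⊓ Cs (T2 P false π) ≤ Cs (cjs t (Us A t ⊓ Cs (T2 P false π)))
  split : ∀ i, ∀ y ∈ Ui A t i, ∃ x ∈ X1 P π i, ∃ x' ∈ X1 P π i, y = x * (t * x' * t)
  disj : Us A t ⊓ Cs (T2 P false π) ⊓ cjs t (Cs (T2 P false π)) = ⊥
  n1 : A.n1 ∈ Ns (T2 P false π)
  n8 : A.n8 ∈ Ns (T2 P false π)

/-- Relations of type `A₂` in characteristic `2`, roots in cyclic order. -/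
structure A2R (z : Fin 6 → K → G) : Prop where
  add : ∀ i a b, z i (a + b) = z i a * z i b
  c1 : ∀ i a b, Commute (z i a) (z (i + 1) b)
  c2 : ∀ i a b, ⁅z i a, z (i + 2) b⁆ = z (i + 1) (a * b)

/-- Relations of type `B₂` in characteristic `2`, roots in cyclic order; even index: long root, with
parameter twisted by `σ`. -/
structure B2R (T : TF K) (z : Fin 8 → K → G) : Prop where
  add : ∀ i a b, z i (a + b) = z i a * z i b
  c1 : ∀ i a b, Commute (z i a) (z (i + 1) b)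
  c2 : ∀ i a b, Commute (z i a) (z (i + 2) b)
  c3 : ∀ i a b, ⁅z i a, z (i + 3) b⁆ = z (i + 1) (b * T.σ a) * z (i + 2) (a * T.σ b)

/-- the root elements of `⟨U*₈, U*₀⟩ = Sp₄(q)` -/
def zB (P : Par A t (K × K)) (ys : K → G) : Fin 8 → K → G :=
  ![fun x => c8 A (t * ys x * t), fun x => c8 A (P.a (x, 0)), fun x => c8 A (P.a (0, x)),
    fun x => c8 A (ys x), fun x => c0 A (t * ys x * t), fun x => c0 A (P.a (x, 0)),
    fun x => c0 A (P.a (0, x)), fun x => c0 A (ys x)]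

/-- the root elements of the short `A₂` -/
def zC (P : Par A t (K × K)) (ys : K → G) : Fin 6 → K → G :=
  ![fun x => c8 A (ys x), fun x => c2 A (ys x), fun x => c1 A (P.b (x, 0)),
    fun x => c0 A (ys x), fun x => c10 A (ys x), fun x => c9 A (P.b (x, 0))]

/-- The short root elements in `U*₄` (case `sw = true`). -/
structure SY (P : Par A t (K × K)) (π : G → K × K) (ys : K → G) : Prop where
  mem : ∀ x, ys x ∈ U4s A t
  pi : ∀ x, π (ys x) = (x, 0)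
  add : ∀ x y, ys (x + y) = ys x * ys y
  tor : ∀ {k a b}, Dg2 P true π k a b → ∀ x, k * c8 A (ys x) * k⁻¹ = c8 A (ys ((b : K × K).1 * x))
  chr : ∀ y ∈ U4s A t, c8 A y ∈ Cs (T2 P true π) → ∃ x, y = ys x
  b2 : B2R T (zB P ys)

end Str

def JobRa : Prop := Job.{u, v} fun K _ _ _ T G _ A t => H7 A t →
  ∃ (R : Type v) (_ : CommRing R) (_ : Algebra K R), Nonempty (Par A t R)
def JobRb : Prop := Job.{u, v} fun K _ _ _ T G _ A t => H7 A t →
  ∀ (R : Type v) [CommRing R] [Algebra K R] (P : Par A t R), SLf P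
def JobRc : Prop := Job.{u, v} fun K _ _ _ T G _ A t => H7 A t →
  ∀ (R : Type v) [CommRing R] [Algebra K R] (P : Par A t R), SLf P →
    ∃ (P' : Par A t (K × K)) (sw : Bool), Sp2 P' sw
def JobRP : Prop := Job.{u, v} fun K _ _ _ T G _ A t => H7 A t →
  ∀ (P : Par A t (K × K)) (sw : Bool), SLf P → Sp2 P sw → ∃ π, RP P π
def JobDW : Prop := Job.{u, v} fun K _ _ _ T G _ A t =>
  ∀ (P : Par A t (K × K)) (sw : Bool) (π : G → K × K), H8 P sw π → DW P sw π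
def JobRT : Prop := Job.{u, v} fun K _ _ _ T G _ A t =>
  ∀ (P : Par A t (K × K)) (sw : Bool) (π : G → K × K), H9 P sw π → ∀ a b, ∃ k, Dg2 P sw π k a b
def JobSM : Prop := Job.{u, v} fun K _ _ _ T G _ A t =>
  ∀ (P : Par A t (K × K)) (sw : Bool) (π : G → K × K), H10 P sw π → SM P sw π
def JobW1 : Prop := Job.{u, v} fun K _ _ _ T G _ A t =>
  ∀ (P : Par A t (K × K)) (π : G → K × K), H10 P false π → SW P π
def JobW2 : Prop := Job.{u, v} fun K _ _ _ T G _ A t =>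
  ∀ (P : Par A t (K × K)) (π : G → K × K), H11 P false π → SW P π → ∃ G₀, GenP A G₀
def JobF2 : Prop := Job.{u, v} fun K _ _ _ T G _ A t =>
  ∀ (P : Par A t (K × K)) (π : G → K × K), H11 P true π → ∃ ys, SY P π ys
def JobF3 : Prop := Job.{u, v} fun K _ _ _ T G _ A t =>
  ∀ (P : Par A t (K × K)) (π : G → K × K) (ys : K → G), H10 P true π → SY P π ys →
    A2R (zC P ys) ∧ ∀ x y, Commute (c1 A (P.b (0, x))) (c8 A (ys y))

/-- Curtis–Tits for `F₄` in characteristic `2`: `zA 2, zA 0 = z 0` long, `z 3 = zC 0, zC 2` short. -/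
def JobCT : Prop := ∀ (K : Type v) [Field K] [Fintype K] [CharP K 2] (T : TF K) (G : Type u) [Group G]
  (zA zC : Fin 6 → K → G) (z : Fin 8 → K → G), 8 ≤ Fintype.card K → A2R zA → A2R zC → B2R T z →
  zA 0 = z 0 → zA 3 = z 4 → zC 0 = z 3 → zC 3 = z 7 →
  (∀ i ∈ ({2, 5} : Set (Fin 6)), ∀ j ∈ ({0, 2, 3, 5} : Set (Fin 6)), ∀ x y,
    Commute (zA i x) (zC j y) ∧ Commute (zC i x) (zA j y)) → z 0 1 ≠ 1 →
  Nonempty (closure {g | (∃ i x, g = zA i x) ∨ (∃ i x, g = zC i x) ∨ ∃ i x, g = z i x} ≃*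
    Cfsg.Lie.chevF4.group K)

/-- the glue in the case `sw = true` -/
def JobF5 : Prop := JobCT.{u, v} → Job.{u, v} fun K _ _ _ T G _ A t =>
  ∀ (P : Par A t (K × K)) (π : G → K × K) (ys : K → G), H10 P true π → SY P π ys →
    A2R (zC P ys) → (∀ x y, Commute (c1 A (P.b (0, x))) (c8 A (ys y))) → ∃ G₀, GenP A G₀

end H65.SR
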