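/- STD-R (S3323): the proof of the kit, with small general lemmas. -/
import Cfsg.Agent.H65.SRDef
import Cfsg.Agent.H1.Coprime
import Cfsg.Agent.H1.Coprime2

set_option autoImplicit false
set_option linter.unusedSectionVars false
set_option linter.unusedVariables false

open Subgroup H63.Oc H64.SG
open scoped commutatorElement Pointwise

universe u

namespace H65.SR

section Basic
variable {G : Type*} [Group G] {t g y : G} {X Y Y₀ X₀ N : Subgroup G}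

theorem cj_mem (hg : g ∈ Ns Y) (hy : y ∈ Y) : g * y * g⁻¹ ∈ Y := (mem_normalizer_iff.1 hg y).1 hy
theorem cj_mem' (hg : g ∈ Ns Y) (hy : y ∈ Y) : g⁻¹ * y * g ∈ Y := by
  simpa using cj_mem (inv_mem hg) hy
theorem mem_Cz : g ∈ Cz t ↔ g * t = t * g := mem_centralizer_singleton_iff
theorem mem_Cs : g ∈ Cs Y ↔ ∀ y ∈ Y, y * g = g * y := mem_centralizer_iff
theorem mem_cjs : y ∈ cjs g Y ↔ g⁻¹ * y * g ∈ Y := by
  constructor
  · rintro ⟨x, hx, rfl⟩; simpa [mul_assoc] using hx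
  · intro h; exact ⟨_, h, by simp [mul_assoc]⟩
theorem cj_mem_cjs (hy : y ∈ Y) : g * y * g⁻¹ ∈ cjs g Y := ⟨y, hy, rfl⟩
theorem comm_eq_one_iff : ⁅t, g⁆ = 1 ↔ g ∈ Cz t := by
  rw [commutatorElement_eq_one_iff_mul_comm, mem_Cz, eq_comm]
theorem comm_mem_left (hg : g ∈ Ns Y) (hy : y ∈ Y) : ⁅g, y⁆ ∈ Y := mul_mem (cj_mem hg hy) (inv_mem hy)
theorem comm_mem_right (hg : g ∈ Ns Y) (hy : y ∈ Y) : ⁅y, g⁆ ∈ Y := by
  rw [← commutatorElement_inv]; exact inv_mem (comm_mem_left hg hy)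
theorem mem_sup_ns (h : X ≤ Ns N) : g ∈ X ⊔ N ↔ ∃ x ∈ X, ∃ n ∈ N, x * n = g := by
  rw [← SetLike.mem_coe, coe_mul_of_left_le_normalizer_right _ _ h, Set.mem_mul]; rfl
theorem mem_sup_ns' (h : X ≤ Ns N) : g ∈ N ⊔ X ↔ ∃ n ∈ N, ∃ x ∈ X, n * x = g := by
  rw [← SetLike.mem_coe, coe_mul_of_right_le_normalizer_left _ _ h, Set.mem_mul]; rfl
theorem mem_ns_of [Finite G] (h : ∀ y ∈ Y, g * y * g⁻¹ ∈ Y) : g ∈ Ns Y :=
  mem_normalizer_fintype (S := (Y : Set G)) h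
theorem cs_le_ns : Cs Y ≤ Ns Y := centralizer_le_normalizer _
theorem ns_inf (h1 : g ∈ Ns X) (h2 : g ∈ Ns Y) : g ∈ Ns (X ⊓ Y) :=
  mem_normalizer_iff.2 fun y => and_congr (mem_normalizer_iff.1 h1 y) (mem_normalizer_iff.1 h2 y)
theorem cjs_eq (h : g ∈ Ns Y) : cjs g Y = Y := by
  ext y; rw [mem_cjs]; simpa using (mem_normalizer_iff.1 (inv_mem h) y).symm
theorem ns_of_cjs_eq (h : cjs g Y = Y) : g ∈ Ns Y := mem_normalizer_iff.2 fun y => by
  conv_rhs => rw [← h, mem_cjs]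
  simp [mul_assoc]
theorem ns_sup (h1 : g ∈ Ns X) (h2 : g ∈ Ns Y) : g ∈ Ns (X ⊔ Y) :=
  ns_of_cjs_eq (by rw [cjs, Subgroup.map_sup]; exact congrArg₂ _ (cjs_eq h1) (cjs_eq h2))
theorem ns_cs (h : g ∈ Ns Y) : g ∈ Ns (Cs Y) := by
  have key : ∀ g ∈ Ns Y, ∀ c ∈ Cs Y, g * c * g⁻¹ ∈ Cs Y := fun g hg c hc => mem_Cs.2 fun y hy => by
    have := mem_Cs.1 hc _ (cj_mem' hg hy)
    calc y * (g * c * g⁻¹) = g * (g⁻¹ * y * g * c) * g⁻¹ := by group
      _ = _ := by rw [this]; group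
  exact mem_normalizer_iff.2 fun c => ⟨key g h c, fun hc => by simpa [mul_assoc] using key _ (inv_mem h) _ hc⟩
theorem ns_cz (h : g ∈ Cz t) : g ∈ Ns (Cz t) := le_normalizer h
theorem ns_cz' {h : G} (hg : g * h = h * g) : g ∈ Ns (Cz h) := le_normalizer (mem_Cz.2 hg)
theorem mem_ns_cjs {x : G} (h : x ∈ Ns Y) : g * x * g⁻¹ ∈ Ns (cjs g Y) :=
  mem_normalizer_iff.2 fun y => by
    rw [mem_cjs, mem_cjs, mem_normalizer_iff.1 h]
    exact iff_of_eq (congrArg (· ∈ Y) (by group))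
theorem cjs_inf : cjs g (X ⊓ Y) = cjs g X ⊓ cjs g Y := by ext; simp only [mem_inf, mem_cjs]
theorem cjs_cz (h : g ∈ Cz t) : cjs g (Cz t) = Cz t := cjs_eq (ns_cz h)
theorem cjs_cs : cjs g (Cs Y) = Cs (cjs g Y) := by
  ext c
  rw [mem_cjs, mem_Cs, mem_Cs]
  constructor
  · rintro h _ ⟨y, hy, rfl⟩
    have := h y hy
    change g * y * g⁻¹ * c = c * (g * y * g⁻¹)
    calc g * y * g⁻¹ * c = g * (y * (g⁻¹ * c * g)) * g⁻¹ := by group
      _ = _ := by rw [this]; group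
  · intro h y hy
    have := h _ (cj_mem_cjs hy)
    calc y * (g⁻¹ * c * g) = g⁻¹ * (g * y * g⁻¹ * c) * g := by group
      _ = _ := by rw [this]; group
theorem card_cjs : Nat.card (cjs g Y) = Nat.card Y :=
  card_map_of_injective (MulAut.conj g).injective
theorem cs_symm (h : X ≤ Cs Y) : Y ≤ Cs X := le_centralizer_iff.1 h
theorem cs_sup (h1 : g ∈ Cs X) (h2 : g ∈ Cs Y) : g ∈ Cs (X ⊔ Y) := by
  have : X ⊔ Y ≤ Cz g := sup_le (fun x hx => mem_Cz.2 (mem_Cs.1 h1 x hx))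
    fun x hx => mem_Cz.2 (mem_Cs.1 h2 x hx)
  exact mem_Cs.2 fun y hy => mem_Cz.1 (this hy)
theorem cm_bot : Cm Y ⊥ = Cs Y := by
  ext g
  rw [mem_Cm, mem_Cs]
  simp only [mem_bot, commutatorElement_eq_one_iff_mul_comm]
  exact ⟨fun h y hy => (h.2 y hy).symm, fun h => ⟨le_normalizer_of_normal (mem_top g), fun y hy => (h y hy).symm⟩⟩
theorem Inv2.inv_eq (ht : Inv2 t) : t⁻¹ = t := inv_eq_of_mul_eq_one_right ht.1
theorem two_sup (hX : IsPGroup 2 X) (hY : IsPGroup 2 Y) (h : X ≤ Ns Y) : IsPGroup 2 (X ⊔ Y : Subgroup G) :=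
  IsPGroup.to_sup_of_normal_right' hX hY h
theorem two_zp (ht : t * t = 1) : IsPGroup 2 (zpowers t) := fun ⟨_, k, hk⟩ => ⟨1, Subtype.ext (by
  have : t ^ 2 = 1 := by rw [sq, ht]
  simp only [← hk, pow_one, SubgroupClass.coe_pow, OneMemClass.coe_one]
  rw [← zpow_natCast, ← zpow_mul, mul_comm, zpow_mul, zpow_natCast, this, one_zpow])⟩
theorem is2_of_mem (hY : IsPGroup 2 Y) (hy : y ∈ Y) : Is2 y := by
  obtain ⟨k, hk⟩ := hY ⟨y, hy⟩
  exact ⟨k, congrArg Subtype.val hk⟩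
theorem two_of_is2 (h : ∀ y ∈ Y, Is2 y) : IsPGroup 2 Y := fun y => by
  obtain ⟨k, hk⟩ := h y y.2
  exact ⟨k, Subtype.ext hk⟩
theorem eq_one_of_odd (h2 : Is2 y) (ho : Odd (orderOf y)) : y = 1 := by
  obtain ⟨k, hk⟩ := h2
  have h1 := orderOf_dvd_of_pow_eq_one hk
  rw [← orderOf_eq_one_iff]
  exact Nat.eq_one_of_self_dvd_coprime h1 ho
where Nat.eq_one_of_self_dvd_coprime {n k : ℕ} (h : n ∣ 2 ^ k) (ho : Odd n) : n = 1 :=
  Nat.Coprime.eq_one_of_dvd (Nat.Coprime.pow_right k (Nat.coprime_two_right.2 ho)) h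

/-- the normaliser condition: a proper subgroup of a finite `2`-group has an element outside it that
centralises `t` modulo it -/
theorem exists_fix [Finite G] (ht : t * t = 1) (hY : IsPGroup 2 Y) (htY : t ∈ Ns Y) (h0 : Y₀ < Y)
    (ht0 : t ∈ Ns Y₀) : ∃ y ∈ Y, y ∉ Y₀ ∧ y ∈ Ns Y₀ ∧ ⁅t, y⁆ ∈ Y₀ := by
  haveI : Fact (Nat.Prime 2) := ⟨Nat.prime_two⟩
  haveI := hY.isNilpotent
  have h1 := Group.normalizerCondition_of_isNilpotent (G := Y) (Y₀.subgroupOf Y)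
    (lt_top_iff_ne_top.2 fun e => h0.not_ge (subgroupOf_eq_top.1 e))
  obtain ⟨⟨w, hwY⟩, hw, hw0⟩ := SetLike.exists_of_lt h1
  have hwN : w ∈ Ns Y₀ := mem_ns_of fun y hy =>
    (mem_normalizer_iff.1 hw ⟨y, h0.le hy⟩).1 hy
  -- iterate `y ↦ ⁅t, y⁆` inside `M = Y ⊓ N(Y₀)`
  set M := Y ⊓ Ns Y₀ with hM
  have htM : t ∈ Ns M := ns_inf htY (le_normalizer ht0)
  by_contra hc
  push Not at hc
  by_cases h2 : ⁅t, w⁆ ∈ Y₀
  · exact hc w hwY hw0 hwN h2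
  -- an element of `M ∖ Y₀` with square in `Y₀` that is inverted by `t`
  have hv : ⁅t, w⁆ ∈ M := comm_mem_left htM ⟨hwY, hwN⟩
  have hinv : ∀ n : ℕ, t * ⁅t, w⁆ ^ n * t⁻¹ = (⁅t, w⁆ ^ n)⁻¹ := fun n => by
    rw [← conj_pow, ← inv_pow]
    congr 1
    have : t⁻¹ = t := inv_eq_of_mul_eq_one_right ht
    simp only [commutatorElement_def, mul_inv_rev, inv_inv, this, ← mul_assoc, ht, one_mul]
  have key : ∀ k : ℕ, ⁅t, w⁆ ^ 2 ^ k ∉ Y₀ := fun k => by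
    induction k with
    | zero => simpa using h2
    | succ k ih =>
      intro h3
      refine hc _ (pow_mem hv _).1 ih (pow_mem hv _).2 ?_
      rw [commutatorElement_def t (⁅t, w⁆ ^ 2 ^ k), hinv, ← mul_inv_rev, ← pow_add, ← two_mul, ← pow_succ']
      exact inv_mem h3
  obtain ⟨k, hk⟩ := is2_of_mem hY hv.1
  exact key k (hk ▸ one_mem _)

end Basic

section Main
variable {G : Type*} [Group G] {t g : G} {X Y Y₀ X₀ : Subgroup G}

theorem Db.comm (h : Db t Y₀ X Y) {y y' : G} (hy : y ∈ Y) (hy' : y' ∈ Y) : ⁅y, y'⁆ ∈ Y₀ := by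
  have := mul_mem (mul_mem (h.sq _ (mul_mem hy hy')) (cj_mem' (h.nor hy') (h.sq _ (inv_mem hy))))
    (h.sq _ (inv_mem hy'))
  convert this using 1
  simp only [commutatorElement_def]; group

theorem Db.phi_mem (ht : Inv2 t) (h : Db t Y₀ X Y) {y : G} (hy : y ∈ Y) : ⁅t, y⁆ ∈ X ⊔ Y₀ := by
  refine h.fix _ (comm_mem_left h.tY hy) ?_
  have := h.sq _ (inv_mem (comm_mem_left h.tY hy))
  convert this using 1
  simp only [commutatorElement_def, mul_inv_rev, inv_inv, Inv2.inv_eq ht, ← mul_assoc, ht.1, one_mul]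

theorem Db.phi_mul (h : Db t Y₀ X Y) {y y' : G} (hy : y ∈ Y) (hy' : y' ∈ Y) :
    ⁅t, y * y'⁆ * (⁅t, y⁆ * ⁅t, y'⁆)⁻¹ ∈ Y₀ := by
  have := cj_mem (h.nor (comm_mem_left h.tY hy)) (h.comm hy (comm_mem_left h.tY hy'))
  convert this using 1
  simp only [commutatorElement_def]; group

theorem Db.nX (h : Db t Y₀ X Y) : X ≤ Ns Y₀ := h.leX.trans h.nor

theorem Db.phi_sup (h : Db t Y₀ X Y) {y : G} (hy : y ∈ X ⊔ Y₀) : ⁅t, y⁆ ∈ Y₀ := by
  obtain ⟨x, hx, n, hn, rfl⟩ := (mem_sup_ns h.nX).1 hy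
  have e := mem_Cz.1 (h.cX hx)
  have := cj_mem (h.nX hx) (comm_mem_left h.tY0 hn)
  convert this using 1
  simp only [commutatorElement_def, ← mul_assoc, mul_inv_rev, ← e]

theorem Db.card [Finite G] (ht : Inv2 t) (h : Db t Y₀ X Y) :
    Nat.card Y * Nat.card Y₀ = Nat.card (X ⊔ Y₀ : Subgroup G) ^ 2 := by
  haveI : (Y₀.subgroupOf Y).Normal := (normal_subgroupOf_iff_le_normalizer h.le0).2 h.nor
  let π := QuotientGroup.mk' (Y₀.subgroupOf Y)
  let f : Y →* Y ⧸ Y₀.subgroupOf Y := MonoidHom.mk' (fun y => π ⟨⁅t, (y : G)⁆, comm_mem_left h.tY y.2⟩)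
    fun a b => by
      rw [← map_mul, eq_comm, ← inv_inj, QuotientGroup.mk'_apply, QuotientGroup.mk'_apply,
        ← QuotientGroup.mk_inv, ← QuotientGroup.mk_inv, QuotientGroup.eq, inv_inv]
      have := inv_mem (h.phi_mul a.2 b.2)
      simpa [mem_subgroupOf, mul_assoc] using this
  have hle : X ⊔ Y₀ ≤ Y := sup_le h.leX h.le0
  have hk : f.ker = (X ⊔ Y₀).subgroupOf Y := by
    ext y
    rw [MonoidHom.mem_ker, mem_subgroupOf]
    change π _ = 1 ↔ _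
    rw [QuotientGroup.mk'_apply, QuotientGroup.eq_one_iff, mem_subgroupOf]
    exact ⟨h.fix _ y.2, h.phi_sup⟩
  have hr : f.range = ((X ⊔ Y₀).subgroupOf Y).map π := by
    apply le_antisymm
    · rintro _ ⟨y, rfl⟩
      exact ⟨_, h.phi_mem ht y.2, rfl⟩
    · rintro _ ⟨w, hw, rfl⟩
      obtain ⟨x, hx, n, hn, e⟩ := (mem_sup_ns h.nX).1 hw
      obtain ⟨y, hy, h1⟩ := h.onto x hx
      refine ⟨⟨y, hy⟩, ?_⟩
      change π _ = π _
      rw [← inv_inj, QuotientGroup.mk'_apply, QuotientGroup.mk'_apply,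
        ← QuotientGroup.mk_inv, ← QuotientGroup.mk_inv, QuotientGroup.eq, inv_inv, mem_subgroupOf]
      have := mul_mem h1 (cj_mem (h.nX hx) (inv_mem hn))
      have e' : (w : G) = x * n := e.symm
      simpa [e', mul_assoc] using this
  have e1 : Nat.card Y = Nat.card f.range * Nat.card f.ker := by
    rw [← f.ker.card_mul_index, index_ker, mul_comm]
  have e2 : Nat.card f.ker = Nat.card (X ⊔ Y₀ : Subgroup G) := by
    rw [hk]; exact Nat.card_congr (subgroupOfEquivOfLe hle).toEquiv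
  have e3 : Nat.card f.range * Nat.card Y₀ = Nat.card (X ⊔ Y₀ : Subgroup G) := by
    let π' := π.comp ((X ⊔ Y₀).subgroupOf Y).subtype
    have a1 : π'.range = f.range := by rw [hr, MonoidHom.range_comp, range_subtype]
    have a2 : Nat.card π'.ker = Nat.card Y₀ := by
      have : π'.ker = (Y₀.subgroupOf Y).subgroupOf ((X ⊔ Y₀).subgroupOf Y) := by
        rw [← MonoidHom.comap_ker, QuotientGroup.ker_mk']; rfl
      rw [this, Nat.card_congr (subgroupOfEquivOfLe (subgroupOf_mono Y le_sup_right)).toEquiv]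
      exact Nat.card_congr (subgroupOfEquivOfLe h.le0).toEquiv
    rw [← a1, ← a2, ← index_ker, mul_comm, card_mul_index]
    exact Nat.card_congr (subgroupOfEquivOfLe hle).toEquiv
  calc _ = Nat.card f.range * Nat.card Y₀ * Nat.card f.ker := by rw [e1]; ring
    _ = _ := by rw [e2, e3, pow_two]

theorem Fr.lift (ht : Inv2 t) (h : Fr t X Y) (hg : ⁅t, g⁆ ∈ Y) : ∃ u ∈ Y, u⁻¹ * g ∈ Cz t := by
  have e : t * ⁅t, g⁆ = g * t * g⁻¹ := by
    simp only [commutatorElement_def, Inv2.inv_eq ht, ← mul_assoc, ht.1, one_mul]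
  obtain ⟨u, hu, h1⟩ := h.h1 _ hg (by rw [e, conj_mul, ht.1]; simp)
  refine ⟨u, hu, mem_Cz.2 ?_⟩
  rw [e] at h1
  calc u⁻¹ * g * t = u⁻¹ * (g * t * g⁻¹) * g := by group
    _ = _ := by rw [← h1]; group

theorem Fr.le (h : Fr t X Y) : X ≤ Y := h.fix ▸ inf_le_left
theorem Fr.cX (h : Fr t X Y) : X ≤ Cz t := h.fix ▸ inf_le_right
theorem Fr.mem (h : Fr t X Y) {y : G} (hy : y ∈ Y) (hc : y ∈ Cz t) : y ∈ X := h.fix ▸ mem_inf.2 ⟨hy, hc⟩

theorem fr_bot : Fr t (⊥ : Subgroup G) ⊥ :=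
  ⟨IsPGroup.of_bot, le_normalizer_of_normal (mem_top t), bot_inf_eq _,
    fun y hy _ => ⟨1, one_mem _, by rw [mem_bot.1 hy]; simp⟩, by simp⟩

theorem Db.ext [Finite G] (ht : Inv2 t) (h0 : Fr t X₀ Y₀) (h : Db t Y₀ X Y) (hX : X₀ ≤ X) : Fr t X Y where
  two := two_of_is2 fun y hy => by
    obtain ⟨k, hk⟩ := is2_of_mem h0.two (h.sq y hy)
    exact ⟨k + 1, by rw [pow_succ', pow_mul, pow_two, hk]⟩
  tY := h.tY
  fix := by
    refine le_antisymm (fun y hy => ?_) (le_inf h.leX h.cX)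
    obtain ⟨x, hx, n, hn, rfl⟩ := (mem_sup_ns h.nX).1
      (h.fix y hy.1 (by rw [comm_eq_one_iff.2 hy.2]; exact one_mem _))
    exact mul_mem hx (hX (h0.mem hn ((mul_mem_cancel_left (h.cX hx)).1 hy.2)))
  h1 := fun y hy e => by
    have e1 : ⁅t, y⁆ = (y * y)⁻¹ := by
      rw [commutatorElement_def, Inv2.inv_eq ht]
      have : t * y * t = y⁻¹ := eq_inv_of_mul_eq_one_left (by rw [← e]; group)
      rw [this, mul_inv_rev]
    obtain ⟨x, hx, n, hn, rfl⟩ := (mem_sup_ns h.nX).1 (h.fix y hy (e1 ▸ inv_mem (h.sq y hy)))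
    obtain ⟨u, hu, h1⟩ := h.onto x hx
    have e2 : t * ⁅t, u⁆ = u * t * u⁻¹ := by
      simp only [commutatorElement_def, Inv2.inv_eq ht, ← mul_assoc, ht.1, one_mul]
    have hm : ⁅t, u⁆⁻¹ * (x * n) ∈ Y₀ := by
      have := mul_mem (cj_mem' (h.nX hx) (inv_mem h1)) hn
      convert this using 1; group
    have hm' := comm_mem_left h0.tY (one_mem Y₀)
    have h2 : t * (u⁻¹ * (⁅t, u⁆⁻¹ * (x * n)) * u) = u⁻¹ * (t * (x * n)) * u := by
      have : t = u * t * u⁻¹ * ⁅t, u⁆⁻¹ := by rw [← e2]; group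
      conv_rhs => rw [this]
      group
    obtain ⟨v, hv, h3⟩ := h0.h1 _ (cj_mem' (h.nor hu) hm) (by
      rw [h2]
      calc _ = u⁻¹ * (t * (x * n) * (t * (x * n))) * u := by group
        _ = 1 := by rw [e]; simp)
    refine ⟨u * v, mul_mem hu (h.le0 hv), ?_⟩
    rw [h2] at h3
    calc _ = u * (v * t * v⁻¹) * u⁻¹ := by group
      _ = _ := by rw [h3]; group
  card := by
    have e1 := h.card ht
    have e2 := H4.card_sup_mul_card_inf_of_le_normalizer h.nX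
    have e3 : X ⊓ Y₀ = X₀ := le_antisymm (fun x hx => h0.mem hx.2 (h.cX hx.1)) (le_inf hX h0.le)
    rw [e3, h0.card] at e2
    rw [h0.card] at e1
    have hp : 0 < Nat.card X₀ := Nat.card_pos
    have e4 : Nat.card (X ⊔ Y₀ : Subgroup G) = Nat.card X * Nat.card X₀ :=
      Nat.eq_of_mul_eq_mul_right hp (by rw [e2]; ring)
    rw [e4] at e1
    exact Nat.eq_of_mul_eq_mul_right (pow_pos hp 2) (by rw [e1]; ring)

theorem Fr.self [Finite G] (ht : Inv2 t) (h0 : Fr t X₀ Y₀) (hle : Y₀ ≤ Y) (h2 : IsPGroup 2 Y)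
    (htY : t ∈ Ns Y) (hf : Y ⊓ Cz t ≤ Y₀) : Y = Y₀ := by
  by_contra hne
  obtain ⟨y, hy, hy0, -, h1⟩ := exists_fix ht.1 h2 htY (lt_of_le_of_ne hle (Ne.symm hne)) h0.tY
  obtain ⟨u, hu, h3⟩ := h0.lift ht h1
  exact hy0 ((mul_mem_cancel_left (inv_mem hu)).1 (hf (mem_inf.2 ⟨mul_mem (inv_mem (hle hu)) hy, h3⟩)))

theorem surj_of_fpf [Finite G] {P : Subgroup G} {h : G} (hn : h ∈ Ns P) (hf : P ⊓ Cz h = ⊥) :
    ∀ p ∈ P, ∃ p' ∈ P, p = ⁅p', h⁆ := by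
  let f : P → P := fun p => ⟨⁅(p : G), h⁆, comm_mem_right hn p.2⟩
  have hi : Function.Injective f := fun a b e => by
    have e1 : ⁅(a : G), h⁆ = ⁅(b : G), h⁆ := congrArg Subtype.val e
    have : (b : G)⁻¹ * a ∈ P ⊓ Cz h := mem_inf.2 ⟨mul_mem (inv_mem b.2) a.2, mem_Cz.2 (by
      simp only [commutatorElement_def, mul_left_inj] at e1
      calc (b : G)⁻¹ * a * h = (b : G)⁻¹ * (a * h * (a : G)⁻¹) * a := by group
        _ = _ := by rw [e1]; group)⟩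
    rw [hf, mem_bot, inv_mul_eq_one] at this
    exact Subtype.ext this.symm
  intro p hp
  obtain ⟨p', e⟩ := Finite.surjective_of_injective hi ⟨p, hp⟩
  exact ⟨p', p'.2, (congrArg Subtype.val e).symm⟩

theorem cj_mem_cm {N N₀ : Subgroup G} {p h : G} (h1 : p ∈ Ns N) (h2 : p ∈ Ns N₀) (hh : h ∈ Cm N N₀) :
    p * h * p⁻¹ ∈ Cm N N₀ := ⟨mul_mem (mul_mem h2 hh.1) (inv_mem h2), fun y hy => by
  have := cj_mem h2 (hh.2 _ (cj_mem' h1 hy))
  convert this using 1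
  simp only [commutatorElement_def]; group⟩

theorem ns_cm {N N₀ : Subgroup G} {p : G} (h1 : p ∈ Ns N) (h2 : p ∈ Ns N₀) : p ∈ Ns (Cm N N₀) :=
  mem_normalizer_iff.2 fun h => ⟨cj_mem_cm h1 h2, fun hh => by
    simpa [mul_assoc] using cj_mem_cm (inv_mem h1) (inv_mem h2) hh⟩

theorem cj_mem_up {N : Subgroup G} {p h : G} (h1 : p ∈ Cz t) (h2 : p ∈ Ns N) (hh : h ∈ Up t N) :
    p * h * p⁻¹ ∈ Up t N := ⟨mul_mem (mul_mem h2 hh.1) (inv_mem h2), by
  have := cj_mem h2 hh.2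
  have e := mem_Cz.1 h1
  have e1 : p⁻¹ * t * p = t := by rw [mul_assoc, ← e]; group
  have e2 : p * t⁻¹ = t⁻¹ * p := Commute.inv_right (mem_Cz.1 h1 : Commute p t)
  convert this using 1
  calc t⁻¹ * (p * h * p⁻¹ * t * (p * h * p⁻¹)⁻¹) = t⁻¹ * p * (h * (p⁻¹ * t * p) * h⁻¹) * p⁻¹ := by group
    _ = _ := by rw [e1, ← e2]; group⟩

theorem ns_up {N : Subgroup G} {p : G} (h1 : p ∈ Cz t) (h2 : p ∈ Ns N) : p ∈ Ns (Up t N) :=
  mem_normalizer_iff.2 fun h => ⟨cj_mem_up h1 h2, fun hh => by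
    simpa [mul_assoc] using cj_mem_up (inv_mem h1) (inv_mem h2) hh⟩

theorem cop' [Finite G] {H : Subgroup G} {y : G} (h2 : IsPGroup 2 Y₀) (ho : Odd (Nat.card H))
    (hn : H ≤ Ns Y₀) (hc : ∀ h ∈ H, ⁅h, y⁆ ∈ Y₀) : ∃ y₀ ∈ Y₀, y₀ * y ∈ Cs H := by
  haveI : Fact (Nat.Prime 2) := ⟨Nat.prime_two⟩
  obtain ⟨k, hk⟩ := h2.exists_card_eq
  exact H1.exists_centralizer_mem_coset' hn
    (by rw [hk]; exact Nat.Coprime.pow_right k (Nat.coprime_two_right.2 ho))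
    (Or.inr (H1.isSolvable_of_isPGroup h2)) y hc

theorem conj_pow_eq {g y c : G} (hc : Commute g c) (e : g * y * g⁻¹ = c * y) (n : ℕ) :
    g ^ n * y * (g ^ n)⁻¹ = c ^ n * y := by
  induction n with
  | zero => simp
  | succ n ih =>
    calc g ^ (n + 1) * y * (g ^ (n + 1))⁻¹ = g * (g ^ n * y * (g ^ n)⁻¹) * g⁻¹ := by
          rw [pow_succ']; group
      _ = c ^ n * (g * y * g⁻¹) := by rw [ih, ← mul_assoc, (hc.pow_right n).eq]; group
      _ = _ := by rw [e, pow_succ, mul_assoc]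

theorem comm_pow_orderOf {g y : G} (hc : Commute ⁅g, y⁆ g) {n : ℕ} (hn : g ^ n = 1) : ⁅g, y⁆ ^ n = 1 := by
  have := conj_pow_eq (y := y) hc.symm (by simp [commutatorElement_def]) n
  rw [hn] at this
  simpa using this.symm

theorem mem_cm_closure {N₀ : Subgroup G} {S : Set G} (hg : g ∈ Ns N₀)
    (h : ∀ s ∈ S, s ∈ Ns N₀ ∧ ⁅g, s⁆ ∈ N₀) : g ∈ Cm (closure S) N₀ := by
  refine ⟨hg, fun y hy => ?_⟩
  suffices y ∈ Ns N₀ ∧ ⁅g, y⁆ ∈ N₀ from this.2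
  induction hy using closure_induction with
  | mem x hx => exact h x hx
  | one => exact ⟨one_mem _, by simp⟩
  | mul a b _ _ ha hb =>
    refine ⟨mul_mem ha.1 hb.1, ?_⟩
    have := mul_mem ha.2 (cj_mem ha.1 hb.2)
    convert this using 1
    simp only [commutatorElement_def]; group
  | inv a _ ha =>
    refine ⟨inv_mem ha.1, ?_⟩
    have := cj_mem' ha.1 (inv_mem ha.2)
    convert this using 1
    simp only [commutatorElement_def]; group

theorem comm_cj (hg : g ∈ Cz t) (y : G) : ⁅t, g * y * g⁻¹⁆ = g * ⁅t, y⁆ * g⁻¹ := by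
  have e : g * t * g⁻¹ = t := by rw [mem_Cz.1 hg]; group
  rw [conjugate_commutatorElement, e]

theorem Db.cj (hg : g ∈ Cz t) (h : Db t Y₀ X Y) : Db t (cjs g Y₀) (cjs g X) (cjs g Y) := by
  have e : g * t * g⁻¹ = t := by rw [mem_Cz.1 hg]; group
  refine ⟨map_mono h.le0, map_mono h.leX, cjs_cz hg ▸ map_mono h.cX, e ▸ mem_ns_cjs h.tY,
    e ▸ mem_ns_cjs h.tY0, ?_, ?_, ?_, ?_⟩
  · rintro _ ⟨y, hy, rfl⟩; exact mem_ns_cjs (h.nor hy)
  · rintro _ ⟨y, hy, rfl⟩; exact ⟨_, h.sq y hy, map_mul _ _ _⟩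
  · rintro _ ⟨y, hy, rfl⟩ h1
    rw [← Subgroup.map_sup]
    refine ⟨y, h.fix y hy ?_, rfl⟩
    change ⁅t, g * y * g⁻¹⁆ ∈ _ at h1
    rw [comm_cj hg, mem_cjs] at h1
    simpa [mul_assoc] using h1
  · rintro _ ⟨x, hx, rfl⟩
    obtain ⟨y, hy, h1⟩ := h.onto x hx
    refine ⟨_, cj_mem_cjs hy, ?_⟩
    rw [comm_cj hg]
    refine ⟨_, h1, ?_⟩
    simp [mul_assoc]

theorem Fr.cj (hg : g ∈ Cz t) (h : Fr t X Y) : Fr t (cjs g X) (cjs g Y) := by
  have e : g * t * g⁻¹ = t := by rw [mem_Cz.1 hg]; group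
  refine ⟨h.two.map _, e ▸ mem_ns_cjs h.tY, by rw [← h.fix, cjs_inf, cjs_cz hg], ?_,
    by rw [card_cjs, card_cjs, h.card]⟩
  rintro _ ⟨y, hy, rfl⟩ h1
  change t * (g * y * g⁻¹) * (t * (g * y * g⁻¹)) = 1 at h1
  have e1 : t * (g * y * g⁻¹) = g * (t * y) * g⁻¹ := by conv_lhs => rw [← e]
                                                        group
  rw [e1, conj_mul, conj_eq_one_iff] at h1
  obtain ⟨u, hu, h2⟩ := h.h1 y hy h1
  refine ⟨_, cj_mem_cjs hu, ?_⟩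
  change _ = t * (g * y * g⁻¹)
  rw [e1, ← h2]
  conv_lhs => rw [← e]
  group

theorem Fr.prod [Finite G] {X' Y' : Subgroup G} (ht : Inv2 t) (h : Fr t X Y) (h' : Fr t X' Y')
    (hn : Y' ≤ Ns Y) (hd : X ⊓ X' = ⊥) : Fr t (X ⊔ X') (Y ⊔ Y') := by
  have hD : Y ⊓ Y' = ⊥ := fr_bot.self ht bot_le (h.two.to_inf_left) (ns_inf h.tY h'.tY)
    fun y hy => hd ▸ mem_inf.2 ⟨h.mem hy.1.1 hy.2, h'.mem hy.1.2 hy.2⟩
  have hD' : ∀ y ∈ Y, y ∈ Y' → y = 1 := fun y a b => mem_bot.1 (hD ▸ mem_inf.2 ⟨a, b⟩)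
  have hnX : X' ≤ Ns X := fun x hx => h.fix ▸ ns_inf (hn (h'.le hx)) (ns_cz (h'.cX hx))
  refine ⟨sup_comm Y Y' ▸ two_sup h'.two h.two hn, ns_sup h.tY h'.tY, ?_, ?_, ?_⟩
  · refine le_antisymm (fun w hw => ?_) (le_inf (sup_le_sup h.le h'.le) (sup_le h.cX h'.cX))
    obtain ⟨y, hy, y', hy', rfl⟩ := (mem_sup_ns' hn).1 hw.1
    have e := comm_eq_one_iff.2 hw.2
    have e1 : ⁅t, y'⁆ = 1 := hD' _ (by
      have := inv_mem (cj_mem' (le_normalizer hy) (comm_mem_left h.tY hy))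
      convert this using 1
      rw [eq_inv_iff_mul_eq_one, ← conj_eq_one_iff (a := y * ⁅t, y'⁆⁻¹), ← e]
      simp only [commutatorElement_def]; group) (comm_mem_left h'.tY hy')
    have c1 := comm_eq_one_iff.1 e1
    exact mul_mem_sup (h.mem hy ((mul_mem_cancel_right c1).1 hw.2)) (h'.mem hy' c1)
  · intro w hw e
    obtain ⟨y, hy, y', hy', rfl⟩ := (mem_sup_ns' hn).1 hw
    have hty : t * y' ∈ Ns Y := mul_mem h.tY (hn hy')
    have e1 : t * y' * (t * y') = 1 := hD' _ (by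
      have a1 := cj_mem' (hn hy') hy
      have := inv_mem (mul_mem a1 (cj_mem hty a1))
      have a2 := cj_mem hty this
      convert a2 using 1
      rw [← mul_one (t * y' * (t * y')), ← inv_one, ← e]
      group) (by
      have := mul_mem (cj_mem h'.tY hy') hy'
      rwa [Inv2.inv_eq ht, mul_assoc (t * y')] at this)
    obtain ⟨u, hu, h1⟩ := h'.h1 y' hy' e1
    have e2 : t * (y * y') = u * (t * (u⁻¹ * (y'⁻¹ * y * y') * u)) * u⁻¹ := by
      calc t * (y * y') = t * y' * (y'⁻¹ * y * y') := by group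
        _ = _ := by rw [← h1]; group
    obtain ⟨v, hv, h2⟩ := h.h1 _ (cj_mem' (hn hu) (cj_mem' (hn hy') hy)) (by
      rw [e2, conj_mul, conj_eq_one_iff] at e; exact e)
    exact ⟨u * v, mul_mem (mem_sup_right hu) (mem_sup_left hv), by rw [e2, ← h2]; group⟩
  · have e1 := H4.card_sup_mul_card_inf_of_le_normalizer hn
    have e2 := H4.card_sup_mul_card_inf_of_le_normalizer hnX
    rw [inf_comm, hD, sup_comm, card_bot, mul_one] at e1
    rw [inf_comm, hd, sup_comm, card_bot, mul_one] at e2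
    rw [e1, e2, h.card, h'.card]; ring

theorem Db.inf_cs [Finite G] {H : Subgroup G} (h : Db t Y₀ X Y) (h2 : IsPGroup 2 Y)
    (ho : Odd (Nat.card H)) (hc : H ≤ Cz t) (hY : H ≤ Ns Y) (h0 : H ≤ Ns Y₀) (hX : H ≤ Ns X) :
    Db t (Y₀ ⊓ Cs H) (X ⊓ Cs H) (Y ⊓ Cs H) := by
  have htH : t ∈ Cs H := mem_Cs.2 fun x hx => mem_Cz.1 (hc hx)
  have hle : X ⊔ Y₀ ≤ Y := sup_le h.leX h.le0
  refine ⟨inf_le_inf_right _ h.le0, inf_le_inf_right _ h.leX, inf_le_left.trans h.cX,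
    ns_inf h.tY (le_normalizer htH), ns_inf h.tY0 (le_normalizer htH),
    fun y hy => ns_inf (h.nor hy.1) (le_normalizer hy.2),
    fun y hy => ⟨h.sq y hy.1, mul_mem hy.2 hy.2⟩, fun y hy h1 => ?_, fun x hx => ?_⟩
  · obtain ⟨x, hx, n, hn, rfl⟩ := (mem_sup_ns h.nX).1 (h.fix y hy.1 h1.1)
    obtain ⟨x₀, hx₀, h3⟩ := cop' (Y₀ := X ⊓ Y₀) (y := x) ((h2.to_le h.leX).to_inf_left) ho
      (fun k hk => ns_inf (hX hk) (h0 hk)) fun k hk => mem_inf.2 ⟨comm_mem_left (hX hk) hx, by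
        have e := mem_Cs.1 hy.2 k hk
        have := cj_mem (h.nX hx) (comm_mem_right (h0 hk) hn)
        convert this using 1
        simp only [commutatorElement_def]
        calc k * x * k⁻¹ * x⁻¹ = k * (x * n) * n⁻¹ * k⁻¹ * x⁻¹ := by group
          _ = x * n * k * n⁻¹ * k⁻¹ * x⁻¹ := by rw [e]
          _ = _ := by group⟩
    have e : x * n = x₀ * x * ((x₀ * x)⁻¹ * (x * n)) := by group
    rw [e]
    refine mul_mem_sup (mem_inf.2 ⟨mul_mem (mem_inf.1 hx₀).1 hx, h3⟩)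
      (mem_inf.2 ⟨?_, mul_mem (inv_mem h3) (mem_inf.1 hy).2⟩)
    have := mul_mem (cj_mem' (h.nX hx) (inv_mem (mem_inf.1 hx₀).2)) hn
    convert this using 1; group
  · obtain ⟨y, hy, h1⟩ := h.onto x hx.1
    obtain ⟨w, hw, h3⟩ := cop' (Y₀ := X ⊔ Y₀) (y := y) (h2.to_le hle) ho
      (fun k hk => ns_sup (hX hk) (h0 hk)) fun k hk => h.fix _ (comm_mem_left (hY hk) hy) (by
        have a1 := h.phi_mul (comm_mem_left (hY hk) hy) hy
        have a2 : ⁅k, y⁆ * y = k * y * k⁻¹ := by simp [commutatorElement_def]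
        rw [a2, comm_cj (hc hk)] at a1
        have a3 := cj_mem (h0 hk) h1
        have a4 : k * x⁻¹ * k⁻¹ = x⁻¹ := by rw [mem_Cs.1 (inv_mem (mem_inf.1 hx).2) k hk]; group
        have a5 : k * ⁅t, y⁆ * k⁻¹ * ⁅t, y⁆⁻¹ ∈ Y₀ := by
          have := mul_mem a3 (inv_mem h1)
          convert this using 1
          calc _ = k * ⁅t, y⁆ * k⁻¹ * x⁻¹ * (⁅t, y⁆ * x⁻¹)⁻¹ := by group
            _ = k * ⁅t, y⁆ * k⁻¹ * (k * x⁻¹ * k⁻¹) * (⁅t, y⁆ * x⁻¹)⁻¹ := by rw [a4]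
            _ = _ := by group
        have := mul_mem (inv_mem a1) a5
        convert this using 1; group)
    refine ⟨w * y, mem_inf.2 ⟨mul_mem (hle hw) hy, h3⟩, mem_inf.2 ⟨?_, ?_⟩⟩
    · have := mul_mem (mul_mem (h.phi_mul (hle hw) hy) (h.phi_sup hw)) h1
      convert this using 1; group
    · exact mul_mem (comm_mem_left (le_normalizer htH) h3) (inv_mem (mem_inf.1 hx).2)

theorem ker_lemma [Finite G] {N : Subgroup G} (ht : Inv2 t) (hn : t ∈ Ns N) (hf : N ⊓ Cz t = ⊥) :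
    Odd (Nat.card N) ∧ (∀ k ∈ N, t * k * t⁻¹ = k⁻¹) ∧ N ≤ Cs N ∧ ∀ x ∈ Ns N, ⁅t, x⁆ ∈ Cs N := by
  have h1 : ∀ k ∈ N, t * k * t⁻¹ = k⁻¹ := fun k hk => by
    obtain ⟨p, -, rfl⟩ := surj_of_fpf hn hf k hk
    simp only [commutatorElement_def, Inv2.inv_eq ht, mul_inv_rev, inv_inv, mul_assoc, ht.1, mul_one]
  refine ⟨?_, h1, fun a ha => mem_Cs.2 fun b hb => ?_, fun x hx => mem_Cs.2 fun k hk => ?_⟩
  · by_contra h2
    haveI : Fact (Nat.Prime 2) := ⟨Nat.prime_two⟩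
    obtain ⟨k, hk⟩ := exists_prime_orderOf_dvd_card' (G := N) 2 (Nat.not_odd_iff_even.1 h2).two_dvd
    have e : (k : G) * k = 1 := by
      have := pow_orderOf_eq_one k
      rw [hk, sq] at this
      exact congrArg Subtype.val this
    have : (k : G) ∈ N ⊓ Cz t := ⟨k.2, mem_Cz.2 (by
      have := h1 k k.2
      rw [inv_eq_of_mul_eq_one_right e, mul_inv_eq_iff_eq_mul] at this
      exact this.symm)⟩
    rw [hf, mem_bot, OneMemClass.coe_eq_one] at this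
    rw [this, orderOf_one] at hk
    omega
  · have := h1 _ (mul_mem (inv_mem hb) (inv_mem ha))
    rw [← conj_mul, h1 _ (inv_mem hb), h1 _ (inv_mem ha)] at this
    simpa using this
  · have a1 := h1 _ (cj_mem' hx hk)
    have a2 := h1 _ hk
    have a3 : t⁻¹ * k * t = k⁻¹ := by rw [Inv2.inv_eq ht] at a2 ⊢; exact a2
    have a4 : t⁻¹ * (x⁻¹ * k⁻¹ * x) * t = x⁻¹ * k * x := by
      have := h1 _ (cj_mem' hx (inv_mem hk))
      rw [Inv2.inv_eq ht] at this ⊢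
      rw [this]; group
    simp only [commutatorElement_def]
    calc k * (t * x * t⁻¹ * x⁻¹) = t * x * (x⁻¹ * (t⁻¹ * k * t) * x) * t⁻¹ * x⁻¹ := by group
      _ = t * x * t⁻¹ * (t * (x⁻¹ * k⁻¹ * x) * t⁻¹) * x⁻¹ := by rw [a3]; group
      _ = _ := by rw [h1 _ (cj_mem' hx (inv_mem hk))]; group

end Main

theorem kit : Kit.{u} where
  ext := fun ht h0 h hX => h.ext ht h0 hX
  bot := fun ht h => h.ext ht fr_bot bot_le
  mkDb := fun {G _ _ t X₀ Y₀ X Y} ht h0 hle hn htY hsq hf ho =>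
    ⟨hle, hf ▸ inf_le_left, hf ▸ inf_le_right, htY, h0.tY, hn, hsq, fun y hy h1 => by
      obtain ⟨u, hu, h2⟩ := h0.lift ht h1
      have : y = u * (u⁻¹ * y) := by group
      rw [this]
      exact mul_mem (mem_sup_right hu) (mem_sup_left (hf ▸ mem_inf.2 ⟨mul_mem (inv_mem (hle hu)) hy, h2⟩)),
      ho⟩
  lift := fun ht h hg => h.lift ht hg
  self := fun ht h0 hle h2 htY hf => h0.self ht hle h2 htY hf
  triv := fun ht h2 htY hf => fr_bot.self ht bot_le h2 htY hf.le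
  gen := fun {G _ _ t Y₀ X Y J} ht h hJ h0 hX ho => le_antisymm hJ fun y hy => by
    obtain ⟨x, hx, n, hn, e⟩ := (mem_sup_ns h.nX).1 (h.phi_mem ht hy)
    obtain ⟨j, hj, h1⟩ := ho x hx
    have h2 : j * y ∈ X ⊔ Y₀ := h.fix _ (mul_mem (hJ hj) hy) (by
      have := mul_mem (h.phi_mul (hJ hj) hy) (mul_mem (mul_mem h1 (h.sq x (h.leX hx))) hn)
      convert this using 1
      rw [← e]; group)
    exact (mul_mem_cancel_left hj).1 (sup_le hX h0 h2)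
  hom := fun ht h y hy => ⟨h.phi_mem ht hy, fun y' hy' => ⟨h.comm hy hy', h.phi_mul hy hy'⟩⟩
  dbC := fun ht h h2 ho hc hY h0 hX => h.inf_cs h2 ho hc hY h0 hX
  cop := fun h2 ho hn _ hc => cop' h2 ho hn hc
  stab := fun {G _ _ Y₀ Y g} h2 ho hg hc => mem_Cs.2 fun y hy => by
    have h1 := comm_pow_orderOf (mem_Cs.1 hg _ (hc y hy)) (pow_orderOf_eq_one g)
    have := eq_one_of_odd (is2_of_mem h2 (hc y hy)) (ho.of_dvd_nat (orderOf_dvd_of_pow_eq_one h1))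
    exact (commutatorElement_eq_one_iff_mul_comm.1 this).symm
  surj := fun hn hf => surj_of_fpf hn hf
  fpf := fun hn hf h1 h2 hh p hp => by
    obtain ⟨p', hp', rfl⟩ := surj_of_fpf hn hf p hp
    exact mul_mem (cj_mem_cm (h1 hp') (h2 hp') hh) (inv_mem hh)
  ker := fun ht hn hf => ker_lemma ht hn hf
  odd := fun {G _ _ a b w z} ha hw c1 c2 c3 ho e => by
    have h1 := comm_pow_orderOf (g := a) (y := b) (n := 2) (by rw [e]; exact c1.symm.mul_left c2)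
      (by rw [sq, ha])
    rw [e, c3.symm.mul_pow, sq w, hw, one_mul] at h1
    exact eq_one_of_odd ⟨1, h1⟩ ho
  odd' := fun {G _ _ a b} ⟨k, hk⟩ c ho =>
    commutatorElement_eq_one_iff_commute.1 (eq_one_of_odd ⟨k, comm_pow_orderOf c hk⟩ ho)
  prod := fun ht h h' hn hd => h.prod ht h' hn hd
  fix0 := fun {G _ _ t h X Y} ht hf hh hd => fr_bot.self ht bot_le hf.two.to_inf_left
    (ns_inf hf.tY (ns_cz' (mem_Cz.1 hh).symm))
    fun y hy => hd ▸ mem_inf.2 ⟨hf.mem hy.1.1 hy.2, hy.1.2⟩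
  dbJ := fun hg h => h.cj hg
  frJ := fun hg h => h.cj hg
  cmG := fun hg h => mem_cm_closure hg h
  cmS := fun {G _ g N₀ X Y} hX hY h1 h2 => by
    rw [sup_eq_closure]
    exact mem_cm_closure h1.1 (by
      rintro s (hs | hs)
      exacts [⟨hX hs, h1.2 s hs⟩, ⟨hY hs, h2.2 s hs⟩])
  nsS := fun {G _ _ g N₀ X} hg h => mem_ns_of fun y hy => by
    have : X ⊔ N₀ ≤ (X ⊔ N₀).comap (MulAut.conj g).toMonoidHom := sup_le (fun x hx => by
      have := mul_mem (h x hx) (mem_sup_left hx : x ∈ X ⊔ N₀)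
      simpa [commutatorElement_def] using this) fun n hn => mem_sup_right (cj_mem hg hn)
    exact this hy

end H65.SR
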