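/- STD-R (S3323): coordinate lemmas shared by the jobs. -/
import Cfsg.Agent.H65.SRSpec
import Cfsg.Agent.H65.SRKit

set_option autoImplicit false
set_option linter.unusedSectionVars false
set_option linter.unusedVariables false
set_option linter.unusedSimpArgs false

open Subgroup H63.Oc H64.SG
open scoped commutatorElement

namespace H65.SR

attribute [simp] mem_sZ mem_sW mem_sA mem_sV0 mem_sV mem_sR mem_sA7 mem_sQ mem_sQ1 mem_sU8 mem_sT5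
  mem_sU1 mem_sU2 mem_sZ2 mem_sU3 mem_sU4 mem_sU5 mem_sU6 mem_sU7 mem_sZ8 mem_sU27 mem_sU37

section Co
variable {K : Type*} [Field K] {T : TF K}

@[simp] theorem x1_a1 (c : K) : (x1 T c).a1 = c := rfl
@[simp] theorem x1_b2 (c : K) : (x1 T c).b2 = 0 := rfl
@[simp] theorem x1_a2 (c : K) : (x1 T c).a2 = 0 := rfl
@[simp] theorem x1_a3 (c : K) : (x1 T c).a3 = 0 := rfl
@[simp] theorem x1_b4 (c : K) : (x1 T c).b4 = 0 := rfl
@[simp] theorem x1_a4 (c : K) : (x1 T c).a4 = 0 := rfl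
@[simp] theorem x1_a5 (c : K) : (x1 T c).a5 = 0 := rfl
@[simp] theorem x1_b6 (c : K) : (x1 T c).b6 = 0 := rfl
@[simp] theorem x1_a6 (c : K) : (x1 T c).a6 = 0 := rfl
@[simp] theorem x1_a7 (c : K) : (x1 T c).a7 = 0 := rfl
@[simp] theorem x1_b8 (c : K) : (x1 T c).b8 = 0 := rfl
@[simp] theorem x1_a8 (c : K) : (x1 T c).a8 = 0 := rfl
@[simp] theorem y2_a1 (c : K) : (y2 T c).a1 = 0 := rfl
@[simp] theorem y2_b2 (c : K) : (y2 T c).b2 = c := rfl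
@[simp] theorem y2_a2 (c : K) : (y2 T c).a2 = 0 := rfl
@[simp] theorem y2_a3 (c : K) : (y2 T c).a3 = 0 := rfl
@[simp] theorem y2_b4 (c : K) : (y2 T c).b4 = 0 := rfl
@[simp] theorem y2_a4 (c : K) : (y2 T c).a4 = 0 := rfl
@[simp] theorem y2_a5 (c : K) : (y2 T c).a5 = 0 := rfl
@[simp] theorem y2_b6 (c : K) : (y2 T c).b6 = 0 := rfl
@[simp] theorem y2_a6 (c : K) : (y2 T c).a6 = 0 := rfl
@[simp] theorem y2_a7 (c : K) : (y2 T c).a7 = 0 := rfl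
@[simp] theorem y2_b8 (c : K) : (y2 T c).b8 = 0 := rfl
@[simp] theorem y2_a8 (c : K) : (y2 T c).a8 = 0 := rfl
@[simp] theorem x2_a1 (c : K) : (x2 T c).a1 = 0 := rfl
@[simp] theorem x2_b2 (c : K) : (x2 T c).b2 = 0 := rfl
@[simp] theorem x2_a2 (c : K) : (x2 T c).a2 = c := rfl
@[simp] theorem x2_a3 (c : K) : (x2 T c).a3 = 0 := rfl
@[simp] theorem x2_b4 (c : K) : (x2 T c).b4 = 0 := rfl
@[simp] theorem x2_a4 (c : K) : (x2 T c).a4 = 0 := rfl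
@[simp] theorem x2_a5 (c : K) : (x2 T c).a5 = 0 := rfl
@[simp] theorem x2_b6 (c : K) : (x2 T c).b6 = 0 := rfl
@[simp] theorem x2_a6 (c : K) : (x2 T c).a6 = 0 := rfl
@[simp] theorem x2_a7 (c : K) : (x2 T c).a7 = 0 := rfl
@[simp] theorem x2_b8 (c : K) : (x2 T c).b8 = 0 := rfl
@[simp] theorem x2_a8 (c : K) : (x2 T c).a8 = 0 := rfl
@[simp] theorem x3_a1 (c : K) : (x3 T c).a1 = 0 := rfl
@[simp] theorem x3_b2 (c : K) : (x3 T c).b2 = 0 := rfl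
@[simp] theorem x3_a2 (c : K) : (x3 T c).a2 = 0 := rfl
@[simp] theorem x3_a3 (c : K) : (x3 T c).a3 = c := rfl
@[simp] theorem x3_b4 (c : K) : (x3 T c).b4 = 0 := rfl
@[simp] theorem x3_a4 (c : K) : (x3 T c).a4 = 0 := rfl
@[simp] theorem x3_a5 (c : K) : (x3 T c).a5 = 0 := rfl
@[simp] theorem x3_b6 (c : K) : (x3 T c).b6 = 0 := rfl
@[simp] theorem x3_a6 (c : K) : (x3 T c).a6 = 0 := rfl
@[simp] theorem x3_a7 (c : K) : (x3 T c).a7 = 0 := rfl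
@[simp] theorem x3_b8 (c : K) : (x3 T c).b8 = 0 := rfl
@[simp] theorem x3_a8 (c : K) : (x3 T c).a8 = 0 := rfl
@[simp] theorem y4_a1 (c : K) : (y4 T c).a1 = 0 := rfl
@[simp] theorem y4_b2 (c : K) : (y4 T c).b2 = 0 := rfl
@[simp] theorem y4_a2 (c : K) : (y4 T c).a2 = 0 := rfl
@[simp] theorem y4_a3 (c : K) : (y4 T c).a3 = 0 := rfl
@[simp] theorem y4_b4 (c : K) : (y4 T c).b4 = c := rfl
@[simp] theorem y4_a4 (c : K) : (y4 T c).a4 = 0 := rfl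
@[simp] theorem y4_a5 (c : K) : (y4 T c).a5 = 0 := rfl
@[simp] theorem y4_b6 (c : K) : (y4 T c).b6 = 0 := rfl
@[simp] theorem y4_a6 (c : K) : (y4 T c).a6 = 0 := rfl
@[simp] theorem y4_a7 (c : K) : (y4 T c).a7 = 0 := rfl
@[simp] theorem y4_b8 (c : K) : (y4 T c).b8 = 0 := rfl
@[simp] theorem y4_a8 (c : K) : (y4 T c).a8 = 0 := rfl
@[simp] theorem x4_a1 (c : K) : (x4 T c).a1 = 0 := rfl
@[simp] theorem x4_b2 (c : K) : (x4 T c).b2 = 0 := rfl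
@[simp] theorem x4_a2 (c : K) : (x4 T c).a2 = 0 := rfl
@[simp] theorem x4_a3 (c : K) : (x4 T c).a3 = 0 := rfl
@[simp] theorem x4_b4 (c : K) : (x4 T c).b4 = 0 := rfl
@[simp] theorem x4_a4 (c : K) : (x4 T c).a4 = c := rfl
@[simp] theorem x4_a5 (c : K) : (x4 T c).a5 = 0 := rfl
@[simp] theorem x4_b6 (c : K) : (x4 T c).b6 = 0 := rfl
@[simp] theorem x4_a6 (c : K) : (x4 T c).a6 = 0 := rfl
@[simp] theorem x4_a7 (c : K) : (x4 T c).a7 = 0 := rfl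
@[simp] theorem x4_b8 (c : K) : (x4 T c).b8 = 0 := rfl
@[simp] theorem x4_a8 (c : K) : (x4 T c).a8 = 0 := rfl
@[simp] theorem x5_a1 (c : K) : (x5 T c).a1 = 0 := rfl
@[simp] theorem x5_b2 (c : K) : (x5 T c).b2 = 0 := rfl
@[simp] theorem x5_a2 (c : K) : (x5 T c).a2 = 0 := rfl
@[simp] theorem x5_a3 (c : K) : (x5 T c).a3 = 0 := rfl
@[simp] theorem x5_b4 (c : K) : (x5 T c).b4 = 0 := rfl
@[simp] theorem x5_a4 (c : K) : (x5 T c).a4 = 0 := rfl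
@[simp] theorem x5_a5 (c : K) : (x5 T c).a5 = c := rfl
@[simp] theorem x5_b6 (c : K) : (x5 T c).b6 = 0 := rfl
@[simp] theorem x5_a6 (c : K) : (x5 T c).a6 = 0 := rfl
@[simp] theorem x5_a7 (c : K) : (x5 T c).a7 = 0 := rfl
@[simp] theorem x5_b8 (c : K) : (x5 T c).b8 = 0 := rfl
@[simp] theorem x5_a8 (c : K) : (x5 T c).a8 = 0 := rfl
@[simp] theorem y6_a1 (c : K) : (y6 T c).a1 = 0 := rfl
@[simp] theorem y6_b2 (c : K) : (y6 T c).b2 = 0 := rfl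
@[simp] theorem y6_a2 (c : K) : (y6 T c).a2 = 0 := rfl
@[simp] theorem y6_a3 (c : K) : (y6 T c).a3 = 0 := rfl
@[simp] theorem y6_b4 (c : K) : (y6 T c).b4 = 0 := rfl
@[simp] theorem y6_a4 (c : K) : (y6 T c).a4 = 0 := rfl
@[simp] theorem y6_a5 (c : K) : (y6 T c).a5 = 0 := rfl
@[simp] theorem y6_b6 (c : K) : (y6 T c).b6 = c := rfl
@[simp] theorem y6_a6 (c : K) : (y6 T c).a6 = 0 := rfl
@[simp] theorem y6_a7 (c : K) : (y6 T c).a7 = 0 := rfl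
@[simp] theorem y6_b8 (c : K) : (y6 T c).b8 = 0 := rfl
@[simp] theorem y6_a8 (c : K) : (y6 T c).a8 = 0 := rfl
@[simp] theorem x6_a1 (c : K) : (x6 T c).a1 = 0 := rfl
@[simp] theorem x6_b2 (c : K) : (x6 T c).b2 = 0 := rfl
@[simp] theorem x6_a2 (c : K) : (x6 T c).a2 = 0 := rfl
@[simp] theorem x6_a3 (c : K) : (x6 T c).a3 = 0 := rfl
@[simp] theorem x6_b4 (c : K) : (x6 T c).b4 = 0 := rfl
@[simp] theorem x6_a4 (c : K) : (x6 T c).a4 = 0 := rfl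
@[simp] theorem x6_a5 (c : K) : (x6 T c).a5 = 0 := rfl
@[simp] theorem x6_b6 (c : K) : (x6 T c).b6 = 0 := rfl
@[simp] theorem x6_a6 (c : K) : (x6 T c).a6 = c := rfl
@[simp] theorem x6_a7 (c : K) : (x6 T c).a7 = 0 := rfl
@[simp] theorem x6_b8 (c : K) : (x6 T c).b8 = 0 := rfl
@[simp] theorem x6_a8 (c : K) : (x6 T c).a8 = 0 := rfl
@[simp] theorem x7_a1 (c : K) : (x7 T c).a1 = 0 := rfl
@[simp] theorem x7_b2 (c : K) : (x7 T c).b2 = 0 := rfl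
@[simp] theorem x7_a2 (c : K) : (x7 T c).a2 = 0 := rfl
@[simp] theorem x7_a3 (c : K) : (x7 T c).a3 = 0 := rfl
@[simp] theorem x7_b4 (c : K) : (x7 T c).b4 = 0 := rfl
@[simp] theorem x7_a4 (c : K) : (x7 T c).a4 = 0 := rfl
@[simp] theorem x7_a5 (c : K) : (x7 T c).a5 = 0 := rfl
@[simp] theorem x7_b6 (c : K) : (x7 T c).b6 = 0 := rfl
@[simp] theorem x7_a6 (c : K) : (x7 T c).a6 = 0 := rfl
@[simp] theorem x7_a7 (c : K) : (x7 T c).a7 = c := rfl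
@[simp] theorem x7_b8 (c : K) : (x7 T c).b8 = 0 := rfl
@[simp] theorem x7_a8 (c : K) : (x7 T c).a8 = 0 := rfl
@[simp] theorem y8_a1 (c : K) : (y8 T c).a1 = 0 := rfl
@[simp] theorem y8_b2 (c : K) : (y8 T c).b2 = 0 := rfl
@[simp] theorem y8_a2 (c : K) : (y8 T c).a2 = 0 := rfl
@[simp] theorem y8_a3 (c : K) : (y8 T c).a3 = 0 := rfl
@[simp] theorem y8_b4 (c : K) : (y8 T c).b4 = 0 := rfl
@[simp] theorem y8_a4 (c : K) : (y8 T c).a4 = 0 := rfl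
@[simp] theorem y8_a5 (c : K) : (y8 T c).a5 = 0 := rfl
@[simp] theorem y8_b6 (c : K) : (y8 T c).b6 = 0 := rfl
@[simp] theorem y8_a6 (c : K) : (y8 T c).a6 = 0 := rfl
@[simp] theorem y8_a7 (c : K) : (y8 T c).a7 = 0 := rfl
@[simp] theorem y8_b8 (c : K) : (y8 T c).b8 = c := rfl
@[simp] theorem y8_a8 (c : K) : (y8 T c).a8 = 0 := rfl
@[simp] theorem x8_a1 (c : K) : (x8 T c).a1 = 0 := rfl
@[simp] theorem x8_b2 (c : K) : (x8 T c).b2 = 0 := rfl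
@[simp] theorem x8_a2 (c : K) : (x8 T c).a2 = 0 := rfl
@[simp] theorem x8_a3 (c : K) : (x8 T c).a3 = 0 := rfl
@[simp] theorem x8_b4 (c : K) : (x8 T c).b4 = 0 := rfl
@[simp] theorem x8_a4 (c : K) : (x8 T c).a4 = 0 := rfl
@[simp] theorem x8_a5 (c : K) : (x8 T c).a5 = 0 := rfl
@[simp] theorem x8_b6 (c : K) : (x8 T c).b6 = 0 := rfl
@[simp] theorem x8_a6 (c : K) : (x8 T c).a6 = 0 := rfl
@[simp] theorem x8_a7 (c : K) : (x8 T c).a7 = 0 := rfl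
@[simp] theorem x8_b8 (c : K) : (x8 T c).b8 = 0 := rfl
@[simp] theorem x8_a8 (c : K) : (x8 T c).a8 = c := rfl
@[simp] theorem dg_a1 (a b : K) (c : Co T) : (dg T a b c).a1 = a * c.a1 := rfl
@[simp] theorem dg_b2 (a b : K) (c : Co T) : (dg T a b c).b2 = a * b * c.b2 := rfl
@[simp] theorem dg_a2 (a b : K) (c : Co T) : (dg T a b c).a2 = a * T.σ a * (b * T.σ b) * c.a2 := rfl
@[simp] theorem dg_a3 (a b : K) (c : Co T) : (dg T a b c).a3 = a * T.σ a * (b ^ 2 * T.σ b) * c.a3 := rfl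
@[simp] theorem dg_b4 (a b : K) (c : Co T) : (dg T a b c).b4 = T.σ a * (b * T.σ b) * c.b4 := rfl
@[simp] theorem dg_a4 (a b : K) (c : Co T) : (dg T a b c).a4 = a ^ 2 * T.σ a * (b ^ 3 * T.σ b ^ 2) * c.a4 := rfl
@[simp] theorem dg_a5 (a b : K) (c : Co T) : (dg T a b c).a5 = a * T.σ a * (b ^ 2 * T.σ b ^ 2) * c.a5 := rfl
@[simp] theorem dg_b6 (a b : K) (c : Co T) : (dg T a b c).b6 = a * (b * T.σ b) * c.b6 := rfl
@[simp] theorem dg_a6 (a b : K) (c : Co T) : (dg T a b c).a6 = a * T.σ a * (b ^ 3 * T.σ b ^ 2) * c.a6 := rfl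
@[simp] theorem dg_a7 (a b : K) (c : Co T) : (dg T a b c).a7 = a * (b ^ 2 * T.σ b) * c.a7 := rfl
@[simp] theorem dg_b8 (a b : K) (c : Co T) : (dg T a b c).b8 = b * c.b8 := rfl
@[simp] theorem dg_a8 (a b : K) (c : Co T) : (dg T a b c).a8 = b * T.σ b * c.a8 := rfl

variable [CharP K 2]

variable (T) in
/-- `V₆ = Z(U₆)` -/
def sZ6 : Subgroup (Co T) where
  carrier := {c | c.a1 = 0 ∧ c.b2 = 0 ∧ c.a2 = 0 ∧ c.a3 = 0 ∧ c.b4 = 0 ∧ c.a4 = 0 ∧ c.a5 = 0 ∧ c.b6 = 0 ∧ c.a7 = 0 ∧ c.b8 = 0 ∧ c.a8 = 0}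
  one_mem' := by simp
  mul_mem' := fun {c d} hc hd => by simp_all
  inv_mem' := fun {c} hc => by simp_all
@[simp] theorem mem_sZ6 {c : Co T} : c ∈ sZ6 T ↔ c.a1 = 0 ∧ c.b2 = 0 ∧ c.a2 = 0 ∧ c.a3 = 0 ∧ c.b4 = 0 ∧ c.a4 = 0 ∧ c.a5 = 0 ∧ c.b6 = 0 ∧ c.a7 = 0 ∧ c.b8 = 0 ∧ c.a8 = 0 := Iff.rfl

theorem x1_add (a b : K) : x1 T (a + b) = x1 T a * x1 T b := by ext <;> simp
theorem x1_zero : x1 T 0 = 1 := rfl
theorem y2_zero : y2 T 0 = 1 := rfl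
theorem x2_add (a b : K) : x2 T (a + b) = x2 T a * x2 T b := by ext <;> simp
theorem x2_zero : x2 T 0 = 1 := rfl
theorem x3_add (a b : K) : x3 T (a + b) = x3 T a * x3 T b := by ext <;> simp
theorem x3_zero : x3 T 0 = 1 := rfl
theorem y4_zero : y4 T 0 = 1 := rfl
theorem x4_add (a b : K) : x4 T (a + b) = x4 T a * x4 T b := by ext <;> simp
theorem x4_zero : x4 T 0 = 1 := rfl
theorem x5_add (a b : K) : x5 T (a + b) = x5 T a * x5 T b := by ext <;> simp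
theorem x5_zero : x5 T 0 = 1 := rfl
theorem y6_zero : y6 T 0 = 1 := rfl
theorem x6_add (a b : K) : x6 T (a + b) = x6 T a * x6 T b := by ext <;> simp
theorem x6_zero : x6 T 0 = 1 := rfl
theorem x7_add (a b : K) : x7 T (a + b) = x7 T a * x7 T b := by ext <;> simp
theorem x7_zero : x7 T 0 = 1 := rfl
theorem y8_zero : y8 T 0 = 1 := rfl
theorem x8_add (a b : K) : x8 T (a + b) = x8 T a * x8 T b := by ext <;> simp
theorem x8_zero : x8 T 0 = 1 := rfl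

theorem eq_x4 {c : Co T} (h : c ∈ sZ T) : c = x4 T c.a4 := by ext <;> simp_all
theorem eq_x1 {c : Co T} (h : c ∈ sU1 T) : c = x1 T c.a1 := by ext <;> simp_all
theorem eq_x2 {c : Co T} (h : c ∈ sZ2 T) : c = x2 T c.a2 := by ext <;> simp_all
theorem eq_x3 {c : Co T} (h : c ∈ sU3 T) : c = x3 T c.a3 := by ext <;> simp_all
theorem eq_x5 {c : Co T} (h : c ∈ sU5 T) : c = x5 T c.a5 := by ext <;> simp_all
theorem eq_x6 {c : Co T} (h : c ∈ sZ6 T) : c = x6 T c.a6 := by ext <;> simp_all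
theorem eq_x7 {c : Co T} (h : c ∈ sU7 T) : c = x7 T c.a7 := by ext <;> simp_all
theorem eq_x8 {c : Co T} (h : c ∈ sZ8 T) : c = x8 T c.a8 := by ext <;> simp_all

theorem sig_inj (T : TF K) : Function.Injective T.σ := T.σ.injective
theorem sig_ne {x : K} (h : x ≠ 0) : T.σ x ≠ 0 := (map_ne_zero _).2 h
theorem sig_surj [Finite K] (T : TF K) (y : K) : ∃ x, T.σ x = y :=
  Finite.surjective_of_injective T.σ.injective y
theorem nu_surj (T : TF K) (y : K) : ∃ x, x * T.σ x = y := by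
  by_cases h : y = 0
  · exact ⟨0, by simp [h]⟩
  · have := sig_ne (T := T) h
    exact ⟨T.σ y / y, by rw [map_div₀, T.sq]; field_simp⟩
theorem nu_eq_one {x : K} (h : x * T.σ x = 1) : x = 1 :=
  eq_one_of_pw (T := T) (left_ne_zero_of_mul_eq_one h) (i := 1) (j := 1) 0 (by norm_num) (by simpa using h)
theorem sq_surj [Finite K] (y : K) : ∃ x : K, x ^ 2 = y :=
  Finite.surjective_of_injective (frobenius_inj K 2) y

end Co

section Im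
variable {K : Type*} [Field K] [CharP K 2] {T : TF K} {G : Type*} [Group G] (A : AD T G)

theorem mem_im {X : Subgroup (Co T)} {g : G} : g ∈ A.im X ↔ ∃ c ∈ X, A.ι c = g := Iff.rfl
@[simp] theorem ι_mem_im {X : Subgroup (Co T)} {c : Co T} : A.ι c ∈ A.im X ↔ c ∈ X :=
  mem_map_iff_mem A.inj
theorem im_mono {X Y : Subgroup (Co T)} (h : X ≤ Y) : A.im X ≤ A.im Y := map_mono h
theorem im_le_S (X : Subgroup (Co T)) : A.im X ≤ A.S := map_le_range _ _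
theorem S_le_C : A.S ≤ A.C := by rintro _ ⟨c, rfl⟩; exact A.ι_mem c
theorem im_le_C (X : Subgroup (Co T)) : A.im X ≤ A.C := (im_le_S A X).trans (S_le_C A)
theorem C_le : A.C ≤ A.G0 := (closure_le _).2 (by
  rintro _ ((⟨c, rfl⟩ | ⟨p, rfl⟩) | rfl)
  exacts [ι_mem A c, A.tor.h_h0 p ▸ h_mem A p, n8_mem A])
theorem S_le : A.S ≤ A.G0 := (S_le_C A).trans (C_le A)
theorem im_le (X : Subgroup (Co T)) : A.im X ≤ A.G0 := (im_le_C A X).trans (C_le A)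
theorem H_le : A.h.range ≤ A.G0 := by rintro _ ⟨p, rfl⟩; exact h_mem A p
theorem TT_le_H (i : ℕ) : TT A i ≤ A.h.range := (closure_le _).2 (by rintro _ ⟨p, -, rfl⟩; exact ⟨p, rfl⟩)
theorem TT_le (i : ℕ) : TT A i ≤ A.G0 := (TT_le_H A i).trans (H_le A)
theorem h_mem_TT {i : ℕ} {p : Kˣ × Kˣ} (h : wt T.σ (p.1 : K) p.2 i = 1) : A.h p ∈ TT A i :=
  subset_closure ⟨p, h, rfl⟩
theorem im_inf (X Y : Subgroup (Co T)) : A.im X ⊓ A.im Y = A.im (X ⊓ Y) := (map_inf _ _ _ A.inj).symm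
theorem im_sup (X Y : Subgroup (Co T)) : A.im X ⊔ A.im Y = A.im (X ⊔ Y) := (Subgroup.map_sup _ _ _).symm
theorem ι_inj {c d : Co T} : A.ι c = A.ι d ↔ c = d := A.inj.eq_iff
theorem ι_eq_one {c : Co T} : A.ι c = 1 ↔ c = 1 := map_eq_one_iff _ A.inj
theorem ι_comm (c d : Co T) : ⁅A.ι c, A.ι d⁆ = A.ι ⁅c, d⁆ := (map_commutatorElement _ _ _).symm
theorem H_comm {g g' : G} (h : g ∈ A.h.range) (h' : g' ∈ A.h.range) : g * g' = g' * g := by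
  obtain ⟨p, rfl⟩ := h
  obtain ⟨p', rfl⟩ := h'
  rw [← map_mul, mul_comm, map_mul]
theorem H_cs {X : Subgroup G} (hX : X ≤ A.h.range) : A.h.range ≤ Cs X :=
  fun g hg => mem_Cs.2 fun y hy => H_comm A (hX hy) hg
/-- the image of `X` normalises the image of `Y` -/
theorem im_ns {X Y : Subgroup (Co T)} [Finite G] (h : ∀ c ∈ X, ∀ d ∈ Y, c * d * c⁻¹ ∈ Y) :
    A.im X ≤ Ns (A.im Y) := by
  rintro _ ⟨c, hc, rfl⟩
  refine mem_ns_of ?_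
  rintro _ ⟨d, hd, rfl⟩
  exact ⟨_, h c hc d hd, by simp⟩
theorem ι_mem_cs {c : Co T} {Y : Subgroup (Co T)} : A.ι c ∈ Cs (A.im Y) ↔ ∀ d ∈ Y, d * c = c * d := by
  rw [mem_Cs]
  constructor
  · intro h d hd
    exact A.inj (by rw [map_mul, map_mul]; exact h _ ⟨d, hd, rfl⟩)
  · rintro h _ ⟨d, hd, rfl⟩
    rw [← map_mul, h d hd, map_mul]
theorem im_cs {X Y : Subgroup (Co T)} (h : ∀ c ∈ X, ∀ d ∈ Y, d * c = c * d) : A.im X ≤ Cs (A.im Y) := by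
  rintro _ ⟨c, hc, rfl⟩
  exact (ι_mem_cs A).2 (h c hc)

/-- coordinates of an element of `U` -/
noncomputable def co (g : G) : Co T := by classical exact Function.invFun A.ι g
@[simp] theorem co_ι (c : Co T) : co A (A.ι c) = c := by
  classical exact Function.leftInverse_invFun A.inj c
theorem ι_co {g : G} (h : g ∈ A.S) : A.ι (co A g) = g := by obtain ⟨c, rfl⟩ := h; rw [co_ι]
theorem co_mem {g : G} {X : Subgroup (Co T)} (h : g ∈ A.im X) : co A g ∈ X := by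
  obtain ⟨c, hc, rfl⟩ := h; rwa [co_ι]
theorem co_mul {g g' : G} (h : g ∈ A.S) (h' : g' ∈ A.S) : co A (g * g') = co A g * co A g' := by
  obtain ⟨c, rfl⟩ := h; obtain ⟨d, rfl⟩ := h'; rw [← map_mul, co_ι, co_ι, co_ι]
theorem co_h {g : G} (h : g ∈ A.S) (p : Kˣ × Kˣ) : co A (A.h p * g * (A.h p)⁻¹) = dg T p.1 p.2 (co A g) := by
  obtain ⟨c, rfl⟩ := h; rw [A.tor.h_conj, co_ι, co_ι]

theorem n1_inv : A.n1⁻¹ = A.n1 := inv_eq_of_mul_eq_one_right A.n1_sq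
theorem n8_inv : A.n8⁻¹ = A.n8 := inv_eq_of_mul_eq_one_right A.n8_sq
theorem n1_n1 (g : G) : A.n1 * (A.n1 * g) = g := by rw [← mul_assoc, A.n1_sq, one_mul]
theorem n8_n8 (g : G) : A.n8 * (A.n8 * g) = g := by rw [← mul_assoc, A.n8_sq, one_mul]
theorem n1_cj (g : G) : A.n1 * (A.n1 * g * A.n1) * A.n1 = g := by
  simp only [mul_assoc, n1_n1, A.n1_sq, mul_one]
theorem n8_cj (g : G) : A.n8 * (A.n8 * g * A.n8) * A.n8 = g := by
  simp only [mul_assoc, n8_n8, A.n8_sq, mul_one]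
theorem mem_cjs1 {g : G} {X : Subgroup G} : g ∈ cjs A.n1 X ↔ A.n1 * g * A.n1 ∈ X := by rw [mem_cjs, n1_inv]
theorem mem_cjs8 {g : G} {X : Subgroup G} : g ∈ cjs A.n8 X ↔ A.n8 * g * A.n8 ∈ X := by rw [mem_cjs, n8_inv]
theorem cj1_mem {g : G} {X : Subgroup G} (h : g ∈ X) : A.n1 * g * A.n1 ∈ cjs A.n1 X := by
  rwa [mem_cjs1, n1_cj]
theorem cj8_mem {g : G} {X : Subgroup G} (h : g ∈ X) : A.n8 * g * A.n8 ∈ cjs A.n8 X := by
  rwa [mem_cjs8, n8_cj]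
theorem cjs11 (X : Subgroup G) : cjs A.n1 (cjs A.n1 X) = X := by ext; rw [mem_cjs1, mem_cjs1, n1_cj]
theorem cjs88 (X : Subgroup G) : cjs A.n8 (cjs A.n8 X) = X := by ext; rw [mem_cjs8, mem_cjs8, n8_cj]
theorem ns1 {g : G} {X : Subgroup G} (h : A.n1 ∈ Ns X) (hg : g ∈ X) : A.n1 * g * A.n1 ∈ X := by
  simpa only [n1_inv] using cj_mem h hg
theorem ns8 {g : G} {X : Subgroup G} (h : A.n8 ∈ Ns X) (hg : g ∈ X) : A.n8 * g * A.n8 ∈ X := by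
  simpa only [n8_inv] using cj_mem h hg
theorem cjs1_im {X Y : Subgroup (Co T)} (hX : X ≤ sQ1 T) (hY : Y ≤ sQ1 T) (h : ∀ c ∈ X, c.nu1 ∈ Y)
    (h' : ∀ c ∈ Y, c.nu1 ∈ X) : cjs A.n1 (A.im X) = A.im Y := by
  ext g
  rw [mem_cjs1]
  constructor
  · rintro ⟨c, hc, e⟩
    exact ⟨_, h c hc, by rw [← A.n1_conj c (hX hc), e, n1_cj]⟩
  · rintro ⟨c, hc, rfl⟩
    exact ⟨_, h' c hc, (A.n1_conj c (hY hc)).symm⟩
theorem cjs8_im {X Y : Subgroup (Co T)} (hX : X ≤ sQ T) (hY : Y ≤ sQ T) (h : ∀ c ∈ X, c.nu8 ∈ Y)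
    (h' : ∀ c ∈ Y, c.nu8 ∈ X) : cjs A.n8 (A.im X) = A.im Y := by
  ext g
  rw [mem_cjs8]
  constructor
  · rintro ⟨c, hc, e⟩
    exact ⟨_, h c hc, by rw [← A.n8_conj c (hX hc), e, n8_cj]⟩
  · rintro ⟨c, hc, rfl⟩
    exact ⟨_, h' c hc, (A.n8_conj c (hY hc)).symm⟩
theorem cjs1_Z : cjs A.n1 (A.im (sZ T)) = A.im (sZ6 T) :=
  cjs1_im A (fun c => by simp_all) (fun c => by simp_all) (fun c => by simp_all [Co.nu1])
    (fun c => by simp_all [Co.nu1])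
theorem cjs8_Z6 : cjs A.n8 (A.im (sZ6 T)) = A.im (sZ2 T) :=
  cjs8_im A (fun c => by simp_all) (fun c => by simp_all) (fun c => by simp_all [Co.nu8])
    (fun c => by simp_all [Co.nu8])
theorem cjs1_Z2 : cjs A.n1 (A.im (sZ2 T)) = A.im (sZ8 T) :=
  cjs1_im A (fun c => by simp_all) (fun c => by simp_all) (fun c => by simp_all [Co.nu1])
    (fun c => by simp_all [Co.nu1])
theorem cjs1_Q1 : cjs A.n1 (A.im (sQ1 T)) = A.im (sQ1 T) :=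
  cjs1_im A le_rfl le_rfl (fun c => by simp_all [Co.nu1]) (fun c => by simp_all [Co.nu1])
theorem cjs1_W : cjs A.n1 (A.im (sW T)) = A.im (sW T) :=
  cjs1_im A (fun c => by simp_all) (fun c => by simp_all) (fun c => by simp_all [Co.nu1])
    (fun c => by simp_all [Co.nu1])
theorem cjs1_A : cjs A.n1 (A.im (sA T)) = A.im (sA T) :=
  cjs1_im A (fun c => by simp_all) (fun c => by simp_all) (fun c => by simp_all [Co.nu1])
    (fun c => by simp_all [Co.nu1])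
theorem cjs1_A7 : cjs A.n1 (A.im (sA7 T)) = A.im (sA7 T) :=
  cjs1_im A (fun c => by simp_all) (fun c => by simp_all) (fun c => by simp_all [Co.nu1])
    (fun c => by simp_all [Co.nu1])
theorem cjs1_U37 : cjs A.n1 (A.im (sU37 T)) = A.im (sU37 T) :=
  cjs1_im A (fun c => by simp_all) (fun c => by simp_all) (fun c => by simp_all [Co.nu1])
    (fun c => by simp_all [Co.nu1])

theorem n1_y2 (c : K) : A.n1 * A.ι (y2 T c) * A.n1 = A.ι (y8 T c) := by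
  rw [A.n1_conj _ (by simp)]; congr 1; ext <;> simp [Co.nu1]
theorem n1_x2 (c : K) : A.n1 * A.ι (x2 T c) * A.n1 = A.ι (x8 T c) := by
  rw [A.n1_conj _ (by simp)]; congr 1; ext <;> simp [Co.nu1]
theorem n1_x3 (c : K) : A.n1 * A.ι (x3 T c) * A.n1 = A.ι (x7 T c) := by
  rw [A.n1_conj _ (by simp)]; congr 1; ext <;> simp [Co.nu1]
theorem n1_y4 (c : K) : A.n1 * A.ι (y4 T c) * A.n1 = A.ι (y6 T c) := by
  rw [A.n1_conj _ (by simp)]; congr 1; ext <;> simp [Co.nu1]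
theorem n1_x4 (c : K) : A.n1 * A.ι (x4 T c) * A.n1 = A.ι (x6 T c) := by
  rw [A.n1_conj _ (by simp)]; congr 1; ext <;> simp [Co.nu1]
theorem n1_x5 (c : K) : A.n1 * A.ι (x5 T c) * A.n1 = A.ι (x5 T c) := by
  rw [A.n1_conj _ (by simp)]; congr 1; ext <;> simp [Co.nu1]
theorem n1_y6 (c : K) : A.n1 * A.ι (y6 T c) * A.n1 = A.ι (y4 T c) := by
  rw [A.n1_conj _ (by simp)]; congr 1; ext <;> simp [Co.nu1]
theorem n1_x6 (c : K) : A.n1 * A.ι (x6 T c) * A.n1 = A.ι (x4 T c) := by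
  rw [A.n1_conj _ (by simp)]; congr 1; ext <;> simp [Co.nu1]
theorem n1_x7 (c : K) : A.n1 * A.ι (x7 T c) * A.n1 = A.ι (x3 T c) := by
  rw [A.n1_conj _ (by simp)]; congr 1; ext <;> simp [Co.nu1]
theorem n1_y8 (c : K) : A.n1 * A.ι (y8 T c) * A.n1 = A.ι (y2 T c) := by
  rw [A.n1_conj _ (by simp)]; congr 1; ext <;> simp [Co.nu1]
theorem n1_x8 (c : K) : A.n1 * A.ι (x8 T c) * A.n1 = A.ι (x2 T c) := by
  rw [A.n1_conj _ (by simp)]; congr 1; ext <;> simp [Co.nu1]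
theorem n8_x1 (c : K) : A.n8 * A.ι (x1 T c) * A.n8 = A.ι (x7 T c) := by
  rw [A.n8_conj _ (by simp)]; congr 1; ext <;> simp [Co.nu8]
theorem n8_y2 (c : K) : A.n8 * A.ι (y2 T c) * A.n8 = A.ι (y6 T c) := by
  rw [A.n8_conj _ (by simp)]; congr 1; ext <;> simp [Co.nu8]
theorem n8_x2 (c : K) : A.n8 * A.ι (x2 T c) * A.n8 = A.ι (x6 T c) := by
  rw [A.n8_conj _ (by simp)]; congr 1; ext <;> simp [Co.nu8]
theorem n8_x3 (c : K) : A.n8 * A.ι (x3 T c) * A.n8 = A.ι (x5 T c) := by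
  rw [A.n8_conj _ (by simp)]; congr 1; ext <;> simp [Co.nu8]
theorem n8_y4 (c : K) : A.n8 * A.ι (y4 T c) * A.n8 = A.ι (y4 T c) := by
  rw [A.n8_conj _ (by simp)]; congr 1; ext <;> simp [Co.nu8]
theorem n8_x4 (c : K) : A.n8 * A.ι (x4 T c) * A.n8 = A.ι (x4 T c) := by
  rw [A.n8_conj _ (by simp)]; congr 1; ext <;> simp [Co.nu8]
theorem n8_x5 (c : K) : A.n8 * A.ι (x5 T c) * A.n8 = A.ι (x3 T c) := by
  rw [A.n8_conj _ (by simp)]; congr 1; ext <;> simp [Co.nu8]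
theorem n8_y6 (c : K) : A.n8 * A.ι (y6 T c) * A.n8 = A.ι (y2 T c) := by
  rw [A.n8_conj _ (by simp)]; congr 1; ext <;> simp [Co.nu8]
theorem n8_x6 (c : K) : A.n8 * A.ι (x6 T c) * A.n8 = A.ι (x2 T c) := by
  rw [A.n8_conj _ (by simp)]; congr 1; ext <;> simp [Co.nu8]
theorem n8_x7 (c : K) : A.n8 * A.ι (x7 T c) * A.n8 = A.ι (x1 T c) := by
  rw [A.n8_conj _ (by simp)]; congr 1; ext <;> simp [Co.nu8]
theorem h_x1 (p : Kˣ × Kˣ) (c : K) : A.h p * A.ι (x1 T c) * (A.h p)⁻¹ =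
    A.ι (x1 T (p.1 * c)) := by
  rw [A.tor.h_conj]; congr 1; ext <;> simp
theorem h_y2 (p : Kˣ × Kˣ) (c : K) : A.h p * A.ι (y2 T c) * (A.h p)⁻¹ =
    A.ι (y2 T (p.1 * p.2 * c)) := by
  rw [A.tor.h_conj]; congr 1; ext <;> simp
theorem h_x2 (p : Kˣ × Kˣ) (c : K) : A.h p * A.ι (x2 T c) * (A.h p)⁻¹ =
    A.ι (x2 T ((p.1 : K) * T.σ p.1 * (p.2 * T.σ p.2) * c)) := by
  rw [A.tor.h_conj]; congr 1; ext <;> simp
theorem h_x3 (p : Kˣ × Kˣ) (c : K) : A.h p * A.ι (x3 T c) * (A.h p)⁻¹ =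
    A.ι (x3 T ((p.1 : K) * T.σ p.1 * (p.2 ^ 2 * T.σ p.2) * c)) := by
  rw [A.tor.h_conj]; congr 1; ext <;> simp
theorem h_y4 (p : Kˣ × Kˣ) (c : K) : A.h p * A.ι (y4 T c) * (A.h p)⁻¹ =
    A.ι (y4 T (T.σ p.1 * (p.2 * T.σ p.2) * c)) := by
  rw [A.tor.h_conj]; congr 1; ext <;> simp
theorem h_x4 (p : Kˣ × Kˣ) (c : K) : A.h p * A.ι (x4 T c) * (A.h p)⁻¹ =
    A.ι (x4 T (p.1 ^ 2 * T.σ p.1 * (p.2 ^ 3 * T.σ p.2 ^ 2) * c)) := by
  rw [A.tor.h_conj]; congr 1; ext <;> simp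
theorem h_x5 (p : Kˣ × Kˣ) (c : K) : A.h p * A.ι (x5 T c) * (A.h p)⁻¹ =
    A.ι (x5 T ((p.1 : K) * T.σ p.1 * (p.2 ^ 2 * T.σ p.2 ^ 2) * c)) := by
  rw [A.tor.h_conj]; congr 1; ext <;> simp
theorem h_y6 (p : Kˣ × Kˣ) (c : K) : A.h p * A.ι (y6 T c) * (A.h p)⁻¹ =
    A.ι (y6 T (p.1 * (p.2 * T.σ p.2) * c)) := by
  rw [A.tor.h_conj]; congr 1; ext <;> simp
theorem h_x6 (p : Kˣ × Kˣ) (c : K) : A.h p * A.ι (x6 T c) * (A.h p)⁻¹ =
    A.ι (x6 T ((p.1 : K) * T.σ p.1 * (p.2 ^ 3 * T.σ p.2 ^ 2) * c)) := by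
  rw [A.tor.h_conj]; congr 1; ext <;> simp
theorem h_x7 (p : Kˣ × Kˣ) (c : K) : A.h p * A.ι (x7 T c) * (A.h p)⁻¹ =
    A.ι (x7 T (p.1 * (p.2 ^ 2 * T.σ p.2) * c)) := by
  rw [A.tor.h_conj]; congr 1; ext <;> simp
theorem h_y8 (p : Kˣ × Kˣ) (c : K) : A.h p * A.ι (y8 T c) * (A.h p)⁻¹ =
    A.ι (y8 T (p.2 * c)) := by
  rw [A.tor.h_conj]; congr 1; ext <;> simp
theorem h_x8 (p : Kˣ × Kˣ) (c : K) : A.h p * A.ι (x8 T c) * (A.h p)⁻¹ =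
    A.ι (x8 T (p.2 * T.σ p.2 * c)) := by
  rw [A.tor.h_conj]; congr 1; ext <;> simp

theorem n1_eq : A.n1 = A.ι (x1 T 1) * (A.n1 * A.ι (x1 T 1) * A.n1) * A.ι (x1 T 1) := by
  have := A.rank1
  rw [pow_three] at this
  calc A.n1 = A.n1 * (A.n1 * A.ι (x1 T 1) * (A.n1 * A.ι (x1 T 1) * (A.n1 * A.ι (x1 T 1)))) := by
        rw [this, mul_one]
    _ = _ := by simp only [mul_assoc, n1_n1]

end Im

section CjGen
variable {G : Type*} [Group G] {g x t : G} {X Y N : Subgroup G}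

theorem cjs_mono (h : X ≤ Y) : cjs g X ≤ cjs g Y := map_mono h
theorem cjs_sup : cjs g (X ⊔ Y) = cjs g X ⊔ cjs g Y := Subgroup.map_sup _ _ _
theorem cjs_bot : cjs g (⊥ : Subgroup G) = ⊥ := Subgroup.map_bot _
theorem cjs_ns : cjs g (Ns X) = Ns (cjs g X) := by
  ext y
  refine ⟨by rintro ⟨x, hx, rfl⟩; exact mem_ns_cjs hx, fun h => mem_cjs.2 (mem_normalizer_iff.2 fun z => ?_)⟩
  have := mem_normalizer_iff.1 h (g * z * g⁻¹)
  rw [mem_cjs, mem_cjs] at this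
  convert this using 2 <;> group
theorem cjs_cm : cjs g (Cm X N) = Cm (cjs g X) (cjs g N) := by
  ext y
  rw [mem_cjs, mem_Cm, mem_Cm, ← cjs_ns, mem_cjs]
  refine and_congr_right fun _ => ⟨?_, fun h z hz => ?_⟩
  · rintro h _ ⟨z, hz, rfl⟩
    have := h z hz
    rw [mem_cjs]
    convert this using 1
    simp only [commutatorElement_def, MulEquiv.toMonoidHom_eq_coe, MonoidHom.coe_coe, MulAut.conj_apply]
    group
  · have := mem_cjs.1 (h _ (cj_mem_cjs hz))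
    convert this using 1
    simp only [commutatorElement_def]; group
theorem cs_cj (h : X ≤ Cs Y) : cjs g X ≤ Cs (cjs g Y) := cjs_cs (g := g) (Y := Y) ▸ cjs_mono h
theorem ns_cj (h : X ≤ Ns Y) : cjs g X ≤ Ns (cjs g Y) := cjs_ns (g := g) (X := Y) ▸ cjs_mono h
theorem cm_cj (h : X ≤ Cm Y N) : cjs g X ≤ Cm (cjs g Y) (cjs g N) := cjs_cm (g := g) (X := Y) ▸ cjs_mono h
theorem cs_anti (h : X ≤ Y) : Cs Y ≤ Cs X := centralizer_le h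
theorem cm_anti (h : X ≤ Y) : Cm Y N ≤ Cm X N := fun g hg => ⟨hg.1, fun y hy => hg.2 y (h hy)⟩
theorem cm_le_ns : Cm X N ≤ Ns N := fun g hg => hg.1
theorem cm_of_cs (h1 : g ∈ Ns N) (h2 : g ∈ Cs X) : g ∈ Cm X N := ⟨h1, fun y hy => by
  rw [commutatorElement_eq_one_iff_mul_comm.2 (mem_Cs.1 h2 y hy).symm]; exact one_mem _⟩
theorem cm_self (h : g ∈ Ns N) : g ∈ Cm N N := ⟨h, fun y hy => comm_mem_left h hy⟩
theorem cm_sup (hX : X ≤ Ns N) (hY : Y ≤ Ns N) (h1 : g ∈ Cm X N) (h2 : g ∈ Cm Y N) : g ∈ Cm (X ⊔ Y) N := by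
  rw [sup_eq_closure]
  exact mem_cm_closure h1.1 (by
    rintro s (hs | hs)
    exacts [⟨hX hs, h1.2 s hs⟩, ⟨hY hs, h2.2 s hs⟩])
/-- symmetry of `⁅X, Y⁆ ≤ N` -/
theorem cm_symm (h : X ≤ Cm Y N) (hY : Y ≤ Ns N) : Y ≤ Cm X N := fun y hy => ⟨hY hy, fun x hx => by
  rw [← commutatorElement_inv]; exact inv_mem ((h hx).2 y hy)⟩
theorem ns_of_cm [Finite G] (h : g ∈ Cm X N) (hle : N ≤ X) : g ∈ Ns X := mem_ns_of fun y hy => by
  have := mul_mem (hle (h.2 y hy)) hy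
  simpa [commutatorElement_def] using this
theorem ns_sup_of [Finite G] (hg : g ∈ Ns N) (h : ∀ x ∈ X, ⁅g, x⁆ ∈ X ⊔ N) : g ∈ Ns (X ⊔ N) :=
  mem_ns_of fun y hy => by
    have : X ⊔ N ≤ (X ⊔ N).comap (MulAut.conj g).toMonoidHom := sup_le (fun x hx => by
      have := mul_mem (h x hx) (mem_sup_left hx : x ∈ X ⊔ N)
      simpa [commutatorElement_def] using this) fun n hn => mem_sup_right (cj_mem hg hn)
    exact this hy
theorem fpf [Finite G] {P N₀ : Subgroup G} {h : G} (hn : h ∈ Ns P) (hf : P ⊓ Cz h = ⊥) (h1 : P ≤ Ns N)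
    (h2 : P ≤ Ns N₀) (hh : h ∈ Cm N N₀) : P ≤ Cm N N₀ := fun p hp => by
  obtain ⟨p', hp', rfl⟩ := surj_of_fpf hn hf p hp
  exact mul_mem (cj_mem_cm (h1 hp') (h2 hp') hh) (inv_mem hh)
theorem comm_eq_one_of_cs (h : g ∈ Cs X) (hx : x ∈ X) : ⁅g, x⁆ = 1 :=
  commutatorElement_eq_one_iff_mul_comm.2 (mem_Cs.1 h x hx).symm
theorem comm_eq_one_of_cs' (h : g ∈ Cs X) (hx : x ∈ X) : ⁅x, g⁆ = 1 :=
  commutatorElement_eq_one_iff_mul_comm.2 (mem_Cs.1 h x hx)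
theorem cj_eq_of_cs (h : g ∈ Cs X) (hx : x ∈ X) : g * x * g⁻¹ = x := by rw [← mem_Cs.1 h x hx]; group
theorem cj_eq_of_cs' (h : g ∈ Cs X) (hx : x ∈ X) : x * g * x⁻¹ = g := by rw [mem_Cs.1 h x hx]; group
theorem comm_mul_right (a b c : G) : ⁅a, b * c⁆ = ⁅a, b⁆ * (b * ⁅a, c⁆ * b⁻¹) := by
  simp only [commutatorElement_def]; group
theorem comm_mul_left (a b c : G) : ⁅a * b, c⁆ = a * ⁅b, c⁆ * a⁻¹ * ⁅a, c⁆ := by
  simp only [commutatorElement_def]; group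
theorem comm_inv_right (a b : G) : ⁅a, b⁻¹⁆ = b⁻¹ * ⁅a, b⁆⁻¹ * b := by
  simp only [commutatorElement_def]; group
theorem cj_eq (a b : G) : a * b * a⁻¹ = ⁅a, b⁆ * b := by simp only [commutatorElement_def]; group
theorem mem_up (ht : Inv2 t) : g ∈ Up t Y ↔ g ∈ Ns Y ∧ ⁅t, g⁆ ∈ Y := by
  rw [mem_Up, commutatorElement_def, Inv2.inv_eq ht]; simp only [mul_assoc]
theorem mem_zp_sup (ht : t * t = 1) (hn : t ∈ Ns Y) : g ∈ zpowers t ⊔ Y ↔ g ∈ Y ∨ t * g ∈ Y := by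
  constructor
  · intro h
    obtain ⟨_, ⟨k, rfl⟩, y, hy, rfl⟩ := (mem_sup_ns (zpowers_le.2 hn)).1 h
    have h2 : t ^ (2 : ℤ) = 1 := by rw [zpow_two, ht]
    rcases Int.even_or_odd' k with ⟨j, rfl | rfl⟩
    · left; simpa [zpow_mul, h2] using hy
    · right; simpa [zpow_add, zpow_mul, h2, ← mul_assoc, ht] using hy
  · rintro (h | h)
    · exact mem_sup_right h
    · have := mul_mem_sup (mem_zpowers t) h
      rwa [← mul_assoc, ht, one_mul] at this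
theorem t_cj (ht : Inv2 t) (g : G) : g * t * g⁻¹ = t * ⁅t, g⁆ := by
  simp only [commutatorElement_def, Inv2.inv_eq ht, ← mul_assoc, ht.1, one_mul]
theorem cj_t (ht : Inv2 t) (g : G) : t * g * t = ⁅t, g⁆ * g := by
  simp only [commutatorElement_def, Inv2.inv_eq ht, inv_mul_cancel_right]
theorem Db.sq1 {X Y : Subgroup G} (h : Db t ⊥ X Y) {y : G} (hy : y ∈ Y) : y * y = 1 := mem_bot.1 (h.sq y hy)
theorem Db.inv1 {X Y : Subgroup G} (h : Db t ⊥ X Y) {y : G} (hy : y ∈ Y) : y⁻¹ = y :=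
  inv_eq_of_mul_eq_one_right (h.sq1 hy)
theorem Db.ab {X Y : Subgroup G} (h : Db t ⊥ X Y) : Y ≤ Cs Y := fun y hy => mem_Cs.2 fun x hx =>
  commutatorElement_eq_one_iff_mul_comm.1 (mem_bot.1 (h.comm hx hy))
theorem Db.phi1 {X Y : Subgroup G} (ht : Inv2 t) (h : Db t ⊥ X Y) {y : G} (hy : y ∈ Y) : ⁅t, y⁆ ∈ X := by
  simpa using h.phi_mem ht hy
theorem Db.phi_mul1 {X Y : Subgroup G} (h : Db t ⊥ X Y) {y y' : G} (hy : y ∈ Y) (hy' : y' ∈ Y) :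
    ⁅t, y * y'⁆ = ⁅t, y⁆ * ⁅t, y'⁆ := mul_inv_eq_one.1 (mem_bot.1 (h.phi_mul hy hy'))
theorem Db.onto1 {X Y : Subgroup G} (h : Db t ⊥ X Y) {x : G} (hx : x ∈ X) : ∃ y ∈ Y, ⁅t, y⁆ = x := by
  obtain ⟨y, hy, e⟩ := h.onto x hx
  exact ⟨y, hy, mul_inv_eq_one.1 (mem_bot.1 e)⟩
theorem Db.fix1 {X Y : Subgroup G} (h : Db t ⊥ X Y) {y : G} (hy : y ∈ Y) (hc : y ∈ Cz t) : y ∈ X := by
  simpa using h.fix y hy (mem_bot.2 (comm_eq_one_iff.2 hc))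
theorem Db.fr [Finite G] {X Y : Subgroup G} (ht : Inv2 t) (h : Db t ⊥ X Y) : Fr t X Y := h.ext ht fr_bot bot_le
theorem Db.cj1 {X Y : Subgroup G} (hg : g ∈ Cz t) (h : Db t ⊥ X Y) : Db t ⊥ (cjs g X) (cjs g Y) := by
  simpa only [cjs_bot] using h.cj hg
theorem Fr.fix0 [Finite G] {X Y : Subgroup G} {h : G} (ht : Inv2 t) (hf : Fr t X Y) (hh : h ∈ Cz t)
    (hd : X ⊓ Cz h = ⊥) : Y ⊓ Cz h = ⊥ := fr_bot.self ht bot_le hf.two.to_inf_left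
    (ns_inf hf.tY (ns_cz' (mem_Cz.1 hh).symm))
    fun y hy => hd ▸ mem_inf.2 ⟨hf.mem hy.1.1 hy.2, hy.1.2⟩
theorem triv_of [Finite G] (ht : Inv2 t) (h2 : IsPGroup 2 Y) (hn : t ∈ Ns Y) (h : ∀ y ∈ Y, y ∈ Cz t → y = 1) :
    Y = ⊥ := fr_bot.self ht bot_le h2 hn fun y hy => mem_bot.2 (h y hy.1 hy.2)

end CjGen

section Cf
variable {K : Type*} [Field K] [Fintype K] [CharP K 2] {T : TF K} {G : Type*} [Group G] [Finite G]
  {A : AD T G} {t : G} {O : Subgroup G}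

theorem Cf0.ct (h : Cf0 A t O) : A.G0 ≤ Cz t := fun g hg => mem_Cz.2 (mem_Cs.1 h.cen g hg)
theorem Cf0.n1t (h : Cf0 A t O) : A.n1 ∈ Cz t := h.ct (n1_mem A)
theorem Cf0.n8t (h : Cf0 A t O) : A.n8 ∈ Cz t := h.ct (n8_mem A)
theorem Cf0.imt (h : Cf0 A t O) (X : Subgroup (Co T)) : A.im X ≤ Cz t := (im_le A X).trans h.ct
theorem Cf0.Ht (h : Cf0 A t O) : A.h.range ≤ Cz t := (H_le A).trans h.ct
theorem Cf0.TTt (h : Cf0 A t O) (i : ℕ) : TT A i ≤ Cz t := (TT_le A i).trans h.ct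
theorem Cf0.Ct (h : Cf0 A t O) : A.C ≤ Cz t := (C_le A).trans h.ct
theorem Cf0.t_cs (h : Cf0 A t O) {X : Subgroup G} (hX : X ≤ A.G0) : t ∈ Cs X := cs_anti hX h.cen
theorem Cf0.t_ns (h : Cf0 A t O) {X : Subgroup G} (hX : X ≤ A.G0) : t ∈ Ns X := cs_le_ns (h.t_cs hX)

theorem LB.two_im (h : LB A) (X : Subgroup (Co T)) : IsPGroup 2 (A.im X) := h.twoU.to_le (im_le_S A X)
theorem LB.oddT (h : LB A) (i : ℕ) : Odd (Nat.card (TT A i)) :=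
  h.oddH.of_dvd_nat (card_dvd_of_le (TT_le_H A i))
theorem LB.CN (h : LB A) {X : Subgroup (Co T)} (hX : X ∈ [sZ T, sV T, sR T, sQ T]) : A.C ≤ Ns (A.im X) :=
  h.bc.nor X hX
theorem LB.CZ (h : LB A) : A.C ≤ Cs (A.im (sZ T)) := fun g hg => mem_Cs.2 (by
  rintro _ ⟨c, hc, rfl⟩
  rw [eq_x4 hc]
  exact (h.bc.cenZ g hg _).symm)
theorem LB.T4C (h : LB A) : TT A 4 ≤ A.C := by
  rw [h.tt4]; rintro _ ⟨p, rfl⟩; exact A.h0_mem p
/-- a nontrivial element of `TT A i` is fixed point free on a subgroup of `U` meeting `U_i` trivially -/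
theorem LB.fp (h : LB A) {i : ℕ} {k : G} (hk : k ∈ TT A i) (h1 : k ≠ 1) {X : Subgroup (Co T)}
    (hX : ∀ c ∈ X, c ∈ sU T i → c = 1) : A.im X ⊓ Cz k = ⊥ := eq_bot_iff.2 (by
  rintro _ ⟨⟨c, hc, rfl⟩, h2⟩
  have : A.ι c ∈ A.im (sU T i) := h.cU i k hk h1 ▸ mem_inf.2 ⟨⟨c, rfl⟩, h2⟩
  rw [hX c hc ((ι_mem_im A).1 this), map_one]
  exact one_mem _)
theorem LB.memT (h : LB A) {i : ℕ} {g : G} (hg : g ∈ A.S) (h2 : g ∈ Cs (TT A i)) : g ∈ A.im (sU T i) :=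
  h.cT i ▸ mem_inf.2 ⟨hg, h2⟩
theorem H0.tL (h : H0 A t) : t ∉ A.G0 := by simpa using h.lt.nT 1

end Cf

end H65.SR
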