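/- STD-R (S3323): jobs A1 and A1c. -/
import Cfsg.Agent.H65.SRAux
import Cfsg.Agent.Rz.H65_SR_wt_eq_8
import Cfsg.Agent.Rz.H65_SR_sU_eq_8

set_option autoImplicit false
set_option linter.unusedSectionVars false
set_option linter.unusedVariables false
set_option linter.unusedSimpArgs false

open Subgroup H63.Oc H64.SG
open scoped commutatorElement

universe u v

namespace H65.SR

attribute [-simp] Subgroup.mem_map

variable {K : Type*} [Field K] [Fintype K] [CharP K 2] {T : TF K} {G : Type*} [Group G] [Finite G]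
  {A : AD T G} {t : G}

theorem mem_N2 {g : G} : g ∈ N2 A t ↔ g ∈ Cm A.C (A.im (sQ T)) ∧ g ∈ Cm (A.im (sQ T)) (A.im (sV T)) ∧
    g ∈ Cm (A.im (sV T)) (A.im (sZ T)) ∧ g ∈ Cs (A.im (sZ T)) ∧ g ∈ Up t (A.im (sZ T)) := by
  simp only [N2, mem_inf, and_assoc]

theorem co_QQ {c d : Co T} (hc : c ∈ sQ T) (hd : d ∈ sQ T) : ⁅c, d⁆ ∈ sV T := by
  simp_all [commutatorElement_def]; grind
theorem co_QV {c d : Co T} (hc : c ∈ sQ T) (hd : d ∈ sV T) : ⁅c, d⁆ ∈ sZ T := by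
  simp_all [commutatorElement_def]; grind

theorem LB.Q_cm_QV (h : LB A) : A.im (sQ T) ≤ Cm (A.im (sQ T)) (A.im (sV T)) := fun g hg =>
  ⟨h.CN (by simp) (im_le_C A _ hg), by
    obtain ⟨c, hc, rfl⟩ := hg
    rintro _ ⟨d, hd, rfl⟩
    rw [ι_comm, ι_mem_im]; exact co_QQ hc hd⟩
theorem LB.Q_cm_VZ (h : LB A) : A.im (sQ T) ≤ Cm (A.im (sV T)) (A.im (sZ T)) := fun g hg =>
  ⟨h.CN (by simp) (im_le_C A _ hg), by
    obtain ⟨c, hc, rfl⟩ := hg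
    rintro _ ⟨d, hd, rfl⟩
    rw [ι_comm, ι_mem_im]; exact co_QV hc hd⟩
theorem Z_le_V : A.im (sZ T) ≤ A.im (sV T) := im_mono A fun c => by simp_all
theorem V_le_R : A.im (sV T) ≤ A.im (sR T) := im_mono A fun c => by simp_all
theorem R_le_Q : A.im (sR T) ≤ A.im (sQ T) := im_mono A fun c => by simp_all
theorem V_le_Q : A.im (sV T) ≤ A.im (sQ T) := V_le_R.trans R_le_Q
theorem Z_le_Q : A.im (sZ T) ≤ A.im (sQ T) := Z_le_V.trans V_le_Q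
theorem Z_sq {z : G} (hz : z ∈ A.im (sZ T)) : z * z = 1 := by
  obtain ⟨c, hc, rfl⟩ := hz
  rw [← map_mul, ι_eq_one]; ext <;> simp_all [CharTwo.add_self_eq_zero]

namespace H0
variable (h : H0 A t)
include h

theorem n2_ns {g : G} (hg : g ∈ Cz t) (hC : g ∈ Ns A.C) : g ∈ Ns (N2 A t) := by
  have hZ := h.lt.nC (sZ T) (by simp) hC
  have hV := h.lt.nC (sV T) (by simp) hC
  have hQ := h.lt.nC (sQ T) (by simp) hC
  exact ns_inf (ns_inf (ns_inf (ns_inf (ns_cm hC hQ) (ns_cm hQ hV)) (ns_cm hV hZ)) (ns_cs hZ)) (ns_up hg hZ)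

theorem t_N2 : t ∈ N2 A t := mem_N2.2
  ⟨cm_of_cs (h.cf.t_ns (im_le A _)) (h.cf.t_cs (C_le A)),
    cm_of_cs (h.cf.t_ns (im_le A _)) (h.cf.t_cs (im_le A _)),
    cm_of_cs (h.cf.t_ns (im_le A _)) (h.cf.t_cs (im_le A _)), h.cf.t_cs (im_le A _),
    (mem_up h.cf.inv).2 ⟨h.cf.t_ns (im_le A _), by simp⟩⟩

theorem Q_N2 : A.im (sQ T) ≤ N2 A t := fun g hg => mem_N2.2
  ⟨⟨le_normalizer hg, fun c hc => comm_mem_right (h.la.CN (by simp) hc) hg⟩, h.la.Q_cm_QV hg,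
    h.la.Q_cm_VZ hg, h.la.CZ (im_le_C A _ hg), (mem_up h.cf.inv).2
      ⟨h.la.CN (by simp) (im_le_C A _ hg), by rw [comm_eq_one_iff.2 (h.cf.imt _ hg)]; exact one_mem _⟩⟩

theorem n2_phi {g : G} (hg : g ∈ N2 A t) : ⁅t, g⁆ ∈ A.im (sZ T) := ((mem_up h.cf.inv).1 (mem_N2.1 hg).2.2.2.2).2

theorem n2_phi_mul {g g' : G} (hg : g ∈ N2 A t) (hg' : g' ∈ N2 A t) : ⁅t, g * g'⁆ = ⁅t, g⁆ * ⁅t, g'⁆ := by
  rw [comm_mul_right, cj_eq_of_cs (mem_N2.1 hg).2.2.2.1 (h.n2_phi hg')]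

theorem n2_fix {g : G} (hg : g ∈ N2 A t) (hc : g ∈ Cz t) : g ∈ zpowers t ⊔ A.im (sQ T) :=
  (mem_zp_sup h.cf.inv.1 (h.cf.t_ns (im_le A _))).2
    (h.lt.cvz g hc (mem_N2.1 hg).2.2.1 (mem_N2.1 hg).2.2.2.1)

theorem two_tQ : IsPGroup 2 (zpowers t ⊔ A.im (sQ T) : Subgroup G) :=
  two_sup (two_zp h.cf.inv.1) (h.la.two_im _) (zpowers_le.2 (h.cf.t_ns (im_le A _)))

theorem n2_two : IsPGroup 2 (N2 A t) := two_of_is2 fun y hy => by
  obtain ⟨k, hk⟩ := is2_of_mem h.two_tQ (h.n2_fix (mul_mem hy hy) (comm_eq_one_iff.1 (by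
    rw [h.n2_phi_mul hy hy, Z_sq (h.n2_phi hy)])))
  exact ⟨k + 1, by rw [pow_succ', pow_mul, pow_two, hk]⟩

theorem n2_onto {z : G} (hz : z ∈ A.im (sZ T)) : ∃ y ∈ N2 A t, ⁅t, y⁆ = z := by
  obtain ⟨g, hg, hgt⟩ := h.lt.mv2
  obtain ⟨c, hc, e⟩ := h.n2_phi hg
  obtain ⟨d, hd, rfl⟩ := hz
  by_cases h0 : d.a4 = 0
  · exact ⟨1, one_mem _, by rw [eq_x4 hd, h0, x4_zero]; simp⟩
  have h1 : c.a4 ≠ 0 := fun e1 => hgt (comm_eq_one_iff.1 (by rw [← e, eq_x4 hc, e1, x4_zero, map_one]))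
  obtain ⟨p, hp⟩ := h.la.cl4 _ h1
  obtain ⟨p', hp'⟩ := h.la.cl4 _ h0
  have hm : (A.h p')⁻¹ * A.h p ∈ A.h.range := mul_mem (inv_mem ⟨p', rfl⟩) ⟨p, rfl⟩
  refine ⟨_, cj_mem (h.n2_ns (h.cf.Ht hm) (h.la.hC hm)) hg, ?_⟩
  rw [comm_cj (h.cf.Ht hm), ← e, eq_x4 hc, eq_x4 hd]
  calc _ = (A.h p')⁻¹ * (A.h p * A.ι (x4 T c.a4) * (A.h p)⁻¹) * A.h p' := by group
    _ = _ := by rw [hp, ← hp']; group

end H0

/-- the centraliser of the Suzuki torus in `N2` -/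
def YY (A : AD T G) (t : G) : Subgroup G := N2 A t ⊓ Cs (TT A 4)

namespace H0
variable (h : H0 A t)
include h

theorem yy_onto {z : G} (hz : z ∈ A.im (sZ T)) : ∃ y ∈ YY A t, ⁅t, y⁆ = z := by
  obtain ⟨y, hy, rfl⟩ := h.n2_onto hz
  have hle : zpowers t ⊔ A.im (sQ T) ≤ N2 A t := sup_le (zpowers_le.2 h.t_N2) h.Q_N2
  have hn : ∀ k ∈ TT A 4, k ∈ Ns (N2 A t) := fun k hk => h.n2_ns (h.cf.TTt 4 hk) (le_normalizer (h.la.T4C hk))
  obtain ⟨w, hw, h1⟩ := cop' (H := TT A 4) (y := y) h.two_tQ (h.la.oddT 4)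
    (fun k hk => ns_sup (cs_le_ns (mem_Cs.2 fun x hx => by
      obtain ⟨n, rfl⟩ := hx
      exact (Commute.zpow_right (mem_Cz.1 (h.cf.TTt 4 hk)) n).symm)) (h.la.CN (by simp) (h.la.T4C hk)))
    fun k hk => h.n2_fix (comm_mem_left (hn k hk) hy) (comm_eq_one_iff.1 (by
      rw [commutatorElement_def k, h.n2_phi_mul (cj_mem (hn k hk) hy) (inv_mem hy),
        comm_cj (h.cf.TTt 4 hk), cj_eq_of_cs (h.la.CZ (h.la.T4C hk)) hz, ← h.n2_phi_mul hy (inv_mem hy)]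
      simp))
  refine ⟨w * y, mem_inf.2 ⟨mul_mem (hle hw) hy, h1⟩, ?_⟩
  rw [h.n2_phi_mul (hle hw) hy, comm_eq_one_iff.2 (sup_le (zpowers_le.2 (mem_Cz.2 rfl)) (h.cf.imt _) hw),
    one_mul]

theorem yy_fix {y : G} (hy : y ∈ YY A t) (hc : y ∈ Cz t) : y ∈ A.im (sU4 T) ∨ t * y ∈ A.im (sU4 T) := by
  refine ((mem_zp_sup h.cf.inv.1 (h.cf.t_ns (im_le A _))).1 (h.n2_fix hy.1 hc)).imp
    (fun h1 => h.la.memT (i := 4) (im_le_S A _ h1) hy.2) fun h1 => h.la.memT (i := 4) (im_le_S A _ h1) ?_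
  exact mul_mem (h.cf.t_cs (TT_le A 4)) (mem_inf.1 hy).2

theorem tz_nsq {z : G} (hz : z ∈ A.im (sZ T)) (y : G) : y * y ≠ t * z := by
  obtain ⟨g, -, rfl⟩ := h.n2_onto hz
  rw [← t_cj h.cf.inv]
  exact h.lt.nsq g y

theorem n2_sq_cm {y : G} (hy : y ∈ N2 A t) : y * y ∈ Cm (A.im (sQ T)) (A.im (sZ T)) := by
  obtain ⟨-, h2, h3, h4, -⟩ := mem_N2.1 hy
  refine ⟨mul_mem h3.1 h3.1, fun q hq => ?_⟩
  have hv := h2.2 q hq
  rw [comm_mul_left, cj_eq, mul_assoc]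
  refine mul_mem (h3.2 _ hv) ?_
  obtain ⟨c, hc, e⟩ := hv
  rw [← e, ← map_mul, ι_mem_im]
  simp_all [CharTwo.add_self_eq_zero]

theorem yy_sq {y : G} (hy : y ∈ YY A t) : y * y ∈ A.im (sZ T) := by
  have key : ∀ u ∈ A.im (sU4 T), u ∈ Cm (A.im (sQ T)) (A.im (sZ T)) → u ∈ A.im (sZ T) := fun u hu h1 => by
    have : u ∈ A.im (sV T) := h.la.qq ▸ mem_inf.2 ⟨im_mono A (fun c => by simp_all) hu, h1⟩
    obtain ⟨c, hc, rfl⟩ := hu
    simp_all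
  have h1 := h.n2_sq_cm hy.1
  rcases h.yy_fix (mul_mem hy hy) (comm_eq_one_iff.1 (by
    rw [h.n2_phi_mul hy.1 hy.1, Z_sq (h.n2_phi hy.1)])) with h2 | h2
  · exact key _ h2 h1
  · refine absurd ?_ (h.tz_nsq (key _ h2 (mul_mem ?_ h1)) y)
    · rw [← mul_assoc, h.cf.inv.1, one_mul]
    · exact cm_of_cs (h.cf.t_ns (im_le A _)) (h.cf.t_cs (im_le A _))

theorem Z_yy : A.im (sZ T) ≤ YY A t := le_inf (Z_le_Q.trans h.Q_N2) (cs_symm (h.la.T4C.trans h.la.CZ))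
theorem t_yy : t ∈ YY A t := mem_inf.2 ⟨h.t_N2, h.cf.t_cs (TT_le A 4)⟩
theorem U4_yy : A.im (sU4 T) ≤ YY A t :=
  le_inf ((im_mono A fun c => by simp_all).trans h.Q_N2) (cs_symm (h.la.ttU 4))
theorem yy_cZ : YY A t ≤ Cs (A.im (sZ T)) := fun y hy => (mem_N2.1 hy.1).2.2.2.1

theorem yy_comm {y y' : G} (hy : y ∈ YY A t) (hy' : y' ∈ YY A t) : ⁅y, y'⁆ ∈ A.im (sZ T) := by
  have := mul_mem (mul_mem (h.yy_sq (mul_mem hy hy')) (cj_mem' (cs_le_ns (h.yy_cZ hy'))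
    (h.yy_sq (inv_mem hy)))) (h.yy_sq (inv_mem hy'))
  convert this using 1
  simp only [commutatorElement_def]; group

theorem yy_nsH : A.h.range ≤ Ns (YY A t) := fun k hk =>
  ns_inf (h.n2_ns (h.cf.Ht hk) (h.la.hC hk)) (ns_cs (cs_le_ns (H_cs A (TT_le_H A 4) hk)))

theorem yy_ns8 : A.n8 ∈ Ns (YY A t) :=
  ns_inf (h.n2_ns h.cf.n8t (le_normalizer A.n8_mem)) (ns_cs (ns_of_cjs_eq (h.la.tt8 4 (by norm_num) (by norm_num))))

end H0

theorem exists_mu (T : TF K) (hK : 8 ≤ Fintype.card K) : ∃ a₂ a₃ : Kˣ,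
    1 + (a₂ : K) ^ 2 * T.σ a₂ + (a₃ : K) ^ 2 * T.σ a₃ = 0 ∧ 1 + T.σ a₂ + T.σ a₃ ≠ 0 := by
  obtain ⟨s, hs⟩ := exists_s (T := T) hK
  have h0 : s ≠ 0 := by rintro rfl; simp at hs
  obtain ⟨m, hm⟩ := nu_surj T (1 + s * T.σ s)
  have hm0 : m ≠ 0 := by
    rintro rfl
    have : s * T.σ s = 1 := by grind
    rw [nu_eq_one this] at hs
    simp at hs
  obtain ⟨a, ha⟩ := sig_surj T s
  obtain ⟨b, hb⟩ := sig_surj T m
  have ha0 : a ≠ 0 := by rintro rfl; simp at ha; exact h0 ha.symm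
  have hb0 : b ≠ 0 := by rintro rfl; simp at hb; exact hm0 hb.symm
  refine ⟨Units.mk0 a ha0, Units.mk0 b hb0, ?_, ?_⟩
  · simp only [Units.val_mk0]
    rw [← T.sq, ← T.sq, ha, hb]; grind
  · simp only [Units.val_mk0, ha, hb]
    intro e
    have e1 : m = 1 + s := by grind
    rw [e1, map_add, map_one] at hm
    exact hs (by grind)

/-- the operator `1 + h₂ + h₃` -/
def FF (k k' y : G) : G := y * (k * y * k⁻¹) * (k' * y * k'⁻¹)

theorem H0.ff_mul (h : H0 A t) {k k' y y' : G} (hk : k ∈ A.h.range) (hk' : k' ∈ A.h.range)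
    (hy : y ∈ YY A t) (hy' : y' ∈ YY A t) :
    FF k k' (y * y') * (FF k k' y * FF k k' y')⁻¹ ∈ A.im (sZ T) := by
  haveI : ((A.im (sZ T)).subgroupOf (YY A t)).Normal :=
    (normal_subgroupOf_iff_le_normalizer h.Z_yy).2 (h.yy_cZ.trans cs_le_ns)
  let π := QuotientGroup.mk' ((A.im (sZ T)).subgroupOf (YY A t))
  have hc : ∀ a b : YY A t, π a * π b = π b * π a := fun a b => by
    rw [← commutatorElement_eq_one_iff_mul_comm, ← map_commutatorElement]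
    exact (QuotientGroup.eq_one_iff _).2 (h.yy_comm a.2 b.2)
  let a1 : YY A t := ⟨y, hy⟩
  let a2 : YY A t := ⟨_, cj_mem (h.yy_nsH hk) hy⟩
  let a3 : YY A t := ⟨_, cj_mem (h.yy_nsH hk') hy⟩
  let b1 : YY A t := ⟨y', hy'⟩
  let b2 : YY A t := ⟨_, cj_mem (h.yy_nsH hk) hy'⟩
  let b3 : YY A t := ⟨_, cj_mem (h.yy_nsH hk') hy'⟩
  have : π (a1 * b1 * (a2 * b2) * (a3 * b3) * (a1 * a2 * a3 * (b1 * b2 * b3))⁻¹) = 1 := by
    rw [map_mul, map_inv, mul_inv_eq_one]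
    simp only [map_mul, mul_assoc]
    rw [← mul_assoc (π b1), hc b1, mul_assoc, ← mul_assoc (π b2), hc b2, mul_assoc,
      ← mul_assoc (π b1), hc b1 a3, mul_assoc]
  have := (QuotientGroup.eq_one_iff _).1 this
  rw [mem_subgroupOf] at this
  convert this using 1
  simp only [FF, a1, a2, a3, b1, b2, b3, coe_mul, InvMemClass.coe_inv]
  group

theorem jobA1 : JobA1.{u, v} := by
  intro kit K _ _ _ T G _ _ A t h
  obtain ⟨a₂, a₃, e1, e2⟩ := exists_mu T h.cf.card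
  set k := A.h (a₂, 1) with hk
  set k' := A.h (a₃, 1) with hk'
  have mk : k ∈ A.h.range := ⟨_, rfl⟩
  have mk' : k' ∈ A.h.range := ⟨_, rfl⟩
  have fm : ∀ y ∈ YY A t, FF k k' y ∈ YY A t := fun y hy =>
    mul_mem (mul_mem hy (cj_mem (h.yy_nsH mk) hy)) (cj_mem (h.yy_nsH mk') hy)
  have fι : ∀ c, FF k k' (A.ι c) = A.ι (c * dg T a₂ 1 c * dg T a₃ 1 c) := fun c => by
    rw [FF, A.tor.h_conj, A.tor.h_conj, map_mul, map_mul]; rfl
  have ft : FF k k' t = t := by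
    rw [FF, mem_Cz.1 (h.cf.Ht mk), mem_Cz.1 (h.cf.Ht mk')]
    simp [h.cf.inv.1]
  let A' : Subgroup G :=
    { carrier := {y | y ∈ YY A t ∧ FF k k' y ∈ A.im (sZ T)}
      one_mem' := ⟨one_mem _, by simp [FF]⟩
      mul_mem' := fun {a b} ha hb => ⟨mul_mem ha.1 hb.1, by
        simpa only [inv_mul_cancel_right] using mul_mem (h.ff_mul mk mk' ha.1 hb.1) (mul_mem ha.2 hb.2)⟩
      inv_mem' := fun {a} ha => ⟨inv_mem ha.1, by
        have := h.ff_mul mk mk' ha.1 (inv_mem ha.1)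
        rw [mul_inv_cancel, show FF k k' 1 = 1 by simp [FF], one_mul, inv_mem_iff] at this
        exact (mul_mem_cancel_left ha.2).1 this⟩ }
  have mA : ∀ y, y ∈ A' ↔ y ∈ YY A t ∧ FF k k' y ∈ A.im (sZ T) := fun _ => Iff.rfl
  have hZ : A.im (sZ T) ≤ A' := fun z hz => ⟨h.Z_yy hz, by
    have := h.la.hN (sZ T) (by simp)
    exact mul_mem (mul_mem hz (cj_mem (this mk) hz)) (cj_mem (this mk') hz)⟩
  have hcj : ∀ g ∈ Ns (YY A t), g ∈ Ns (A.im (sZ T)) → g * k = k * g → g * k' = k' * g → g ∈ Ns A' :=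
    fun g h1 h2 h3 h4 => mem_ns_of fun y hy => ⟨cj_mem h1 hy.1, by
      have := cj_mem h2 hy.2
      have e3 : k = g * k * g⁻¹ := by rw [h3]; group
      have e4 : k' = g * k' * g⁻¹ := by rw [h4]; group
      convert this using 1
      conv_lhs => rw [e3, e4]
      simp only [FF]; group⟩
  have fU : ∀ c ∈ sU4 T, (c * dg T a₂ 1 c * dg T a₃ 1 c).b4 = (1 + T.σ a₂ + T.σ a₃) * c.b4 := fun c hc => by
    simp_all; ring
  have fU' : ∀ c ∈ sU4 T, c * dg T a₂ 1 c * dg T a₃ 1 c ∈ sU4 T := fun c hc => by simp_all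
  refine ⟨A', hZ, fun y hy => hy.1.1, h.n2_two.to_le fun y hy => hy.1.1, fun z hz => ?_,
    le_antisymm (fun y hy => ?_) (le_inf hZ (h.cf.imt _)), fun a ha => h.yy_sq ha.1,
    fun g hg => hcj g (h.yy_nsH hg) (h.la.hN (sZ T) (by simp) hg) (H_comm A hg mk) (H_comm A hg mk'),
    hcj _ h.yy_ns8 (h.la.CN (by simp) A.n8_mem)
      (mem_Cs.1 h.la.tt88 _ (h_mem_TT A (by simp [wt]))).symm
      (mem_Cs.1 h.la.tt88 _ (h_mem_TT A (by simp [wt]))).symm, fun y hy => hy.1.2⟩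
  · obtain ⟨y, hy, rfl⟩ := h.yy_onto hz
    have hF : FF k k' y ∈ Cz t := comm_eq_one_iff.1 (by
      have n2 := cj_mem (h.yy_nsH mk) hy
      have n3 := cj_mem (h.yy_nsH mk') hy
      obtain ⟨c, hc, e⟩ := hz
      rw [FF, h.n2_phi_mul (mul_mem hy n2).1 n3.1, h.n2_phi_mul hy.1 n2.1, comm_cj (h.cf.Ht mk),
        comm_cj (h.cf.Ht mk'), ← e, ← FF, fι, ι_eq_one]
      ext <;> simp_all
      grind)
    -- an element `m` of `⟨t⟩ U₄` with `F m ≡ F y`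
    have key : ∀ u ∈ A.im (sU4 T), ∃ m ∈ A.im (sU4 T), u * FF k k' m ∈ A.im (sZ T) := by
      rintro _ ⟨c, hc, rfl⟩
      refine ⟨A.ι (y4 T (c.b4 / (1 + T.σ a₂ + T.σ a₃))), by simp, ?_⟩
      rw [fι, ← map_mul, ι_mem_im]
      have b1 := fU (y4 T (c.b4 / (1 + T.σ a₂ + T.σ a₃))) (by simp)
      have b2 := fU' (y4 T (c.b4 / (1 + T.σ a₂ + T.σ a₃))) (by simp)
      rw [y4_b4, mul_div_cancel₀ _ e2] at b1
      generalize y4 T _ * dg T _ 1 _ * dg T _ 1 _ = d at b1 b2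
      simp_all [CharTwo.add_self_eq_zero]
    rcases h.yy_fix (fm y hy) hF with h1 | h1
    · obtain ⟨m, hm, h2⟩ := key _ h1
      refine ⟨y * m, ⟨mul_mem hy (h.U4_yy hm), ?_⟩, ?_⟩
      · simpa only [inv_mul_cancel_right] using mul_mem (h.ff_mul mk mk' hy (h.U4_yy hm)) h2
      · rw [h.n2_phi_mul hy.1 (h.U4_yy hm).1, comm_eq_one_iff.2 (h.cf.imt _ hm), mul_one]
    · obtain ⟨m, hm, h2⟩ := key _ h1
      have hty := mul_mem h.t_yy hy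
      refine ⟨t * y * m, ⟨mul_mem hty (h.U4_yy hm), ?_⟩, ?_⟩
      · have b1 := h.ff_mul mk mk' hty (h.U4_yy hm)
        have b2 := h.ff_mul mk mk' h.t_yy hy
        rw [ft] at b2
        have := mul_mem (mul_mem b1 b2) h2
        convert this using 1; group
      · rw [h.n2_phi_mul hty.1 (h.U4_yy hm).1, comm_eq_one_iff.2 (h.cf.imt _ hm), mul_one,
          h.n2_phi_mul h.t_N2 hy.1]
        simp
  · obtain ⟨⟨hy, hF⟩, hc⟩ := hy
    rcases h.yy_fix hy hc with ⟨c, h1, rfl⟩ | ⟨c, h1, e⟩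
    · rw [fι, ι_mem_im] at hF
      have := fU c h1
      rw [hF.2.2.2.2.1, eq_comm, mul_eq_zero] at this
      have := this.resolve_left e2
      simp_all
    · exfalso
      have e' : y = t * A.ι c := by rw [e, ← mul_assoc, h.cf.inv.1, one_mul]
      have b1 := h.ff_mul mk mk' h.t_yy (h.U4_yy ⟨c, h1, rfl⟩)
      rw [← e', ft, fι] at b1
      have b2 := (mul_mem_cancel_left (im_le A _ hF)).1 (im_le A _ b1)
      exact h.tL ((mul_mem_cancel_right (ι_mem A _)).1 (inv_mem_iff.1 b2))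

end H65.SR
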