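/- STD-R (S3323): job A1c, subtori. -/
import Cfsg.Agent.H65.SRA1

set_option autoImplicit false
set_option linter.unusedSectionVars false
set_option linter.unusedVariables false
set_option linter.unusedSimpArgs false

open Subgroup H63.Oc H64.SG
open scoped commutatorElement

universe u v

namespace H65.SR

attribute [-simp] Subgroup.mem_map

/-- the elements normalising `N` and centralising `a` modulo `N` -/
def Cl {G : Type*} [Group G] (a : G) (N : Subgroup G) : Subgroup G where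
  carrier := {y | y ∈ Ns N ∧ ⁅a, y⁆ ∈ N}
  one_mem' := ⟨one_mem _, by simp⟩
  mul_mem' := fun {x y} hx hy => ⟨mul_mem hx.1 hy.1, by
    rw [comm_mul_right]; exact mul_mem hx.2 (cj_mem hx.1 hy.2)⟩
  inv_mem' := fun {x} hx => ⟨inv_mem hx.1, by
    rw [comm_inv_right]; exact cj_mem' hx.1 (inv_mem hx.2)⟩

theorem mem_Cl {G : Type*} [Group G] {a y : G} {N : Subgroup G} : y ∈ Cl a N ↔ y ∈ Ns N ∧ ⁅a, y⁆ ∈ N := Iff.rfl

theorem comm_cj2 {G : Type*} [Group G] {k c : G} (h : k * c = c * k) (a : G) :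
    ⁅k * a * k⁻¹, c⁆ = k * ⁅a, c⁆ * k⁻¹ := by
  have e : k * c * k⁻¹ = c := by rw [h]; group
  rw [conjugate_commutatorElement, e]

theorem comm_cj_right {G : Type*} [Group G] (a c q : G) :
    ⁅a, c * q * c⁻¹⁆ = c * ⁅⁅c⁻¹, a⁆ * a, q⁆ * c⁻¹ := by
  simp only [commutatorElement_def]; group

section Tori
variable {K : Type*} [Field K] [Fintype K] [CharP K 2] (T : TF K)

/-- the torus `TT 7` -/
theorem exT7 {μ : K} (hμ : μ ≠ 0) : ∃ p : Kˣ × Kˣ, (p.1 : K) * (p.2 ^ 2 * T.σ p.2) = 1 ∧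
    T.σ p.1 * (p.2 * T.σ p.2) = μ ∧ (p.1 : K) ^ 2 * T.σ p.1 * (p.2 ^ 3 * T.σ p.2 ^ 2) = μ * T.σ μ ∧
    (p.1 : K) * T.σ p.1 * (p.2 * T.σ p.2) = μ * T.σ μ ∧ (p.1 : K) * T.σ p.1 * (p.2 ^ 2 * T.σ p.2) = μ ^ 2 ∧
    (p.1 : K) * T.σ p.1 * (p.2 ^ 2 * T.σ p.2 ^ 2) = T.σ μ ∧
    (p.1 : K) * T.σ p.1 * (p.2 ^ 3 * T.σ p.2 ^ 2) = μ := by
  obtain ⟨b, hb⟩ := nu_surj T μ⁻¹
  have hb0 : b ≠ 0 := by rintro rfl; exact inv_ne_zero hμ (by simpa using hb.symm)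
  have hs := sig_ne (T := T) hb0
  obtain rfl : μ = (b * T.σ b)⁻¹ := by rw [hb, inv_inv]
  refine ⟨(Units.mk0 (b ^ 2 * T.σ b)⁻¹ (by positivity), Units.mk0 b hb0), ?_⟩
  simp only [Units.val_mk0, map_inv₀, map_mul, map_pow, T.sq]
  refine ⟨?_, ?_, ?_, ?_, ?_, ?_, ?_⟩ <;> field_simp

/-- the torus `TT 1` -/
theorem exT1 {μ : K} (hμ : μ ≠ 0) : ∃ b : Kˣ, (b : K) * T.σ b = μ ∧ (b : K) ^ 2 * T.σ b = T.σ μ ∧
    (b : K) ^ 2 * T.σ b ^ 2 = μ ^ 2 ∧ (b : K) ^ 3 * T.σ b ^ 2 = μ * T.σ μ := by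
  obtain ⟨b, rfl⟩ := nu_surj T μ
  refine ⟨Units.mk0 b (left_ne_zero_of_mul hμ), ?_⟩
  simp only [Units.val_mk0, map_mul, T.sq]
  refine ⟨trivial, ?_, ?_, ?_⟩ <;> ring

/-- the torus `TT 6` -/
theorem exT6 {μ : K} (hμ : μ ≠ 0) : ∃ p : Kˣ × Kˣ, (p.1 : K) * (p.2 * T.σ p.2) = 1 ∧
    (p.1 : K) * p.2 = T.σ μ ∧ (p.1 : K) ^ 2 * T.σ p.1 * (p.2 ^ 3 * T.σ p.2 ^ 2) = μ * T.σ μ := by
  have hs := sig_ne (T := T) hμ
  refine ⟨(Units.mk0 (μ * T.σ μ) (by positivity), Units.mk0 μ⁻¹ (by positivity)), ?_⟩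
  simp only [Units.val_mk0, map_inv₀, map_mul, map_pow, T.sq]
  refine ⟨?_, ?_, ?_⟩ <;> field_simp

theorem exU {μ : K} (hμ : μ ≠ 0) : ∃ a : Kˣ, T.σ a = μ := by
  obtain ⟨a, rfl⟩ := sig_surj T μ
  exact ⟨Units.mk0 a (by rintro rfl; simp at hμ), rfl⟩

end Tori

variable {K : Type*} [Field K] [Fintype K] [CharP K 2] {T : TF K} {G : Type*} [Group G] [Finite G]
  {A : AD T G} {t : G} {A' : Subgroup G}

/-- the coordinate of `⁅t, a⁆` in `Z` -/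
noncomputable def ee (A : AD T G) (t a : G) : K := (co A ⁅t, a⁆).a4

theorem ee_spec {a : G} (h : ⁅t, a⁆ ∈ A.im (sZ T)) : ⁅t, a⁆ = A.ι (x4 T (ee A t a)) := by
  rw [ee, ← eq_x4 (co_mem A h), ι_co A (im_le_S A _ h)]

namespace SA1
variable (h : H0 A t) (s : SA1 A t A')
include h s

theorem ee_mul {a a' : G} (ha : a ∈ A') (ha' : a' ∈ A') : ee A t (a * a') = ee A t a + ee A t a' := by
  rw [ee, h.n2_phi_mul (s.n2 ha) (s.n2 ha'), ee_spec (h.n2_phi (s.n2 ha)), ee_spec (h.n2_phi (s.n2 ha')),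
    ← map_mul, co_ι]
  simp

theorem ee_onto (e : K) : ∃ a ∈ A', ee A t a = e := by
  obtain ⟨a, ha, h1⟩ := s.onto (A.ι (x4 T e)) (by simp)
  exact ⟨a, ha, by rw [ee, h1, co_ι, x4_a4]⟩

theorem ee_ker {a : G} (ha : a ∈ A') (e : ee A t a = 0) : a ∈ A.im (sZ T) :=
  s.fix ▸ mem_inf.2 ⟨ha, comm_eq_one_iff.1 (by rw [ee_spec (h.n2_phi (s.n2 ha)), e, x4_zero, map_one])⟩

theorem ee_h {a : G} (ha : a ∈ A') (p : Kˣ × Kˣ) : ee A t (A.h p * a * (A.h p)⁻¹) =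
    (p.1 : K) ^ 2 * T.σ p.1 * (p.2 ^ 3 * T.σ p.2 ^ 2) * ee A t a := by
  rw [ee, comm_cj (h.cf.Ht ⟨p, rfl⟩), co_h A (im_le_S A _ (h.n2_phi (s.n2 ha)))]
  rfl

theorem vanish {c : G} (hc : c ∈ A.C) (h8 : c ∈ Cs (TT A 8)) (f : Co T → K)
    (f1 : ∀ c ∈ sQ T, ∀ d ∈ sQ T, f (c * d) = f c + f d) (f2 : ∀ c ∈ sV T, f c = 0)
    (f3 : ∀ (a : K) c, f (dg T a 1 c) = T.σ a * f c) : ∀ a ∈ A', f (co A ⁅a, c⁆) = 0 := by
  obtain ⟨σ₀, hs⟩ := exists_s (T := T) h.cf.card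
  have hq : ∀ a ∈ A', ⁅a, c⁆ ∈ A.im (sQ T) := fun a ha => (mem_N2.1 (s.n2 ha)).1.2 c hc
  refine par1 hs (RingHom.id K) (φ := ee A t) (fun a ha a' ha' => s.ee_mul h ha ha')
    (fun a ha a' ha' => ?_) (s.ee_onto h) (fun a ha e => ?_) fun μ hμ a ha => ?_
  · obtain ⟨q, h1, e1⟩ := hq a ha
    obtain ⟨q', h2, e2⟩ := hq a' ha'
    obtain ⟨v, h3, e3⟩ := (mem_N2.1 (s.n2 ha)).2.1.2 _ (hq a' ha')
    have h4 : v ∈ sQ T := by simp_all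
    rw [comm_mul_left, cj_eq, ← e3, ← e2, ← e1, ← map_mul, ← map_mul, co_ι, co_ι, co_ι,
      f1 _ (mul_mem h4 h2) _ h1, f1 _ h4 _ h2, f2 v h3]
    ring
  · rw [comm_eq_one_of_cs' (h.la.CZ hc) (s.ee_ker h ha e), ← map_one A.ι, co_ι]
    exact f2 _ (one_mem _)
  · obtain ⟨a₀, rfl⟩ := exU T hμ
    refine ⟨_, cj_mem (s.nH ⟨(a₀, 1), rfl⟩) ha, ?_, ?_⟩
    · rw [s.ee_h h ha]; simp [T.sq, mul_comm]
    · rw [comm_cj2 (mem_Cs.1 h8 _ (h_mem_TT A (by simp [wt]))), co_h A (im_le_S A _ (hq a ha))]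
      exact f3 _ _

theorem comm_V {c : G} (hc : c ∈ A.C) (h8 : c ∈ Cs (TT A 8)) {a : G} (ha : a ∈ A') :
    ⁅a, c⁆ ∈ A.im (sV T) := by
  have e1 := s.vanish h hc h8 (fun c => T.σ c.a1) (by simp) (by simp +contextual) (by simp) a ha
  have e2 := s.vanish h hc h8 (fun c => T.σ c.b2) (by simp +contextual) (by simp +contextual) (by simp) a ha
  have e3 := s.vanish h hc h8 (fun c => c.b4) (by simp +contextual) (by simp +contextual) (by simp) a ha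
  have e4 := s.vanish h hc h8 (fun c => T.σ c.b6) (by simp +contextual) (by simp +contextual) (by simp) a ha
  have e5 := s.vanish h hc h8 (fun c => T.σ c.a7) (by simp +contextual) (by simp +contextual) (by simp) a ha
  obtain ⟨q, h1, e⟩ := (mem_N2.1 (s.n2 ha)).1.2 c hc
  rw [← e, co_ι] at e1 e2 e3 e4 e5
  rw [← e]
  clear e
  simp_all

theorem cC : A' ≤ Cm A.C (A.im (sV T)) := fun a ha => by
  have hV : A.C ≤ Ns (A.im (sV T)) := h.la.CN (by simp)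
  have h1 := (mem_N2.1 (s.n2 ha)).2.1
  rw [h.la.genC]
  refine cm_sup ((im_le_C A _).trans hV) (sup_le ((im_le_C A _).trans hV) (zpowers_le.2 (hV A.n8_mem))) h1
    (cm_sup ((im_le_C A _).trans hV) (zpowers_le.2 (hV A.n8_mem))
      ⟨h1.1, fun c hc => s.comm_V h (im_le_C A _ hc) (cs_symm (h.la.ttU 8) hc) ha⟩ ?_)
  rw [zpowers_eq_closure]
  exact mem_cm_closure h1.1 (by
    rintro _ rfl
    exact ⟨hV A.n8_mem, s.comm_V h A.n8_mem h.la.tt88 ha⟩)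

theorem cl_inv {a c q : G} (ha : a ∈ A') (hc : c ∈ A.C) (hq : q ∈ A.im (sQ T))
    (h1 : ⁅a, q⁆ ∈ A.im (sZ T)) : ⁅a, c * q * c⁻¹⁆ ∈ A.im (sZ T) := by
  have hZ : A.C ≤ Ns (A.im (sZ T)) := h.la.CN (by simp)
  have hv : ⁅c⁻¹, a⁆ ∈ A.im (sV T) := by
    rw [← commutatorElement_inv]; exact inv_mem ((s.cC h ha).2 _ (inv_mem hc))
  rw [comm_cj_right, comm_mul_left]
  refine cj_mem (hZ hc) (mul_mem (cj_mem (hZ (im_le_C A _ hv)) h1) ?_)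
  rw [← commutatorElement_inv]
  exact inv_mem ((h.la.Q_cm_VZ hq).2 _ hv)

theorem x7_Z {a : G} (ha : a ∈ A') : ⁅a, A.ι (x7 T 1)⁆ ∈ A.im (sZ T) := by
  obtain ⟨σ₀, hs⟩ := exists_s (T := T) h.cf.card
  have hv : ∀ a ∈ A', ⁅a, A.ι (x7 T 1)⁆ ∈ A.im (sV T) := fun a ha =>
    (mem_N2.1 (s.n2 ha)).2.1.2 _ (by simp)
  have e6 : ∀ a ∈ A', (co A ⁅a, A.ι (x7 T 1)⁆).a6 = 0 := by
    refine par1 hs (RingHom.id K) (φ := ee A t) (fun a ha a' ha' => s.ee_mul h ha ha')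
      (fun a ha a' ha' => ?_) (s.ee_onto h) (fun a ha e => ?_) fun μ hμ a ha => ?_
    · obtain ⟨q, h1, e1⟩ := hv a ha
      obtain ⟨q', h2, e2⟩ := hv a' ha'
      obtain ⟨v, h3, e3⟩ := (mem_N2.1 (s.n2 ha)).2.2.1.2 _ (hv a' ha')
      rw [comm_mul_left, cj_eq, ← e3, ← e2, ← e1, ← map_mul, ← map_mul, co_ι, co_ι, co_ι]
      simp_all [add_comm]
    · rw [comm_eq_one_of_cs' (h.la.CZ (A.ι_mem _)) (s.ee_ker h ha e), ← map_one A.ι, co_ι]; rfl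
    · obtain ⟨p, p7, -, p4, -, -, -, p6⟩ := exT7 T hμ
      refine ⟨_, cj_mem (s.nH ⟨p, rfl⟩) ha, by rw [s.ee_h h ha, p4], ?_⟩
      rw [comm_cj2 (mem_Cs.1 (h.la.ttU 7 (h_mem_TT A p7)) _ (by simp [sU])).symm,
        co_h A (im_le_S A _ (hv a ha)), dg_a6, p6]
      rfl
  have key : ∀ u ∈ sU8 T, ⁅A.ι u, ⁅a, A.ι (x7 T 1)⁆⁆ ∈ A.im (sZ T) := fun u hu => by
    have hw : ⁅A.ι u, a⁆ ∈ A.im (sV T) := by
      rw [← commutatorElement_inv]; exact inv_mem ((s.cC h ha).2 _ (A.ι_mem u))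
    have e : A.ι u * A.ι (x7 T 1) = A.ι (x7 T 1) * A.ι u := by
      rw [← map_mul, ← map_mul, ι_inj]; ext <;> simp_all
    rw [commutatorElement_def (A.ι u), ← comm_cj2 e, cj_eq (A.ι u) a, comm_mul_left]
    obtain ⟨w, h1, e1⟩ := hw
    obtain ⟨v, h2, e2⟩ := hv a ha
    rw [← e1, ← e2, ι_comm]
    simp only [← map_mul, ← map_inv, ι_mem_im]
    have := co_QV (c := x7 T 1) (by simp) h1
    rw [← commutatorElement_inv, inv_mem_iff] at this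
    generalize ⁅w, x7 T 1⁆ = z at this
    simp_all
    grind
  have k1 := key (x8 T 1) (by simp)
  have k2 := key (y8 T 1) (by simp)
  have k3 := e6 a ha
  obtain ⟨v, h2, e2⟩ := hv a ha
  rw [← e2] at k1 k2 k3 ⊢
  rw [ι_comm, ι_mem_im] at k1 k2
  rw [co_ι] at k3
  have b2 : v.a2 = 0 := by
    have := k1.2.2.2.2.2.1
    simp [commutatorElement_def, h2.1, h2.2.1, h2.2.2.1, h2.2.2.2.1, h2.2.2.2.2.1, h2.2.2.2.2.2] at this
    grind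
  have b3 : v.a3 = 0 := by
    have := k1.2.2.2.2.2.2.2.1
    simp [commutatorElement_def, h2.1, h2.2.1, h2.2.2.1, h2.2.2.2.1, h2.2.2.2.2.1, h2.2.2.2.2.2, b2] at this
    grind
  have b5 : v.a5 = 0 := by
    have := k2.2.2.2.2.2.2.2.1
    simp [commutatorElement_def, h2.1, h2.2.1, h2.2.2.1, h2.2.2.2.1, h2.2.2.2.2.1, h2.2.2.2.2.2, b2, b3] at this
    grind
  clear e2 k1 k2
  simp_all

theorem cQ : A' ≤ Cm (A.im (sQ T)) (A.im (sZ T)) := fun a ha => by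
  have hZ : A.C ≤ Ns (A.im (sZ T)) := h.la.CN (by simp)
  have h3 := (mem_N2.1 (s.n2 ha)).2.2.1
  have := h.la.irr (A.im (sQ T) ⊓ Cl a (A.im (sZ T)))
    (fun v hv => ⟨V_le_Q hv, hZ (im_le_C A _ hv), h3.2 v hv⟩) inf_le_left
    fun c hc => mem_ns_of fun q hq => ⟨cj_mem (h.la.CN (by simp) hc) hq.1,
      hZ (cj_mem (le_normalizer hc) (im_le_C A _ hq.1)), s.cl_inv h ha hc hq.1 hq.2.2⟩
  rcases this with h1 | h1
  · have := h1 (mem_inf.2 ⟨(by simp : A.ι (x7 T 1) ∈ _), hZ (A.ι_mem _), s.x7_Z h ha⟩)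
    simp at this
  · exact ⟨h3.1, fun q hq => (mem_inf.1 (h1.ge hq)).2.2⟩

end SA1

theorem jobA1c : JobA1c.{u, v} := fun kit K _ _ _ T G _ _ A t h A' s => ⟨s, s.cQ h, s.cC h⟩

end H65.SR
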