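/- STD-R (S3323): job A2. -/
import Cfsg.Agent.H65.SRA1c

set_option autoImplicit false
set_option linter.unusedSectionVars false
set_option linter.unusedVariables false
set_option linter.unusedSimpArgs false

open Subgroup H63.Oc H64.SG
open scoped commutatorElement

universe u v

namespace H65.SR

attribute [-simp] Subgroup.mem_map

/-- `U₅V₆` -/
def s56 {K : Type*} [Field K] [CharP K 2] (T : TF K) : Subgroup (Co T) where
  carrier := {c | c.a1 = 0 ∧ c.b2 = 0 ∧ c.a2 = 0 ∧ c.a3 = 0 ∧ c.b4 = 0 ∧ c.a4 = 0 ∧ c.b6 = 0 ∧ c.a7 = 0 ∧ c.b8 = 0 ∧ c.a8 = 0}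
  one_mem' := by simp
  mul_mem' := fun {c d} hc hd => by simp_all
  inv_mem' := fun {c} hc => by simp_all
@[simp] theorem mem_s56 {K : Type*} [Field K] [CharP K 2] {T : TF K} {c : Co T} : c ∈ s56 T ↔ c.a1 = 0 ∧ c.b2 = 0 ∧ c.a2 = 0 ∧ c.a3 = 0 ∧ c.b4 = 0 ∧ c.a4 = 0 ∧ c.b6 = 0 ∧ c.a7 = 0 ∧ c.b8 = 0 ∧ c.a8 = 0 := Iff.rfl

theorem cj_inv2 {G : Type*} [Group G] {n a x y : G} (hn : n * n = 1) (e : a * x * a⁻¹ = y) :
    n * a * n * (n * x * n) * (n * a * n)⁻¹ = n * y * n := by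
  have h1 : n⁻¹ = n := inv_eq_of_mul_eq_one_right hn
  have h2 : ∀ g, n * (n * g) = g := fun g => by rw [← mul_assoc, hn, one_mul]
  rw [← e]
  simp only [mul_inv_rev, h1, mul_assoc, h2]

theorem cj_mul2 {G : Type*} [Group G] (n : G) (hn : n * n = 1) (x y : G) :
    n * (x * y) * n = n * x * n * (n * y * n) := by
  have h2 : ∀ g, n * (n * g) = g := fun g => by rw [← mul_assoc, hn, one_mul]
  simp only [mul_assoc, h2]

theorem cj_cj {G : Type*} [Group G] (a b x : G) : a * b * x * (a * b)⁻¹ = a * (b * x * b⁻¹) * a⁻¹ := by group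

theorem commute_comm_eq_one {G : Type*} [Group G] {a b : G} (h : Commute a b) : ⁅a, b⁆ = 1 :=
  commutatorElement_eq_one_iff_commute.2 h

theorem commute_comm_right {G : Type*} [Group G] {z a b : G} (h : Commute z a) (h' : Commute z b) :
    Commute z ⁅a, b⁆ := ((h.mul_right h').mul_right h.inv_right).mul_right h'.inv_right

theorem comm_central {G : Type*} [Group G] {z z' c d : G} (c1 : Commute z c) (c2 : Commute z d)
    (c3 : Commute z' c) (c4 : Commute z' d) (c5 : Commute z z') : ⁅z * c, z' * d⁆ = ⁅c, d⁆ := by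
  have e1 : ⁅z * c, z' * d⁆ = z * c * (z' * d) * (c⁻¹ * z⁻¹) * (d⁻¹ * z'⁻¹) := by
    simp only [commutatorElement_def, mul_inv_rev]
  have e2 : z * c * (z' * d) * (c⁻¹ * z⁻¹) * (d⁻¹ * z'⁻¹) = z * (c * z' * d * c⁻¹) * z⁻¹ * (d⁻¹ * z'⁻¹) := by group
  have e3 : z * (c * z' * d * c⁻¹) * z⁻¹ = c * z' * d * c⁻¹ := by
    rw [(((c1.mul_right c5).mul_right c2).mul_right c1.inv_right).eq, mul_inv_cancel_right]
  have e4 : c * z' * d * c⁻¹ * (d⁻¹ * z'⁻¹) = z' * ⁅c, d⁆ * z'⁻¹ := by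
    rw [← c3.eq, commutatorElement_def]; group
  rw [e1, e2, e3, e4, (commute_comm_right c3 c4).eq, mul_inv_cancel_right]

theorem cs_of_perfect {G : Type*} [Group G] {C Z : Subgroup G} {a : G} (hp : ⁅C, C⁆ = C) (hZ : C ≤ Cs Z)
    (ha : ∀ c ∈ C, ⁅a, c⁆ ∈ Z) (hZ' : Z ≤ Cs Z) : a ∈ Cs C := by
  have : ⁅C, C⁆ ≤ Cz a := commutator_le.2 fun c hc d hd => comm_eq_one_iff.1 (by
    have e1 := mem_Cs.1 (hZ hc)
    have e2 := mem_Cs.1 (hZ hd)
    have z1 := ha c hc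
    have z2 := ha d hd
    rw [commutatorElement_def a, conjugate_commutatorElement, cj_eq, cj_eq, mul_inv_eq_one]
    exact comm_central (e1 _ z1) (e2 _ z1) (e1 _ z2) (e2 _ z2) (mem_Cs.1 (hZ' z2) _ z1))
  rw [hp] at this
  exact mem_Cs.2 fun c hc => mem_Cz.1 (this hc)

variable {K : Type*} [Field K] [Fintype K] [CharP K 2] {T : TF K} {G : Type*} [Group G] [Finite G]
  {A : AD T G} {t : G} {A' : Subgroup G}

theorem nf_Q {c : Co T} (hc : c ∈ sQ T) : c = x1 T c.a1 * y2 T c.b2 * x2 T c.a2 * x3 T c.a3 * y4 T c.b4 *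
    (x4 T c.a4 * x5 T c.a5 * y6 T c.b6 * x6 T c.a6 * x7 T c.a7) := by
  conv_lhs => rw [nf c, hc.1, hc.2, y8_zero, x8_zero]
  simp only [mul_assoc, mul_one]

theorem nf_R {c : Co T} (hc : c ∈ sR T) : c = x2 T c.a2 * x3 T c.a3 * y4 T c.b4 *
    x4 T c.a4 * x5 T c.a5 * x6 T c.a6 := by
  ext <;> simp_all

/-- the exotic form -/
noncomputable def JJ (A : AD T G) (a : G) (b : K) : K := (co A ⁅a, A.ι (y4 T b)⁆).a4

namespace SA2
variable (h : H0 A t) (s : SA2 A t A')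
include h s

theorem cZ : A' ≤ Cs (A.im (sZ T)) := fun a ha => (mem_N2.1 (s.n2 ha)).2.2.2.1

theorem cUi {X : Subgroup (Co T)} (hX : X ≤ sQ T) (hH : A.h.range ≤ Ns (A.im X))
    (h4 : ∀ c ∈ X, c ∈ sU T 4 → c = 1) : A' ≤ Cs (A.im X) := by
  obtain ⟨k, hk, k1⟩ := h.la.exT 4
  have := fpf (N := A') (N₀ := ⊥) (hH (TT_le_H A 4 hk)) (h.la.fp hk k1 h4)
    (fun u hu => ns_of_cm (cm_symm s.cQ ((im_le_C A _).trans (h.la.CN (by simp))) (im_mono A hX hu)) s.le)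
    (fun _ _ => le_normalizer_of_normal (mem_top _)) (cm_bot (Y := A') ▸ cs_symm s.cD hk)
  exact cs_symm (cm_bot (Y := A') ▸ this)

theorem cU {i : ℕ} (hi : i ∈ [1, 2, 3, 5, 6, 7]) {a : G} (ha : a ∈ A') {c : Co T} (hc : c ∈ sU T i) :
    A.ι c ∈ Cz a := by
  refine mem_Cz.2 (mem_Cs.1 (s.cUi h ?_ (h.la.hU i) ?_ ha) _ ⟨c, hc, rfl⟩) <;>
    simp only [List.mem_cons, List.not_mem_nil, or_false] at hi <;>
    rcases hi with rfl | rfl | rfl | rfl | rfl | rfl <;> intro c <;> simp +contextual [sU, Co.ext_iff]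

theorem c4 {a : G} (ha : a ∈ A') (c : K) : A.ι (x4 T c) ∈ Cz a := mem_Cz.2 (mem_Cs.1 (s.cZ h ha) _ (by simp))

theorem comm_y4 {a : G} (ha : a ∈ A') (b : K) : ⁅a, A.ι (y4 T b)⁆ = A.ι (x4 T (JJ A a b)) := by
  have := (s.cQ ha).2 (A.ι (y4 T b)) (by simp)
  rw [JJ, ← eq_x4 (co_mem A this), ι_co A (im_le_S A _ this)]

theorem comm_Q {a : G} (ha : a ∈ A') {c : Co T} (hc : c ∈ sQ T) : ⁅a, A.ι c⁆ = A.ι (x4 T (JJ A a c.b4)) := by
  have e1 : A.ι (x1 T c.a1 * y2 T c.b2 * x2 T c.a2 * x3 T c.a3) ∈ Cz a := by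
    simp only [map_mul]
    exact mul_mem (mul_mem (mul_mem (s.cU h (i := 1) (by simp) ha (by simp [sU]))
      (s.cU h (i := 2) (by simp) ha (by simp [sU]))) (s.cU h (i := 2) (by simp) ha (by simp [sU])))
      (s.cU h (i := 3) (by simp) ha (by simp [sU]))
  have e2 : A.ι (x4 T c.a4 * x5 T c.a5 * y6 T c.b6 * x6 T c.a6 * x7 T c.a7) ∈ Cz a := by
    simp only [map_mul]
    exact mul_mem (mul_mem (mul_mem (mul_mem (s.c4 h ha _)
      (s.cU h (i := 5) (by simp) ha (by simp [sU]))) (s.cU h (i := 6) (by simp) ha (by simp [sU])))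
      (s.cU h (i := 6) (by simp) ha (by simp [sU]))) (s.cU h (i := 7) (by simp) ha (by simp [sU]))
  conv_lhs => rw [nf_Q hc, map_mul, map_mul, comm_mul_right, comm_mul_right, comm_eq_one_iff.2 e1,
    comm_eq_one_iff.2 e2, s.comm_y4 h ha]
  rw [cj_eq_of_cs (h.la.CZ (A.ι_mem _)) (by simp)]
  simp

theorem JJ_zero {a : G} (ha : a ∈ A') : JJ A a 0 = 0 := by
  rw [JJ, y4_zero, map_one, commutatorElement_one_right, ← map_one A.ι, co_ι]; rfl

theorem rel {a : G} (ha : a ∈ A') {d w c : Co T} (e : A.ι w = ⁅a, A.ι d⁆) (hc : c ∈ sQ T) :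
    x4 T (JJ A a (d * c * d⁻¹).b4) * (d * c * d⁻¹) = w * (x4 T (JJ A a c.b4) * (d * c * d⁻¹)) * w⁻¹ := by
  have hq : d * c * d⁻¹ ∈ sQ T := by simp_all; grind
  apply A.inj
  rw [map_mul, ← s.comm_Q h ha hq, ← cj_eq]
  simp only [map_mul, map_inv]
  rw [← conj_mul, ← conj_mul, ← conj_inv, cj_eq a (A.ι d), cj_eq a (A.ι c), ← e, s.comm_Q h ha hc]
  have := cj_eq_of_cs (h.la.CZ (A.ι_mem d)) (x := A.ι (x4 T (JJ A a c.b4))) (by simp)
  conv_rhs => rw [← this]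
  group

theorem comm_U8 {a : G} (ha : a ∈ A') {d : Co T} (hd : d ∈ sU8 T) : ⁅a, A.ι d⁆ ∈ A.im (s56 T) := by
  have k1 : ∀ a ∈ A', ∀ d ∈ sU8 T, ⁅a, A.ι d⁆ ∈ A.im (sA T) := fun a ha d hd => by
    obtain ⟨w, hw, e⟩ := (s.cC ha).2 _ (A.ι_mem d)
    have r1 := congrArg Co.a4 (s.rel h ha e (c := x7 T 1) (by simp))
    have r2 := congrArg Co.a4 (s.rel h ha e (c := y6 T 1) (by simp))
    have j0 := s.JJ_zero h ha
    rw [← e, ι_mem_im]
    clear e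
    simp only [SetLike.mem_coe, mem_sV, mem_sU8] at hw hd
    simp [hw, hd, j0, CharTwo.add_self_eq_zero] at r1 r2 ⊢
    grind
  obtain ⟨k, hk, h1⟩ := h.la.exT 4
  have n1 : A.im (sU8 T) ≤ Ns (A.im (s56 T)) := im_ns A fun c hc d hd => by simp_all; grind
  have n2 : A' ≤ Cs (A.im (s56 T)) := s.cUi h (fun c => by simp +contextual)
    (by rintro _ ⟨p, rfl⟩
        refine mem_ns_of ?_
        rintro _ ⟨c, hc, rfl⟩
        rw [A.tor.h_conj]; simp_all) fun c => by simp +contextual [sU, Co.ext_iff]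
  have n3 : k ∈ Ns (A.im (s56 T)) := by
    obtain ⟨p, rfl⟩ := TT_le_H A 4 hk
    refine mem_ns_of ?_
    rintro _ ⟨c, hc, rfl⟩
    rw [A.tor.h_conj]; simp_all
  have := fpf (N := A' ⊔ A.im (s56 T)) (N₀ := A.im (s56 T)) (h.la.hU 8 (TT_le_H A 4 hk))
    (h.la.fp hk h1 fun c => by simp +contextual [sU, Co.ext_iff])
    (fun u hu => ns_sup_of (n1 hu) fun a ha => by
      obtain ⟨d, hd, rfl⟩ := hu
      obtain ⟨w, hw, e⟩ := k1 a ha d hd
      rw [← commutatorElement_inv, inv_mem_iff, ← e,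
        show w = x4 T w.a4 * (x5 T w.a5 * x6 T w.a6) by ext <;> simp_all, map_mul]
      exact mul_mem_sup (s.le (by simp)) ((ι_mem_im A).2 (by simp))) n1
    (cm_sup (n2.trans cs_le_ns) le_normalizer (cm_of_cs n3 (cs_symm s.cD hk)) (cm_self n3))
  rw [← commutatorElement_inv, inv_mem_iff]
  exact (this ⟨d, hd, rfl⟩).2 a (mem_sup_left ha)

theorem cj_x8 {a : G} (ha : a ∈ A') (b : K) :
    a * A.ι (x8 T b) * a⁻¹ = A.ι (x6 T (JJ A a b)) * A.ι (x8 T b) ∧ ∀ r, JJ A a (b * T.σ r) = JJ A a b * r := by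
  obtain ⟨w, hw, e⟩ := s.comm_U8 h ha (d := x8 T b) (by simp)
  have j0 := s.JJ_zero h ha
  have r1 := congrArg Co.a4 (s.rel h ha e (c := y2 T 1) (by simp))
  have r2 : ∀ r, JJ A a (b * T.σ r) = w.a6 * r := fun r => by
    have := congrArg Co.a4 (s.rel h ha e (c := x1 T r) (by simp))
    clear e r1
    simp_all [CharTwo.add_self_eq_zero]
    grind
  have r3 : JJ A a b = w.a6 := by simpa using r2 1
  refine ⟨?_, fun r => by rw [r2, r3]⟩
  rw [cj_eq, ← e, r3]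
  congr 2
  clear e r2 r3
  ext <;> simp_all [CharTwo.add_self_eq_zero]

theorem JJ_eq_zero {a : G} (ha : a ∈ A') (b : K) : JJ A a b = 0 := by
  have ht := h.cf.inv
  have n1 := A.n1_sq
  have n8 := A.n8_sq
  have t1 : A.n1 * t * A.n1 = t := by rw [mem_Cz.1 h.cf.n1t, mul_assoc, n1, mul_one]
  have t8 : A.n8 * t * A.n8 = t := by rw [mem_Cz.1 h.cf.n8t, mul_assoc, n8, mul_one]
  set a6 := A.n1 * a * A.n1
  set a2 := A.n8 * a6 * A.n8
  have fix : ∀ x ∈ Cz a, a * x * a⁻¹ = x := fun x hx => by rw [← mem_Cz.1 hx]; group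
  have p6t : a6 * t * a6⁻¹ = t * A.ι (x6 T (ee A t a)) := by
    have := cj_inv2 n1 ((t_cj ht a).trans (congrArg _ (ee_spec (h.n2_phi (s.n2 ha)))))
    rwa [cj_mul2 _ n1 t, t1, n1_x4] at this
  have p2t : a2 * t * a2⁻¹ = t * A.ι (x2 T (ee A t a)) := by
    have := cj_inv2 n8 p6t
    rwa [cj_mul2 _ n8 t, t8, n8_x6] at this
  have p62 : ∀ r, a6 * A.ι (x2 T r) * a6⁻¹ = A.ι (x4 T (JJ A a r)) * A.ι (x2 T r) := fun r => by
    have := cj_inv2 n1 (s.cj_x8 h ha r).1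
    rwa [cj_mul2 _ n1 (A.ι _), n1_x8, n1_x6] at this
  have p26 : ∀ r, a2 * A.ι (x6 T r) * a2⁻¹ = A.ι (x4 T (JJ A a r)) * A.ι (x6 T r) := fun r => by
    have := cj_inv2 n8 (p62 r)
    rwa [cj_mul2 _ n8 (A.ι _), n8_x2, n8_x4] at this
  have p64 : ∀ r, a6 * A.ι (x4 T r) * a6⁻¹ = A.ι (x4 T r) := fun r => by
    simpa only [n1_x6] using cj_inv2 n1 (fix _ (s.cU h (i := 6) (by simp) ha (c := x6 T r) (by simp [sU])))
  have p65 : ∀ r, a6 * A.ι (x5 T r) * a6⁻¹ = A.ι (x5 T r) := fun r => by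
    simpa only [n1_x5] using cj_inv2 n1 (fix _ (s.cU h (i := 5) (by simp) ha (c := x5 T r) (by simp [sU])))
  have p63 : ∀ r, a6 * A.ι (x3 T r) * a6⁻¹ = A.ι (x3 T r) := fun r => by
    simpa only [n1_x7] using cj_inv2 n1 (fix _ (s.cU h (i := 7) (by simp) ha (c := x7 T r) (by simp [sU])))
  have p6y : ∀ r, a6 * A.ι (y4 T r) * a6⁻¹ = A.ι (y4 T r) := fun r => by
    simpa only [n1_y6] using cj_inv2 n1 (fix _ (s.cU h (i := 6) (by simp) ha (c := y6 T r) (by simp [sU])))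
  have p66 : ∀ r, a6 * A.ι (x6 T r) * a6⁻¹ = A.ι (x6 T r) := fun r => by
    simpa only [n1_x4] using cj_inv2 n1 (fix _ (s.c4 h ha r))
  have p24 : ∀ r, a2 * A.ι (x4 T r) * a2⁻¹ = A.ι (x4 T r) := fun r => by
    simpa only [n8_x4] using cj_inv2 n8 (p64 r)
  have p23 : ∀ r, a2 * A.ι (x3 T r) * a2⁻¹ = A.ι (x3 T r) := fun r => by
    simpa only [n8_x5] using cj_inv2 n8 (p65 r)
  have p25 : ∀ r, a2 * A.ι (x5 T r) * a2⁻¹ = A.ι (x5 T r) := fun r => by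
    simpa only [n8_x3] using cj_inv2 n8 (p63 r)
  have p2y : ∀ r, a2 * A.ι (y4 T r) * a2⁻¹ = A.ι (y4 T r) := fun r => by
    simpa only [n8_y4] using cj_inv2 n8 (p6y r)
  have p22 : ∀ r, a2 * A.ι (x2 T r) * a2⁻¹ = A.ι (x2 T r) := fun r => by
    simpa only [n8_x6] using cj_inv2 n8 (p66 r)
  have same : ∀ x, a6 * a2 * x * (a6 * a2)⁻¹ = a2 * a6 * x * (a2 * a6)⁻¹ → x ∈ Cz ((a2 * a6)⁻¹ * (a6 * a2)) :=
    fun x e => mem_Cz.2 (by
      calc x * ((a2 * a6)⁻¹ * (a6 * a2)) = (a2 * a6)⁻¹ * (a2 * a6 * x * (a2 * a6)⁻¹) * (a6 * a2) := by group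
        _ = _ := by rw [← e]; group)
  have g1 : (a2 * a6)⁻¹ * (a6 * a2) ∈ Cz t := mem_Cz.2 (mem_Cz.1 (same t (by
    rw [cj_cj a6 a2, cj_cj a2 a6, p2t, p6t, ← conj_mul, ← conj_mul, p2t, p6t, p62, p26]
    simp only [mul_assoc, ← map_mul]
    congr 2
    ext <;> simp))).symm
  have g2 : (a2 * a6)⁻¹ * (a6 * a2) ∈ Cs (A.im (sR T)) := mem_Cs.2 (by
    rintro _ ⟨c, hc, rfl⟩
    rw [nf_R hc, ← mem_Cz]
    simp only [map_mul]
    refine mul_mem (mul_mem (mul_mem (mul_mem (mul_mem (same _ ?_) (same _ ?_)) (same _ ?_)) (same _ ?_))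
      (same _ ?_)) (same _ ?_) <;>
    simp only [cj_cj a6 a2, cj_cj a2 a6, ← conj_mul, p22, p62, p24, p23, p63, p2y, p6y, p64, p25, p65, p26, p66])
  obtain ⟨g5, hg⟩ : ∃ g5 : K, ∀ b, (a2 * a6)⁻¹ * (a6 * a2) * A.ι (y2 T b) * ((a2 * a6)⁻¹ * (a6 * a2))⁻¹ =
      A.ι (x4 T (g5 * b)) * A.ι (y2 T b) := by
    have key : ∀ w ∈ sV T, ∀ b, A.ι w * A.ι (y2 T b) * (A.ι w)⁻¹ = A.ι (x4 T (w.a5 * b)) * A.ι (y2 T b) :=
      fun w hw b => by
        simp only [← map_mul, ← map_inv, ι_inj]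
        ext <;> simp_all <;> grind
    rcases h.lt.cR _ g1 g2 with ⟨w, hw, e⟩ | ⟨w, hw, e⟩
    · exact ⟨w.a5, fun b => by rw [← e, key w hw]⟩
    · refine ⟨w.a5, fun b => ?_⟩
      have e' : (a2 * a6)⁻¹ * (a6 * a2) = t * A.ι w := by rw [e, ← mul_assoc t t, ht.1, one_mul]
      rw [e', cj_cj t, key w hw, ← map_mul, cj_eq_of_cs h.cf.cen (ι_mem A _)]
  have main : ∀ b, JJ A a (JJ A a b) = g5 * b := fun b => by
    obtain ⟨w, hw, e⟩ := s.comm_U8 h ha (d := y8 T b) (by simp)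
    have q6 : a6 * A.ι (y2 T b) * a6⁻¹ = A.ι (x4 T w.a6) * A.ι (x5 T w.a5) * A.ι (y2 T b) := by
      have := cj_inv2 n1 (cj_eq a (A.ι (y8 T b)))
      rwa [cj_mul2 _ n1, n1_y8, ← e, show w = x6 T w.a6 * x5 T w.a5 by ext <;> simp_all, map_mul,
        cj_mul2 _ n1, n1_x6, n1_x5] at this
    have q2 : a2 * A.ι (y2 T b) * a2⁻¹ = A.ι (x2 T (JJ A a b)) * A.ι (y2 T b) := by
      have := cj_inv2 n8 (cj_inv2 n1 (cj_eq a (A.ι (y4 T b))))
      rwa [s.comm_y4 h ha, cj_mul2 _ n1 (A.ι _), n1_y4, n1_x4, cj_mul2 _ n8 (A.ι _), n8_y6, n8_x6] at this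
    have e1 : a6 * a2 * A.ι (y2 T b) * (a6 * a2)⁻¹ =
        a2 * a6 * (A.ι (x4 T (g5 * b)) * A.ι (y2 T b)) * (a2 * a6)⁻¹ := by rw [← hg]; group
    simp only [cj_cj a6 a2, cj_cj a2 a6, ← conj_mul, q2, q6, p62, p64, p24, p25] at e1
    simp only [← map_mul, ι_inj] at e1
    have := congrArg Co.a4 e1
    simp at this
    grind
  have J1 : ∀ r, JJ A a (T.σ r) = JJ A a 1 * r := fun r => by simpa using (s.cj_x8 h ha 1).2 r
  have main2 : ∀ r, T.σ g5 * r ^ 2 = T.σ (JJ A a 1) * (JJ A a 1 * r) := fun r => by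
    obtain ⟨r', e⟩ := sig_surj T (JJ A a 1 * r)
    have := main (T.σ r)
    rw [J1, ← e, J1] at this
    rw [← T.sq, ← map_mul, ← this, map_mul, e]
  obtain ⟨σ₀, hs⟩ := exists_s (T := T) h.cf.card
  have s0 : σ₀ ≠ 0 := by rintro rfl; simp at hs
  have s1 : σ₀ ≠ 1 := by rintro rfl; simp at hs
  have j0 : JJ A a 1 = 0 := by
    have e1 := main2 1
    have e2 := main2 σ₀
    by_contra hj
    have := sig_ne (T := T) hj
    grind
  obtain ⟨r, rfl⟩ := sig_surj T b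
  rw [J1, j0, zero_mul]

theorem cs : A' ≤ Cs A.C := fun a ha => by
  have hQ : a ∈ Cs (A.im (sQ T)) := mem_Cs.2 (by
    rintro _ ⟨c, hc, rfl⟩
    have := s.comm_Q h ha hc
    rw [s.JJ_eq_zero h ha, x4_zero, map_one] at this
    exact (commutatorElement_eq_one_iff_mul_comm.1 this).symm)
  refine cs_of_perfect h.la.perf h.la.CZ (fun c hc => h.la.bc.cenQ _ (im_le_C A _ ((s.cC ha).2 c hc))
    fun d hd => ?_) ((im_le_C A _).trans h.la.CZ)
  exact (mem_Cs.1 (comm_mem_right (ns_cs (h.la.CN (by simp) hc)) hQ) _ ⟨d, hd, rfl⟩).symm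

end SA2

theorem jobA2 : JobA2.{u, v} := fun kit K _ _ _ T G _ _ A t h A' s => s.cs h

end H65.SR
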