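/- STD-R (S3323): job A3. -/
import Cfsg.Agent.H65.SRA2

set_option autoImplicit false
set_option linter.unusedSectionVars false
set_option linter.unusedVariables false
set_option linter.unusedSimpArgs false

open Subgroup H63.Oc H64.SG
open scoped commutatorElement

universe u v

namespace H65.SR

attribute [-simp] Subgroup.mem_map

section Gen
variable {G : Type*} [Group G] {g t a b u : G} {N X Y : Subgroup G}

/-- the elements that `g` conjugates into `N` -/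
def St (g : G) (N : Subgroup G) : Subgroup G := N.comap (MulAut.conj g).toMonoidHom

theorem mem_St {x : G} : x ∈ St g N ↔ g * x * g⁻¹ ∈ N := Iff.rfl

theorem ns_of_St [Finite G] (h : N ≤ St g N) : g ∈ Ns N := mem_ns_of fun y hy => h hy

theorem le_St (hX : X ≤ N) (h : ∀ x ∈ X, ⁅g, x⁆ ∈ N) : X ≤ St g N := fun x hx =>
  mem_St.2 (by rw [cj_eq]; exact mul_mem (h x hx) (hX hx))

theorem le_St_ns (hX : X ≤ N) (h : g ∈ Ns X) : X ≤ St g N := fun x hx => mem_St.2 (hX (cj_mem h hx))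

theorem le_St_cs (hX : X ≤ N) (h : g ∈ Cs X) : X ≤ St g N := le_St_ns hX (cs_le_ns h)

theorem zp_St (hX : zpowers t ≤ N) (h : ⁅g, t⁆ ∈ N) : zpowers t ≤ St g N :=
  zpowers_le.2 (mem_St.2 (by rw [cj_eq]; exact mul_mem h (hX (mem_zpowers t))))

theorem cm_of_Cl (hg : g ∈ Ns N) (h : X ≤ Cl g N) : g ∈ Cm X N := ⟨hg, fun y hy => (mem_Cl.1 (h hy)).2⟩

theorem le_Cl (hX : X ≤ Ns N) (h : ∀ x ∈ X, ⁅g, x⁆ ∈ N) (hg : g ∈ Ns N) : X ≤ Cl g N := fun x hx =>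
  mem_Cl.2 ⟨hX hx, h x hx⟩

theorem le_Cl_cs (hX : X ≤ Ns N) (h : g ∈ Cs X) : X ≤ Cl g N := fun x hx =>
  mem_Cl.2 ⟨hX hx, by rw [comm_eq_one_of_cs h hx]; exact one_mem _⟩

theorem le_Cl_self (hg : g ∈ Ns N) (hX : X ≤ N) : X ≤ Cl g N := fun x hx =>
  mem_Cl.2 ⟨le_normalizer (hX hx), comm_mem_left hg (hX hx)⟩

theorem zp_Cl (hX : t ∈ Ns N) (h : g ∈ Cz t) : zpowers t ≤ Cl g N :=
  zpowers_le.2 (mem_Cl.2 ⟨hX, by
    rw [commutatorElement_eq_one_iff_mul_comm.2 (mem_Cz.1 h)]; exact one_mem _⟩)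

theorem comm_inv_mem : ⁅a, b⁆ ∈ N ↔ ⁅b, a⁆ ∈ N := by rw [← commutatorElement_inv, inv_mem_iff]

theorem cz_of_phi_eq (ht : Inv2 t) (e : ⁅t, a⁆ = ⁅t, b⁆) : a⁻¹ * b ∈ Cz t := mem_Cz.2 (by
  have : a * t * a⁻¹ = b * t * b⁻¹ := by rw [t_cj ht, t_cj ht, e]
  calc a⁻¹ * b * t = a⁻¹ * (b * t * b⁻¹) * b := by group
    _ = _ := by rw [← this]; group)

theorem comm_cz0 (ht : Inv2 t) (h1 : Commute a ⁅t, b⁆) (h2 : Commute b ⁅t, a⁆) (h3 : Commute ⁅t, a⁆ ⁅t, b⁆) :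
    ⁅a⁻¹, b⁻¹⁆ ∈ Cz t := by
  have e : ⁅t, b * a⁆ = ⁅t, a * b⁆ := by
    rw [comm_mul_right, comm_mul_right, h1.eq, h2.eq, mul_inv_cancel_right, mul_inv_cancel_right, h3.eq]
  have := cz_of_phi_eq ht e
  convert this using 1
  simp only [commutatorElement_def]; group

/-- two groups whose commutators with `t` are centralised by the other one commute modulo `C(t)` -/
theorem comm_cz (ht : Inv2 t) {Z₁ Z₂ : Subgroup G} (p1 : ∀ x ∈ X, ⁅t, x⁆ ∈ Z₁) (p2 : ∀ y ∈ Y, ⁅t, y⁆ ∈ Z₂)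
    (c1 : X ≤ Cs Z₂) (c2 : Y ≤ Cs Z₁) (c3 : Z₁ ≤ Cs Z₂) (ha : a ∈ X) (hb : b ∈ Y) : ⁅a, b⁆ ∈ Cz t := by
  have ha' := inv_mem ha
  have hb' := inv_mem hb
  simpa using comm_cz0 ht (a := a⁻¹) (b := b⁻¹) (mem_Cs.1 (c1 ha') _ (p2 _ hb')).symm
    (mem_Cs.1 (c2 hb') _ (p1 _ ha')).symm (mem_Cs.1 (c3 (p1 _ ha')) _ (p2 _ hb')).symm

theorem phi_comm (ht : Inv2 t) (hu : u ∈ Cz t) (h1 : Commute a ⁅t, a⁆) (h2 : Commute (u * a * u⁻¹) ⁅t, a⁆) :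
    ⁅t, ⁅u, a⁆⁆ = ⁅u, ⁅t, a⁆⁆ := by
  rw [commutatorElement_def u a, comm_mul_right, comm_cj hu, comm_inv_right, h1.inv_left.inv_right.eq,
    inv_mul_cancel_right, h2.inv_right.eq, mul_inv_cancel_right, commutatorElement_def u]

theorem sq_comm_eq_one (hu : u * u = 1) (h : Commute u ⁅u, a⁆) : ⁅u, a⁆ * ⁅u, a⁆ = 1 := by
  have := comm_mul_left u u a
  rwa [hu, commutatorElement_one_left, h.eq, mul_inv_cancel_right, eq_comm] at this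

theorem cj_comm2 {n : G} (hn : n * n = 1) (a b : G) : n * ⁅a, b⁆ * n = ⁅n * a * n, n * b * n⁆ := by
  have h1 : n⁻¹ = n := inv_eq_of_mul_eq_one_right hn
  have := conjugate_commutatorElement a b n
  rwa [h1] at this

end Gen

variable {K : Type*} [Field K] [Fintype K] [CharP K 2] {T : TF K} {G : Type*} [Group G] [Finite G]
  {A : AD T G} {t : G} {A' : Subgroup G}

theorem W_le {N : Subgroup G} (h4 : A.im (sZ T) ≤ N) (h6 : A.im (sZ6 T) ≤ N) : A.im (sW T) ≤ N := by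
  rintro _ ⟨w, hw, rfl⟩
  rw [show w = x4 T w.a4 * x6 T w.a6 by ext <;> simp_all, map_mul]
  exact mul_mem (h4 (by simp)) (h6 (by simp))

theorem LB.hN1 (h : LB A) : A.S ≤ Ns (A.im (sQ1 T)) := by
  rintro _ ⟨c, rfl⟩
  exact im_ns A (X := ⊤) (fun c _ d hd => by simp_all [CharTwo.add_self_eq_zero]) (by simp : A.ι c ∈ A.im ⊤)

theorem cjs1_Z6 : cjs A.n1 (A.im (sZ6 T)) = A.im (sZ T) := by rw [← cjs1_Z, cjs11]

theorem Z_inf_Z6 {g : G} (h4 : g ∈ A.im (sZ T)) (h6 : g ∈ A.im (sZ6 T)) : g = 1 := by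
  obtain ⟨c, hc, rfl⟩ := h4
  rw [ι_eq_one]
  ext <;> simp_all

namespace SA1
variable (h : H0 A t) (s : SA1 A t A') (hc : A' ≤ Cs A.C)
include h s

theorem phi {a : G} (ha : a ∈ A') : ⁅t, a⁆ ∈ A.im (sZ T) := h.n2_phi (s.n2 ha)

theorem tN : t ∈ Ns A' := mem_ns_of fun a ha => by
  rw [cj_eq]; exact mul_mem (s.le (s.phi h ha)) ha

theorem memZ {a : G} (ha : a ∈ A') (hc : a ∈ Cz t) : a ∈ A.im (sZ T) := s.fix ▸ mem_inf.2 ⟨ha, hc⟩

theorem fp6 {k : G} (hk : k ∈ TT A 6) (k1 : k ≠ 1) : A' ⊓ Cz k = ⊥ :=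
  triv_of h.cf.inv (s.two.to_inf_left) (ns_inf (s.tN h) (ns_cz' (mem_Cz.1 (h.cf.TTt 6 hk)).symm))
    fun y hy hy' => by
      have := h.la.fp hk k1 (X := sZ T) fun c => by simp +contextual [sU, Co.ext_iff]
      exact mem_bot.1 (this ▸ mem_inf.2 ⟨s.memZ h hy.1 hy', hy.2⟩)

theorem fp4 {k : G} (hk : k ∈ TT A 4) (k1 : k ≠ 1) : cjs A.n1 A' ⊓ Cz k = ⊥ := by
  have hk' : A.n1 * k * A.n1 ∈ TT A 6 := h.la.tt1 4 (by norm_num) (by norm_num) ▸ cj1_mem A hk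
  have := s.fp6 h hk' fun e => k1 (by rw [← n1_cj A k, e, mul_one, A.n1_sq])
  refine eq_bot_iff.2 fun y hy => ?_
  have h1 : A.n1 * y * A.n1 ∈ A' ⊓ Cz (A.n1 * k * A.n1) := mem_inf.2 ⟨(mem_cjs1 A).1 hy.1, mem_Cz.2 (by
    rw [← cj_mul2 _ A.n1_sq, ← cj_mul2 _ A.n1_sq, mem_Cz.1 hy.2])⟩
  rw [this, mem_bot] at h1
  rw [mem_bot, ← n1_cj A y, h1, mul_one, A.n1_sq]

theorem phi6 {a : G} (ha : a ∈ cjs A.n1 A') : ⁅t, a⁆ ∈ A.im (sZ6 T) := by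
  have := cj1_mem A (s.phi h ((mem_cjs1 A).1 ha))
  rwa [cjs1_Z, cj_comm2 A.n1_sq, n1_cj, mem_Cz.1 h.cf.n1t, mul_assoc, A.n1_sq, mul_one] at this

theorem onto6 (e : K) : ∃ a ∈ cjs A.n1 A', ⁅t, a⁆ = A.ι (x6 T e) := by
  obtain ⟨a, ha, e1⟩ := s.onto (A.ι (x4 T e)) (by simp)
  refine ⟨_, cj1_mem A ha, ?_⟩
  rw [← n1_x4, ← e1, cj_comm2 A.n1_sq, mem_Cz.1 h.cf.n1t, mul_assoc t, A.n1_sq, mul_one]

include hc

theorem cases {g : G} (h1 : g ∈ Cs A.C) (h2 : g ∈ Up t (A.im (sZ T))) : g ∈ A' ∨ t * g ∈ A' := by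
  obtain ⟨a, ha, e⟩ := s.onto _ ((mem_up h.cf.inv).1 h2).2
  rcases h.lt.cQ _ (cz_of_phi_eq h.cf.inv e) (cs_anti (im_le_C A _) (mul_mem (inv_mem (hc ha)) h1)) with e1 | e1
  · left; simpa using mul_mem ha (s.le e1)
  · right
    have := mul_mem (cj_mem (s.tN h) ha) (s.le e1)
    convert this using 1; group

theorem c6Q : cjs A.n1 A' ≤ Cs (A.im (sQ1 T)) := by
  have := cs_cj (g := A.n1) (hc.trans (cs_anti (im_le_C A (sQ1 T))))
  rwa [cjs1_Q1] at this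

theorem c6Z6 : cjs A.n1 A' ≤ Cs (A.im (sZ6 T)) :=
  (s.c6Q h hc).trans (cs_anti (im_mono A fun c => by simp +contextual))

theorem c6Z : cjs A.n1 A' ≤ Cs (A.im (sZ T)) :=
  (s.c6Q h hc).trans (cs_anti (im_mono A fun c => by simp +contextual))

theorem le6 : A.im (sZ6 T) ≤ cjs A.n1 A' := cjs1_Z A ▸ cjs_mono s.le

theorem memW {N : Subgroup G} {g : G} (h1 : g ∈ Cz t) (h2 : g ∈ Cs (A.im (sQ1 T))) (ht : t ∈ N)
    (h4 : A.im (sZ T) ≤ N) (h6 : A.im (sZ6 T) ≤ N) : g ∈ N := by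
  rcases h.lt.cQ1 g h1 h2 with e | e
  · exact W_le h4 h6 e
  · exact (mul_mem_cancel_left ht).1 (W_le h4 h6 e)

theorem comm46 {a b : G} (ha : a ∈ A') (hb : b ∈ cjs A.n1 A') : ⁅b, a⁆ ∈ A.im (sZ6 T) := by
  obtain ⟨k, hk, k1⟩ := h.la.exT 4
  have nk : k ∈ Ns (A.im (sZ6 T)) := by
    obtain ⟨p, rfl⟩ := TT_le_H A 4 hk
    refine mem_ns_of ?_
    rintro _ ⟨c, hc, rfl⟩
    rw [A.tor.h_conj]; simp_all
  have l1 : A' ≤ A' ⊔ zpowers t ⊔ A.im (sZ6 T) := le_sup_left.trans le_sup_left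
  have l2 : zpowers t ≤ A' ⊔ zpowers t ⊔ A.im (sZ6 T) := le_sup_right.trans le_sup_left
  have nH : k ∈ Ns (cjs A.n1 A') := by
    have hk' : A.n1 * k * A.n1 ∈ TT A 6 := h.la.tt1 4 (by norm_num) (by norm_num) ▸ cj1_mem A hk
    have := mem_ns_cjs (g := A.n1) (s.nH (TT_le_H A 6 hk'))
    rwa [n1_inv, n1_cj] at this
  have := fpf (N := A' ⊔ zpowers t ⊔ A.im (sZ6 T)) (N₀ := A.im (sZ6 T)) nH (s.fp4 h hk k1)
    (fun b hb => ns_of_St (sup_le (sup_le (le_St l1 fun a ha => s.memW h hc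
        (comm_cz h.cf.inv (fun x hx => s.phi6 h hx) (fun x hx => s.phi h hx) (s.c6Z h hc)
          (hc.trans (cs_anti (im_le_C A _))) ((im_le_C A _).trans h.la.CZ) hb ha)
        (comm_mem_left (le_normalizer (s.c6Q h hc hb)) (cs_anti (im_le_C A _) (hc ha)))
        (l2 (mem_zpowers t)) (s.le.trans l1) le_sup_right)
      (zp_St l2 (comm_inv_mem.1 (mem_sup_right (s.phi6 h hb))))) (le_St_cs le_sup_right (s.c6Z6 h hc hb))))
    ((s.c6Z6 h hc).trans cs_le_ns)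
    (cm_of_Cl nk (sup_le (sup_le (le_Cl_cs ((hc.trans (cs_anti (im_le_C A _))).trans cs_le_ns) (cs_symm s.cD hk))
      (zp_Cl (h.cf.t_ns (im_le A _)) (h.cf.TTt 4 hk))) (le_Cl_self nk le_rfl)))
  exact (this hb).2 a (l1 ha)

theorem c46 : cjs A.n1 A' ≤ Cs A' := fun b hb => mem_Cs.2 fun a ha => by
  refine commutatorElement_eq_one_iff_mul_comm.1 (Z_inf_Z6 (A := A) ?_ (comm_inv_mem.1 (s.comm46 h hc ha hb)))
  have := cj1_mem A (s.comm46 h hc ((mem_cjs1 A).1 hb) (cj1_mem A ha))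
  rwa [cjs1_Z6, cj_comm2 A.n1_sq, n1_cj, n1_cj] at this

theorem phi61 {u b : G} (hu : u ∈ A.im (sU1 T)) (hb : b ∈ cjs A.n1 A') : ⁅t, ⁅u, b⁆⁆ = ⁅u, ⁅t, b⁆⁆ := by
  have n1 : u ∈ Ns (A.im (sQ1 T)) := h.la.hN1 (im_le_S A _ hu)
  have m : ⁅t, b⁆ ∈ A.im (sQ1 T) := im_mono A (fun c => by simp +contextual) (s.phi6 h hb)
  exact phi_comm h.cf.inv (h.cf.imt _ hu) (mem_Cs.1 (s.c6Q h hc hb) _ m).symm
    (mem_Cs.1 (cj_mem (ns_cs n1) (s.c6Q h hc hb)) _ m).symm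

theorem c61 : A.im (sU1 T) ≤ Cm (cjs A.n1 A') A' := by
  obtain ⟨k, hk, k1⟩ := h.la.exT 6
  have l1 : cjs A.n1 A' ≤ cjs A.n1 A' ⊔ zpowers t ⊔ A' := le_sup_left.trans le_sup_left
  have l2 : zpowers t ≤ cjs A.n1 A' ⊔ zpowers t ⊔ A' := le_sup_right.trans le_sup_left
  have uc : A.im (sU1 T) ≤ Cs A' := (im_le_C A _).trans (cs_symm hc)
  have nk := s.nH (TT_le_H A 6 hk)
  have c6 : k ∈ Cs (cjs A.n1 A') := by
    have := cs_cj (g := A.n1) s.cD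
    rw [h.la.tt1 4 (by norm_num) (by norm_num)] at this
    exact cs_symm this hk
  have := fpf (N := cjs A.n1 A' ⊔ zpowers t ⊔ A') (N₀ := A') (h.la.hU 1 (TT_le_H A 6 hk))
    (h.la.fp hk k1 fun c => by simp +contextual [sU, Co.ext_iff])
    (fun u hu => ns_of_St (sup_le (sup_le (le_St l1 fun b hb => by
        have m : ⁅t, ⁅u, b⁆⁆ ∈ A.im (sZ T) := by
          rw [s.phi61 h hc hu hb]
          obtain ⟨c, hc, rfl⟩ := hu
          obtain ⟨d, hd, e⟩ := s.phi6 h hb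
          rw [← e, ι_comm, ι_mem_im, commutatorElement_def]
          clear e
          simp_all [sU, CharTwo.add_self_eq_zero]
        obtain ⟨a, ha, e⟩ := s.onto _ m
        have := s.memW h hc (N := cjs A.n1 A' ⊔ zpowers t ⊔ A') (cz_of_phi_eq h.cf.inv e)
          (mul_mem (inv_mem (cs_anti (im_le_C A _) (hc ha)))
            (comm_mem_left (ns_cs (h.la.hN1 (im_le_S A _ hu))) (s.c6Q h hc hb)))
          (l2 (mem_zpowers t)) (s.le.trans le_sup_right) ((s.le6 h hc).trans l1)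
        exact (mul_mem_cancel_left (inv_mem (mem_sup_right ha))).1 this)
      (zp_St l2 (by rw [commutatorElement_eq_one_iff_mul_comm.2 (mem_Cz.1 (h.cf.imt _ hu))]; exact one_mem _)))
      (le_St_cs le_sup_right (uc hu))))
    (uc.trans cs_le_ns)
    (cm_of_Cl nk (sup_le (sup_le (le_Cl_cs ((s.c46 h hc).trans cs_le_ns) c6)
      (zp_Cl (s.tN h) (h.cf.TTt 6 hk))) (le_Cl_self nk le_rfl)))
  exact this.trans (cm_anti l1)

theorem sq1 {a : G} (ha : a ∈ A') : a * a = 1 := by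
  obtain ⟨b, hb, e⟩ := s.onto6 h (ee A t a)
  have hu : A.ι (x1 T 1) ∈ A.im (sU1 T) := by simp
  have hw := (s.c61 h hc hu).2 b hb
  have e1 : ⁅t, ⁅A.ι (x1 T 1), b⁆⁆ = ⁅t, a⁆ := by
    rw [s.phi61 h hc hu hb, e, ee_spec (s.phi h ha), ι_comm, ι_inj, commutatorElement_def]
    ext <;> simp [CharTwo.add_self_eq_zero]
  have e2 := sq_comm_eq_one (u := A.ι (x1 T 1)) (a := b)
    (by rw [← map_mul, ← x1_add, CharTwo.add_self_eq_zero, x1_zero, map_one])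
    (mem_Cs.1 (hc hw) _ (A.ι_mem _))
  have hz := s.memZ h (mul_mem (inv_mem hw) ha) (cz_of_phi_eq h.cf.inv e1)
  generalize ⁅A.ι (x1 T 1), b⁆ = w at hw e2 hz
  have e3 := mem_Cs.1 (hc hw) _ (im_le_C A _ hz)
  have e4 := Z_sq hz
  calc a * a = w * (w⁻¹ * a * w) * (w⁻¹ * a) := by group
    _ = w * w * (w⁻¹ * a * (w⁻¹ * a)) := by rw [e3]; group
    _ = 1 := by rw [e2, e4, mul_one]

theorem mem_iff {g : G} : g ∈ A' ↔ g ∈ Cs A.C ⊓ Up t (A.im (sZ T)) ∧ g * g = 1 ∧ t * g ∉ A.im (sZ T) := by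
  refine ⟨fun hg => ⟨⟨hc hg, (mem_N2.1 (s.n2 hg)).2.2.2.2⟩, s.sq1 h hc hg, fun e => h.tL ?_⟩, fun hg => ?_⟩
  · exact im_le A _ (s.memZ h ((mul_mem_cancel_right hg).1 (s.le e)) (mem_Cz.2 rfl))
  · refine (s.cases h hc hg.1.1 hg.1.2).resolve_right fun e => hg.2.2 (s.memZ h e (mem_Cz.2 ?_))
    have e1 := s.sq1 h hc e
    have e2 : t * g * t = g := by
      calc t * g * t = t * g * (t * g) * g := by rw [mul_assoc _ (t * g), mul_assoc t g g, hg.2.1, mul_one]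
        _ = g := by rw [e1, one_mul]
    rw [e2, ← mul_assoc, h.cf.inv.1, one_mul]

theorem eq_A4 : A4 A t = A' := by
  refine le_antisymm ((closure_le _).2 fun g hg => (s.mem_iff h hc).2 hg) fun g hg => subset_closure ?_
  exact (s.mem_iff h hc).1 hg

theorem nrm : Up t (A.im (sZ T)) ≤ Ns A' := fun g hg => mem_ns_of fun a ha => by
  obtain ⟨h1, h2, h3⟩ := (s.mem_iff h hc).1 ha
  refine (s.mem_iff h hc).2 ⟨mem_inf.2 ⟨cj_mem (ns_cs (h.lt.nz hg)) h1.1, cj_mem (le_normalizer hg) (mem_inf.1 h1).2⟩,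
    by rw [conj_mul, h2]; simp, fun e => h3 ?_⟩
  have e1 := cj_mem' hg.1 e
  have e2 := ((mem_up h.cf.inv).1 (inv_mem hg)).2
  have e3 : g⁻¹ * (t * (g * a * g⁻¹)) * g = ⁅t, g⁻¹⁆ * (t * a) := by
    rw [← mul_assoc ⁅t, g⁻¹⁆, mem_Cz.1 (h.cf.imt _ e2), ← t_cj h.cf.inv]; group
  rw [e3] at e1
  exact (mul_mem_cancel_left e2).1 e1

end SA1

theorem jobA3 : JobA3.{u, v} := fun kit K _ _ _ T G _ _ A t h A' s' hc => by
  have s := s'.toSA1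
  have e := s.eq_A4 h hc
  refine ⟨?_, ?_, ?_, ?_, ?_, ?_⟩ <;> simp only [A6, e]
  · exact ⟨bot_le, s.le, h.cf.imt _, s.tN h, le_normalizer_of_normal (mem_top _),
      fun _ _ => le_normalizer_of_normal (mem_top _), fun y hy => mem_bot.2 (s.sq1 h hc hy),
      fun y hy e => mem_sup_left (s.memZ h hy (comm_eq_one_iff.1 (mem_bot.1 e))),
      fun x hx => by
        obtain ⟨a, ha, e⟩ := s.onto x hx
        exact ⟨a, ha, by rw [e, mul_inv_cancel]; exact one_mem _⟩⟩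
  · exact hc
  · exact s.nrm h hc
  · intro ht
    obtain ⟨a, ha, e⟩ := s.onto (A.ι (x4 T 1)) (by simp)
    rw [comm_eq_one_of_cs ht ha, eq_comm, ι_eq_one] at e
    simpa using congrArg Co.a4 e
  · exact s.c46 h hc
  · exact s.c61 h hc

end H65.SR
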