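/- STD-R (S3323): job V1. -/
import Cfsg.Agent.H65.SRA3

set_option autoImplicit false
set_option linter.unusedSectionVars false
set_option linter.unusedVariables false
set_option linter.unusedSimpArgs false

open Subgroup H63.Oc H64.SG
open scoped commutatorElement

universe u v

namespace H65.SR

attribute [-simp] Subgroup.mem_map

section Gen
variable {G : Type*} [Group G] {g t a b u : G} {N X Y : Subgroup G}

theorem phi_mul_of (h : a ∈ Cs X) (hb : ⁅t, b⁆ ∈ X) : ⁅t, a * b⁆ = ⁅t, a⁆ * ⁅t, b⁆ := by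
  rw [comm_mul_right, cj_eq_of_cs h hb]

theorem phi_inv_of (h : a ∈ Cs X) (hb : ⁅t, a⁆ ∈ X) : ⁅t, a⁻¹⁆ = ⁅t, a⁆⁻¹ := by
  have := cj_eq_of_cs (inv_mem h) (inv_mem hb)
  rwa [inv_inv, ← comm_inv_right] at this

/-- the image of `y ↦ ⁅t, y⁆` -/
def Im (t : G) (Y X : Subgroup G) (h1 : ∀ y ∈ Y, ⁅t, y⁆ ∈ X) (h2 : Y ≤ Cs X) : Subgroup G where
  carrier := {x | ∃ y ∈ Y, ⁅t, y⁆ = x}
  one_mem' := ⟨1, one_mem _, by simp⟩
  mul_mem' := by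
    rintro _ _ ⟨a, ha, rfl⟩ ⟨b, hb, rfl⟩
    exact ⟨_, mul_mem ha hb, phi_mul_of (h2 ha) (h1 b hb)⟩
  inv_mem' := by
    rintro _ ⟨a, ha, rfl⟩
    exact ⟨_, inv_mem ha, phi_inv_of (h2 ha) (h1 a ha)⟩

theorem Db.le_Im {X' Y' : Subgroup G} {h1 : ∀ y ∈ Y, ⁅t, y⁆ ∈ X} {h2 : Y ≤ Cs X} (h : Db t ⊥ X' Y') (hle : Y' ≤ Y) :
    X' ≤ Im t Y X h1 h2 := fun x hx => by
  obtain ⟨y, hy, e⟩ := h.onto1 hx
  exact ⟨y, hle hy, e⟩

theorem phi_cs {H : Subgroup G} (ht : H ≤ Cz t) (ha : a ∈ Cs H) : ⁅t, a⁆ ∈ Cs H :=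
  comm_mem_right (le_normalizer ha) (mem_Cs.2 fun k hk => mem_Cz.1 (ht hk))

theorem mem_up_of (ht : Inv2 t) (h1 : g ∈ Cz t) (h2 : g ∈ Ns Y) : g ∈ Up t Y :=
  (mem_up ht).2 ⟨h2, by rw [comm_eq_one_iff.2 h1]; exact one_mem _⟩

theorem mk_db1 (h1 : X ≤ Y) (h2 : X ≤ Cz t) (h3 : t ∈ Ns Y) (h4 : ∀ y ∈ Y, y * y = 1)
    (h5 : ∀ y ∈ Y, y ∈ Cz t → y ∈ X) (h6 : ∀ x ∈ X, ∃ y ∈ Y, ⁅t, y⁆ = x) : Db t ⊥ X Y :=
  ⟨bot_le, h1, h2, h3, le_normalizer_of_normal (mem_top _), fun _ _ => le_normalizer_of_normal (mem_top _),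
    fun y hy => mem_bot.2 (h4 y hy), fun y hy e => mem_sup_left (h5 y hy (comm_eq_one_iff.1 (mem_bot.1 e))),
    fun x hx => by
      obtain ⟨a, ha, e⟩ := h6 x hx
      exact ⟨a, ha, by rw [e, mul_inv_cancel]; exact one_mem _⟩⟩

/-- SELF for an elementary abelian group -/
theorem Db.eq_of {X' Y' : Subgroup G} (ht : Inv2 t) (h : Db t ⊥ X' Y') (hle : Y' ≤ Y)
    (h1 : ∀ y ∈ Y, ⁅t, y⁆ ∈ X') (h2 : ∀ y ∈ Y, y ∈ Cz t → y ∈ Y') : Y = Y' := by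
  refine le_antisymm (fun y hy => ?_) hle
  obtain ⟨a, ha, e⟩ := h.onto1 (h1 y hy)
  exact (mul_mem_cancel_left (inv_mem ha)).1 (h2 _ (mul_mem (inv_mem (hle ha)) hy) (cz_of_phi_eq ht e))

theorem Db.two1 (h : Db t ⊥ X Y) : IsPGroup 2 Y := fun y => ⟨1, Subtype.ext (by
  simpa [pow_two] using h.sq1 y.2)⟩

theorem cj_n_eq {n : G} (hn : n * n = 1) (h : n ∈ Cz t) : n * t * n = t := by
  rw [mem_Cz.1 h, mul_assoc, hn, mul_one]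

end Gen

variable {K : Type*} [Field K] [Fintype K] [CharP K 2] {T : TF K} {G : Type*} [Group G] [Finite G]
  {A : AD T G} {t : G}

theorem n1_H {k : G} (hk : k ∈ A.h.range) : A.n1 * k * A.n1 ∈ A.h.range := by
  obtain ⟨p, rfl⟩ := hk; exact ⟨_, (A.n1_h p).symm⟩

theorem n8_H {k : G} (hk : k ∈ A.h.range) : A.n8 * k * A.n8 ∈ A.h.range := by
  obtain ⟨p, rfl⟩ := hk; exact ⟨_, (A.tor.n8_h p).symm⟩

theorem H_cjs1 {X : Subgroup G} (h : A.h.range ≤ Ns X) : A.h.range ≤ Ns (cjs A.n1 X) := fun k hk => by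
  have := mem_ns_cjs (g := A.n1) (h (n1_H hk))
  rwa [n1_inv, n1_cj] at this

theorem H_cjs8 {X : Subgroup G} (h : A.h.range ≤ Ns X) : A.h.range ≤ Ns (cjs A.n8 X) := fun k hk => by
  have := mem_ns_cjs (g := A.n8) (h (n8_H hk))
  rwa [n8_inv, n8_cj] at this

theorem H_im {X : Subgroup (Co T)} (h : ∀ a b : K, ∀ c ∈ X, dg T a b c ∈ X) : A.h.range ≤ Ns (A.im X) := by
  rintro _ ⟨p, rfl⟩
  refine mem_ns_of ?_
  rintro _ ⟨c, hc, rfl⟩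
  rw [A.tor.h_conj, ι_mem_im]
  exact h _ _ c hc

theorem LB.cs1 (h : LB A) {X : Subgroup G} {i j : ℕ} (hi : 2 ≤ i) (hi' : i ≤ 8) (e : 10 - i = j)
    (hX : X ≤ Cs (TT A i)) : cjs A.n1 X ≤ Cs (TT A j) := by
  have := cs_cj (g := A.n1) hX
  rwa [h.tt1 i hi hi', e] at this

theorem LB.cs8 (h : LB A) {X : Subgroup G} {i j : ℕ} (hi : 1 ≤ i) (hi' : i ≤ 7) (e : 8 - i = j)
    (hX : X ≤ Cs (TT A i)) : cjs A.n8 X ≤ Cs (TT A j) := by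
  have := cs_cj (g := A.n8) hX
  rwa [h.tt8 i hi hi', e] at this

theorem n8_C : A.n8 ∈ A.C := A.n8_mem

theorem V_le {N : Subgroup G} (h2 : A.im (sZ2 T) ≤ N) (h3 : A.im (sU3 T) ≤ N) (h4 : A.im (sZ T) ≤ N)
    (h5 : A.im (sU5 T) ≤ N) (h6 : A.im (sZ6 T) ≤ N) : A.im (sV T) ≤ N := by
  rintro _ ⟨w, hw, rfl⟩
  rw [show w = x2 T w.a2 * x3 T w.a3 * x4 T w.a4 * x5 T w.a5 * x6 T w.a6 by ext <;> simp_all]
  simp only [map_mul]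
  exact mul_mem (mul_mem (mul_mem (mul_mem (h2 (by simp)) (h3 (by simp))) (h4 (by simp))) (h5 (by simp)))
    (h6 (by simp))

theorem V_sq {g : G} (h : g ∈ A.im (sV T)) : g * g = 1 := by
  obtain ⟨c, hc, rfl⟩ := h
  rw [← map_mul, ι_eq_one]
  ext <;> simp_all [CharTwo.add_self_eq_zero]

theorem cjs8_Z : cjs A.n8 (A.im (sZ T)) = A.im (sZ T) :=
  cjs8_im A (fun c => by simp +contextual) (fun c => by simp +contextual)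
    (fun c => by simp +contextual [Co.nu8]) fun c => by simp +contextual [Co.nu8]

theorem cjs8_Z2 : cjs A.n8 (A.im (sZ2 T)) = A.im (sZ6 T) := by rw [← cjs8_Z6, cjs88]

namespace H0
variable (h : H0 A t)
include h

theorem C_le_N : A.C ≤ Cz t ⊓ Ns (A.im (sZ T)) := le_inf h.cf.Ct (h.la.CN (by simp))
theorem H_le_N : A.h.range ≤ Cz t ⊓ Ns (A.im (sZ T)) := le_inf h.cf.Ht (h.la.hN _ (by simp))
theorem t_mem_N : t ∈ Cz t ⊓ Ns (A.im (sZ T)) := mem_inf.2 ⟨mem_Cz.2 rfl, h.cf.t_ns (im_le A _)⟩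
theorem N_up : Cz t ⊓ Ns (A.im (sZ T)) ≤ Up t (A.im (sZ T)) := fun g hg => mem_up_of h.cf.inv hg.1 hg.2
theorem N_C : Cz t ⊓ Ns (A.im (sZ T)) ≤ Ns A.C := h.N_up.trans h.lt.nz
theorem N_im {X : Subgroup (Co T)} (hX : X ∈ [sZ T, sV T, sR T, sQ T]) :
    Cz t ⊓ Ns (A.im (sZ T)) ≤ Ns (A.im X) := h.N_C.trans (h.lt.nC X hX)
theorem tn1 : A.n1 * t * A.n1 = t := cj_n_eq A.n1_sq h.cf.n1t
theorem tn8 : A.n8 * t * A.n8 = t := cj_n_eq A.n8_sq h.cf.n8t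

/-- a nontrivial element of `TT i` is fixed point free on a doubled group -/
theorem fp {i : ℕ} {k : G} (hk : k ∈ TT A i) (h1 : k ≠ 1) {X : Subgroup (Co T)} {Y : Subgroup G}
    (hf : Fr t (A.im X) Y) (hX : ∀ c ∈ X, c ∈ sU T i → c = 1) : Y ⊓ Cz k = ⊥ :=
  hf.fix0 h.cf.inv (h.cf.TTt i hk) (h.la.fp hk h1 hX)

end H0

namespace H1
variable (h : H1 A t)
include h

theorem N4 : Cz t ⊓ Ns (A.im (sZ T)) ≤ Ns (A4 A t) := h.N_up.trans h.sa.nrm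
theorem H4 : A.h.range ≤ Ns (A4 A t) := h.H_le_N.trans h.N4
theorem H6 : A.h.range ≤ Ns (A6 A t) := H_cjs1 h.H4
theorem H2 : A.h.range ≤ Ns (A2 A t) := H_cjs8 h.H6
theorem H8 : A.h.range ≤ Ns (A8 A t) := H_cjs1 h.H2
theorem db6 : Db t ⊥ (A.im (sZ6 T)) (A6 A t) := cjs1_Z A ▸ h.sa.db.cj1 h.cf.n1t
theorem db2 : Db t ⊥ (A.im (sZ2 T)) (A2 A t) := cjs8_Z6 A ▸ h.db6.cj1 h.cf.n8t
theorem db8 : Db t ⊥ (A.im (sZ8 T)) (A8 A t) := cjs1_Z2 A ▸ h.db2.cj1 h.cf.n1t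
theorem c4im (X : Subgroup (Co T)) : A4 A t ≤ Cs (A.im X) := h.sa.cC.trans (cs_anti (im_le_C A X))
theorem c4T : A4 A t ≤ Cs (TT A 4) := h.sa.cC.trans (cs_anti h.la.T4C)
theorem c6T : A6 A t ≤ Cs (TT A 6) := h.la.cs1 (by norm_num) (by norm_num) rfl h.c4T
theorem c2T : A2 A t ≤ Cs (TT A 2) := h.la.cs8 (by norm_num) (by norm_num) rfl h.c6T
theorem c8T : A8 A t ≤ Cs (TT A 8) := h.la.cs1 (by norm_num) (by norm_num) rfl h.c2T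
theorem c6Q : A6 A t ≤ Cs (A.im (sQ1 T)) := cjs1_Q1 A ▸ cs_cj (h.c4im _)
theorem c6im {X : Subgroup (Co T)} (hX : X ≤ sQ1 T) : A6 A t ≤ Cs (A.im X) := h.c6Q.trans (cs_anti (im_mono A hX))
theorem cjs8_A4 : cjs A.n8 (A4 A t) = A4 A t := cjs_eq (h.N4 (h.C_le_N n8_C))
theorem cjs8_A2 : cjs A.n8 (A2 A t) = A6 A t := cjs88 A _
theorem cjs1_A6 : cjs A.n1 (A6 A t) = A4 A t := cjs11 A _

theorem c2U {c : Co T} (hc : c ∈ sQ T) (h7 : c.a7 = 0) : A2 A t ≤ Cz (A.ι c) := fun a ha => by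
  have := mem_Cs.1 (h.c6Q ((mem_cjs8 A).1 ha)) (A.n8 * A.ι c * A.n8) (by
    rw [A.n8_conj c hc]; simp_all [Co.nu8])
  rw [← cj_mul2 _ A.n8_sq, ← cj_mul2 _ A.n8_sq] at this
  exact mem_Cz.2 (mul_left_cancel (mul_right_cancel this)).symm

theorem not_tV {X : Subgroup (Co T)} {g : G} (hg : g ∈ Cs (A4 A t)) : t * g ∉ A.im X := fun e =>
  h.sa.nt ((mul_mem_cancel_right hg).1 (cs_symm (h.c4im X) e))

theorem Vs_nrm : Cz t ⊓ Ns (A.im (sZ T)) ≤ Ns (Vs A t) := fun g hg =>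
  ns_inf (ns_inf (ns_cs (h.N_im (by simp) hg)) (ns_cs (h.N4 hg))) (ns_up hg.1 (h.N_im (by simp) hg))

theorem mem_Vs {g : G} : g ∈ Vs A t ↔ g ∈ Cs (A.im (sR T)) ∧ g ∈ Cs (A4 A t) ∧ ⁅t, g⁆ ∈ A.im (sV T) :=
  ⟨fun hg => ⟨hg.1.1, hg.1.2, ((mem_up h.cf.inv).1 hg.2).2⟩, fun hg => ⟨⟨hg.1, hg.2.1⟩,
    (mem_up h.cf.inv).2 ⟨cs_le_ns (cs_anti V_le_R hg.1), hg.2.2⟩⟩⟩

theorem Vs_cV : Vs A t ≤ Cs (A.im (sV T)) := fun g hg => cs_anti V_le_R (h.mem_Vs.1 hg).1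
theorem Vs_c4 : Vs A t ≤ Cs (A4 A t) := fun g hg => (h.mem_Vs.1 hg).2.1
theorem Vs_phi {g : G} (hg : g ∈ Vs A t) : ⁅t, g⁆ ∈ A.im (sV T) := (h.mem_Vs.1 hg).2.2

theorem V_Vs : A.im (sV T) ≤ Vs A t := fun g hg => h.mem_Vs.2 ⟨(h.la.cQR.ge hg).2, cs_symm (h.c4im _) hg,
  by rw [comm_eq_one_iff.2 (h.cf.imt _ hg)]; exact one_mem _⟩

theorem le4 : A4 A t ≤ Vs A t := fun g hg => h.mem_Vs.2 ⟨h.c4im _ hg, h.sa.db.ab hg,
  Z_le_V (h.sa.db.phi1 h.cf.inv hg)⟩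

theorem le6 : A6 A t ≤ Vs A t := fun g hg => h.mem_Vs.2 ⟨h.c6im (fun c => by simp +contextual) hg, h.sa.c46 hg,
  im_mono A (fun c => by simp +contextual) (h.db6.phi1 h.cf.inv hg)⟩

theorem cjs8_Vs : cjs A.n8 (Vs A t) = Vs A t := cjs_eq (h.Vs_nrm (h.C_le_N n8_C))

theorem le2 : A2 A t ≤ Vs A t := h.cjs8_Vs ▸ cjs_mono h.le6

theorem Vs_fix {g : G} (hg : g ∈ Vs A t) (hc : g ∈ Cz t) : g ∈ A.im (sV T) :=
  (h.lt.cR g hc (h.mem_Vs.1 hg).1).resolve_right (h.not_tV (h.Vs_c4 hg))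

theorem Vs_mul {g g' : G} (hg : g ∈ Vs A t) (hg' : g' ∈ Vs A t) : ⁅t, g * g'⁆ = ⁅t, g⁆ * ⁅t, g'⁆ :=
  phi_mul_of (h.Vs_cV hg) (h.Vs_phi hg')

theorem onto_of {J : Subgroup G} (hJ : J ≤ Vs A t) (hC : A.C ≤ Ns J) (h6 : A6 A t ≤ J) {v : G}
    (hv : v ∈ A.im (sV T)) : ∃ y ∈ J, ⁅t, y⁆ = v := by
  refine h.la.bc.nsub (Im t J _ (fun y hy => h.Vs_phi (hJ hy)) (hJ.trans h.Vs_cV)) ?_ ?_ ?_ hv
  · rintro _ ⟨y, hy, rfl⟩
    exact im_le_C A _ (h.Vs_phi (hJ hy))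
  · intro c hc
    refine mem_ns_of ?_
    rintro _ ⟨y, hy, rfl⟩
    exact ⟨_, cj_mem (hC hc) hy, comm_cj (h.cf.Ct hc) y⟩
  · intro e
    simpa using e (h.db6.le_Im h6 (x := A.ι (x6 T 1)) (by simp))

theorem eq_Vs {J : Subgroup G} (hJ : J ≤ Vs A t) (hV : A.im (sV T) ≤ J)
    (ho : ∀ v ∈ A.im (sV T), ∃ y ∈ J, ⁅t, y⁆ = v) : J = Vs A t := by
  refine le_antisymm hJ fun y hy => ?_
  obtain ⟨a, ha, e⟩ := ho _ (h.Vs_phi hy)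
  exact (mul_mem_cancel_left (inv_mem ha)).1 (hV (h.Vs_fix (mul_mem (inv_mem (hJ ha)) hy) (cz_of_phi_eq h.cf.inv e)))

theorem comm_V {g g' : G} (hg : g ∈ Vs A t) (hg' : g' ∈ Vs A t) : ⁅g, g'⁆ ∈ A.im (sV T) :=
  h.Vs_fix (comm_mem_left (le_normalizer hg) hg') (comm_cz h.cf.inv (fun _ => h.Vs_phi) (fun _ => h.Vs_phi)
    h.Vs_cV h.Vs_cV (h.V_Vs.trans h.Vs_cV) hg hg')

theorem comm62 {a b : G} (ha : a ∈ A2 A t) (hb : b ∈ A6 A t) : ⁅b, a⁆ ∈ A.im (sV0 T) := by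
  obtain ⟨k, hk, k1⟩ := h.la.exT 2
  have l0 : A.im (sV0 T) ≤ A.im (sV T) := im_mono A fun c => by simp +contextual
  have nk : k ∈ Ns (A.im (sV0 T)) := h.la.hN _ (by simp) (TT_le_H A 2 hk)
  have n0 : Vs A t ≤ Ns (A.im (sV0 T)) := (h.Vs_cV.trans (cs_anti l0)).trans cs_le_ns
  have := fpf (N := A2 A t ⊔ A.im (sV T)) (N₀ := A.im (sV0 T)) (h.H6 (TT_le_H A 2 hk))
    (h.fp hk k1 (h.db6.fr h.cf.inv) fun c => by simp +contextual [sU, Co.ext_iff])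
    (fun b hb => ns_of_St (sup_le (le_St le_sup_left fun a ha => mem_sup_right (h.comm_V (h.le6 hb) (h.le2 ha)))
      (le_St_cs le_sup_right (h.Vs_cV (h.le6 hb))))) (h.le6.trans n0)
    (cm_of_Cl nk (sup_le (le_Cl_cs (h.le2.trans n0) (cs_symm h.c2T hk))
      (V_le (le_Cl_cs ((im_mono A fun c => by simp +contextual).trans (h.V_Vs.trans n0))
          (cs_symm (h.db2.leX.trans h.c2T) hk))
        (le_Cl_self nk (im_mono A fun c => by simp +contextual)) (le_Cl_self nk (im_mono A fun c => by simp +contextual))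
        (le_Cl_self nk (im_mono A fun c => by simp +contextual)) (le_Cl_self nk (im_mono A fun c => by simp +contextual)))))
  exact (this hb).2 a (mem_sup_left ha)

theorem comm26 {a b : G} (ha : a ∈ A2 A t) (hb : b ∈ A6 A t) : ⁅a, b⁆ ∈ A.im (sZ T) := by
  obtain ⟨w, hw, e⟩ := comm_inv_mem.1 (h.comm62 ha hb)
  have e1 := h.comm62 (cj8_mem A hb) ((mem_cjs8 A).1 ha)
  rw [← cj_comm2 A.n8_sq, ← e, A.n8_conj w (by simp_all), ι_mem_im] at e1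
  have key : ∀ c ∈ sU27 T, c.a7 = 0 → w * c = c * w := fun c hc h7 => by
    have h1 := h.c2U (c := c) (by simp_all) h7 ha
    have h2 : b ∈ Cz (A.ι c) := mem_Cz.2 (mem_Cs.1 (h.c6Q hb) _ (by simp_all)).symm
    have := mem_Cz.1 (comm_mem_left (le_normalizer h1) h2)
    rwa [← e, ← map_mul, ← map_mul, ι_inj] at this
  have e2 := congrArg Co.a4 (key (y2 T 1) (by simp) rfl)
  have e3 := congrArg Co.a4 (key (y6 T 1) (by simp) rfl)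
  rw [← e, ι_mem_im]
  clear e key
  simp only [SetLike.mem_coe, mem_sV0] at hw
  simp [hw, Co.nu8] at e1 e2 e3 ⊢
  exact ⟨e3, e2, e1⟩

theorem sq_eq {y y' : G} (hy : y ∈ Vs A t) (hy' : y' ∈ Vs A t) (e : ⁅t, y⁆ = ⁅t, y'⁆) : y' * y' = y * y := by
  have hv := h.Vs_fix (mul_mem (inv_mem hy) hy') (cz_of_phi_eq h.cf.inv e)
  calc y' * y' = y * (y⁻¹ * y' * y) * (y⁻¹ * y') := by group
    _ = y * y * (y⁻¹ * y' * (y⁻¹ * y')) := by rw [mem_Cs.1 (h.Vs_cV hy) _ hv]; group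
    _ = _ := by rw [V_sq hv, mul_one]

theorem sq_cj {y y' g : G} (hy : y ∈ Vs A t) (hy' : y' ∈ Vs A t) (hg : g ∈ A.C)
    (e : g * ⁅t, y⁆ * g⁻¹ = ⁅t, y'⁆) : y' * y' = g * (y * y) * g⁻¹ := by
  rw [← comm_cj (h.cf.Ct hg)] at e
  rw [h.sq_eq (cj_mem (h.Vs_nrm (h.C_le_N hg)) hy) hy' e, conj_mul]

theorem sq5 {y : G} (hy : y ∈ Vs A t) (e : ⁅t, y⁆ = A.ι (x5 T 1)) : y * y = 1 := by
  have h5 : ⁅t, y⁆ ∈ Cs (TT A 5) := cs_symm (h.la.ttU 5) (by simp [e, sU])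
  obtain ⟨v, hv, hb⟩ := cop' (Y₀ := A.im (sV T)) (H := TT A 5) (y := y) (h.la.two_im _) (h.la.oddT 5)
    ((TT_le_H A 5).trans (h.la.hN _ (by simp))) fun k hk => by
      have hn := h.Vs_nrm (h.H_le_N (TT_le_H A 5 hk))
      refine h.Vs_fix (comm_mem_left hn hy) (comm_eq_one_iff.1 ?_)
      rw [commutatorElement_def k, h.Vs_mul (cj_mem hn hy) (inv_mem hy), comm_cj (h.cf.TTt 5 hk),
        cj_eq_of_cs' h5 hk, phi_inv_of (h.Vs_cV hy) (h.Vs_phi hy), mul_inv_cancel]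
  have hb' := mul_mem (h.V_Vs hv) hy
  have e1 : ⁅t, v * y⁆ = ⁅t, y⁆ := by rw [h.Vs_mul (h.V_Vs hv) hy, comm_eq_one_iff.2 (h.cf.imt _ hv), one_mul]
  rw [h.sq_eq hb' hy e1]
  have e2 : v * y * (v * y) ∈ A.im (sZ T) := by
    obtain ⟨g, hg, e3⟩ := h.la.ty.cls26 1 one_ne_zero
    obtain ⟨a, ha, e4⟩ := h.db2.onto1 (x := A.ι (x2 T 1)) (by simp)
    obtain ⟨b, hb, e5⟩ := h.db6.onto1 (x := A.ι (x6 T 1)) (by simp)
    rw [h.sq_cj (mul_mem (h.le2 ha) (h.le6 hb)) hb' hg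
      (by rw [h.Vs_mul (h.le2 ha) (h.le6 hb), e4, e5, ← map_mul, e1, e]; exact e3)]
    refine cj_mem (h.la.CN (by simp) hg) ?_
    have := h.comm26 ha hb
    rwa [commutatorElement_def, h.db2.inv1 ha, h.db6.inv1 hb, mul_assoc] at this
  obtain ⟨c, hc, e3⟩ := e2
  have := h.la.memT (im_le_S A _ ⟨c, hc, e3⟩) (mul_mem hb hb)
  rw [← e3, ι_mem_im] at this
  rw [← e3, ι_eq_one]
  clear e3
  ext <;> simp_all [sU]

theorem Vs_sq {y : G} (hy : y ∈ Vs A t) : y * y = 1 := by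
  obtain ⟨c, hc, e⟩ := h.Vs_phi hy
  by_cases hz : c ∈ sZ T
  · obtain ⟨a, ha, e1⟩ := h.sa.db.onto1 ((ι_mem_im A).2 hz)
    rw [h.sq_eq (h.le4 ha) hy (e1.trans e), h.sa.db.sq1 ha]
  · obtain ⟨g, hg, e1⟩ := h.la.ty.clsV c hc hz
    have hy' := cj_mem (h.Vs_nrm (h.C_le_N hg)) hy
    have : g * y * g⁻¹ * (g * y * g⁻¹) = 1 := by
      rcases e1 with e1 | e1
      · obtain ⟨b, hb, e5⟩ := h.db6.onto1 (x := A.ι (x6 T 1)) (by simp)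
        rw [h.sq_eq (h.le6 hb) hy' (by rw [comm_cj (h.cf.Ct hg), ← e, e5]; exact e1.symm), h.db6.sq1 hb]
      · exact h.sq5 hy' (by rw [comm_cj (h.cf.Ct hg), ← e]; exact e1)
    simpa [conj_mul] using this

theorem dbV : Db t ⊥ (A.im (sV T)) (Vs A t) :=
  mk_db1 h.V_Vs (h.cf.imt _) (h.Vs_nrm h.t_mem_N) (fun _ => h.Vs_sq) (fun _ => h.Vs_fix)
    fun v hv => h.onto_of le_rfl (h.C_le_N.trans h.Vs_nrm) h.le6 hv

theorem A6_cm : A6 A t ≤ Cm (A.im (sQ T)) (A4 A t) := fun b hb => ⟨cs_le_ns (h.sa.c46 hb), by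
  rintro _ ⟨c, hc, rfl⟩
  rw [show c = x1 T c.a1 * ((x1 T c.a1)⁻¹ * c) by group, map_mul, comm_mul_right,
    comm_eq_one_of_cs (h.c6Q hb) (x := A.ι ((x1 T c.a1)⁻¹ * c))
      ((ι_mem_im A).2 (by simp [CharTwo.add_self_eq_zero]))]
  simpa using comm_inv_mem.1 ((h.sa.c61 (x := A.ι (x1 T c.a1)) (by simp)).2 b hb)⟩

theorem cQ : A.im (sQ T) ≤ Cm (Vs A t) (A4 A t) := by
  have n1 : A.C ≤ Ns (Vs A t ⊓ Cm (A.im (sQ T)) (A4 A t)) := fun g hg =>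
    ns_inf (h.Vs_nrm (h.C_le_N hg)) (ns_cm (h.la.CN (by simp) hg) (h.N4 (h.C_le_N hg)))
  have := h.eq_Vs (J := Vs A t ⊓ Cm (A.im (sQ T)) (A4 A t)) inf_le_left
    (le_inf h.V_Vs fun v hv => mem_Cm.2 ⟨cs_le_ns (cs_symm (h.c4im _) hv), fun q hq =>
      h.sa.db.leX (comm_inv_mem.1 ((h.la.Q_cm_VZ hq).2 v hv))⟩)
    fun v hv => h.onto_of inf_le_left n1 (le_inf h.le6 h.A6_cm) hv
  exact cm_symm (this ▸ inf_le_right) ((cs_symm (h.c4im _)).trans cs_le_ns)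

theorem inf_T {i : ℕ} {X : Subgroup (Co T)} {Y : Subgroup G} (hd : Db t ⊥ (A.im X) Y) (h1 : Y ≤ Vs A t)
    (h2 : Y ≤ Cs (TT A i)) (hX : ∀ c ∈ sV T, c ∈ sU T i → c ∈ X) : Vs A t ⊓ Cs (TT A i) = Y := by
  have key : ∀ g ∈ A.im (sV T), g ∈ Cs (TT A i) → g ∈ A.im X := by
    rintro _ ⟨c, hc, rfl⟩ hg
    exact (ι_mem_im A).2 (hX c hc ((ι_mem_im A).1 (h.la.memT ⟨c, rfl⟩ hg)))
  exact hd.eq_of h.cf.inv (le_inf h1 h2) (fun y hy => key _ (h.Vs_phi hy.1) (phi_cs (h.cf.TTt i) hy.2))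
    fun y hy hc => hd.leX (key _ (h.Vs_fix hy.1 hc) hy.2)

theorem db5 : Db t ⊥ (A.im (sU5 T)) (B5 A t) := by
  have := h.dbV.inf_cs h.dbV.two1 (h.la.oddT 5) (h.cf.TTt 5) ((TT_le_H A 5).trans (h.H_le_N.trans h.Vs_nrm))
    (fun _ _ => le_normalizer_of_normal (mem_top _)) ((TT_le_H A 5).trans (h.la.hN _ (by simp)))
  rwa [bot_inf_eq, show A.im (sV T) ⊓ Cs (TT A 5) = A.im (sU5 T) from le_antisymm
    (fun g hg => h.la.memT (i := 5) (im_le_S A _ (mem_inf.1 hg).1) (mem_inf.1 hg).2)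
    (le_inf (im_mono A fun c => by simp +contextual) (cs_symm (h.la.ttU 5)))] at this

theorem H5 : A.h.range ≤ Ns (B5 A t) := fun k hk =>
  ns_inf (h.Vs_nrm (h.H_le_N hk)) (ns_cs (cs_le_ns (H_cs A (TT_le_H A 5) hk)))

theorem b5_cz {u : G} (hu : u ∈ A.im (sQ T)) (h5 : u ∈ Cs (A.im (sU5 T))) (g : K →+* K)
    (hw : ∀ μ : K, μ ≠ 0 → ∃ p : Kˣ × Kˣ, A.h p * u = u * A.h p ∧
      (p.1 : K) * T.σ p.1 * (p.2 ^ 2 * T.σ p.2 ^ 2) = g μ ∧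
      (p.1 : K) ^ 2 * T.σ p.1 * (p.2 ^ 3 * T.σ p.2 ^ 2) = μ * T.σ μ) : B5 A t ≤ Cz u := by
  obtain ⟨σ₀, hs⟩ := exists_s (T := T) h.cf.card
  have nV := h.Vs_nrm (h.C_le_N (im_le_C A _ hu))
  have ph : ∀ b ∈ B5 A t, ⁅t, b⁆ ∈ A.im (sU5 T) := fun b hb => h.db5.phi1 h.cf.inv hb
  have hz : ∀ b ∈ B5 A t, ⁅b, u⁆ ∈ A.im (sZ T) := fun b hb => comm_inv_mem.1 (by
    refine h.sa.db.fix1 ((h.cQ hu).2 b hb.1) (comm_eq_one_iff.1 ?_)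
    rw [phi_comm h.cf.inv (h.cf.imt _ hu) (mem_Cs.1 (h.Vs_cV hb.1) _ (h.Vs_phi hb.1)).symm
      (mem_Cs.1 (h.Vs_cV (cj_mem nV hb.1)) _ (h.Vs_phi hb.1)).symm, comm_eq_one_of_cs h5 (ph b hb)])
  have := par2 hs g (P := B5 A t) (φ := fun b => (co A ⁅t, b⁆).a5) (ψ := fun b => (co A ⁅b, u⁆).a4)
    (fun b hb b' hb' => by
      obtain ⟨c, hc, e⟩ := ph b hb
      obtain ⟨c', hc', e'⟩ := ph b' hb'
      simp only [h.Vs_mul hb.1 hb'.1, ← e, ← e', ← map_mul, co_ι]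
      clear e e'
      simp_all)
    (fun b hb b' hb' => by
      obtain ⟨c, hc, e⟩ := hz b hb
      obtain ⟨c', hc', e'⟩ := hz b' hb'
      simp only [comm_mul_left, cj_eq_of_cs (h.Vs_cV hb.1) (Z_le_V (hz b' hb'))]
      simp only [← e, ← e', ← map_mul, co_ι]
      clear e e'
      simp_all [add_comm])
    (fun e => by
      obtain ⟨b, hb, e1⟩ := h.db5.onto1 (x := A.ι (x5 T e)) (by simp)
      exact ⟨b, hb, by simp [e1]⟩)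
    (fun b hb e => by
      have : ⁅t, b⁆ = 1 := by
        rw [← ι_co A (im_le_S A _ (ph b hb)), eq_x5 (co_mem A (ph b hb)), e, x5_zero, map_one]
      rw [comm_eq_one_of_cs' h5 (h.db5.fix1 hb (comm_eq_one_iff.1 this)), ← map_one A.ι, co_ι]
      rfl)
    fun μ hμ b hb => by
      obtain ⟨p, e1, e2, e3⟩ := hw μ hμ
      refine ⟨_, cj_mem (h.H5 ⟨p, rfl⟩) hb, ?_, ?_⟩
      · simp only [comm_cj (h.cf.Ht ⟨p, rfl⟩), co_h A (im_le_S A _ (ph b hb)), dg_a5, e2]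
      · simp only [comm_cj2 e1, co_h A (im_le_S A _ (hz b hb)), dg_a4, e3]
  intro b hb
  have e := this b hb
  refine mem_Cz.2 (commutatorElement_eq_one_iff_mul_comm.1 ?_)
  rw [← ι_co A (im_le_S A _ (hz b hb)), eq_x4 (co_mem A (hz b hb)), e, x4_zero, map_one]

theorem b51 : B5 A t ≤ Cs (A.im (sU1 T)) := fun b hb => mem_Cs.2 fun u hu => by
  refine (mem_Cz.1 (h.b5_cz (im_mono A (fun c => by simp +contextual) hu)
    (im_cs A (fun c hc d hd => by ext <;> simp_all [add_comm]) hu) (frobenius K 2) (fun μ hμ => ?_) hb)).symm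
  obtain ⟨b, e1, e2, e3, e4⟩ := exT1 T hμ
  exact ⟨(1, b), (mem_Cs.1 (h.la.ttU 1 (h_mem_TT A (by simp [wt]))) u hu).symm, by simp [e3, frobenius_def],
    by simp [e4]⟩

theorem b57 : B5 A t ≤ Cs (A.im (sU7 T)) := fun b hb => mem_Cs.2 fun u hu => by
  refine (mem_Cz.1 (h.b5_cz (im_mono A (fun c => by simp +contextual) hu)
    (im_cs A (fun c hc d hd => by ext <;> simp_all [add_comm]) hu) T.σ (fun μ hμ => ?_) hb)).symm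
  obtain ⟨p, e1, e2, e3, e4, e5, e6, e7⟩ := exT7 T hμ
  exact ⟨p, (mem_Cs.1 (h.la.ttU 7 (h_mem_TT A e1)) u hu).symm, e6, e3⟩

theorem db3 : Db t ⊥ (A.im (sU3 T)) (B3 A t) := by
  have := h.db5.cj1 h.cf.n8t
  rwa [show cjs A.n8 (A.im (sU5 T)) = A.im (sU3 T) from h.la.uu8 5 (by norm_num) (by norm_num)] at this

theorem le5 : B5 A t ≤ Vs A t := inf_le_left
theorem le3 : B3 A t ≤ Vs A t := h.cjs8_Vs ▸ cjs_mono h.le5

theorem genV : Vs A t = A2 A t ⊔ B3 A t ⊔ A4 A t ⊔ B5 A t ⊔ A6 A t := by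
  have hJ := sup_le (sup_le (sup_le (sup_le h.le2 h.le3) h.le4) h.le5) h.le6
  have l6 : A6 A t ≤ A2 A t ⊔ B3 A t ⊔ A4 A t ⊔ B5 A t ⊔ A6 A t := le_sup_right
  have l5 : B5 A t ≤ A2 A t ⊔ B3 A t ⊔ A4 A t ⊔ B5 A t ⊔ A6 A t := le_sup_right.trans le_sup_left
  have l4 : A4 A t ≤ A2 A t ⊔ B3 A t ⊔ A4 A t ⊔ B5 A t ⊔ A6 A t := (le_sup_right.trans le_sup_left).trans le_sup_left
  have l3 : B3 A t ≤ A2 A t ⊔ B3 A t ⊔ A4 A t ⊔ B5 A t ⊔ A6 A t :=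
    ((le_sup_right.trans le_sup_left).trans le_sup_left).trans le_sup_left
  have l2 : A2 A t ≤ A2 A t ⊔ B3 A t ⊔ A4 A t ⊔ B5 A t ⊔ A6 A t :=
    ((le_sup_left.trans le_sup_left).trans le_sup_left).trans le_sup_left
  refine (h.eq_Vs hJ (V_le (h.db2.leX.trans l2) (h.db3.leX.trans l3) (h.sa.db.leX.trans l4) (h.db5.leX.trans l5)
    (h.db6.leX.trans l6)) fun v hv => ?_).symm
  exact V_le (N := Im t _ _ (fun y hy => h.Vs_phi (hJ hy)) (hJ.trans h.Vs_cV)) (h.db2.le_Im l2) (h.db3.le_Im l3)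
    (h.sa.db.le_Im l4) (h.db5.le_Im l5) (h.db6.le_Im l6) hv

end H1

theorem jobV1 : JobV1.{u, v} := fun kit K _ _ _ T G _ _ A t h =>
  ⟨h.dbV, h.Vs_nrm, h.le4, h.le6, h.cQ,
    h.inf_T h.sa.db h.le4 h.c4T fun c => by simp +contextual [sU],
    h.inf_T h.db6 h.le6 h.c6T fun c => by simp +contextual [sU], h.db5, h.b51, h.b57, h.genV⟩

end H65.SR
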