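/- STD-R (S3323): job V2. -/
import Cfsg.Agent.H65.SRV1

set_option autoImplicit false
set_option linter.unusedSectionVars false
set_option linter.unusedVariables false
set_option linter.unusedSimpArgs false

open Subgroup H63.Oc H64.SG
open scoped commutatorElement

universe u v

namespace H65.SR

attribute [-simp] Subgroup.mem_map

section Gen
variable {G : Type*} [Group G] {g t a b u : G} {N X Y J : Subgroup G}

theorem comm_comm_eq_one (h1 : ⁅a, ⁅t, b⁆⁆ = 1) (h2 : ⁅b, ⁅t, a⁆⁆ = 1) (h3 : ⁅⁅t, a⁆, ⁅t, b⁆⁆ = 1) :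
    ⁅t, ⁅a⁻¹, b⁻¹⁆⁆ = 1 := by
  rw [commutatorElement_eq_one_iff_mul_comm] at h1 h2 h3
  have e : ⁅t, b * a⁆ = ⁅t, a * b⁆ := by
    rw [comm_mul_right, comm_mul_right, h1, h2, mul_inv_cancel_right, mul_inv_cancel_right, h3]
  calc ⁅t, ⁅a⁻¹, b⁻¹⁆⁆ = t * (b * a)⁻¹ * t⁻¹ * ⁅t, a * b⁆ * (b * a) * ((b * a)⁻¹ * (a * b) * (a * b)⁻¹ * (b * a)) := by
        simp only [commutatorElement_def]; group
    _ = 1 := by rw [← e]; simp only [commutatorElement_def]; group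

/-- the commutator of two elements centralises `t` modulo `N` -/
theorem comm_mod (ht : t ∈ Ns N) (ha : a ∈ Ns N) (hb : b ∈ Ns N) (h1 : ⁅a⁻¹, ⁅t, b⁻¹⁆⁆ ∈ N)
    (h2 : ⁅b⁻¹, ⁅t, a⁻¹⁆⁆ ∈ N) (h3 : ⁅⁅t, a⁻¹⁆, ⁅t, b⁻¹⁆⁆ ∈ N) : ⁅t, ⁅a, b⁆⁆ ∈ N := by
  have key : ∀ x : Ns N, QuotientGroup.mk' (N.subgroupOf (Ns N)) x = 1 ↔ x.1 ∈ N := fun x => by
    rw [QuotientGroup.mk'_apply, QuotientGroup.eq_one_iff, mem_subgroupOf]
  have := comm_comm_eq_one (t := QuotientGroup.mk' (N.subgroupOf (Ns N)) ⟨t, ht⟩)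
    (a := (QuotientGroup.mk' (N.subgroupOf (Ns N)) ⟨a, ha⟩)⁻¹) (b := (QuotientGroup.mk' (N.subgroupOf (Ns N)) ⟨b, hb⟩)⁻¹)
    (by simp only [← map_inv, ← map_commutatorElement, key]; exact h1)
    (by simp only [← map_inv, ← map_commutatorElement, key]; exact h2)
    (by simp only [← map_inv, ← map_commutatorElement, key]; exact h3)
  simp only [inv_inv, ← map_commutatorElement, key] at this
  exact this

theorem Db.gen1 (ht : Inv2 t) (h : Db t ⊥ X Y) (hJ : J ≤ Y) (hX : X ≤ J) (ho : ∀ x ∈ X, ∃ y ∈ J, ⁅t, y⁆ = x) :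
    J = Y := by
  refine le_antisymm hJ fun y hy => ?_
  obtain ⟨a, ha, e⟩ := ho _ (h.phi1 ht hy)
  exact (mul_mem_cancel_left (inv_mem ha)).1 (hX (h.fix1 (mul_mem (inv_mem (hJ ha)) hy) (cz_of_phi_eq ht e)))

theorem le_cs_sup (h1 : J ≤ Cs X) (h2 : J ≤ Cs Y) : J ≤ Cs (X ⊔ Y) := fun _ hg => cs_sup (h1 hg) (h2 hg)
theorem le_ns_sup (h1 : J ≤ Ns X) (h2 : J ≤ Ns Y) : J ≤ Ns (X ⊔ Y) := fun _ hg => ns_sup (h1 hg) (h2 hg)

theorem Fr.lift' (ht : Inv2 t) (h : Fr t X Y) (hg : ⁅t, g⁆ ∈ Y) : ∃ u ∈ Y, ∃ c ∈ Cz t, g = u * c := by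
  obtain ⟨u, hu, e⟩ := h.lift ht hg
  exact ⟨u, hu, _, e, by group⟩

end Gen

variable {K : Type*} [Field K] [Fintype K] [CharP K 2] {T : TF K} {G : Type*} [Group G] [Finite G]
  {A : AD T G} {t : G}

theorem A_le {N : Subgroup G} (h4 : A.im (sZ T) ≤ N) (h5 : A.im (sU5 T) ≤ N) (h6 : A.im (sZ6 T) ≤ N) :
    A.im (sA T) ≤ N := by
  rintro _ ⟨w, hw, rfl⟩
  rw [show w = x4 T w.a4 * x5 T w.a5 * x6 T w.a6 by ext <;> simp_all]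
  simp only [map_mul]
  exact mul_mem (mul_mem (h4 (by simp)) (h5 (by simp))) (h6 (by simp))

theorem V0_le {N : Subgroup G} (h3 : A.im (sU3 T) ≤ N) (h4 : A.im (sA T) ≤ N) : A.im (sV0 T) ≤ N := by
  rintro _ ⟨w, hw, rfl⟩
  rw [show w = x3 T w.a3 * ((x3 T w.a3)⁻¹ * w) by group, map_mul]
  exact mul_mem (h3 (by simp)) (h4 ((ι_mem_im A).2 (by simp_all [CharTwo.add_self_eq_zero])))

theorem V_le' {N : Subgroup G} (h2 : A.im (sZ2 T) ≤ N) (h4 : A.im (sV0 T) ≤ N) : A.im (sV T) ≤ N := by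
  rintro _ ⟨w, hw, rfl⟩
  rw [show w = x2 T w.a2 * ((x2 T w.a2)⁻¹ * w) by group, map_mul]
  exact mul_mem (h2 (by simp)) (h4 ((ι_mem_im A).2 (by simp_all [CharTwo.add_self_eq_zero])))

theorem A7_le {N : Subgroup G} (h0 : A.im (sV0 T) ≤ N) (h7 : A.im (sU7 T) ≤ N) : A.im (sA7 T) ≤ N := by
  rintro _ ⟨w, hw, rfl⟩
  rw [show w = (w * (x7 T w.a7)⁻¹) * x7 T w.a7 by group, map_mul]
  exact mul_mem (h0 ((ι_mem_im A).2 (by simp_all [CharTwo.add_self_eq_zero]))) (h7 (by simp))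

theorem A7_sq {g : G} (h : g ∈ A.im (sA7 T)) : g * g = 1 := by
  obtain ⟨c, hc, rfl⟩ := h
  rw [← map_mul, ι_eq_one]
  ext <;> simp_all [CharTwo.add_self_eq_zero]

theorem S_ns {X : Subgroup (Co T)} (h : ∀ c, ∀ d ∈ X, c * d * c⁻¹ ∈ X) : A.S ≤ Ns (A.im X) := by
  rintro _ ⟨c, rfl⟩
  exact im_ns A (X := ⊤) (fun c _ d hd => h c d hd) (by simp : A.ι c ∈ A.im ⊤)

theorem S_A7 : A.S ≤ Ns (A.im (sA7 T)) := S_ns fun c d hd => by simp_all; grind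

theorem V_inf {g : G} (h1 : g ∈ A.im (sV T)) (h2 : A.n1 * g * A.n1 ∈ A.im (sV T)) : g ∈ A.im (sA T) := by
  obtain ⟨c, hc, rfl⟩ := h1
  rw [A.n1_conj c (by simp_all), ι_mem_im] at h2
  simp_all [Co.nu1]

/-- `V U₇` -/
def sV7 (T : TF K) : Subgroup (Co T) where
  carrier := {c | c.a1 = 0 ∧ c.b2 = 0 ∧ c.b4 = 0 ∧ c.b6 = 0 ∧ c.b8 = 0 ∧ c.a8 = 0}
  one_mem' := by simp
  mul_mem' := fun {c d} hc hd => by simp_all
  inv_mem' := fun {c} hc => by simp_all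
@[simp] theorem mem_sV7 {c : Co T} : c ∈ sV7 T ↔ c.a1 = 0 ∧ c.b2 = 0 ∧ c.b4 = 0 ∧ c.b6 = 0 ∧ c.b8 = 0 ∧ c.a8 = 0 := Iff.rfl

theorem V7_le {N : Subgroup G} (h0 : A.im (sV T) ≤ N) (h7 : A.im (sU7 T) ≤ N) : A.im (sV7 T) ≤ N := by
  rintro _ ⟨w, hw, rfl⟩
  rw [show w = (w * (x7 T w.a7)⁻¹) * x7 T w.a7 by group, map_mul]
  exact mul_mem (h0 ((ι_mem_im A).2 (by simp_all [CharTwo.add_self_eq_zero]))) (h7 (by simp))

/-- `w ≡ c` modulo `N` -/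
def Rm (A : AD T G) (N : Subgroup G) (w : G) (c : Co T) : Prop := w * (A.ι c)⁻¹ ∈ N

theorem Rm.uniq {N : Subgroup G} {w : G} {c c' : Co T} (h : Rm A N w c) (h' : Rm A N w c') : A.ι (c * c'⁻¹) ∈ N := by
  have := mul_mem (inv_mem h) h'
  convert this using 1
  rw [map_mul, map_inv]; group

theorem Rm.cj {N : Subgroup G} {w : G} {c : Co T} (h : Rm A N w c) (p : Kˣ × Kˣ) (hn : A.h p ∈ Ns N) :
    Rm A N (A.h p * w * (A.h p)⁻¹) (dg T p.1 p.2 c) := by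
  have := cj_mem hn h
  unfold Rm
  convert this using 1
  rw [← A.tor.h_conj]; group

theorem exists_Rm {N : Subgroup G} {X : Subgroup (Co T)} (hn : A.im X ≤ Ns N) {w : G} :
    w ∈ N ⊔ A.im X ↔ ∃ c ∈ X, Rm A N w c := by
  rw [mem_sup_ns' hn]
  constructor
  · rintro ⟨n, hn, _, ⟨c, hc, rfl⟩, rfl⟩
    exact ⟨c, hc, by simpa [Rm] using hn⟩
  · rintro ⟨c, hc, e⟩
    exact ⟨_, e, _, ⟨c, hc, rfl⟩, by group⟩

/-- a coordinate of `⁅p, b⁆` modulo `N` is additive in `p` -/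
theorem exists_psi {N P : Subgroup G} {X : Subgroup (Co T)} {b : G} (hn : A.im X ≤ Ns N) (hP : P ≤ Cm (A.im X) N)
    (hw : ∀ p ∈ P, ⁅p, b⁆ ∈ N ⊔ A.im X) (f : Co T → K) (f1 : ∀ c ∈ X, ∀ d ∈ X, f (c * d) = f c + f d)
    (f2 : ∀ c ∈ X, A.ι c ∈ N → f c = 0) :
    ∃ ψ : G → K, (∀ p ∈ P, ∀ p' ∈ P, ψ (p * p') = ψ p + ψ p') ∧ ∀ p ∈ P, ∀ c ∈ X, Rm A N ⁅p, b⁆ c → ψ p = f c := by
  classical
  have key : ∀ w, ∀ c ∈ X, ∀ c' ∈ X, Rm A N w c → Rm A N w c' → f c = f c' := fun w c hc c' hc' e e' => by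
    have := f1 _ (mul_mem hc (inv_mem hc')) _ hc'
    rwa [f2 _ (mul_mem hc (inv_mem hc')) (e.uniq e'), zero_add, inv_mul_cancel_right] at this
  choose! k hk ek using fun p hp => (exists_Rm hn).1 (hw p hp)
  refine ⟨fun p => f (k p), fun p hp p' hp' => ?_, fun p hp c hc e => key _ _ (hk p hp) _ hc (ek p hp) e⟩
  rw [add_comm, ← f1 _ (hk _ hp') _ (hk _ hp)]
  refine key _ _ (hk _ (mul_mem hp hp')) _ (mul_mem (hk _ hp') (hk _ hp)) (ek _ (mul_mem hp hp')) ?_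
  have m : A.ι (k p') ∈ A.im X := ⟨_, hk _ hp', rfl⟩
  have := mul_mem (mul_mem (cj_mem (hP hp).1 (ek _ hp')) ((hP hp).2 _ m)) (cj_mem (hn m) (ek _ hp))
  unfold Rm
  convert this using 1
  rw [comm_mul_left, map_mul, commutatorElement_def p (A.ι _)]; group

namespace H1
variable (h : H1 A t)
include h

theorem mem_A7s {g : G} : g ∈ A7s A t ↔ g ∈ Cs (A.im (sA7 T)) ∧ g ∈ Cs (A4 A t) ∧ ⁅t, g⁆ ∈ A.im (sA7 T) :=
  ⟨fun hg => ⟨hg.1.1, hg.1.2, ((mem_up h.cf.inv).1 hg.2).2⟩, fun hg => ⟨⟨hg.1, hg.2.1⟩,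
    (mem_up h.cf.inv).2 ⟨cs_le_ns hg.1, hg.2.2⟩⟩⟩

theorem A7s_c : A7s A t ≤ Cs (A.im (sA7 T)) := fun g hg => (h.mem_A7s.1 hg).1
theorem A7s_c4 : A7s A t ≤ Cs (A4 A t) := fun g hg => (h.mem_A7s.1 hg).2.1
theorem A7s_phi {g : G} (hg : g ∈ A7s A t) : ⁅t, g⁆ ∈ A.im (sA7 T) := (h.mem_A7s.1 hg).2.2
theorem A7s_fix {g : G} (hg : g ∈ A7s A t) (hc : g ∈ Cz t) : g ∈ A.im (sA7 T) :=
  (h.lt.cA7 g hc (h.A7s_c hg)).resolve_right (h.not_tV (h.A7s_c4 hg))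
theorem A7s_ns {g : G} (h1 : g ∈ Cz t ⊓ Ns (A.im (sZ T))) (h2 : g ∈ Ns (A.im (sA7 T))) : g ∈ Ns (A7s A t) :=
  ns_inf (ns_inf (ns_cs h2) (ns_cs (h.N4 h1))) (ns_up h1.1 h2)
theorem u7 : A.S ≤ Ns (A7s A t) := fun g hg => h.A7s_ns (h.C_le_N (S_le_C A hg)) (S_A7 hg)
theorem h7 : A.h.range ≤ Ns (A7s A t) := fun g hg => h.A7s_ns (h.H_le_N hg) (h.la.hN _ (by simp) hg)
theorem Vs_ab : Vs A t ≤ Cs (Vs A t) := h.dbV.ab
theorem Vs_cs {X Y : Subgroup G} (hX : X ≤ Vs A t) (hY : Y ≤ Vs A t) : X ≤ Cs Y := (hX.trans h.Vs_ab).trans (cs_anti hY)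
theorem V0_Vs : A.im (sV0 T) ≤ Vs A t := (im_mono A fun c => by simp +contextual).trans h.V_Vs

theorem le_A7s {X : Subgroup (Co T)} {Y : Subgroup G} (hd : Db t ⊥ (A.im X) Y) (hY : Y ≤ Vs A t)
    (h7 : Y ≤ Cs (A.im (sU7 T))) (hX : X ≤ sA7 T) : Y ≤ A7s A t := fun y hy =>
  h.mem_A7s.2 ⟨cs_symm (A7_le (h.Vs_cs h.V0_Vs hY) (cs_symm h7)) hy, h.Vs_c4 (hY hy), im_mono A hX (hd.phi1 h.cf.inv hy)⟩

theorem b37 : B3 A t ≤ Cs (A.im (sU7 T)) := by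
  have := cs_cj (g := A.n8) h.b51
  rwa [show cjs A.n8 (A.im (sU1 T)) = A.im (sU7 T) from h.la.uu8 1 (by norm_num) (by norm_num)] at this

theorem l3 : B3 A t ≤ A7s A t := h.le_A7s h.db3 h.le3 h.b37 fun c => by simp +contextual
theorem l4 : A4 A t ≤ A7s A t := h.le_A7s h.sa.db h.le4 (h.c4im _) fun c => by simp +contextual
theorem l5 : B5 A t ≤ A7s A t := h.le_A7s h.db5 h.le5 h.b57 fun c => by simp +contextual
theorem l6 : A6 A t ≤ A7s A t :=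
  h.le_A7s h.db6 h.le6 (h.c6im fun c => by simp +contextual) fun c => by simp +contextual

theorem dbB7 : Db t ⊥ (A.im (sU7 T)) (B7 A t) := by
  have := h.db3.cj1 h.cf.n1t
  rwa [show cjs A.n1 (A.im (sU3 T)) = A.im (sU7 T) from h.la.uu1 3 (by norm_num) (by norm_num)] at this

theorem dbB1 : Db t ⊥ (A.im (sU1 T)) (B1 A t) := by
  have := h.dbB7.cj1 h.cf.n8t
  rwa [show cjs A.n8 (A.im (sU7 T)) = A.im (sU1 T) from h.la.uu8 7 (by norm_num) (by norm_num)] at this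

theorem l7 : B7 A t ≤ A7s A t := fun y hy => h.mem_A7s.2 ⟨(cjs1_A7 A ▸ cs_cj (h.l3.trans h.A7s_c) :) hy,
  (h.cjs1_A6 ▸ cs_cj (h.Vs_cs h.le3 h.le6) :) hy, im_mono A (fun c => by simp +contextual) (h.dbB7.phi1 h.cf.inv hy)⟩

theorem H3 : A.h.range ≤ Ns (B3 A t) := H_cjs8 h.H5
theorem H7 : A.h.range ≤ Ns (B7 A t) := H_cjs1 h.H3
theorem HB1 : A.h.range ≤ Ns (B1 A t) := H_cjs8 h.H7
theorem c5T : B5 A t ≤ Cs (TT A 5) := inf_le_right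
theorem c3T : B3 A t ≤ Cs (TT A 3) := h.la.cs8 (by norm_num) (by norm_num) rfl h.c5T
theorem c7T : B7 A t ≤ Cs (TT A 7) := h.la.cs1 (by norm_num) (by norm_num) rfl h.c3T
theorem c1T : B1 A t ≤ Cs (TT A 1) := h.la.cs8 (by norm_num) (by norm_num) rfl h.c7T

theorem onto0 {J : Subgroup G} (hJ : J ≤ A7s A t) (l3 : B3 A t ≤ J) (l4 : A4 A t ≤ J) (l5 : B5 A t ≤ J)
    (l6 : A6 A t ≤ J) : A.im (sV0 T) ≤ Im t J _ (fun y hy => h.A7s_phi (hJ hy)) (hJ.trans h.A7s_c) :=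
  V0_le (h.db3.le_Im l3) (A_le (h.sa.db.le_Im l4) (h.db5.le_Im l5) (h.db6.le_Im l6))

theorem gen7 : A7s A t = B3 A t ⊔ A4 A t ⊔ B5 A t ⊔ A6 A t ⊔ B7 A t := by
  have hJ := sup_le (sup_le (sup_le (sup_le h.l3 h.l4) h.l5) h.l6) h.l7
  have l7 : B7 A t ≤ B3 A t ⊔ A4 A t ⊔ B5 A t ⊔ A6 A t ⊔ B7 A t := le_sup_right
  have l6 : A6 A t ≤ B3 A t ⊔ A4 A t ⊔ B5 A t ⊔ A6 A t ⊔ B7 A t := le_sup_right.trans le_sup_left
  have l5 : B5 A t ≤ B3 A t ⊔ A4 A t ⊔ B5 A t ⊔ A6 A t ⊔ B7 A t := (le_sup_right.trans le_sup_left).trans le_sup_left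
  have l4 : A4 A t ≤ B3 A t ⊔ A4 A t ⊔ B5 A t ⊔ A6 A t ⊔ B7 A t :=
    ((le_sup_right.trans le_sup_left).trans le_sup_left).trans le_sup_left
  have l3 : B3 A t ≤ B3 A t ⊔ A4 A t ⊔ B5 A t ⊔ A6 A t ⊔ B7 A t :=
    ((le_sup_left.trans le_sup_left).trans le_sup_left).trans le_sup_left
  refine le_antisymm (fun y hy => ?_) hJ
  obtain ⟨a, ha, e⟩ := A7_le (h.onto0 hJ l3 l4 l5 l6) (h.dbB7.le_Im l7) (h.A7s_phi hy)
  exact (mul_mem_cancel_left (inv_mem ha)).1 (A7_le (V0_le (h.db3.leX.trans l3) (A_le (h.sa.db.leX.trans l4)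
    (h.db5.leX.trans l5) (h.db6.leX.trans l6))) (h.dbB7.leX.trans l7)
    (h.A7s_fix (mul_mem (inv_mem (hJ ha)) hy) (cz_of_phi_eq h.cf.inv e)))

theorem A7s_c6 : A7s A t ≤ Cs (A6 A t) := h.gen7 ▸ sup_le (sup_le (sup_le (sup_le (h.Vs_cs h.le3 h.le6)
  (h.Vs_cs h.le4 h.le6)) (h.Vs_cs h.le5 h.le6)) (h.Vs_cs h.le6 h.le6)) (cs_cj (h.Vs_cs h.le3 h.le4))

theorem phi_n1 (g : G) : ⁅t, A.n1 * g * A.n1⁆ = A.n1 * ⁅t, g⁆ * A.n1 := by rw [cj_comm2 A.n1_sq, h.tn1]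
theorem phi_n8 (g : G) : ⁅t, A.n8 * g * A.n8⁆ = A.n8 * ⁅t, g⁆ * A.n8 := by rw [cj_comm2 A.n8_sq, h.tn8]

theorem n17 : A.n1 ∈ Ns (A7s A t) := mem_ns_of fun g hg => by
  rw [n1_inv]
  refine h.mem_A7s.2 ⟨?_, ?_, ?_⟩
  · rw [← cjs1_A7, ← cjs_cs]; exact cj1_mem A (h.A7s_c hg)
  · rw [← h.cjs1_A6, ← cjs_cs]; exact cj1_mem A (h.A7s_c6 hg)
  · rw [h.phi_n1, ← cjs1_A7]; exact cj1_mem A (h.A7s_phi hg)

theorem A7s_T5 : A7s A t ⊓ Cs (TT A 5) = B5 A t := by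
  have key : ∀ g ∈ A.im (sA7 T), g ∈ Cs (TT A 5) → g ∈ A.im (sU5 T) := fun g hg hc => h.la.memT (i := 5) (im_le_S A _ hg) hc
  exact h.db5.eq_of h.cf.inv (le_inf h.l5 h.c5T) (fun y hy => key _ (h.A7s_phi hy.1) (phi_cs (h.cf.TTt 5) hy.2))
    fun y hy hc => h.db5.leX (key _ (h.A7s_fix hy.1 hc) hy.2)

theorem cjs1_B5 : cjs A.n1 (B5 A t) = B5 A t := by
  rw [← h.A7s_T5, cjs_inf, cjs_cs, h.la.tt1 5 (by norm_num) (by norm_num), cjs_eq h.n17]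

theorem n15 : A.n1 ∈ Cs (B5 A t) := by
  have h1 : A.ι (x1 T 1) ∈ Cs (B5 A t) := cs_symm h.b51 (by simp)
  have h2 : A.n1 * A.ι (x1 T 1) * A.n1 ∈ Cs (B5 A t) := by
    rw [← h.cjs1_B5, ← cjs_cs]; exact cj1_mem A h1
  rw [n1_eq A]
  exact mul_mem (mul_mem h1 h2) h1

theorem A7s_sq0 {y : G} (hy : y ∈ A7s A t) (e : ⁅t, y⁆ ∈ A.im (sV0 T)) : y * y = 1 := by
  obtain ⟨a, ha, e1⟩ := h.onto0 (J := A7s A t ⊓ Vs A t) inf_le_left (le_inf h.l3 h.le3) (le_inf h.l4 h.le4)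
    (le_inf h.l5 h.le5) (le_inf h.l6 h.le6) e
  have hv := h.A7s_fix (mul_mem (inv_mem ha.1) hy) (cz_of_phi_eq h.cf.inv e1)
  calc y * y = a * (a⁻¹ * y * a) * (a⁻¹ * y) := by group
    _ = a * a * (a⁻¹ * y * (a⁻¹ * y)) := by rw [mem_Cs.1 (h.A7s_c ha.1) _ hv]; group
    _ = _ := by rw [A7_sq hv, h.Vs_sq ha.2, mul_one]

theorem A7s_sq {y : G} (hy : y ∈ A7s A t) : y * y = 1 := by
  obtain ⟨c, hc, e⟩ := h.A7s_phi hy
  by_cases h7 : c.a7 = 0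
  · exact h.A7s_sq0 hy (by rw [← e]; clear e; simp_all)
  obtain ⟨r, hr⟩ := sig_surj T (c.a3 / c.a7)
  have h1 := cj_mem (h.u7 ⟨x1 T r, rfl⟩) hy
  have h2 := h.A7s_sq0 (ns1 A h.n17 h1) (by
    rw [h.phi_n1, comm_cj (h.cf.ct (ι_mem A _)), ← e, ← map_inv, ← map_mul, ← map_mul,
      A.n1_conj _ (by clear e; simp_all [CharTwo.add_self_eq_zero]), ι_mem_im]
    clear e
    simp_all [Co.nu1, CharTwo.add_self_eq_zero, mul_div_cancel₀])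
  rw [← cj_mul2 _ A.n1_sq, conj_mul] at h2
  have h3 := congrArg (fun x => A.n1 * x * A.n1) h2
  simpa [n1_cj, A.n1_sq] using h3

theorem db7 : Db t ⊥ (A.im (sA7 T)) (A7s A t) :=
  mk_db1 (A7_le (V0_le (h.db3.leX.trans h.l3) (A_le (h.sa.db.leX.trans h.l4)
    (h.db5.leX.trans h.l5) (h.db6.leX.trans h.l6))) (h.dbB7.leX.trans h.l7)) (h.cf.imt _)
    (h.A7s_ns h.t_mem_N (h.cf.t_ns (im_le A _))) (fun _ => h.A7s_sq) (fun _ => h.A7s_fix)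
    fun v hv => A7_le (h.onto0 le_rfl h.l3 h.l4 h.l5 h.l6) (h.dbB7.le_Im h.l7) hv

theorem A7s_cs {X Y : Subgroup G} (hX : X ≤ A7s A t) (hY : Y ≤ A7s A t) : X ≤ Cs Y :=
  (hX.trans h.db7.ab).trans (cs_anti hY)

theorem s4 : A4 A t ≤ sAs A t := le_inf h.le4 (h.cjs1_A6 ▸ cjs_mono h.le6)
theorem s5 : B5 A t ≤ sAs A t := le_inf h.le5 (h.cjs1_B5 ▸ cjs_mono h.le5)
theorem s6 : A6 A t ≤ sAs A t := le_inf h.le6 (cjs_mono h.le4)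
theorem sAs_le : sAs A t ≤ Vs A t := inf_le_left

theorem sAs_onto {J : Subgroup G} (hJ : J ≤ Vs A t) (l4 : A4 A t ≤ J) (l5 : B5 A t ≤ J) (l6 : A6 A t ≤ J) :
    A.im (sA T) ≤ Im t J _ (fun y hy => h.Vs_phi (hJ hy)) (hJ.trans h.Vs_cV) :=
  A_le (h.sa.db.le_Im l4) (h.db5.le_Im l5) (h.db6.le_Im l6)

theorem dbA : Db t ⊥ (A.im (sA T)) (sAs A t) :=
  mk_db1 (A_le (h.sa.db.leX.trans h.s4) (h.db5.leX.trans h.s5) (h.db6.leX.trans h.s6)) (h.cf.imt _)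
    (ns_inf h.dbV.tY (h.dbV.cj1 h.cf.n1t).tY) (fun y hy => h.Vs_sq hy.1)
    (fun y hy hc => V_inf (h.Vs_fix hy.1 hc) (h.Vs_fix ((mem_cjs1 A).1 hy.2)
      (mul_mem (mul_mem h.cf.n1t hc) h.cf.n1t)))
    fun v hv => h.sAs_onto h.sAs_le h.s4 h.s5 h.s6 hv

theorem genA : sAs A t = A4 A t ⊔ B5 A t ⊔ A6 A t := by
  have hJ := sup_le (sup_le h.s4 h.s5) h.s6
  have l4 : A4 A t ≤ A4 A t ⊔ B5 A t ⊔ A6 A t := le_sup_left.trans le_sup_left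
  have l5 : B5 A t ≤ A4 A t ⊔ B5 A t ⊔ A6 A t := le_sup_right.trans le_sup_left
  exact (h.dbA.gen1 h.cf.inv hJ (A_le (h.sa.db.leX.trans l4) (h.db5.leX.trans l5) (h.db6.leX.trans le_sup_right))
    fun v hv => h.sAs_onto (hJ.trans h.sAs_le) l4 l5 le_sup_right hv).symm

theorem sAs_A7s : sAs A t ≤ A7s A t := h.genA ▸ sup_le (sup_le h.l4 h.l5) h.l6

theorem gen0 : A7s A t ⊓ Vs A t = B3 A t ⊔ sAs A t := by
  have hJ := sup_le h.l3 h.sAs_A7s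
  have hJ' := sup_le h.le3 h.sAs_le
  have key : ∀ g ∈ A.im (sA7 T), g ∈ A.im (sV T) → g ∈ A.im (sV0 T) := by
    rintro _ ⟨c, hc, rfl⟩ h2
    simp_all
  refine le_antisymm (fun y hy => ?_) (le_inf hJ hJ')
  obtain ⟨a, ha, e⟩ := h.onto0 hJ le_sup_left (h.s4.trans le_sup_right) (h.s5.trans le_sup_right)
    (h.s6.trans le_sup_right) (key _ (h.A7s_phi hy.1) (h.Vs_phi hy.2))
  have hc := cz_of_phi_eq h.cf.inv e
  exact (mul_mem_cancel_left (inv_mem ha)).1 (V0_le (h.db3.leX.trans le_sup_left) (h.dbA.leX.trans le_sup_right)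
    (key _ (h.A7s_fix (mul_mem (inv_mem (hJ ha)) hy.1) hc) (h.Vs_fix (mul_mem (inv_mem (hJ' ha)) hy.2) hc)))

theorem im_ns4 (X : Subgroup (Co T)) : A.im X ≤ Ns (A4 A t) := (cs_symm (h.c4im X)).trans cs_le_ns

theorem mem_A4 {c : Co T} (hc : A.ι c ∈ A4 A t) : c ∈ sZ T :=
  (ι_mem_im A).1 (h.sa.db.fix1 hc (h.cf.ct (ι_mem A c)))

theorem van7 {P : Subgroup G} (hP : P ≤ Vs A t) (hH : A.h.range ≤ Ns P) {b : G} (hb : b ∈ B7 A t)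
    (hw : ∀ p ∈ P, ⁅p, b⁆ ∈ A4 A t ⊔ A.im (sV0 T)) (φ : G → K)
    (hφ : ∀ p ∈ P, ∀ p' ∈ P, φ (p * p') = φ p + φ p') (onto : ∀ e, ∃ p ∈ P, φ p = e)
    (ker : ∀ p ∈ P, φ p = 0 → ⁅p, b⁆ ∈ A4 A t)
    (eqv : ∀ q : Kˣ × Kˣ, ∀ p ∈ P, φ (A.h q * p * (A.h q)⁻¹) = (q.1 : K) * T.σ q.1 * (q.2 * T.σ q.2) * φ p) :
    ∀ p ∈ P, ⁅p, b⁆ ∈ A4 A t := by
  obtain ⟨σ₀, hs⟩ := exists_s (T := T) h.cf.card
  have main : ∀ (f : Co T → K) (g : K →+* K), (∀ c ∈ sV0 T, ∀ d ∈ sV0 T, f (c * d) = f c + f d) →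
      (∀ c ∈ sZ T, f c = 0) → (∀ μ : K, ∀ a b : K, a * T.σ a * (b ^ 2 * T.σ b) = μ ^ 2 →
        a * T.σ a * (b ^ 2 * T.σ b ^ 2) = T.σ μ → a * T.σ a * (b ^ 3 * T.σ b ^ 2) = μ →
        ∀ c, f (dg T a b c) = g μ * f c) → ∀ p ∈ P, ∀ c ∈ sV0 T, Rm A (A4 A t) ⁅p, b⁆ c → f c = 0 :=
    fun f g f1 f2 f3 => by
      obtain ⟨ψ, ψ1, ψ2⟩ := exists_psi (h.im_ns4 _) (fun p hp => cm_of_cs (cs_le_ns (h.Vs_c4 (hP hp)))
        (h.Vs_cs hP h.V0_Vs hp)) hw f f1 fun c _ hc => f2 c (h.mem_A4 hc)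
      have := par1 hs g hφ ψ1 onto
        (fun p hp e => by rw [ψ2 p hp 1 (one_mem _) (by simpa [Rm] using ker p hp e), f2 _ (one_mem _)])
        fun μ hμ p hp => by
          obtain ⟨q, e1, e2, e3, e4, e5, e6, e7⟩ := exT7 T hμ
          have hp' := cj_mem (hH ⟨q, rfl⟩) hp
          obtain ⟨c, hc, e⟩ := (exists_Rm (h.im_ns4 _)).1 (hw p hp)
          refine ⟨_, hp', by rw [eqv q p hp, e4], ?_⟩
          rw [ψ2 p hp c hc e, ψ2 _ hp' (dg T q.1 q.2 c) (by simp [(mem_sV0 T).1 hc]), f3 μ _ _ e5 e6 e7]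
          rw [comm_cj2 (mem_Cs.1 (h.c7T hb) _ (h_mem_TT A e1))]
          exact e.cj q (h.H4 ⟨q, rfl⟩)
      intro p hp c hc e
      rw [← ψ2 p hp c hc e, this p hp]
  intro p hp
  obtain ⟨c, hc, e⟩ := (exists_Rm (h.im_ns4 _)).1 (hw p hp)
  have e3 := main Co.a3 (frobenius K 2) (by simp +contextual) (by simp +contextual)
    (by simp +contextual [frobenius_def]) p hp c hc e
  have e5 := main Co.a5 T.σ (by simp +contextual) (by simp +contextual) (by simp +contextual) p hp c hc e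
  have e6 := main Co.a6 (RingHom.id K) (by simp +contextual) (by simp +contextual) (by simp +contextual) p hp c hc e
  exact (mul_mem_cancel_right (inv_mem (h.sa.db.leX ((ι_mem_im A).2
    (by simp [(mem_sV0 T).1 hc, e3, e5, e6]))))).1 e

theorem A7_A7s : A.im (sA7 T) ≤ A7s A t := h.db7.leX
theorem V0_A7s : A.im (sV0 T) ≤ A7s A t := (im_mono A fun c => by simp +contextual).trans h.A7_A7s

theorem b7_V2 {b : G} (hb : b ∈ B7 A t) : ∀ v ∈ A.im (sZ2 T), ⁅v, b⁆ ∈ A4 A t := by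
  obtain ⟨k, hk, k1⟩ := h.la.exT 7
  have l2 : A.im (sZ2 T) ≤ Vs A t := h.db2.leX.trans h.le2
  have hH : A.h.range ≤ Ns (A.im (sZ2 T)) := h.la.hN _ (by simp)
  have nk : k ∈ Ns (A4 A t ⊔ A.im (sV0 T)) := ns_sup (h.H4 (TT_le_H A 7 hk)) (h.la.hN _ (by simp) (TT_le_H A 7 hk))
  have n0 : A7s A t ≤ Ns (A4 A t ⊔ A.im (sV0 T)) := (h.A7s_cs le_rfl (sup_le h.l4 h.V0_A7s)).trans cs_le_ns
  have := fpf (N := B7 A t ⊔ (A4 A t ⊔ A.im (sA7 T))) (N₀ := A4 A t ⊔ A.im (sV0 T)) (hH (TT_le_H A 7 hk))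
    (h.la.fp hk k1 fun c => by simp +contextual [sU, Co.ext_iff])
    (fun v hv => ns_of_St (sup_le (le_St le_sup_left fun b hb => mem_sup_right (by
        have nv := h.u7 (im_le_S A _ hv)
        have m := comm_mem_left nv (h.l7 hb)
        have m7 := h.dbB7.phi1 h.cf.inv hb
        have : ⁅t, ⁅v, b⁆⁆ ∈ A.im (sZ T) := by
          rw [phi_comm h.cf.inv (h.cf.imt _ hv) (mem_Cs.1 (h.A7s_c (h.l7 hb)) _ (h.A7s_phi (h.l7 hb))).symm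
            (mem_Cs.1 (h.A7s_c (cj_mem nv (h.l7 hb))) _ (h.A7s_phi (h.l7 hb))).symm]
          exact comm_inv_mem.1 ((h.la.Q_cm_VZ (im_mono A (fun c => by simp +contextual) m7)).2 _
            (im_mono A (fun c => by simp +contextual) hv))
        obtain ⟨a, ha, e⟩ := h.sa.db.onto1 this
        exact (mul_mem_cancel_left (inv_mem (mem_sup_left ha))).1 (mem_sup_right
          (h.A7s_fix (mul_mem (inv_mem (h.l4 ha)) m) (cz_of_phi_eq h.cf.inv e)))))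
      (le_St_ns le_sup_right (ns_sup (h.im_ns4 _ hv) (S_A7 (im_le_S A _ hv))))))
    ((h.Vs_cs l2 (sup_le h.le4 h.V0_Vs)).trans cs_le_ns)
    (cm_of_Cl nk (sup_le (le_Cl_cs (h.l7.trans n0) (cs_symm h.c7T hk)) (sup_le (le_Cl_self nk le_sup_left)
      (A7_le (le_Cl_self nk le_sup_right) (le_Cl_cs ((h.dbB7.leX.trans h.l7).trans n0) (h.la.ttU 7 hk))))))
  refine h.van7 l2 hH hb (fun v hv => (this hv).2 b (mem_sup_left hb)) (fun g => (co A g).a2) ?_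
    (fun e => ⟨A.ι (x2 T e), by simp, by simp⟩) ?_ ?_
  · rintro _ ⟨c, hc, rfl⟩ _ ⟨d, hd, rfl⟩
    rw [← map_mul, co_ι, co_ι, co_ι]; simp_all
  · rintro _ ⟨c, hc, rfl⟩ e
    rw [co_ι] at e
    rw [eq_x2 hc, e, x2_zero, map_one, commutatorElement_one_left]; exact one_mem _
  · intro q p hp
    rw [co_h A (im_le_S A _ hp), dg_a2]

theorem b7_V : B7 A t ≤ Cm (A.im (sV T)) (A4 A t) := fun b hb => by
  have n := cs_le_ns (h.A7s_c4 (h.l7 hb))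
  exact cm_of_Cl n (V_le' (le_Cl (h.im_ns4 _) (fun v hv => comm_inv_mem.1 (h.b7_V2 hb v hv)) n)
    (le_Cl_cs (h.im_ns4 _) (h.A7s_cs h.l7 h.V0_A7s hb)))

theorem comm27 {a b : G} (ha : a ∈ A2 A t) (hb : b ∈ B7 A t) : ⁅a, b⁆ ∈ A4 A t ⊔ A.im (sV7 T) := by
  have u7 := h.dbB7.phi1 h.cf.inv hb
  have v2 := h.db2.phi1 h.cf.inv ha
  have uQ : ⁅t, b⁆ ∈ A.im (sQ T) := im_mono A (fun c => by simp +contextual) u7
  have vV : ⁅t, a⁆ ∈ A.im (sV T) := h.Vs_phi (h.le2 ha)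
  have a4 := h.Vs_c4 (h.le2 ha)
  have b4 := h.A7s_c4 (h.l7 hb)
  obtain ⟨u, hu, c, hc, e⟩ := (h.sa.db.fr h.cf.inv).lift' h.cf.inv (g := ⁅a, b⁆)
    (comm_mod h.sa.db.tY (cs_le_ns a4) (cs_le_ns b4)
      (by rw [h.db2.inv1 ha, h.dbB7.inv1 hb]; exact comm_inv_mem.1 ((h.cQ uQ).2 a (h.le2 ha)))
      (by rw [h.db2.inv1 ha, h.dbB7.inv1 hb]; exact (h.b7_V hb).2 _ vV)
      (by rw [h.db2.inv1 ha, h.dbB7.inv1 hb]; exact h.sa.db.leX (comm_inv_mem.1 ((h.la.Q_cm_VZ uQ).2 _ vV))))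
  have key : ∀ X : Subgroup G, A2 A t ≤ Cs X → B7 A t ≤ Cs X → A4 A t ≤ Cs X → c ∈ Cs X := fun X h1 h2 h3 =>
    (mul_mem_cancel_left (h3 hu)).1 (e ▸ comm_mem_left (le_normalizer (h1 ha)) (h2 hb))
  have k0 := key _ (h.Vs_cs h.le2 h.V0_Vs) (h.A7s_cs h.l7 h.V0_A7s) (h.c4im _)
  have k6 := key (A.im (sU6 T)) (fun a ha => mem_Cs.2 (by
      rintro _ ⟨d, hd, rfl⟩
      exact (mem_Cz.1 (h.c2U (by simp_all) (by simp_all) ha)).symm))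
    (by
      have := cs_cj (g := A.n1) (X := B3 A t) (Y := A.im (sU4 T)) fun b hb =>
        cs_anti (im_mono A fun c => by simp +contextual) (h.mem_Vs.1 (h.le3 hb)).1
      rwa [show cjs A.n1 (A.im (sU4 T)) = A.im (sU6 T) from h.la.uu1 4 (by norm_num) (by norm_num)] at this)
    (h.c4im _)
  obtain ⟨d, hd, rfl⟩ := (h.lt.cl c hc (cs_anti (im_mono A fun c => by simp +contextual) k0)).resolve_right
    (h.not_tV (key _ (h.le2.trans h.Vs_c4) (h.l7.trans h.A7s_c4) h.sa.db.ab))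
  rw [e]
  refine mul_mem_sup hu ((ι_mem_im A).2 ?_)
  have e1 := (ι_mem_cs A).1 k0 (x3 T 1) (by simp)
  have e2 := (ι_mem_cs A).1 k0 (x5 T 1) (by simp)
  have e3 := (ι_mem_cs A).1 k6 (y6 T 1) (by simp)
  have hd' : d.a1 = 0 := hd
  have b8 : d.b8 = 0 := by simpa [hd'] using congrArg Co.a6 e2
  have a8 : d.a8 = 0 := by simpa [hd', b8] using congrArg Co.a6 e1
  have b2 : d.b2 = 0 := by simpa [hd', b8, a8] using congrArg Co.a4 e2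
  have b6 : d.b6 = 0 := by simpa [hd', b8, a8] using congrArg Co.a4 e1
  have b4 : d.b4 = 0 := by simpa [hd', b8, a8, b6, b2] using congrArg Co.a5 e3
  exact ⟨hd', b2, b4, b6, b8, a8⟩

theorem comm27' {a b : G} (ha : a ∈ A2 A t) (hb : b ∈ B7 A t) : ⁅a, b⁆ ∈ A4 A t ⊔ A.im (sV T) := by
  obtain ⟨k, hk, k1⟩ := h.la.exT 7
  have nk : k ∈ Ns (A4 A t ⊔ A.im (sV T)) := ns_sup (h.H4 (TT_le_H A 7 hk)) (h.la.hN _ (by simp) (TT_le_H A 7 hk))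
  have lQ : A.im (sV7 T) ≤ A.im (sQ T) := im_mono A fun c => by simp +contextual
  have := fpf (N := B7 A t ⊔ (A4 A t ⊔ A.im (sV7 T))) (N₀ := A4 A t ⊔ A.im (sV T)) (h.H2 (TT_le_H A 7 hk))
    (h.fp hk k1 (h.db2.fr h.cf.inv) fun c => by simp +contextual [sU, Co.ext_iff])
    (fun a ha => ns_of_St (sup_le (le_St le_sup_left fun b hb => mem_sup_right (h.comm27 ha hb))
      (sup_le (le_St_cs (le_sup_left.trans le_sup_right) (h.Vs_c4 (h.le2 ha)))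
        (le_St (le_sup_right.trans le_sup_right) fun x hx =>
          mem_sup_right (mem_sup_left (comm_inv_mem.1 ((h.cQ (lQ hx)).2 a (h.le2 ha))))))))
    ((h.Vs_cs h.le2 (sup_le h.le4 h.V_Vs)).trans cs_le_ns)
    (cm_of_Cl nk (sup_le (le_Cl_cs (fun b hb => ns_of_St (sup_le (le_St_cs le_sup_left (h.A7s_c4 (h.l7 hb)))
        (le_St le_sup_right fun v hv => mem_sup_left ((h.b7_V hb).2 v hv)))) (cs_symm h.c7T hk))
      (sup_le (le_Cl_self nk le_sup_left) (V7_le (le_Cl_self nk le_sup_right)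
        (le_Cl_cs (le_ns_sup (h.im_ns4 _) ((im_le_C A _).trans (h.la.CN (by simp)))) (h.la.ttU 7 hk))))))
  exact (this ha).2 b (mem_sup_left hb)

theorem comm27'' {a b : G} (ha : a ∈ A2 A t) (hb : b ∈ B7 A t) : ⁅b, a⁆ ∈ A4 A t ⊔ A.im (sV0 T) := by
  obtain ⟨k, hk, k1⟩ := h.la.exT 2
  have nk : k ∈ Ns (A4 A t ⊔ A.im (sV0 T)) := ns_sup (h.H4 (TT_le_H A 2 hk)) (h.la.hN _ (by simp) (TT_le_H A 2 hk))
  have n0 : Vs A t ≤ Ns (A4 A t ⊔ A.im (sV0 T)) := (h.Vs_cs le_rfl (sup_le h.le4 h.V0_Vs)).trans cs_le_ns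
  have := fpf (N := A2 A t ⊔ (A4 A t ⊔ A.im (sV T))) (N₀ := A4 A t ⊔ A.im (sV0 T)) (h.H7 (TT_le_H A 2 hk))
    (h.fp hk k1 (h.dbB7.fr h.cf.inv) fun c => by simp +contextual [sU, Co.ext_iff])
    (fun b hb => ns_of_St (sup_le (le_St le_sup_left fun a ha => mem_sup_right (comm_inv_mem.1 (h.comm27' ha hb)))
      (sup_le (le_St_cs (le_sup_left.trans le_sup_right) (h.A7s_c4 (h.l7 hb)))
        (le_St (le_sup_right.trans le_sup_right) fun x hx => mem_sup_right (mem_sup_left ((h.b7_V hb).2 x hx))))))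
    ((h.A7s_cs h.l7 (sup_le h.l4 h.V0_A7s)).trans cs_le_ns)
    (cm_of_Cl nk (sup_le (le_Cl_cs (h.le2.trans n0) (cs_symm h.c2T hk))
      (sup_le (le_Cl_self nk le_sup_left) (V_le' (le_Cl_cs ((h.db2.leX.trans h.le2).trans n0)
        (cs_symm (h.db2.leX.trans h.c2T) hk)) (le_Cl_self nk le_sup_right)))))
  exact (this hb).2 a (mem_sup_left ha)

theorem b7_A2 {b : G} (hb : b ∈ B7 A t) : ∀ a ∈ A2 A t, ⁅a, b⁆ ∈ A4 A t := by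
  have ph : ∀ a ∈ A2 A t, ⁅t, a⁆ ∈ A.im (sZ2 T) := fun a ha => h.db2.phi1 h.cf.inv ha
  refine h.van7 h.le2 h.H2 hb (fun a ha => comm_inv_mem.1 (h.comm27'' ha hb)) (fun g => (co A ⁅t, g⁆).a2)
    (fun a ha a' ha' => ?_) (fun e => ?_) (fun a ha e => ?_) fun q a ha => ?_
  · obtain ⟨c, hc, e⟩ := ph a ha
    obtain ⟨c', hc', e'⟩ := ph a' ha'
    simp only [h.db2.phi_mul1 ha ha', ← e, ← e', ← map_mul, co_ι]
    clear e e'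
    simp_all
  · obtain ⟨a, ha, e1⟩ := h.db2.onto1 (x := A.ι (x2 T e)) (by simp)
    exact ⟨a, ha, by simp [e1]⟩
  · have : ⁅t, a⁆ = 1 := by
      rw [← ι_co A (im_le_S A _ (ph a ha)), eq_x2 (co_mem A (ph a ha)), e, x2_zero, map_one]
    exact h.b7_V2 hb a (h.db2.fix1 ha (comm_eq_one_iff.1 this))
  · simp only [comm_cj (h.cf.Ht ⟨q, rfl⟩), co_h A (im_le_S A _ (ph a ha)), dg_a2]

theorem b7 : B7 A t ≤ Cm (Vs A t) (A4 A t) := fun b hb => by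
  have n := cs_le_ns (h.A7s_c4 (h.l7 hb))
  have n0 : Vs A t ≤ Ns (A4 A t) := h.Vs_c4.trans cs_le_ns
  refine cm_of_Cl n (h.genV ▸ sup_le (sup_le (sup_le (sup_le
    (le_Cl (h.le2.trans n0) (fun a ha => comm_inv_mem.1 (h.b7_A2 hb a ha)) n)
    (le_Cl_cs (h.le3.trans n0) (h.A7s_cs h.l7 h.l3 hb))) (le_Cl_self n le_rfl))
    (le_Cl_cs (h.le5.trans n0) (h.A7s_cs h.l7 h.l5 hb))) (le_Cl_cs (h.le6.trans n0) (h.A7s_cs h.l7 h.l6 hb)))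

end H1

theorem jobV2 : JobV2.{u, v} := fun kit K _ _ _ T G _ _ A t h =>
  ⟨h.db7, h.gen7, h.n17, h.u7, h.h7, h.n15, h.dbA, h.genA, h.gen0, h.b7⟩

end H65.SR
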