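/- STD-R (S3323): job Q1. -/
import Cfsg.Agent.H65.SRV2

set_option autoImplicit false
set_option linter.unusedSectionVars false
set_option linter.unusedVariables false
set_option linter.unusedSimpArgs false

open Subgroup H63.Oc H64.SG
open scoped commutatorElement

universe u v

namespace H65.SR

attribute [-simp] Subgroup.mem_map

section Gen
variable {G : Type*} [Group G] {g t a b u : G} {N X Y J : Subgroup G}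

theorem phiM_mul {x x' : G} (ha : a ∈ Cm X N) (hX : X ≤ Ns N) (hx : x ∈ X) (hx' : x' ∈ X)
    (e : ⁅t, a⁆ * x⁻¹ ∈ N) (e' : ⁅t, b⁆ * x'⁻¹ ∈ N) : ⁅t, a * b⁆ * (x * x')⁻¹ ∈ N := by
  have := mul_mem e (cj_mem (hX hx) (mul_mem (cj_mem ha.1 e') (ha.2 _ hx')))
  convert this using 1
  rw [comm_mul_right, commutatorElement_def a x']; group

/-- the image of `y ↦ ⁅t, y⁆` modulo `N` -/
def ImM (t : G) (Y X N : Subgroup G) (hY : Y ≤ Cm X N) (hX : X ≤ Ns N) : Subgroup G where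
  carrier := {x | x ∈ X ∧ ∃ y ∈ Y, ⁅t, y⁆ * x⁻¹ ∈ N}
  one_mem' := ⟨one_mem _, 1, one_mem _, by simp⟩
  mul_mem' := by
    rintro x x' ⟨hx, a, ha, e⟩ ⟨hx', b, hb, e'⟩
    exact ⟨mul_mem hx hx', _, mul_mem ha hb, phiM_mul (hY ha) hX hx hx' e e'⟩
  inv_mem' := by
    rintro x ⟨hx, a, ha, e⟩
    refine ⟨inv_mem hx, _, inv_mem ha, ?_⟩
    have := mul_mem ((hY (inv_mem ha)).2 _ (inv_mem hx)) (cj_mem' (hX hx) (cj_mem' (hY ha).1 (inv_mem e)))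
    convert this using 1
    rw [comm_inv_right, commutatorElement_def a⁻¹]; group

theorem le_ImM {hY : Y ≤ Cm X N} {hX : X ≤ Ns N} (h1 : J ≤ X) (h2 : J ≤ N) : J ≤ ImM t Y X N hY hX :=
  fun x hx => ⟨h1 hx, 1, one_mem _, by simpa using h2 hx⟩

theorem Db.le_ImM {hY : Y ≤ Cm X N} {hX : X ≤ Ns N} {Y₀ X' Y' : Subgroup G} (h : Db t Y₀ X' Y') (h1 : X' ≤ X)
    (h2 : Y' ≤ Y) (h3 : Y₀ ≤ N) : X' ≤ ImM t Y X N hY hX := fun x hx => by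
  obtain ⟨y, hy, e⟩ := h.onto x hx
  exact ⟨h1 hx, y, h2 hy, h3 e⟩

theorem sq_mem_cm {M : Subgroup G} (h1 : a ∈ Cm X N) (h2 : a ∈ Cm N M) (h3 : ∀ n ∈ N, n * n ∈ M) : a * a ∈ Cm X M :=
  ⟨mul_mem h2.1 h2.1, fun x hx => by
    have := mul_mem (h2.2 _ (h1.2 x hx)) (h3 _ (h1.2 x hx))
    rwa [← mul_assoc, ← cj_eq, ← comm_mul_left] at this⟩

end Gen

variable {K : Type*} [Field K] [Fintype K] [CharP K 2] {T : TF K} {G : Type*} [Group G] [Finite G]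
  {A : AD T G} {t : G}

/-- `U₁⋯U₆` -/
def s16 (T : TF K) : Subgroup (Co T) where
  carrier := {c | c.a7 = 0 ∧ c.b8 = 0 ∧ c.a8 = 0}
  one_mem' := by simp
  mul_mem' := fun {c d} hc hd => by simp_all
  inv_mem' := fun {c} hc => by simp_all
@[simp] theorem mem_s16 {c : Co T} : c ∈ s16 T ↔ c.a7 = 0 ∧ c.b8 = 0 ∧ c.a8 = 0 := Iff.rfl

theorem Q_le {N : Subgroup G} (h0 : A.im (s16 T) ≤ N) (h7 : A.im (sU7 T) ≤ N) : A.im (sQ T) ≤ N := by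
  rintro _ ⟨w, hw, rfl⟩
  rw [show w = (w * (x7 T w.a7)⁻¹) * x7 T w.a7 by group, map_mul]
  exact mul_mem (h0 ((ι_mem_im A).2 (by simp_all [CharTwo.add_self_eq_zero]))) (h7 (by simp))

theorem Q_sq {g : G} (h : g ∈ A.im (sQ T)) : g * g ∈ A.im (sV T) := by
  obtain ⟨c, hc, rfl⟩ := h
  rw [← map_mul, ι_mem_im]
  simp_all [CharTwo.add_self_eq_zero]

namespace H1
variable (h : H1 A t)
include h

theorem C_Vs : A.C ≤ Ns (Vs A t) := h.C_le_N.trans h.Vs_nrm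
theorem im_Vs (X : Subgroup (Co T)) : A.im X ≤ Ns (Vs A t) := (im_le_C A X).trans h.C_Vs
theorem H_Vs : A.h.range ≤ Ns (Vs A t) := h.H_le_N.trans h.Vs_nrm

theorem Qs_nrm : Cz t ⊓ Ns (A.im (sZ T)) ≤ Ns (Qs A t) := fun g hg =>
  ns_inf (ns_inf (ns_inf (ns_cm (h.Vs_nrm hg) (h.N4 hg)) (ns_cs (h.N4 hg))) (ns_cm (h.N_im (by simp) hg) (h.Vs_nrm hg)))
    (ns_up hg.1 (ns_sup (h.N_im (by simp) hg) (h.Vs_nrm hg)))

theorem mem_Qs {g : G} : g ∈ Qs A t ↔ g ∈ Cm (Vs A t) (A4 A t) ∧ g ∈ Cs (A4 A t) ∧ g ∈ Cm (A.im (sQ T)) (Vs A t) ∧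
    ⁅t, g⁆ ∈ A.im (sQ T) ⊔ Vs A t :=
  ⟨fun hg => ⟨hg.1.1.1, hg.1.1.2, hg.1.2, ((mem_up h.cf.inv).1 hg.2).2⟩, fun hg => ⟨⟨⟨hg.1, hg.2.1⟩, hg.2.2.1⟩,
    (mem_up h.cf.inv).2 ⟨ns_sup_of hg.2.2.1.1 fun x hx => mem_sup_right (hg.2.2.1.2 x hx), hg.2.2.2⟩⟩⟩

theorem Qs_cV : Qs A t ≤ Cm (Vs A t) (A4 A t) := fun g hg => (h.mem_Qs.1 hg).1
theorem Qs_c4 : Qs A t ≤ Cs (A4 A t) := fun g hg => (h.mem_Qs.1 hg).2.1
theorem Qs_cQ : Qs A t ≤ Cm (A.im (sQ T)) (Vs A t) := fun g hg => (h.mem_Qs.1 hg).2.2.1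
theorem Qs_phi {g : G} (hg : g ∈ Qs A t) : ⁅t, g⁆ ∈ A.im (sQ T) ⊔ Vs A t := (h.mem_Qs.1 hg).2.2.2
theorem Qs_nV : Qs A t ≤ Ns (Vs A t) := h.Qs_cQ.trans cm_le_ns

theorem Vs_Qs : Vs A t ≤ Qs A t := fun g hg => h.mem_Qs.2 ⟨cm_of_cs (cs_le_ns (h.Vs_c4 hg)) (h.Vs_ab hg), h.Vs_c4 hg,
  ⟨le_normalizer hg, fun q hq => comm_mem_right (h.im_Vs _ hq) hg⟩, mem_sup_right (h.V_Vs (h.Vs_phi hg))⟩

theorem Q_Qs : A.im (sQ T) ≤ Qs A t := fun g hg => h.mem_Qs.2 ⟨h.cQ hg, cs_symm (h.c4im _) hg,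
  ⟨h.im_Vs _ hg, fun q hq => h.V_Vs ((h.la.Q_cm_QV hg).2 q hq)⟩,
  by rw [comm_eq_one_iff.2 (h.cf.imt _ hg)]; exact one_mem _⟩

theorem Qs_fix {g : G} (hg : g ∈ Qs A t) (hc : g ∈ Cz t) : g ∈ A.im (sQ T) := by
  have cz := cs_anti h.sa.db.leX (h.Qs_c4 hg)
  exact (h.lt.cvz g hc ⟨cs_le_ns cz, fun v hv => h.sa.db.fix1 ((h.Qs_cV hg).2 v (h.V_Vs hv))
    (comm_mem_left (le_normalizer hc) (h.cf.imt _ hv))⟩ cz).resolve_right (h.not_tV (h.Qs_c4 hg))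

theorem frV : Fr t (A.im (sV T)) (Vs A t) := h.dbV.fr h.cf.inv

theorem Qs_fix' {g : G} (hg : g ∈ Qs A t) (hc : ⁅t, g⁆ ∈ Vs A t) : g ∈ A.im (sQ T) ⊔ Vs A t := by
  obtain ⟨u, hu, c, hc', rfl⟩ := h.frV.lift' h.cf.inv hc
  exact mul_mem (mem_sup_right hu) (mem_sup_left (h.Qs_fix ((mul_mem_cancel_left (h.Vs_Qs hu)).1 hg) hc'))

theorem b7_Q : B7 A t ≤ Cm (A.im (sQ T)) (Vs A t) := fun b hb => by
  obtain ⟨k, hk, k1⟩ := h.la.exT 7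
  have nk : k ∈ Ns (A7s A t ⊓ Vs A t) := ns_inf (h.h7 (TT_le_H A 7 hk)) (h.H_Vs (TT_le_H A 7 hk))
  have := fpf (P := A.im (s16 T)) (N := A7s A t) (N₀ := A7s A t ⊓ Vs A t) (H_im (by simp +contextual) (TT_le_H A 7 hk))
    (h.la.fp hk k1 fun c => by simp +contextual [sU, Co.ext_iff]) ((im_le_S A _).trans h.u7)
    (fun u hu => ns_inf (h.u7 (im_le_S A _ hu)) (h.im_Vs _ hu))
    (cm_of_Cl nk (h.gen7.le.trans (sup_le (le_Cl_self nk (sup_le (sup_le (sup_le (le_inf h.l3 h.le3) (le_inf h.l4 h.le4))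
      (le_inf h.l5 h.le5)) (le_inf h.l6 h.le6)))
      (le_Cl_cs ((h.A7s_cs h.l7 inf_le_left).trans cs_le_ns) (cs_symm h.c7T hk)))))
  have nb := ns_of_cm (h.b7 hb) h.le4
  exact cm_of_Cl nb (Q_le (le_Cl (h.im_Vs _) (fun u hu => (comm_inv_mem.1 ((this hu).2 b (h.l7 hb))).2) nb)
    (le_Cl_cs (h.im_Vs _) (h.dbB7.ab.trans (cs_anti h.dbB7.leX) hb)))

theorem b7_Qs : B7 A t ≤ Qs A t := fun b hb => h.mem_Qs.2 ⟨h.b7 hb, h.A7s_c4 (h.l7 hb), h.b7_Q hb,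
  mem_sup_left (im_mono A (fun c => by simp +contextual) (h.dbB7.phi1 h.cf.inv hb))⟩

theorem Qs_onto {J : Subgroup G} (hJ : J ≤ Qs A t) (hC : A.C ≤ Ns J) (h7 : B7 A t ≤ J) {q : G}
    (hq : q ∈ A.im (sQ T)) : ∃ y ∈ J, ⁅t, y⁆ * q⁻¹ ∈ Vs A t := by
  rcases h.la.irr (ImM t J _ _ (hJ.trans h.Qs_cQ) (h.im_Vs _)) (le_ImM V_le_Q h.V_Vs) (fun x hx => hx.1)
    (fun c hc => mem_ns_of (by
      rintro x ⟨hx, y, hy, e⟩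
      refine ⟨cj_mem (h.la.CN (by simp) hc) hx, _, cj_mem (hC hc) hy, ?_⟩
      have := cj_mem (h.C_Vs hc) e
      convert this using 1
      rw [comm_cj (h.cf.Ct hc)]; group)) with e | e
  · simpa using e (h.dbB7.le_ImM (im_mono A fun c => by simp +contextual) h7 bot_le (x := A.ι (x7 T 1)) (by simp))
  · exact (e.ge hq).2

theorem Qs_sq {y : G} (hy : y ∈ Qs A t) : y * y ∈ Vs A t := by
  obtain ⟨v, hv, q, hq, e⟩ := (mem_sup_ns' (h.im_Vs _)).1 (sup_comm (A.im (sQ T)) _ ▸ h.Qs_phi hy)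
  have e1 : ⁅t, y⁆ * q⁻¹ ∈ Vs A t := by rw [← e]; simpa using hv
  have e2 := (mul_mem_cancel_right (inv_mem (h.V_Vs (Q_sq hq)))).1 (phiM_mul (h.Qs_cQ hy) (h.im_Vs _) hq hq e1 e1)
  obtain ⟨q₀, hq₀, w, hw, e3⟩ := (mem_sup_ns (h.im_Vs _)).1 (h.Qs_fix' (mul_mem hy hy) e2)
  have c1 := sq_mem_cm (h.Qs_cQ hy) (h.Qs_cV hy) fun n hn => by rw [h.Vs_sq hn]; exact one_mem _
  rw [← e3] at c1 ⊢
  have c2 := (mul_mem_cancel_right (cm_symm h.cQ (h.Vs_c4.trans cs_le_ns) hw)).1 c1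
  refine mul_mem (h.V_Vs (h.la.qq.le ⟨hq₀, h.la.CN (by simp) (im_le_C A _ hq₀), fun q hq => ?_⟩)) hw
  exact h.sa.db.fix1 (c2.2 q hq) (comm_mem_left (le_normalizer (h.cf.imt _ hq₀)) (h.cf.imt _ hq))

theorem dbQ : Db t (Vs A t) (A.im (sQ T)) (Qs A t) :=
  ⟨h.Vs_Qs, h.Q_Qs, h.cf.imt _, h.Qs_nrm h.t_mem_N, h.dbV.tY, h.Qs_nV, fun _ => h.Qs_sq, fun _ => h.Qs_fix',
    fun q hq => h.Qs_onto le_rfl (h.C_le_N.trans h.Qs_nrm) h.b7_Qs hq⟩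

theorem frQ : Fr t (A.im (sQ T)) (Qs A t) := h.dbQ.ext h.cf.inv h.frV V_le_Q

end H1

theorem jobQ1 : JobQ1.{u, v} := fun kit K _ _ _ T G _ _ A t h => ⟨h.dbQ, h.frQ, h.Qs_nrm, h.b7_Qs⟩

end H65.SR
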