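/- STD-R (S3323): job Q2. -/
import Cfsg.Agent.H65.SRQ1

set_option autoImplicit false
set_option linter.unusedSectionVars false
set_option linter.unusedVariables false
set_option linter.unusedSimpArgs false

open Subgroup H63.Oc H64.SG
open scoped commutatorElement

universe u v

namespace H65.SR

attribute [-simp] Subgroup.mem_map

variable {K : Type*} [Field K] [Fintype K] [CharP K 2] {T : TF K} {G : Type*} [Group G] [Finite G]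
  {A : AD T G} {t : G}

theorem Db.cmX {N X Y : Subgroup G} (h : Db t N X Y) : Y ≤ Cm X N := fun y hy =>
  ⟨h.nor hy, fun x hx => h.comm hy (h.leX hx)⟩

/-- the coordinate of `⁅y, t⁆` on a doubled group -/
theorem H0.exists_phi (h : H0 A t) {N Y : Subgroup G} {X : Subgroup (Co T)} (hd : Db t N (A.im X) Y) (f : Co T → K)
    (f1 : ∀ c ∈ X, ∀ d ∈ X, f (c * d) = f c + f d) (f2 : ∀ c ∈ X, (A.ι c ∈ N ↔ f c = 0))
    (f3 : ∀ e, ∃ c ∈ X, f c = e) (hY : A.h.range ≤ Ns Y) (hN : A.h.range ≤ Ns N) :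
    ∃ φ : G → K, (∀ p ∈ Y, ∀ p' ∈ Y, φ (p * p') = φ p + φ p') ∧ (∀ e, ∃ p ∈ Y, φ p = e) ∧
      (∀ p ∈ Y, φ p = 0 → p ∈ A.im X ⊔ N) ∧ ∀ (q : Kˣ × Kˣ) (w : K),
        (∀ c ∈ X, dg T q.1 q.2 c ∈ X ∧ f (dg T q.1 q.2 c) = w * f c) → ∀ p ∈ Y, φ (A.h q * p * (A.h q)⁻¹) = w * φ p := by
  have hw : ∀ p ∈ Y, ⁅p, t⁆ ∈ N ⊔ A.im X := fun p hp =>
    comm_inv_mem.1 ((sup_comm (A.im X) N).le (hd.phi_mem h.cf.inv hp))
  obtain ⟨φ, φ1, φ2⟩ := exists_psi hd.nX hd.cmX hw f f1 fun c hc e => (f2 c hc).1 e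
  refine ⟨φ, φ1, fun e => ?_, fun p hp e => ?_, fun q w hq p hp => ?_⟩
  · obtain ⟨c, hc, rfl⟩ := f3 e
    obtain ⟨y, hy, e⟩ := hd.onto _ ⟨c⁻¹, inv_mem hc, rfl⟩
    refine ⟨y, hy, φ2 y hy c hc ?_⟩
    have := cj_mem (hd.nX ⟨c, hc, rfl⟩) (inv_mem e)
    unfold Rm
    convert this using 1
    rw [← commutatorElement_inv, map_inv]; group
  · obtain ⟨c, hc, e1⟩ := (exists_Rm hd.nX).1 (hw p hp)
    rw [φ2 p hp c hc e1, ← f2 c hc] at e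
    exact hd.fix p hp (comm_inv_mem.1 ((mul_mem_cancel_right (inv_mem e)).1 e1))
  · obtain ⟨c, hc, e1⟩ := (exists_Rm hd.nX).1 (hw p hp)
    rw [φ2 p hp c hc e1, ← (hq c hc).2]
    refine φ2 _ (cj_mem (hY ⟨q, rfl⟩) hp) _ (hq c hc).1 ?_
    rw [comm_cj2 (mem_Cz.1 (h.cf.Ht ⟨q, rfl⟩))]
    exact e1.cj q (hN ⟨q, rfl⟩)

theorem H0.par_db (h : H0 A t) {N Y : Subgroup G} {X : Subgroup (Co T)} (hd : Db t N (A.im X) Y) (f : Co T → K)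
    (f1 : ∀ c ∈ X, ∀ d ∈ X, f (c * d) = f c + f d) (f2 : ∀ c ∈ X, (A.ι c ∈ N ↔ f c = 0))
    (f3 : ∀ e, ∃ c ∈ X, f c = e) (hY : A.h.range ≤ Ns Y) (hN : A.h.range ≤ Ns N) (g : K →+* K) {ψ : G → K}
    (ψ1 : ∀ p ∈ Y, ∀ p' ∈ Y, ψ (p * p') = ψ p + ψ p') (ψ2 : ∀ p ∈ A.im X ⊔ N, ψ p = 0)
    (ψ3 : ∀ μ : K, μ ≠ 0 → ∃ q : Kˣ × Kˣ, (∀ c ∈ X, dg T q.1 q.2 c ∈ X ∧ f (dg T q.1 q.2 c) = g μ * f c) ∧
      ∀ p ∈ Y, ψ (A.h q * p * (A.h q)⁻¹) = μ * T.σ μ * ψ p) : ∀ p ∈ Y, ψ p = 0 := by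
  obtain ⟨σ₀, hs⟩ := exists_s (T := T) h.cf.card
  obtain ⟨φ, φ1, φ2, φ3, φ4⟩ := h.exists_phi hd f f1 f2 f3 hY hN
  refine par2 hs g φ1 ψ1 φ2 (fun p hp e => ψ2 p (φ3 p hp e)) fun μ hμ p hp => ?_
  obtain ⟨q, e1, e2⟩ := ψ3 μ hμ
  exact ⟨_, cj_mem (hY ⟨q, rfl⟩) hp, φ4 q _ e1 p hp, e2 p hp⟩

theorem U8_U4 : A.im (sU8 T) ≤ Cs (A.im (sU4 T)) := im_cs A fun c hc d hd => by ext <;> simp_all [add_comm]

theorem R_le {N : Subgroup G} (h0 : A.im (sV T) ≤ N) (h4 : A.im (sU4 T) ≤ N) : A.im (sR T) ≤ N := by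
  rintro _ ⟨w, hw, rfl⟩
  rw [show w = (w * (y4 T w.b4)⁻¹) * y4 T w.b4 by group, map_mul]
  exact mul_mem (h0 ((ι_mem_im A).2 (by simp_all [CharTwo.add_self_eq_zero]))) (h4 (by simp))

namespace H1
variable (h : H1 A t)
include h

theorem H_Qs : A.h.range ≤ Ns (Qs A t) := h.H_le_N.trans h.Qs_nrm
theorem C_Qs : A.C ≤ Ns (Qs A t) := h.C_le_N.trans h.Qs_nrm
theorem H_T (i : ℕ) : A.h.range ≤ Ns (Cs (TT A i)) := fun k hk => ns_cs (cs_le_ns (H_cs A (TT_le_H A i) hk))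

theorem dbT {i : ℕ} (hi : sU T i ≤ sQ T) : Db t (Vs A t ⊓ Cs (TT A i)) (A.im (sU T i)) (Qs A t ⊓ Cs (TT A i)) := by
  have := h.dbQ.inf_cs h.frQ.two (h.la.oddT i) (h.cf.TTt i) ((TT_le_H A i).trans h.H_Qs)
    ((TT_le_H A i).trans h.H_Vs) ((TT_le_H A i).trans (h.la.hN _ (by simp)))
  rwa [show A.im (sQ T) ⊓ Cs (TT A i) = A.im (sU T i) from le_antisymm
    (fun g hg => h.la.memT (i := i) (im_le_S A _ (mem_inf.1 hg).1) (mem_inf.1 hg).2)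
    (le_inf (im_mono A hi) (cs_symm (h.la.ttU i)))] at this

theorem VT4 : Vs A t ⊓ Cs (TT A 4) = A4 A t := h.inf_T h.sa.db h.le4 h.c4T fun c => by simp +contextual [sU]
theorem VT6 : Vs A t ⊓ Cs (TT A 6) = A6 A t := h.inf_T h.db6 h.le6 h.c6T fun c => by simp +contextual [sU]

theorem db4 : Db t (A4 A t) (A.im (sU4 T)) (U4s A t) := h.VT4 ▸ h.dbT (i := 4) fun c => by simp +contextual [sU]

theorem fr4 : Fr t (A.im (sU4 T)) (U4s A t) :=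
  h.db4.ext h.cf.inv (h.sa.db.fr h.cf.inv) (im_mono A fun c => by simp +contextual)

theorem U4s_Qs : U4s A t ≤ Qs A t := inf_le_left
theorem U4s_T : U4s A t ≤ Cs (TT A 4) := inf_le_right
theorem HU4 : A.h.range ≤ Ns (U4s A t) := fun k hk => ns_inf (h.H_Qs hk) (h.H_T 4 hk)

theorem cs_U4s {P : Subgroup G} {X : Subgroup (Co T)} (hf : ∀ k ∈ TT A 4, k ≠ 1 → P ⊓ Cz k = ⊥)
    (hH : A.h.range ≤ Ns P) (hP : ∀ p ∈ P, ∀ y ∈ U4s A t, ⁅p, y⁆ ∈ A4 A t) : P ≤ Cs (U4s A t) := by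
  obtain ⟨k, hk, k1⟩ := h.la.exT 4
  have := fpf (N := U4s A t) (N₀ := ⊥) (hH (TT_le_H A 4 hk)) (hf k hk k1)
    (fun p hp => ns_of_St (le_St le_rfl fun y hy => h.db4.le0 (hP p hp y hy)))
    (fun _ _ => le_normalizer_of_normal (mem_top _)) (cm_bot (Y := U4s A t) ▸ cs_symm h.U4s_T hk)
  exact cm_bot (Y := U4s A t) ▸ this

theorem U4s_cV : U4s A t ≤ Cs (Vs A t) := by
  have key : ∀ {P : Subgroup G} {X : Subgroup (Co T)}, Db t ⊥ (A.im X) P → P ≤ Vs A t → A.h.range ≤ Ns P →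
      (∀ c ∈ X, c ∈ sU T 4 → c = 1) → P ≤ Cs (U4s A t) := fun {P X} hd hP hH hX =>
    h.cs_U4s (X := X) (fun k hk k1 => h.fp hk k1 (hd.fr h.cf.inv) hX) hH
      fun p hp y hy => comm_inv_mem.1 ((h.Qs_cV hy.1).2 p (hP hp))
  exact cs_symm (h.genV.le.trans (sup_le (sup_le (sup_le (sup_le
    (key h.db2 h.le2 h.H2 fun c => by simp +contextual [sU, Co.ext_iff])
    (key h.db3 h.le3 h.H3 fun c => by simp +contextual [sU, Co.ext_iff])) (cs_symm (h.U4s_Qs.trans h.Qs_c4)))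
    (key h.db5 h.le5 h.H5 fun c => by simp +contextual [sU, Co.ext_iff]))
    (key h.db6 h.le6 h.H6 fun c => by simp +contextual [sU, Co.ext_iff])))

theorem U8_c4 : A.im (sU8 T) ≤ Cs (A.im (sU4 T) ⊔ A4 A t) := le_cs_sup U8_U4 (cs_symm (h.c4im _))

theorem comm84 {u y : G} (hu : u ∈ A.im (sU8 T)) (hy : y ∈ U4s A t) : ⁅u, y⁆ ∈ Vs A t := by
  obtain ⟨k, hk, k1⟩ := h.la.exT 4
  have nk := h.H_Vs (TT_le_H A 4 hk)
  have := fpf (P := A.im (sU8 T)) (N := U4s A t ⊔ Vs A t) (N₀ := Vs A t) (h.la.hU 8 (TT_le_H A 4 hk))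
    (h.la.fp hk k1 fun c => by simp +contextual [sU, Co.ext_iff])
    (fun u hu => ns_sup_of (h.im_Vs _ hu) fun y hy => by
      have e1 : ⁅t, u⁻¹⁆ = 1 := comm_eq_one_iff.2 (inv_mem (h.cf.imt _ hu))
      have m := h.Qs_fix' (comm_mem_left (h.C_Qs (im_le_C A _ hu)) hy.1)
        (comm_mod h.dbV.tY (h.im_Vs _ hu) (h.Qs_nV hy.1)
          (by rw [comm_eq_one_of_cs (inv_mem (h.U8_c4 hu)) (h.db4.phi_mem h.cf.inv (inv_mem hy))]; exact one_mem _)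
          (by simp [e1]) (by simp [e1]))
      obtain ⟨q, hq, v, hv, e⟩ := (mem_sup_ns (h.im_Vs _)).1 m
      have c1 : q * v ∈ Cs (Vs A t) := e ▸ comm_mem_left (ns_cs (h.im_Vs _ hu)) (h.U4s_cV hy)
      have c2 := cs_anti h.V_Vs ((mul_mem_cancel_right (h.Vs_ab hv)).1 c1)
      rw [← e]
      exact mul_mem (R_le (h.V_Vs.trans le_sup_right) (h.db4.leX.trans le_sup_left)
        (h.la.cCV.le ⟨im_le_C A _ hq, c2⟩)) (mem_sup_right hv))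
    (h.im_Vs _) (cm_of_Cl nk (sup_le (le_Cl_cs (h.U4s_Qs.trans h.Qs_nV) (cs_symm h.U4s_T hk)) (le_Cl_self nk le_rfl)))
  exact (this hu).2 y (mem_sup_left hy)

theorem par4 {ψ : G → K} (ψ1 : ∀ p ∈ U4s A t, ∀ p' ∈ U4s A t, ψ (p * p') = ψ p + ψ p')
    (ψ2 : ∀ p ∈ A.im (sU4 T) ⊔ A4 A t, ψ p = 0)
    (ψ3 : ∀ a : Kˣ, ∀ p ∈ U4s A t, ψ (A.h (a, 1) * p * (A.h (a, 1))⁻¹) = a * T.σ a * ψ p) :
    ∀ p ∈ U4s A t, ψ p = 0 :=
  h.par_db h.db4 Co.b4 (by simp +contextual) (fun c hc => ⟨fun e => by simp [(mem_sZ T).1 (h.mem_A4 e)],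
    fun e => h.sa.db.leX (by simp_all)⟩) (fun e => ⟨y4 T e, by simp, rfl⟩) h.HU4 h.H4 T.σ ψ1 ψ2
    fun μ hμ => ⟨(Units.mk0 μ hμ, 1), by simp +contextual, ψ3 (Units.mk0 μ hμ)⟩

theorem comm84' {u y : G} (hu : u ∈ A.im (sU8 T)) (hy : y ∈ U4s A t) : ⁅y, u⁆ ∈ A4 A t := by
  have hv : ∀ y ∈ U4s A t, ⁅y, u⁆ ∈ Vs A t := fun y hy => comm_inv_mem.1 (h.comm84 hu hy)
  have hk : ∀ a : Kˣ, A.h (a, 1) * u = u * A.h (a, 1) := fun a =>
    (mem_Cs.1 (h.la.ttU 8 (h_mem_TT A (by simp [wt]))) u hu).symm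
  have k1 : ∀ f : Co T → K, (∀ c ∈ sV T, ∀ d ∈ sV T, f (c * d) = f c + f d) → f 1 = 0 →
      (∀ (a : K) c, f (dg T a 1 c) = a * T.σ a * f c) → ∀ y ∈ U4s A t, f (co A ⁅t, ⁅y, u⁆⁆) = 0 := fun f f1 f2 f3 =>
    h.par4 (fun y hy y' hy' => by
        rw [comm_mul_left, cj_eq_of_cs (h.U4s_cV hy) (hv y' hy'), h.Vs_mul (hv y' hy') (hv y hy),
          co_mul A (im_le_S A _ (h.Vs_phi (hv y' hy'))) (im_le_S A _ (h.Vs_phi (hv y hy))),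
          f1 _ (co_mem A (h.Vs_phi (hv y' hy'))) _ (co_mem A (h.Vs_phi (hv y hy))), add_comm])
      (fun y hy => by
        rw [comm_eq_one_of_cs' (h.U8_c4 hu) hy, commutatorElement_one_right, ← map_one A.ι, co_ι, f2])
      fun a y hy => by
        rw [comm_cj2 (hk a), comm_cj (h.cf.Ht ⟨_, rfl⟩), co_h A (im_le_S A _ (h.Vs_phi (hv y hy)))]
        exact f3 _ _
  have hw : ∀ y ∈ U4s A t, ⁅y, u⁆ ∈ A4 A t ⊔ A.im (sV T) := fun y hy => by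
    have e2 := k1 Co.a2 (by simp +contextual) rfl (by simp) y hy
    have e3 := k1 Co.a3 (by simp +contextual) rfl (by simp) y hy
    have e5 := k1 Co.a5 (by simp +contextual) rfl (by simp) y hy
    have e6 := k1 Co.a6 (by simp +contextual) rfl (by simp) y hy
    have m := h.Vs_phi (hv y hy)
    have : ⁅t, ⁅y, u⁆⁆ ∈ A.im (sZ T) := by
      rw [← ι_co A (im_le_S A _ m), ι_mem_im]
      simp [(mem_sV T).1 (co_mem A m), e2, e3, e5, e6]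
    obtain ⟨a, ha, c, hc, e⟩ := (h.sa.db.fr h.cf.inv).lift' h.cf.inv (h.sa.db.leX this)
    rw [e]
    exact mul_mem_sup ha (h.Vs_fix ((mul_mem_cancel_left (h.le4 ha)).1 (e ▸ hv y hy)) hc)
  have k2 : ∀ f : Co T → K, (∀ c ∈ sV T, ∀ d ∈ sV T, f (c * d) = f c + f d) → (∀ c ∈ sZ T, f c = 0) →
      (∀ (a : K) c, f (dg T a 1 c) = a * T.σ a * f c) → ∀ y ∈ U4s A t, ∀ c ∈ sV T, Rm A (A4 A t) ⁅y, u⁆ c → f c = 0 :=
    fun f f1 f2 f3 => by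
      obtain ⟨ψ, ψ1, ψ2⟩ := exists_psi (h.im_ns4 _) (fun p hp => cm_of_cs (cs_le_ns (h.Qs_c4 (h.U4s_Qs hp)))
        (cs_anti h.V_Vs (h.U4s_cV hp))) hw f f1 fun c _ hc => f2 c (h.mem_A4 hc)
      have := h.par4 ψ1 (fun y hy => by
          rw [ψ2 y (sup_le h.db4.leX h.db4.le0 hy) 1 (one_mem _)
            (by simp [Rm, comm_eq_one_of_cs' (h.U8_c4 hu) hy]), f2 _ (one_mem _)])
        fun a y hy => by
          obtain ⟨c, hc, e⟩ := (exists_Rm (h.im_ns4 _)).1 (hw y hy)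
          rw [ψ2 y hy c hc e, ψ2 _ (cj_mem (h.HU4 ⟨_, rfl⟩) hy) (dg T a 1 c) (by simp [(mem_sV T).1 hc]), f3]
          rw [comm_cj2 (hk a)]
          exact e.cj (a, 1) (h.H4 ⟨_, rfl⟩)
      intro p hp c hc e
      rw [← ψ2 p hp c hc e, this p hp]
  obtain ⟨c, hc, e⟩ := (exists_Rm (h.im_ns4 _)).1 (hw y hy)
  have e2 := k2 Co.a2 (by simp +contextual) (by simp +contextual) (by simp) y hy c hc e
  have e3 := k2 Co.a3 (by simp +contextual) (by simp +contextual) (by simp) y hy c hc e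
  have e5 := k2 Co.a5 (by simp +contextual) (by simp +contextual) (by simp) y hy c hc e
  have e6 := k2 Co.a6 (by simp +contextual) (by simp +contextual) (by simp) y hy c hc e
  exact (mul_mem_cancel_right (inv_mem (h.sa.db.leX ((ι_mem_im A).2
    (by simp [(mem_sV T).1 hc, e2, e3, e5, e6]))))).1 e

theorem U4s_c8 : U4s A t ≤ Cs (A.im (sU8 T)) :=
  cs_symm (h.cs_U4s (X := ⊥) (fun k hk k1 => h.la.fp hk k1 fun c => by simp +contextual [sU, Co.ext_iff])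
    (h.la.hU 8) fun u hu y hy => comm_inv_mem.1 (h.comm84' hu hy))

theorem cjs8_Qs : cjs A.n8 (Qs A t) = Qs A t := cjs_eq (h.C_Qs n8_C)

theorem U4s_n8 : A.n8 ∈ Cs (U4s A t) :=
  (h.la.n8m _ ((im_mono A fun c => by simp +contextual).trans (cs_symm h.U4s_c8))
    ((cs_symm h.U4s_c8).trans le_normalizer) (ns_cs (ns_inf (h.C_Qs n8_C)
      (ns_cs (ns_of_cjs_eq (h.la.tt8 4 (by norm_num) (by norm_num))))))).2

theorem dbU6 : Db t (A6 A t) (A.im (sU6 T)) (U6s A t) := by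
  have := h.db4.cj h.cf.n1t
  rwa [show cjs A.n1 (A.im (sU4 T)) = A.im (sU6 T) from h.la.uu1 4 (by norm_num) (by norm_num)] at this

theorem dbU2 : Db t (A2 A t) (A.im (sU2 T)) (U2s A t) := by
  have := h.dbU6.cj h.cf.n8t
  rwa [show cjs A.n8 (A.im (sU6 T)) = A.im (sU2 T) from h.la.uu8 6 (by norm_num) (by norm_num)] at this

theorem dbU8 : Db t (A8 A t) (A.im (sU8 T)) (U8s A t) := by
  have := h.dbU2.cj h.cf.n1t
  rwa [show cjs A.n1 (A.im (sU2 T)) = A.im (sU8 T) from h.la.uu1 2 (by norm_num) (by norm_num)] at this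

theorem fr6 : Fr t (A.im (sU6 T)) (U6s A t) :=
  h.dbU6.ext h.cf.inv (h.db6.fr h.cf.inv) (im_mono A fun c => by simp +contextual)
theorem fr2 : Fr t (A.im (sU2 T)) (U2s A t) :=
  h.dbU2.ext h.cf.inv (h.db2.fr h.cf.inv) (im_mono A fun c => by simp +contextual)
theorem fr8 : Fr t (A.im (sU8 T)) (U8s A t) :=
  h.dbU8.ext h.cf.inv (h.db8.fr h.cf.inv) (im_mono A fun c => by simp +contextual)
theorem HU6 : A.h.range ≤ Ns (U6s A t) := H_cjs1 h.HU4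
theorem HU2 : A.h.range ≤ Ns (U2s A t) := H_cjs8 h.HU6
theorem HU8 : A.h.range ≤ Ns (U8s A t) := H_cjs1 h.HU2
theorem U6s_T : U6s A t ≤ Cs (TT A 6) := h.la.cs1 (by norm_num) (by norm_num) rfl h.U4s_T
theorem U2s_T : U2s A t ≤ Cs (TT A 2) := h.la.cs8 (by norm_num) (by norm_num) rfl h.U6s_T
theorem U8s_T : U8s A t ≤ Cs (TT A 8) := h.la.cs1 (by norm_num) (by norm_num) rfl h.U2s_T
theorem U6s_c4 : U6s A t ≤ Cs (A4 A t) := h.cjs1_A6 ▸ cs_cj (h.U4s_cV.trans (cs_anti h.le6))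
theorem U6s_c6 : U6s A t ≤ Cs (A6 A t) := cs_cj (h.U4s_cV.trans (cs_anti h.le4))

theorem mem_Q1 {c : G} (hc : c ∈ Cz t) (h4 : c ∈ Cs (A4 A t)) (h6 : c ∈ Cs (A6 A t)) : c ∈ A.im (sQ1 T) :=
  (h.lt.cl c hc (cs_symm (X := A.im (sW T)) (Y := zpowers c) (W_le
    (h.sa.db.leX.trans (cs_symm (zpowers_le.2 h4))) (h.db6.leX.trans (cs_symm (zpowers_le.2 h6))))
      (mem_zpowers c))).resolve_right (h.not_tV h4)

theorem q6 : Qs A t ⊓ Cs (TT A 6) = U6s A t := by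
  have d6 : Db t (A6 A t) (A.im (sU6 T)) (Qs A t ⊓ Cs (TT A 6)) :=
    h.VT6 ▸ h.dbT (i := 6) fun c => by simp +contextual [sU]
  have f6 := d6.ext h.cf.inv (h.db6.fr h.cf.inv) (im_mono A fun c => by simp +contextual)
  refine h.fr6.self h.cf.inv (fun y hy => ?_) f6.two f6.tY (f6.fix.le.trans h.fr6.le)
  obtain ⟨u, hu, c, hc, e⟩ := f6.lift' h.cf.inv (sup_le d6.leX d6.le0 (h.dbU6.phi_mem h.cf.inv hy))
  have u6 : u ∈ Cs (A6 A t) := mem_Cs.2 fun a ha => by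
    obtain ⟨k, hk, k1⟩ := h.la.exT 6
    have := h.fp hk k1 (h.sa.db.fr h.cf.inv) fun c => by simp +contextual [sU, Co.ext_iff]
    refine (commutatorElement_eq_one_iff_mul_comm.1 (mem_bot.1 (this ▸ mem_inf.2 ⟨(h.Qs_cV hu.1).2 a (h.le6 ha),
      mem_Cz.2 (mem_Cs.1 (comm_mem_left (le_normalizer hu.2) (h.c6T ha)) k hk).symm⟩))).symm
  have m := h.mem_Q1 hc ((mul_mem_cancel_left (h.Qs_c4 hu.1)).1 (e ▸ h.U6s_c4 hy))
    ((mul_mem_cancel_left u6).1 (e ▸ h.U6s_c6 hy))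
  rw [e]
  exact mul_mem hu (d6.leX (h.la.memT (i := 6) (im_le_S A _ m) ((mul_mem_cancel_left (mem_inf.1 hu).2).1 (e ▸ h.U6s_T hy))))

theorem U6s_Qs : U6s A t ≤ Qs A t := h.q6 ▸ inf_le_left
theorem U2s_Qs : U2s A t ≤ Qs A t := h.cjs8_Qs ▸ cjs_mono h.U6s_Qs

theorem U2s_cZ6 : U2s A t ≤ Cs (A.im (sZ6 T)) := by
  have h1 : U4s A t ≤ Cs (A.im (sZ8 T)) := h.U4s_c8.trans (cs_anti (im_mono A fun c => by simp +contextual))
  have h2 := cs_cj (g := A.n8) (cs_cj (g := A.n1) h1)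
  rwa [← cjs1_Z2, cjs11, cjs8_Z2] at h2

theorem c26 : U2s A t ≤ Cs (A6 A t) := fun y hy => mem_Cs.2 fun a ha => by
  have c1 : A6 A t ≤ Cs (A.im (sU2 T) ⊔ A2 A t) :=
    le_cs_sup (h.c6im fun c => by simp +contextual) (h.Vs_cs h.le6 h.le2)
  have hz : ∀ y ∈ U2s A t, ⁅y, a⁆ ∈ A.im (sZ T) := fun y hy => h.sa.db.fix1 ((h.Qs_cV (h.U2s_Qs hy)).2 a (h.le6 ha))
    (comm_cz h.cf.inv (fun x hx => h.dbU2.phi_mem h.cf.inv hx) (fun x hx => h.db6.phi1 h.cf.inv hx) h.U2s_cZ6 c1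
      (cs_symm (h.db6.leX.trans c1)) hy ha)
  have := h.par_db h.dbU2 Co.b2 (by simp +contextual) (fun c hc => ⟨fun e => by
      simp [(mem_sZ2 T).1 ((ι_mem_im A).1 (h.db2.fix1 e (h.cf.ct (ι_mem A c))))],
    fun e => h.db2.leX (by simp_all)⟩) (fun e => ⟨y2 T e, by simp, rfl⟩) h.HU2 h.H2 T.σ
    (ψ := fun y => (co A ⁅y, a⁆).a4) (fun y hy y' hy' => by
      obtain ⟨c, hc, e⟩ := hz y hy
      obtain ⟨c', hc', e'⟩ := hz y' hy'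
      simp only [comm_mul_left, cj_eq_of_cs (h.Qs_c4 (h.U2s_Qs hy)) (h.sa.db.leX (hz y' hy'))]
      simp only [← e, ← e', ← map_mul, co_ι]
      clear e e'
      simp_all [add_comm])
    (fun y hy => by simp only [comm_eq_one_of_cs' (c1 ha) hy]; rw [← map_one A.ι, co_ι]; rfl)
    (fun μ hμ => by
      obtain ⟨q, e1, e2, e3⟩ := exT6 T hμ
      refine ⟨q, by simp +contextual [e2], fun y hy => ?_⟩
      simp only [comm_cj2 (mem_Cs.1 (h.c6T ha) _ (h_mem_TT A e1)), co_h A (im_le_S A _ (hz y hy)), dg_a4, e3]) y hy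
  refine (commutatorElement_eq_one_iff_mul_comm.1 ?_).symm
  rw [← ι_co A (im_le_S A _ (hz y hy)), eq_x4 (co_mem A (hz y hy)), this, x4_zero, map_one]

end H1

theorem jobQ2 : JobQ2.{u, v} := fun kit K _ _ _ T G _ _ A t h =>
  ⟨h.db4, h.fr4, h.U4s_cV, h.U4s_c8, h.U4s_n8, h.q6, h.c26⟩

end H65.SR
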