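/- STD-R (S3323): job U1. -/
import Cfsg.Agent.H65.SRQ2

set_option autoImplicit false
set_option linter.unusedSectionVars false
set_option linter.unusedVariables false
set_option linter.unusedSimpArgs false

open Subgroup H63.Oc H64.SG
open scoped commutatorElement

universe u v

namespace H65.SR

attribute [-simp] Subgroup.mem_map

section Gen
variable {G : Type*} [Group G]

/-- a layer: `t` centralises `P / P₀` -/
structure Lay (t : G) (H P₀ P : Subgroup G) : Prop where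
  phi : ∀ p ∈ P, ⁅t, p⁆ ∈ P₀
  le : P₀ ≤ P
  nor : P ≤ Ns P₀
  hP : H ≤ Ns P
  hP0 : H ≤ Ns P₀

variable {t : G} {H N X Y Z P₀ P P₀' P' I : Subgroup G}

theorem Db.lay1 (ht : Inv2 t) (h : Db t ⊥ Z N) (hc : N ≤ Cs X) (hZ : Z ≤ X) (hX : X ≤ Cz t) (h1 : H ≤ Ns X)
    (h2 : H ≤ Ns N) : Lay t H X (X ⊔ N) :=
  ⟨fun p hp => by
    obtain ⟨x, hx, n, hn, rfl⟩ := (mem_sup_ns ((cs_symm hc).trans cs_le_ns)).1 hp
    rw [comm_mul_right, comm_eq_one_iff.2 (hX hx), one_mul]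
    exact cj_mem (le_normalizer hx) (hZ (h.phi1 ht hn)),
  le_sup_left, sup_le le_normalizer (hc.trans cs_le_ns), le_ns_sup h1 h2, h1⟩

theorem Db.lay2 [Finite G] (ht : Inv2 t) (h : Db t N X Y) (h1 : H ≤ Ns X) (h2 : H ≤ Ns N) (h3 : H ≤ Ns Y) :
    Lay t H (X ⊔ N) Y :=
  ⟨fun p hp => h.phi_mem ht hp, sup_le h.leX h.le0,
    fun y hy => ns_sup_of (h.nor hy) fun x hx => mem_sup_right (h.comm hy (h.leX hx)), h3, le_ns_sup h1 h2⟩

theorem Lay.comm {X : Subgroup G} (ht : Inv2 t) (l : Lay t H P₀ P) (l' : Lay t H P₀' P') (f : Fr t X I) (n : P ≤ Ns I)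
    (n' : P' ≤ Ns I) (c : P₀ ≤ Cm P' I) (c' : P ≤ Cm P₀' I) {p p' : G} (hp : p ∈ P) (hp' : p' ∈ P') :
    ∃ u ∈ I, ∃ c ∈ Cz t, ⁅p, p'⁆ = u * c :=
  f.lift' ht (comm_mod f.tY (n hp) (n' hp') ((c' (inv_mem hp)).2 _ (l'.phi _ (inv_mem hp')))
    (comm_inv_mem.1 ((c (l.phi _ (inv_mem hp))).2 _ (inv_mem hp')))
    ((c (l.phi _ (inv_mem hp))).2 _ (l'.le (l'.phi _ (inv_mem hp')))))

/-- one FPF step -/
theorem Lay.step [Finite G] {k : G} (l : Lay t H P₀ P) (hk : k ∈ H) (hf : P ⊓ Cz k = ⊥) (hc : k ∈ Cs P') (hI : H ≤ Ns I)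
    (n : P ≤ Ns I) (n' : P' ≤ Ns I) (c : P₀ ≤ Cm P' I) (hw : ∀ p ∈ P, ∀ p' ∈ P', ⁅p, p'⁆ ∈ P' ⊔ (P₀ ⊔ I)) :
    P ≤ Cm P' (P₀ ⊔ I) := by
  have nk := ns_sup (l.hP0 hk) (hI hk)
  have := fpf (N := P' ⊔ (P₀ ⊔ I)) (N₀ := P₀ ⊔ I) (l.hP hk) hf
    (fun p hp => ns_sup_of (ns_sup (l.nor hp) (n hp)) (hw p hp)) (le_ns_sup l.nor n)
    (cm_of_Cl nk (sup_le (le_Cl_cs (fun p hp => ns_sup_of (n' hp) fun x hx =>
      mem_sup_right (comm_inv_mem.1 ((c hx).2 p hp))) hc) (le_Cl_self nk le_rfl)))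
  exact this.trans (cm_anti le_sup_left)

theorem ns_between {g : G} [Finite G] (h : g ∈ Cm Y N) (h1 : N ≤ X) (h2 : X ≤ Y) : g ∈ Ns X :=
  ns_of_cm (cm_anti h2 h) h1

end Gen

variable {K : Type*} [Field K] [Fintype K] [CharP K 2] {T : TF K} {G : Type*} [Group G] [Finite G]
  {A : AD T G} {t : G}

theorem U37_le {N : Subgroup G} (h3 : A.im (sU3 T) ≤ N) (h4 : A.im (sU4 T) ≤ N) (h5 : A.im (sU5 T) ≤ N)
    (h6 : A.im (sU6 T) ≤ N) (h7 : A.im (sU7 T) ≤ N) : A.im (sU37 T) ≤ N := by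
  rintro _ ⟨w, hw, rfl⟩
  have hw' := (mem_sU37 T).1 hw
  rw [nf w, hw'.1, hw'.2.1, hw'.2.2.1, hw'.2.2.2.1, hw'.2.2.2.2, x1_zero, y2_zero, x2_zero, y8_zero, x8_zero]
  simp only [map_mul, map_one, one_mul, mul_one]
  exact mul_mem (mul_mem (mul_mem (mul_mem (mul_mem (mul_mem (h3 (by simp)) (h4 (by simp))) (h4 (by simp)))
    (h5 (by simp))) (h6 (by simp))) (h6 (by simp))) (h7 (by simp))

theorem U27_le {N : Subgroup G} (h2 : A.im (sU2 T) ≤ N) (h3 : A.im (sU37 T) ≤ N) : A.im (sU27 T) ≤ N := by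
  rintro _ ⟨w, hw, rfl⟩
  rw [show w = y2 T w.b2 * x2 T w.a2 * ((y2 T w.b2 * x2 T w.a2)⁻¹ * w) by group, map_mul]
  exact mul_mem (h2 ((ι_mem_im A).2 (by simp))) (h3 ((ι_mem_im A).2 (by simp_all [CharTwo.add_self_eq_zero]; grind)))

theorem Q_le' {N : Subgroup G} (h1 : A.im (sU1 T) ≤ N) (h2 : A.im (sU27 T) ≤ N) : A.im (sQ T) ≤ N := by
  rintro _ ⟨w, hw, rfl⟩
  rw [show w = x1 T w.a1 * ((x1 T w.a1)⁻¹ * w) by group, map_mul]
  exact mul_mem (h1 (by simp)) (h2 ((ι_mem_im A).2 (by simp_all [CharTwo.add_self_eq_zero])))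

theorem Q1_le {N : Subgroup G} (h2 : A.im (sU27 T) ≤ N) (h8 : A.im (sU8 T) ≤ N) : A.im (sQ1 T) ≤ N := by
  rintro _ ⟨w, hw, rfl⟩
  rw [show w = w * (y8 T w.b8 * x8 T w.a8)⁻¹ * (y8 T w.b8 * x8 T w.a8) by group, map_mul]
  exact mul_mem (h2 ((ι_mem_im A).2 (by simp_all [CharTwo.add_self_eq_zero]; grind))) (h8 ((ι_mem_im A).2 (by simp)))

theorem S_le' {N : Subgroup G} (h2 : A.im (sQ T) ≤ N) (h8 : A.im (sU8 T) ≤ N) : A.S ≤ N := by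
  rintro _ ⟨w, rfl⟩
  rw [show w = w * (y8 T w.b8 * x8 T w.a8)⁻¹ * (y8 T w.b8 * x8 T w.a8) by group, map_mul]
  exact mul_mem (h2 ((ι_mem_im A).2 (by simp_all [CharTwo.add_self_eq_zero]; grind))) (h8 ((ι_mem_im A).2 (by simp)))

namespace H1
variable (h : H1 A t)
include h

theorem I27_Qs : I27 A t ≤ Qs A t := inf_le_left
theorem I27_c6 : I27 A t ≤ Cs (A6 A t) := inf_le_right
theorem I37_Qs : I37 A t ≤ Qs A t := inf_le_left
theorem I37_I27 : I37 A t ≤ I27 A t := inf_le_inf_left _ (cs_cj h.Qs_c4)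
theorem cjs1_I37 : cjs A.n1 (I37 A t) = I37 A t := by rw [I37, cjs_inf, cjs11, inf_comm]
theorem B1_Qs : B1 A t ≤ Qs A t := h.cjs8_Qs ▸ cjs_mono h.b7_Qs
theorem le_I37 {X : Subgroup G} (h1 : X ≤ Qs A t) (h2 : cjs A.n1 X ≤ Qs A t) : X ≤ I37 A t :=
  le_inf h1 ((cjs11 A X).ge.trans (cjs_mono h2))
theorem i3 : B3 A t ≤ I37 A t := h.le_I37 (h.le3.trans h.Vs_Qs) h.b7_Qs
theorem i4 : U4s A t ≤ I37 A t := h.le_I37 h.U4s_Qs h.U6s_Qs
theorem i5 : B5 A t ≤ I37 A t := h.le_I37 (h.le5.trans h.Vs_Qs) (h.cjs1_B5.le.trans (h.le5.trans h.Vs_Qs))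
theorem i6 : U6s A t ≤ I37 A t := h.cjs1_I37 ▸ cjs_mono h.i4
theorem i7 : B7 A t ≤ I37 A t := h.cjs1_I37 ▸ cjs_mono h.i3
theorem iA : sAs A t ≤ I37 A t := inf_le_inf h.Vs_Qs (cjs_mono h.Vs_Qs)
theorem i2 : U2s A t ≤ I27 A t := le_inf h.U2s_Qs h.c26
theorem iV : Vs A t ≤ I27 A t := le_inf h.Vs_Qs (h.Vs_cs le_rfl h.le6)
theorem U37_I : A.im (sU37 T) ≤ I37 A t := U37_le (h.db3.leX.trans h.i3) (h.db4.leX.trans h.i4) (h.db5.leX.trans h.i5)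
  (h.dbU6.leX.trans h.i6) (h.dbB7.leX.trans h.i7)
theorem U27_I : A.im (sU27 T) ≤ I27 A t := U27_le (h.dbU2.leX.trans h.i2) (h.U37_I.trans h.I37_I27)
theorem H27 : A.h.range ≤ Ns (I27 A t) := fun k hk => ns_inf (h.H_Qs hk) (ns_cs (h.H6 hk))
theorem H37 : A.h.range ≤ Ns (I37 A t) := fun k hk => ns_inf (h.H_Qs hk) (H_cjs1 h.H_Qs hk)

theorem I27_fix {g : G} (hg : g ∈ I27 A t) (hc : g ∈ Cz t) : g ∈ A.im (sU27 T) := by
  obtain ⟨c, hq, rfl⟩ := h.Qs_fix hg.1 hc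
  have := mem_Cs.1 (h.I27_c6 hg) _ (h.db6.leX (x := A.ι (x6 T 1)) (by simp))
  rw [← map_mul, ← map_mul, ι_inj] at this
  have hq' := (mem_sQ T).1 hq
  have e : c.a1 = 0 := by simpa [hq'.1, hq'.2] using congrArg Co.a4 this
  exact (ι_mem_im A).2 ⟨e, hq'⟩

theorem I37_fix {g : G} (hg : g ∈ I37 A t) (hc : g ∈ Cz t) : g ∈ A.im (sU37 T) := by
  obtain ⟨c, hq, rfl⟩ := h.I27_fix (h.I37_I27 hg) hc
  have := h.Qs_fix ((mem_cjs1 A).1 hg.2) (mul_mem (mul_mem h.cf.n1t hc) h.cf.n1t)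
  rw [A.n1_conj c (by simp_all), ι_mem_im] at this
  simp_all [Co.nu1]

theorem I37_cm : I37 A t ≤ Cm (A.im (sU37 T)) (sAs A t) := fun y hy => by
  have l : A.im (sU37 T) ≤ A.im (sQ T) := im_mono A fun c => by simp +contextual
  have c1 := cm_cj (g := A.n1) (h.Qs_cQ.trans (cm_anti l)) hy.2
  rw [cjs1_U37] at c1
  exact ⟨ns_inf (h.Qs_nV hy.1) c1.1, fun u hu => mem_inf.2 ⟨(h.Qs_cQ hy.1).2 u (l hu), c1.2 u hu⟩⟩

theorem onto37 {J N X : Subgroup G} {hJ : J ≤ Cm X N} {hX : X ≤ Ns N} (hU : A.im (sU37 T) ≤ X) (hN : sAs A t ≤ N)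
    (l3 : B3 A t ≤ J) (l4 : U4s A t ≤ J) (l5 : B5 A t ≤ J) (l6 : U6s A t ≤ J) (l7 : B7 A t ≤ J) :
    A.im (sU37 T) ≤ ImM t J X N hJ hX :=
  U37_le (h.db3.le_ImM ((im_mono A fun c => by simp +contextual).trans hU) l3 bot_le)
    (h.db4.le_ImM ((im_mono A fun c => by simp +contextual).trans hU) l4 (h.s4.trans hN))
    (h.db5.le_ImM ((im_mono A fun c => by simp +contextual).trans hU) l5 bot_le)
    (h.dbU6.le_ImM ((im_mono A fun c => by simp +contextual).trans hU) l6 (h.s6.trans hN))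
    (h.dbB7.le_ImM ((im_mono A fun c => by simp +contextual).trans hU) l7 bot_le)

theorem frA : Fr t (A.im (sA T)) (sAs A t) := h.dbA.fr h.cf.inv

theorem U37_ns : A.im (sU37 T) ≤ Ns (sAs A t) := h.U37_I.trans (h.I37_cm.trans cm_le_ns)

theorem db37 : Db t (sAs A t) (A.im (sU37 T)) (I37 A t) :=
  kit.mkDb h.cf.inv h.frA h.iA (h.I37_cm.trans cm_le_ns) (ns_inf h.dbQ.tY (h.dbQ.cj h.cf.n1t).tY)
    (fun y hy => mem_inf.2 ⟨h.Qs_sq hy.1, (h.dbQ.cj h.cf.n1t).sq y hy.2⟩)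
    (le_antisymm (fun g hg => h.I37_fix hg.1 hg.2) (le_inf h.U37_I (h.cf.imt _)))
    fun x hx => (h.onto37 (hJ := h.I37_cm) (hX := h.U37_ns) le_rfl le_rfl h.i3 h.i4 h.i5 h.i6 h.i7 hx).2

theorem gen37 : I37 A t = B3 A t ⊔ U4s A t ⊔ B5 A t ⊔ U6s A t ⊔ B7 A t := by
  have hJ := sup_le (sup_le (sup_le (sup_le h.i3 h.i4) h.i5) h.i6) h.i7
  have l7 : B7 A t ≤ B3 A t ⊔ U4s A t ⊔ B5 A t ⊔ U6s A t ⊔ B7 A t := le_sup_right
  have l6 : U6s A t ≤ B3 A t ⊔ U4s A t ⊔ B5 A t ⊔ U6s A t ⊔ B7 A t := le_sup_right.trans le_sup_left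
  have l5 : B5 A t ≤ B3 A t ⊔ U4s A t ⊔ B5 A t ⊔ U6s A t ⊔ B7 A t := (le_sup_right.trans le_sup_left).trans le_sup_left
  have l4 : U4s A t ≤ B3 A t ⊔ U4s A t ⊔ B5 A t ⊔ U6s A t ⊔ B7 A t :=
    ((le_sup_right.trans le_sup_left).trans le_sup_left).trans le_sup_left
  have l3 : B3 A t ≤ B3 A t ⊔ U4s A t ⊔ B5 A t ⊔ U6s A t ⊔ B7 A t :=
    ((le_sup_left.trans le_sup_left).trans le_sup_left).trans le_sup_left
  exact (kit.gen h.cf.inv h.db37 hJ (h.genA.le.trans (sup_le (sup_le (h.db4.le0.trans l4) l5) (h.dbU6.le0.trans l6)))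
    (U37_le (h.db3.leX.trans l3) (h.db4.leX.trans l4) (h.db5.leX.trans l5) (h.dbU6.leX.trans l6) (h.dbB7.leX.trans l7))
    fun x hx => (h.onto37 (hJ := hJ.trans h.I37_cm) (hX := h.U37_ns) le_rfl le_rfl l3 l4 l5 l6 l7 hx).2).symm

theorem onto27 {J X : Subgroup G} {hJ : J ≤ Cm X (Vs A t)} {hX : X ≤ Ns (Vs A t)} (hU : A.im (sU27 T) ≤ X)
    (l2 : U2s A t ≤ J) (l3 : I37 A t ≤ J) : A.im (sU27 T) ≤ ImM t J X _ hJ hX :=
  U27_le (h.dbU2.le_ImM ((im_mono A fun c => by simp +contextual).trans hU) l2 h.le2)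
    (h.db37.le_ImM ((im_mono A fun c => by simp +contextual).trans hU) l3 h.sAs_le)

theorem I27_cm : I27 A t ≤ Cm (A.im (sU27 T)) (Vs A t) :=
  (h.I27_Qs.trans h.Qs_cQ).trans (cm_anti (im_mono A fun c => by simp +contextual))

theorem db27 : Db t (Vs A t) (A.im (sU27 T)) (I27 A t) :=
  kit.mkDb h.cf.inv h.frV h.iV (h.I27_Qs.trans h.Qs_nV) (ns_inf h.dbQ.tY (ns_cs h.db6.tY))
    (fun y hy => h.Qs_sq hy.1) (le_antisymm (fun g hg => h.I27_fix hg.1 hg.2) (le_inf h.U27_I (h.cf.imt _)))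
    fun x hx => (h.onto27 (hJ := h.I27_cm) (hX := h.im_Vs _) le_rfl h.i2 h.I37_I27 hx).2

theorem gen27 : I27 A t = U2s A t ⊔ I37 A t := by
  have hJ := sup_le h.i2 h.I37_I27
  exact (kit.gen h.cf.inv h.db27 hJ (h.genV.le.trans (sup_le (sup_le (sup_le (sup_le (h.dbU2.le0.trans le_sup_left)
      (h.i3.trans le_sup_right)) ((h.s4.trans h.iA).trans le_sup_right)) (h.i5.trans le_sup_right))
      ((h.s6.trans h.iA).trans le_sup_right))) (U27_le (h.dbU2.leX.trans le_sup_left) (h.U37_I.trans le_sup_right))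
    fun x hx => (h.onto27 (hJ := hJ.trans h.I27_cm) (hX := h.im_Vs _) le_rfl le_sup_left le_sup_right hx).2).symm

theorem genQ : Qs A t = B1 A t ⊔ I27 A t := by
  have hJ := sup_le h.B1_Qs h.I27_Qs
  exact (kit.gen h.cf.inv h.dbQ hJ (h.iV.trans le_sup_right)
    (Q_le' (h.dbB1.leX.trans le_sup_left) (h.U27_I.trans le_sup_right))
    fun x hx => (Q_le' (N := ImM t _ _ _ (hJ.trans h.Qs_cQ) (h.im_Vs _))
      (h.dbB1.le_ImM (im_mono A fun c => by simp +contextual) le_sup_left bot_le)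
      (h.onto27 (im_mono A fun c => by simp +contextual) (h.i2.trans le_sup_right) (h.I37_I27.trans le_sup_right))
      hx).2).symm

theorem fr37 : Fr t (A.im (sU37 T)) (I37 A t) := h.db37.ext h.cf.inv h.frA (im_mono A fun c => by simp +contextual)
theorem fr27 : Fr t (A.im (sU27 T)) (I27 A t) := h.db27.ext h.cf.inv h.frV (im_mono A fun c => by simp +contextual)

theorem Qs_n0 : Qs A t ≤ Ns (B3 A t ⊔ sAs A t) := fun g hg =>
  ns_between (h.Qs_cV hg) (h.s4.trans le_sup_right) (sup_le h.le3 h.sAs_le)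

theorem cm237 : U2s A t ≤ Cm (I37 A t) (B3 A t ⊔ sAs A t) := by
  obtain ⟨k, hk, k1⟩ := h.la.exT 2
  have nk : k ∈ Ns (B3 A t ⊔ sAs A t) := h.gen0 ▸ ns_inf (h.h7 (TT_le_H A 2 hk)) (h.H_Vs (TT_le_H A 2 hk))
  have := fpf (N := U2s A t ⊔ Vs A t) (N₀ := B3 A t ⊔ sAs A t) (h.H37 (TT_le_H A 2 hk))
    (h.fp hk k1 h.fr37 fun c => by simp +contextual [sU, Co.ext_iff])
    (fun p hp => ns_sup_of (h.Qs_nV hp.1) fun y hy => mem_sup_right (h.dbQ.comm hp.1 (h.U2s_Qs hy)))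
    (h.I37_Qs.trans h.Qs_n0)
    (cm_of_Cl nk (sup_le (le_Cl_cs (h.U2s_Qs.trans h.Qs_n0) (cs_symm h.U2s_T hk)) (h.genV.le.trans
      (sup_le (sup_le (sup_le (sup_le (le_Cl_cs ((h.le2.trans h.Vs_Qs).trans h.Qs_n0) (cs_symm h.c2T hk))
        (le_Cl_self nk le_sup_left)) (le_Cl_self nk (h.s4.trans le_sup_right)))
        (le_Cl_self nk (h.s5.trans le_sup_right))) (le_Cl_self nk (h.s6.trans le_sup_right))))))
  exact cm_symm (this.trans (cm_anti le_sup_left)) (h.U2s_Qs.trans h.Qs_n0)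

theorem n237 : U2s A t ≤ Ns (I37 A t) := fun y hy => ns_of_cm (h.cm237 hy) (sup_le h.i3 h.iA)
theorem n837 : U8s A t ≤ Ns (I37 A t) := h.cjs1_I37 ▸ ns_cj h.n237
theorem U8s_c4 : U8s A t ≤ Cs (A4 A t) := h.cjs1_A6 ▸ cs_cj h.c26
theorem U8s_c6 : U8s A t ≤ Cs (A6 A t) := cs_cj (h.U2s_Qs.trans h.Qs_c4)
theorem cjs1_U8s : cjs A.n1 (U8s A t) = U2s A t := cjs11 A _
theorem cjs1_U8 : cjs A.n1 (A.im (sU8 T)) = A.im (sU2 T) := h.la.uu1 8 (by norm_num) (by norm_num)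

theorem U8_I27 : A.im (sU8 T) ≤ Ns (I27 A t) := fun u hu =>
  ns_inf (h.C_Qs (im_le_C A _ hu)) (le_normalizer (h.U8s_c6 (h.dbU8.leX hu)))

theorem U8_cm : A.im (sU8 T) ≤ Cm (U2s A t) (I37 A t) := by
  obtain ⟨k, hk, k1⟩ := h.la.exT 2
  have nk := h.H37 (TT_le_H A 2 hk)
  exact (fpf (N := I27 A t) (N₀ := I37 A t) (h.la.hU 8 (TT_le_H A 2 hk))
    (h.la.fp hk k1 fun c => by simp +contextual [sU, Co.ext_iff]) h.U8_I27 (h.dbU8.leX.trans h.n837)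
    (cm_of_Cl nk (h.gen27.le.trans (sup_le (le_Cl_cs h.n237 (cs_symm h.U2s_T hk)) (le_Cl_self nk le_rfl))))).trans
    (cm_anti h.i2)

theorem U8s_cm : U8s A t ≤ Cm (A.im (sU2 T)) (I37 A t) := by
  have := cm_cj (g := A.n1) h.U8_cm
  rw [h.cjs1_U8, h.cjs1_I37] at this
  exact cm_symm this h.n837

theorem U8s_Qs {g : G} (h8 : g ∈ U8s A t) (hq : g ∈ Qs A t) : g = 1 :=
  mem_bot.1 (triv_of h.cf.inv (h.fr8.two.to_inf_left) (ns_inf h.fr8.tY h.frQ.tY) (fun y hy hc => by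
    obtain ⟨c, hc', rfl⟩ := h.fr8.mem hy.1 hc
    have := h.Qs_fix hy.2 hc
    rw [ι_eq_one]
    ext <;> simp_all) ▸ mem_inf.2 ⟨h8, hq⟩)

theorem lemma82 {P₀ P P₀' P' : Subgroup G} (l : Lay t A.h.range P₀ P) (l' : Lay t A.h.range P₀' P')
    (h8 : A.im (sU8 T) ≤ P₀) (h2 : A.im (sU2 T) ≤ P₀') (hP : P ≤ U8s A t) (hP' : P' ≤ U2s A t)
    (c : P₀ ≤ Cm P' (I37 A t)) (c' : P ≤ Cm P₀' (I37 A t)) : P ≤ Cm P' (I37 A t) := by
  have n := hP.trans h.n837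
  have n' := hP'.trans h.n237
  have key : ∀ N : Subgroup G, P₀ ≤ N → P₀' ≤ N → I37 A t ≤ N → ∀ p ∈ P, ∀ p' ∈ P', ⁅p, p'⁆ ∈ N :=
    fun N h1 h2' h3 p hp p' hp' => by
      obtain ⟨u, hu, d, hd, e⟩ := l.comm h.cf.inv l' h.fr37 n n' c c' hp hp'
      have m := h.mem_Q1 hd ((mul_mem_cancel_left (h.Qs_c4 hu.1)).1
          (e ▸ comm_mem_left (le_normalizer (h.U8s_c4 (hP hp))) (h.Qs_c4 (h.U2s_Qs (hP' hp')))))
        ((mul_mem_cancel_left (h.I27_c6 (h.I37_I27 hu))).1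
          (e ▸ comm_mem_left (le_normalizer (h.U8s_c6 (hP hp))) (h.c26 (hP' hp'))))
      rw [e]
      exact mul_mem (h3 hu) (Q1_le (U27_le (h2.trans h2') (h.U37_I.trans h3)) (h8.trans h1) m)
  obtain ⟨k, hk, k1⟩ := h.la.exT 2
  obtain ⟨k', hk', k1'⟩ := h.la.exT 8
  have s1 := l.step (TT_le_H A 2 hk) (eq_bot_iff.2 ((inf_le_inf_right _ hP).trans
      (h.fp hk k1 h.fr8 fun c => by simp +contextual [sU, Co.ext_iff]).le)) (cs_symm (hP'.trans h.U2s_T) hk) h.H37 n n' c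
    (key _ (le_sup_left.trans le_sup_right) (l'.le.trans le_sup_left) (le_sup_right.trans le_sup_right))
  have s2 := l'.step (TT_le_H A 8 hk') (eq_bot_iff.2 ((inf_le_inf_right _ hP').trans
      (h.fp hk' k1' h.fr2 fun c => by simp +contextual [sU, Co.ext_iff]).le)) (cs_symm (hP.trans h.U8s_T) hk') h.H37 n' n
    (cm_symm c' (l'.le.trans n')) fun p' hp' p hp => comm_inv_mem.1
      (key _ (l.le.trans le_sup_left) (le_sup_left.trans le_sup_right) (le_sup_right.trans le_sup_right) p hp p' hp')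
  refine fun p hp => ⟨n hp, fun p' hp' => ?_⟩
  obtain ⟨x, hx, i, hi, e⟩ := (mem_sup_ns (l.le.trans n)).1 ((s1 hp).2 p' hp')
  have m := sup_le ((l'.le.trans hP').trans h.U2s_Qs) h.I37_Qs (comm_inv_mem.1 ((s2 hp').2 p hp))
  rw [← e] at m ⊢
  rwa [h.U8s_Qs (hP (l.le hx)) ((mul_mem_cancel_right (h.I37_Qs hi)).1 m), one_mul]

theorem A2_U2 : A2 A t ≤ Cs (A.im (sU2 T)) := fun a ha => mem_Cs.2 (by
  rintro _ ⟨d, hd, rfl⟩
  exact (mem_Cz.1 (h.c2U (by simp_all) (by simp_all) ha)).symm)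

theorem A8_U8 : A8 A t ≤ Cs (A.im (sU8 T)) := by
  have := cs_cj (g := A.n1) h.A2_U2
  rwa [← h.cjs1_U8, cjs11] at this

theorem lay8 : Lay t A.h.range (A.im (sU8 T)) (A.im (sU8 T) ⊔ A8 A t) :=
  h.db8.lay1 h.cf.inv h.A8_U8 (im_mono A fun c => by simp +contextual) (h.cf.imt _) (h.la.hU 8) h.H8
theorem lay8' : Lay t A.h.range (A.im (sU8 T) ⊔ A8 A t) (U8s A t) := h.dbU8.lay2 h.cf.inv (h.la.hU 8) h.H8 h.HU8
theorem lay2 : Lay t A.h.range (A.im (sU2 T)) (A.im (sU2 T) ⊔ A2 A t) :=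
  h.db2.lay1 h.cf.inv h.A2_U2 (im_mono A fun c => by simp +contextual) (h.cf.imt _) (h.la.hU 2) h.H2
theorem lay2' : Lay t A.h.range (A.im (sU2 T) ⊔ A2 A t) (U2s A t) := h.dbU2.lay2 h.cf.inv (h.la.hU 2) h.H2 h.HU2

theorem c82 : U8s A t ≤ Cm (U2s A t) (I37 A t) := by
  have s1 := h.lemma82 h.lay8 h.lay2 le_rfl le_rfl h.lay8'.le h.lay2'.le (h.U8_cm.trans (cm_anti h.lay2'.le))
    (h.lay8'.le.trans h.U8s_cm)
  have s2 := h.lemma82 h.lay8 h.lay2' le_rfl le_sup_left h.lay8'.le le_rfl h.U8_cm s1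
  have s3 := h.lemma82 h.lay8' h.lay2 le_sup_left le_rfl le_rfl h.lay2'.le s1 h.U8s_cm
  exact h.lemma82 h.lay8' h.lay2' le_sup_left le_sup_left le_rfl le_rfl s2 s3

end H1

theorem jobU1 : JobU1.{u, v} := fun kit K _ _ _ T G _ _ A t h =>
  ⟨h.db37, h.gen37, h.db27, h.gen27, h.genQ, h.n237, h.c82⟩

end H65.SR
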