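/- STD-R (S3323): job U2. -/
import Cfsg.Agent.H65.SRU1

set_option autoImplicit false
set_option linter.unusedSectionVars false
set_option linter.unusedVariables false
set_option linter.unusedSimpArgs false

open Subgroup H63.Oc H64.SG
open scoped commutatorElement

universe u v

namespace H65.SR

attribute [-simp] Subgroup.mem_map

variable {K : Type*} [Field K] [Fintype K] [CharP K 2] {T : TF K} {G : Type*} [Group G] [Finite G]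
  {A : AD T G} {t : G}

theorem Db.cmY {N X Y : Subgroup G} (h : Db t N X Y) : Y ≤ Cm Y N := fun y hy => ⟨h.nor hy, fun x hx => h.comm hy hx⟩

theorem cm_bot_left {P I : Subgroup G} (h : P ≤ Ns I) : P ≤ Cm ⊥ I := fun p hp => ⟨h hp, fun x hx => by
  rw [mem_bot.1 hx, commutatorElement_one_right]; exact one_mem _⟩

namespace H1
variable (h : H1 A t)
include h

theorem n827 : U8s A t ≤ Ns (I27 A t) := fun y hy =>
  h.gen27 ▸ ns_sup_of (h.n837 hy) fun x hx => mem_sup_right ((h.c82 hy).2 x hx)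

theorem Qs_n27 : Qs A t ≤ Ns (I27 A t) := fun y hy => ns_between (h.dbQ.cmY hy) h.iV h.I27_Qs

theorem U8_cm1 : A.im (sU8 T) ≤ Cm (B1 A t) (I27 A t) := by
  obtain ⟨k, hk, k1⟩ := h.la.exT 1
  have nk := h.H27 (TT_le_H A 1 hk)
  exact (fpf (N := Qs A t) (N₀ := I27 A t) (h.la.hU 8 (TT_le_H A 1 hk))
    (h.la.fp hk k1 fun c => by simp +contextual [sU, Co.ext_iff]) ((im_le_C A _).trans h.C_Qs) h.U8_I27
    (cm_of_Cl nk (h.genQ.le.trans (sup_le (le_Cl_cs (h.B1_Qs.trans h.Qs_n27) (cs_symm h.c1T hk))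
      (le_Cl_self nk le_rfl))))).trans (cm_anti h.B1_Qs)

theorem frB1 : Fr t (A.im (sU1 T)) (B1 A t) := h.dbB1.fr h.cf.inv

theorem lemma81 {P₀ P P₀' P' : Subgroup G} (l : Lay t A.h.range P₀ P) (l' : Lay t A.h.range P₀' P')
    (h8 : A.im (sU8 T) ≤ P) (hP : P ≤ U8s A t) (hP' : P' ≤ B1 A t)
    (c : P₀ ≤ Cm P' (I27 A t)) (c' : P ≤ Cm P₀' (I27 A t)) : P ≤ Cm P' (I27 A t) := by
  have n := hP.trans h.n827
  have n' := (hP'.trans h.B1_Qs).trans h.Qs_n27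
  obtain ⟨k, hk, k1⟩ := h.la.exT 8
  have nk := h.H27 (TT_le_H A 8 hk)
  have := fpf (N := P ⊔ I27 A t) (N₀ := I27 A t) (l'.hP (TT_le_H A 8 hk)) (eq_bot_iff.2 ((inf_le_inf_right _ hP').trans
      (h.fp hk k1 h.frB1 fun c => by simp +contextual [sU, Co.ext_iff]).le))
    (fun p' hp' => ns_sup_of (n' hp') fun p hp => comm_inv_mem.1 (by
      obtain ⟨u, hu, d, hd, e⟩ := l.comm h.cf.inv l' h.fr27 n n' c c' hp hp'
      have c1 : u * d ∈ Cs (A4 A t ⊔ A6 A t) := e ▸ comm_mem_right (ns_cs (ns_between (h.Qs_cV (h.B1_Qs (hP' hp')))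
        le_sup_left (sup_le h.le4 h.le6))) (cs_sup (h.U8s_c4 (hP hp)) (h.U8s_c6 (hP hp)))
      have c2 := (mul_mem_cancel_left (cs_sup (h.Qs_c4 hu.1) (h.I27_c6 hu))).1 c1
      rw [e]
      exact mul_mem (mem_sup_right hu) (Q1_le (h.U27_I.trans le_sup_right) (h8.trans le_sup_left)
        (h.mem_Q1 hd (cs_anti le_sup_left c2) (cs_anti le_sup_right c2))))) n'
    (cm_of_Cl nk (sup_le (le_Cl_cs n (cs_symm (hP.trans h.U8s_T) hk)) (le_Cl_self nk le_rfl)))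
  exact cm_symm (this.trans (cm_anti le_sup_left)) n

theorem lay1 : Lay t A.h.range ⊥ (A.im (sU1 T)) :=
  ⟨fun p hp => mem_bot.2 (comm_eq_one_iff.2 (h.cf.imt _ hp)), bot_le, fun _ _ => le_normalizer_of_normal (mem_top _),
    h.la.hU 1, fun _ _ => le_normalizer_of_normal (mem_top _)⟩

theorem lay1' : Lay t A.h.range (A.im (sU1 T)) (B1 A t) :=
  ⟨fun p hp => h.dbB1.phi1 h.cf.inv hp, h.dbB1.leX, (h.dbB1.ab.trans (cs_anti h.dbB1.leX)).trans cs_le_ns,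
    h.HB1, h.la.hU 1⟩

theorem c81 : U8s A t ≤ Cm (B1 A t) (I27 A t) := by
  have s1 := h.lemma81 h.lay8 h.lay1 le_sup_left h.lay8'.le h.dbB1.leX (h.U8_cm1.trans (cm_anti h.dbB1.leX))
    (cm_bot_left (h.lay8'.le.trans h.n827))
  have s2 := h.lemma81 h.lay8' h.lay1 h.dbU8.leX le_rfl h.dbB1.leX s1 (cm_bot_left h.n827)
  have s3 := h.lemma81 h.lay8 h.lay1' le_sup_left h.lay8'.le le_rfl h.U8_cm1 s1
  exact h.lemma81 h.lay8' h.lay1' h.dbU8.leX le_rfl le_rfl s3 s2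

theorem nQ : U8s A t ≤ Ns (Qs A t) := fun y hy =>
  h.genQ ▸ ns_sup_of (h.n827 hy) fun x hx => mem_sup_right ((h.c81 hy).2 x hx)

theorem frUs : Fr t A.S (Us A t) := by
  have := h.frQ.prod h.cf.inv h.fr8 h.nQ (eq_bot_iff.2 fun g hg => mem_bot.2
    (h.U8s_Qs (h.dbU8.leX hg.2) (h.Q_Qs hg.1)))
  rwa [le_antisymm (sup_le (im_le_S A _) (im_le_S A _)) (S_le' le_sup_left le_sup_right)] at this

theorem Us_c4 : Us A t ≤ Cs (A4 A t) := sup_le h.Qs_c4 h.U8s_c4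

theorem Vs_eq : Qs A t ⊓ Cm (Qs A t) (A4 A t) = Vs A t :=
  h.frV.self h.cf.inv (le_inf h.Vs_Qs (cm_symm h.Qs_cV (h.Vs_c4.trans cs_le_ns))) h.frQ.two.to_inf_left
    (ns_inf h.frQ.tY (ns_cm h.frQ.tY h.sa.db.tY)) fun g hg => by
      have hq := h.Qs_fix hg.1.1 hg.2
      exact h.V_Vs (h.la.qq.le ⟨hq, h.la.CN (by simp) (im_le_C A _ hq), fun q hq' =>
        h.sa.db.fix1 (hg.1.2.2 q (h.Q_Qs hq')) (comm_mem_left (le_normalizer (h.cf.imt _ hq)) (h.cf.imt _ hq'))⟩)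

theorem nV : U8s A t ≤ Ns (Vs A t) := fun y hy =>
  h.Vs_eq ▸ ns_inf (h.nQ hy) (ns_cm (h.nQ hy) (cs_le_ns (h.U8s_c4 hy)))

theorem b1b : B1 A t ≤ Ns (Qbs A t) := fun b hb => ns_of_St (sup_le (le_St_ns le_sup_left (h.Qs_n27 (h.B1_Qs hb)))
  (le_St le_sup_right fun y hy => mem_sup_left (comm_inv_mem.1 ((h.c81 hy).2 b hb))))

theorem n1b : A.n1 ∈ Ns (Qbs A t) := ns_of_cjs_eq (by
  rw [Qbs, h.gen27, cjs_sup, cjs_sup, h.cjs1_I37, h.cjs1_U8s]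
  change U8s A t ⊔ _ ⊔ _ = _
  ac_rfl)

theorem HUs : A.h.range ≤ Ns (Us A t) := le_ns_sup h.H_Qs h.HU8

theorem frU (i : ℕ) : Fr t (A.im (sU T i)) (Ui A t i) := by
  rcases i with _ | _ | _ | _ | _ | _ | _ | _ | i
  exacts [h.fr8, h.frB1, h.fr2, h.db3.fr h.cf.inv, h.fr4, h.db5.fr h.cf.inv, h.fr6, h.dbB7.fr h.cf.inv, h.fr8]

theorem Qs_Us : Qs A t ≤ Us A t := le_sup_left

theorem Ui_Us (i : ℕ) : Ui A t i ≤ Us A t := by
  rcases i with _ | _ | _ | _ | _ | _ | _ | _ | i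
  exacts [le_sup_right, h.B1_Qs.trans h.Qs_Us, h.U2s_Qs.trans h.Qs_Us, (h.le3.trans h.Vs_Qs).trans h.Qs_Us,
    h.U4s_Qs.trans h.Qs_Us, (h.le5.trans h.Vs_Qs).trans h.Qs_Us, h.U6s_Qs.trans h.Qs_Us, h.b7_Qs.trans h.Qs_Us,
    le_sup_right]

theorem Ui_T (i : ℕ) : Ui A t i ≤ Cs (TT A i) := by
  rcases i with _ | _ | _ | _ | _ | _ | _ | _ | i
  exacts [h.U8s_T, h.c1T, h.U2s_T, h.c3T, h.U4s_T, h.c5T, h.U6s_T, h.c7T, h.U8s_T]

theorem cT (i : ℕ) : Us A t ⊓ Cs (TT A i) = Ui A t i :=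
  (h.frU i).self h.cf.inv (le_inf (h.Ui_Us i) (h.Ui_T i)) h.frUs.two.to_inf_left
    (ns_inf h.frUs.tY (ns_cs (h.cf.t_ns (TT_le A i)))) fun g hg =>
      (h.frU i).le (h.la.memT (h.frUs.mem hg.1.1 hg.2) hg.1.2)

theorem gen_step {J N Y : Subgroup G} (hJ : J ≤ Us A t) (hH : A.h.range ≤ Ns J) (i : ℕ) (hY : Y ≤ Ui A t i)
    (n : Y ≤ Ns N) (hN : A.h.range ≤ Ns N) (ih : J ⊓ N ≤ ⨆ i, J ⊓ Ui A t i) : J ⊓ (N ⊔ Y) ≤ ⨆ i, J ⊓ Ui A t i := by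
  intro y hy
  obtain ⟨x, hx, u, hu, e⟩ := (mem_sup_ns' n).1 hy.2
  obtain ⟨y₀, h0, hc⟩ := cop' (Y₀ := J ⊓ N) (H := TT A i) (y := y) ((h.frUs.two.to_le hJ).to_inf_left) (h.la.oddT i)
    (fun k hk => ns_inf (hH (TT_le_H A i hk)) (hN (TT_le_H A i hk))) fun k hk =>
      mem_inf.2 ⟨comm_mem_left (hH (TT_le_H A i hk)) hy.1, by
        rw [← e, comm_mul_right, comm_eq_one_of_cs' (h.Ui_T i (hY hu)) hk]
        simpa using comm_mem_left (hN (TT_le_H A i hk)) hx⟩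
  have m := mul_mem (mem_inf.1 h0).1 (mem_inf.1 hy).1
  exact (mul_mem_cancel_left (ih h0)).1 (le_iSup (fun i => J ⊓ Ui A t i) i
    (mem_inf.2 ⟨m, (h.cT i).le (mem_inf.2 ⟨hJ m, hc⟩)⟩))

theorem HA : A.h.range ≤ Ns (sAs A t) := fun k hk => ns_inf (h.H_Vs hk) (H_cjs1 h.H_Vs hk)

theorem hgen {J : Subgroup G} (hJ : J ≤ Us A t) (hH : A.h.range ≤ Ns J) : J ≤ ⨆ i, J ⊓ Ui A t i := by
  have nb : ∀ {X : Subgroup G}, sAs A t ≤ X → X ≤ I37 A t → I37 A t ≤ Ns X := fun h1 h2 y hy =>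
    ns_between (h.db37.cmY hy) h1 h2
  have s4 : J ⊓ A4 A t ≤ ⨆ i, J ⊓ Ui A t i := (inf_le_inf_left _ h.db4.le0).trans (le_iSup (fun i => J ⊓ Ui A t i) 4)
  have s5 := h.gen_step hJ hH 5 le_rfl ((h.Vs_cs h.le5 h.le4).trans cs_le_ns) h.H4 s4
  have s6 := h.gen_step hJ hH 6 h.dbU6.le0 ((h.Vs_cs h.le6 (sup_le h.le4 h.le5)).trans cs_le_ns)
    (le_ns_sup h.H4 h.H5) s5
  rw [← h.genA] at s6
  have s3 := h.gen_step hJ hH 3 le_rfl (h.i3.trans h.db37.nor) h.HA s6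
  have H3 := le_ns_sup h.HA h.H3
  have s4' := h.gen_step hJ hH 4 le_rfl (h.i4.trans (nb le_sup_left (sup_le h.iA h.i3))) H3 s3
  have H4 := le_ns_sup H3 h.HU4
  have s6' := h.gen_step hJ hH 6 le_rfl (h.i6.trans (nb (le_sup_left.trans le_sup_left)
    (sup_le (sup_le h.iA h.i3) h.i4))) H4 s4'
  have s7 := h.gen_step hJ hH 7 le_rfl (h.i7.trans (nb ((le_sup_left.trans le_sup_left).trans le_sup_left)
    (sup_le (sup_le (sup_le h.iA h.i3) h.i4) h.i6))) (le_ns_sup H4 h.HU6) s6'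
  have s37 : J ⊓ I37 A t ≤ ⨆ i, J ⊓ Ui A t i := (inf_le_inf_left _ (h.gen37.le.trans (sup_le_sup_right (sup_le (sup_le
    ((sup_le_sup_right le_sup_right _).trans le_sup_left)
    (((h.s5.trans le_sup_left).trans le_sup_left).trans le_sup_left)) le_sup_right) _))).trans s7
  have s2 := h.gen_step hJ hH 2 le_rfl h.n237 h.H37 s37
  have s1 := h.gen_step hJ hH 1 le_rfl (h.B1_Qs.trans h.Qs_n27) h.H27
    ((inf_le_inf_left _ (h.gen27.le.trans (sup_comm _ _).le)).trans s2)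
  have s8 := h.gen_step hJ hH 8 le_rfl h.nQ h.H_Qs ((inf_le_inf_left _ (h.genQ.le.trans (sup_comm _ _).le)).trans s1)
  exact (le_inf le_rfl hJ).trans s8

theorem cjs1_sAs : cjs A.n1 (sAs A t) = sAs A t := by rw [sAs, cjs_inf, cjs11, inf_comm]
theorem U6s_cA : U6s A t ≤ Cs (sAs A t) := h.cjs1_sAs ▸ cs_cj (h.U4s_cV.trans (cs_anti h.sAs_le))

theorem c46 {y y' : G} (hy : y ∈ U4s A t) (hy' : y' ∈ U6s A t) : ⁅y, y'⁆ ∈ B5 A t := by
  obtain ⟨k, hk, k1⟩ := h.la.exT 4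
  obtain ⟨k', hk', k1'⟩ := h.la.exT 6
  have nk := ns_sup (h.H5 (TT_le_H A 4 hk)) (h.H6 (TT_le_H A 4 hk))
  have nk' := h.H5 (TT_le_H A 6 hk')
  have l := sup_le h.le5 h.le6
  have s1 := fpf (N := U4s A t ⊔ sAs A t) (N₀ := B5 A t ⊔ A6 A t) (h.HU6 (TT_le_H A 4 hk))
    (h.fp hk k1 h.fr6 fun c => by simp +contextual [sU, Co.ext_iff])
    (fun y hy => ns_between (h.db37.cmY (h.i6 hy)) le_sup_right (sup_le h.i4 h.iA))
    ((h.U6s_cA.trans (cs_anti (sup_le h.s5 h.s6))).trans cs_le_ns)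
    (cm_of_Cl nk (sup_le (le_Cl_cs ((h.U4s_cV.trans (cs_anti l)).trans cs_le_ns) (cs_symm h.U4s_T hk))
      (h.genA.le.trans (sup_le (sup_le (le_Cl_cs ((h.Vs_cs h.le4 l).trans cs_le_ns) (cs_symm h.c4T hk))
        (le_Cl_self nk le_sup_left)) (le_Cl_self nk le_sup_right)))))
  have c5 := (h.U4s_cV.trans (cs_anti h.le5)).trans cs_le_ns
  have s2 := fpf (N := U6s A t ⊔ B5 A t) (N₀ := B5 A t) (h.HU4 (TT_le_H A 6 hk'))
    (h.fp hk' k1' h.fr4 fun c => by simp +contextual [sU, Co.ext_iff])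
    (fun y hy => ns_sup_of (c5 hy) fun y' hy' => comm_inv_mem.1 (sup_le le_sup_right (h.dbU6.le0.trans le_sup_left)
      ((s1 hy').2 y (mem_sup_left hy)))) c5
    (cm_of_Cl nk' (sup_le (le_Cl_cs ((h.U6s_cA.trans (cs_anti h.s5)).trans cs_le_ns) (cs_symm h.U6s_T hk'))
      (le_Cl_self nk' le_rfl)))
  exact (s2 hy).2 y' (mem_sup_left hy')

end H1

theorem jobU2 : JobU2.{u, v} := fun kit K _ _ _ T G _ _ A t h =>
  ⟨h.c81, h.frUs, fun e => h.sa.nt (h.Us_c4 e), h.Us_c4, h.nQ, h.nV, h.b1b, h.n1b, h.HUs, h.frU, h.cT,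
    fun J hJ hH => h.hgen hJ hH, fun y hy y' hy' => h.c46 hy hy'⟩

end H65.SR
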