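/- STD-R (S3323): job Ra. -/
import Cfsg.Agent.H65.SRU2
import Cfsg.Agent.H65.SRSpec2
import Mathlib.Algebra.QuadraticAlgebra.Defs

set_option autoImplicit false
set_option linter.unusedSectionVars false
set_option linter.unusedVariables false
set_option linter.unusedSimpArgs false

open Subgroup H63.Oc H64.SG
open scoped commutatorElement

universe u v

namespace H65.SR

attribute [-simp] Subgroup.mem_map

variable {K : Type*} [Field K] [Fintype K] [CharP K 2] {T : TF K} {G : Type*} [Group G] [Finite G]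
  {A : AD T G} {t : G}

theorem t_mem {Y : Subgroup G} {y : G} (ht : Inv2 t) (h : t ∈ Ns Y) (hy : y ∈ Y) : t * y * t ∈ Y := by
  have := cj_mem h hy
  rwa [inv_eq_of_mul_eq_one_right ht.1] at this

theorem c6_mul (a b : G) : c6 A (a * b) = c6 A a * c6 A b := cj_mul2 _ A.n1_sq a b
theorem c6_c6 (a : G) : c6 A (c6 A a) = a := n1_cj A a
theorem c6_one : c6 A 1 = 1 := by simp [c6, A.n1_sq]
theorem c3_mul (a b : G) : c3 A (a * b) = c3 A a * c3 A b := cj_mul2 _ A.n8_sq a b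
theorem c3_c3 (a : G) : c3 A (c3 A a) = a := n8_cj A a
theorem c3_one : c3 A 1 = 1 := by simp [c3, A.n8_sq]
theorem c6_h (p : Kˣ × Kˣ) (a : G) : c6 A (A.h p * a * (A.h p)⁻¹) = A.h (w1 p) * c6 A a * (A.h (w1 p))⁻¹ := by
  rw [← A.n1_h]; exact (cj_inv2 A.n1_sq rfl).symm
theorem c3_h (p : Kˣ × Kˣ) (a : G) : c3 A (A.h p * a * (A.h p)⁻¹) = A.h (w8 T p) * c3 A a * (A.h (w8 T p))⁻¹ := by
  rw [← A.tor.n8_h]; exact (cj_inv2 A.n8_sq rfl).symm
theorem w1_w1 (p : Kˣ × Kˣ) : w1 (w1 p) = p := by simp [w1]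
theorem c1_eq (g : G) : c1 A g = c3 A (c6 A (c3 A g)) := rfl
theorem c1_c1 (g : G) : c1 A (c1 A g) = g := by rw [c1_eq, c1_eq, c3_c3, c6_c6, c3_c3]
theorem c1_mul (a b : G) : c1 A (a * b) = c1 A a * c1 A b := by simp only [c1_eq, c3_mul, c6_mul]
theorem mem_B1 {g : G} : g ∈ B1 A t ↔ c1 A g ∈ B5 A t := by
  rw [B1, mem_cjs8, B7, mem_cjs1, B3, mem_cjs8]; rfl
theorem c1_x5 (c : K) : c1 A (A.ι (x5 T c)) = A.ι (x1 T c) := by
  rw [c1, c7, c3, n8_x5, n1_x3, n8_x7]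

/-- the action of `B₁` on `A₄A₆` -/
def rho (A : AD T G) (b a : G) : G := ⁅b, c6 A a⁆

theorem rho_h (p : Kˣ × Kˣ) (b a : G) : A.h p * rho A b a * (A.h p)⁻¹ =
    rho A (A.h p * b * (A.h p)⁻¹) (A.h (w1 p) * a * (A.h (w1 p))⁻¹) := by
  rw [rho, rho, c6_h, w1_w1, conjugate_commutatorElement]

theorem rho_x (c x : K) : rho A (A.ι (x1 T c)) (A.ι (x4 T x)) = A.ι (x4 T (c * x)) := by
  rw [rho, c6, n1_x4, ι_comm, ι_inj, commutatorElement_def]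
  ext <;> simp [CharTwo.add_self_eq_zero, mul_comm]

theorem H0.c6_t (h : H0 A t) (a : G) : c6 A (t * a * t) = t * c6 A a * t := by
  rw [c6_mul, c6_mul, show c6 A t = t from h.tn1]
theorem H0.c3_t (h : H0 A t) (a : G) : c3 A (t * a * t) = t * c3 A a * t := by
  rw [c3_mul, c3_mul, show c3 A t = t from h.tn8]
theorem H0.c1_t (h : H0 A t) (a : G) : c1 A (t * a * t) = t * c1 A a * t := by
  simp only [c1_eq, h.c6_t, h.c3_t]
theorem H0.rho_t (h : H0 A t) (b a : G) : t * rho A b a * t = rho A (t * b * t) (t * a * t) := by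
  rw [rho, rho, h.c6_t, cj_comm2 h.cf.inv.1]
theorem H0.t_im (h : H0 A t) (c : Co T) : t * A.ι c * t = A.ι c := by
  rw [← mem_Cz.1 (h.cf.ct (ι_mem A c)), mul_assoc, h.cf.inv.1, mul_one]

/-- the conjugation of the quadratic algebra -/
def qbar (β : K) : QuadraticAlgebra K β 1 ≃ₐ[K] QuadraticAlgebra K β 1 where
  toFun z := ⟨z.re + z.im, z.im⟩
  invFun z := ⟨z.re + z.im, z.im⟩
  left_inv z := by ext <;> simp [add_assoc, CharTwo.add_self_eq_zero]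
  right_inv z := by ext <;> simp [add_assoc, CharTwo.add_self_eq_zero]
  map_mul' z w := by ext <;> simp <;> grind
  map_add' z w := by ext <;> simp; ring
  commutes' c := by ext <;> simp

namespace H1
variable (h : H1 A t)
include h

theorem c6_mem {a : G} (ha : a ∈ A4 A t) : c6 A a ∈ A6 A t := cj1_mem A ha

theorem A46 {a : G} (h4 : a ∈ A4 A t) (h6 : a ∈ A6 A t) : a = 1 :=
  mem_bot.1 (triv_of h.cf.inv h.db6.two1.to_inf_right (ns_inf h.sa.db.tY h.db6.tY) (fun y hy hc =>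
    Z_inf_Z6 (h.sa.db.fix1 hy.1 hc) (h.db6.fix1 hy.2 hc)) ▸ mem_inf.2 ⟨h4, h6⟩)

theorem rho_mem {b a : G} (hb : b ∈ Qs A t) (ha : a ∈ A4 A t) : rho A b a ∈ A4 A t :=
  (h.Qs_cV hb).2 _ (h.le6 (h.c6_mem ha))

theorem rho_mul_left {b b' a : G} (hb : b ∈ Qs A t) (hb' : b' ∈ Qs A t) (ha : a ∈ A4 A t) :
    rho A (b * b') a = rho A b a * rho A b' a := by
  have m := h.rho_mem hb' ha
  rw [rho, comm_mul_left, ← rho, cj_eq_of_cs (h.Qs_c4 hb) m]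
  exact mem_Cs.1 (h.sa.db.ab (h.rho_mem hb ha)) _ m

theorem rho_mul_right {b a a' : G} (hb : b ∈ Qs A t) (ha : a ∈ A4 A t) (ha' : a' ∈ A4 A t) :
    rho A b (a * a') = rho A b a * rho A b a' := by
  rw [rho, c6_mul, comm_mul_right, ← rho, ← rho, cj_eq_of_cs (h.sa.c46 (h.c6_mem ha)) (h.rho_mem hb ha')]

theorem x1_Qs (c : K) : A.ι (x1 T c) ∈ Qs A t := h.Q_Qs (by simp)

theorem rho_one {a : G} (ha : a ∈ A4 A t) : rho A (A.ι (x1 T 1)) a = a := by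
  have x2 : (A.ι (x1 T 1))⁻¹ = A.ι (x1 T 1) := h.dbB1.inv1 (h.dbB1.leX (by simp))
  have e1 : ∀ a, A.ι (x1 T 1) * c6 A a * A.ι (x1 T 1) = rho A (A.ι (x1 T 1)) a * c6 A a := fun a => by
    rw [rho, ← cj_eq, x2]
  have e0 : ∀ a ∈ A4 A t, A.ι (x1 T 1) * a * A.ι (x1 T 1) = a := fun a ha => by
    have := cj_eq_of_cs (h.Qs_c4 (h.x1_Qs 1)) ha
    rwa [x2] at this
  have m := h.rho_mem (h.x1_Qs 1) ha
  have e2 : c6 A a = A.ι (x1 T 1) * (c6 A (A.ι (x1 T 1) * c6 A (A.ι (x1 T 1) * a * A.ι (x1 T 1)) * A.ι (x1 T 1))) *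
      A.ι (x1 T 1) := by
    rw [c6_mul, c6_mul, c6_c6]
    conv_lhs => rw [c6, n1_eq A]
    simp only [c6, mul_assoc]
  rw [e0 a ha, e1 a, c6_mul, c6_c6, cj_mul2 _ (h.dbB1.sq1 (h.dbB1.leX (by simp))) (c6 A _), e1, e0 a ha, mul_assoc,
    mem_Cs.1 (h.sa.c46 (h.c6_mem m)) a ha |>.symm, ← mul_assoc, ← mul_inv_eq_iff_eq_mul] at e2
  have := h.A46 (e2 ▸ mul_mem (h.rho_mem (h.x1_Qs 1) m) ha) (mul_mem (h.c6_mem ha) (inv_mem (h.c6_mem m)))
  have e3 := congrArg (c6 A) (mul_inv_eq_one.1 this)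
  rwa [c6_c6, c6_c6, eq_comm] at e3

theorem h_A4 (p : Kˣ × Kˣ) {a : G} (ha : a ∈ A4 A t) :
    A.h p * a * (A.h p)⁻¹ = rho A (A.ι (x1 T (chi4 T p.1 p.2))) a := by
  have c0 : chi4 T (p.1 : K) p.2 ≠ 0 := by simp [chi4]
  obtain ⟨b, hb⟩ := nu_surj T (chi4 T (p.1 : K) p.2)⁻¹
  have b0 : b ≠ 0 := by rintro rfl; exact inv_ne_zero c0 (by simpa using hb.symm)
  have sb := sig_ne (T := T) b0
  set q : Kˣ × Kˣ := (Units.mk0 _ c0, Units.mk0 b b0)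
  have e0 : chi4 T (p.1 : K) p.2 = (b * T.σ b)⁻¹ := by rw [hb, inv_inv]
  have h1 : A.h (w1 q) ∈ TT A 4 := h_mem_TT A (by
    simp only [wt, w1, q, Units.val_mul, Units.val_inv_eq_inv_val, Units.val_mk0, e0, map_mul, map_inv₀, T.sq]
    field_simp)
  have h2 : A.h (q⁻¹ * p) ∈ TT A 4 := h_mem_TT A (nu_eq_one (T := T) (by
    have : chi4 T (p.1 : K) p.2 * (b * T.σ b) = 1 := by rw [hb, mul_inv_cancel₀ c0]
    have s1 := sig_ne (T := T) p.1.ne_zero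
    have s2 := sig_ne (T := T) p.2.ne_zero
    simp only [wt, q, Prod.fst_mul, Prod.snd_mul, Prod.fst_inv, Prod.snd_inv, Units.val_mul, Units.val_inv_eq_inv_val,
      Units.val_mk0, e0, map_mul, map_inv₀, map_pow, T.sq]
    simp only [chi4] at this
    field_simp
    rw [← this]; ring))
  have e1 : A.h p * a * (A.h p)⁻¹ = A.h q * (A.h (q⁻¹ * p) * a * (A.h (q⁻¹ * p))⁻¹) * (A.h q)⁻¹ := by
    rw [map_mul, map_inv]; group
  rw [e1, cj_eq_of_cs' (h.c4T ha) h2]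
  conv_lhs => rw [← h.rho_one ha]
  rw [rho_h, h_x1, cj_eq_of_cs' (h.c4T ha) h1, mul_one]
  rfl

theorem rho_sm {b a : G} (hb : b ∈ B1 A t) (ha : a ∈ A4 A t) (c : K) :
    rho A b (rho A (A.ι (x1 T c)) a) = rho A (A.ι (x1 T c)) (rho A b a) := by
  by_cases c0 : c = 0
  · simp [c0, x1_zero, rho, c6_one]
  obtain ⟨μ, rfl⟩ := nu_surj T c
  obtain ⟨β, -, -, -, e⟩ := exT1 T (μ := μ) (by rintro rfl; simp at c0)
  have e1 : chi4 T ((1 : Kˣ) : K) β = μ * T.σ μ := by simp [chi4, e]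
  have := rho_h (A := A) (1, β) b a
  rw [cj_eq_of_cs' (h.c1T hb) (h_mem_TT A (by simp [wt])), h.h_A4 _ (h.rho_mem (h.B1_Qs hb) ha),
    show w1 ((1 : Kˣ), β) = (1, β) by simp [w1], h.h_A4 _ ha, e1] at this
  exact this.symm

theorem sm_sm (c c' : K) {a : G} (ha : a ∈ A4 A t) :
    rho A (A.ι (x1 T c)) (rho A (A.ι (x1 T c')) a) = rho A (A.ι (x1 T (c * c'))) a := by
  have key : ∀ c : K, c ≠ 0 → ∃ p : Kˣ × Kˣ, chi4 T (p.1 : K) p.2 = c := fun c c0 => by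
    obtain ⟨μ, rfl⟩ := nu_surj T c
    obtain ⟨β, -, -, -, e⟩ := exT1 T (μ := μ) (by rintro rfl; simp at c0)
    exact ⟨(1, β), by simp [chi4, e]⟩
  by_cases c0 : c = 0
  · simp [c0, x1_zero, rho]
  by_cases c0' : c' = 0
  · simp [c0', x1_zero, rho, c6_one]
  obtain ⟨p, rfl⟩ := key c c0
  obtain ⟨p', rfl⟩ := key c' c0'
  rw [← h.h_A4 p' ha, ← h.h_A4 p (cj_mem (h.H4 ⟨p', rfl⟩) ha), ← cj_cj, ← map_mul, h.h_A4 _ ha]
  congr 3
  simp [chi4]; ring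

theorem rho_hb (p : Kˣ × Kˣ) {b a : G} (hb : b ∈ B1 A t) (ha : a ∈ A4 A t) :
    rho A (A.h p * b * (A.h p)⁻¹) a = rho A (A.ι (x1 T p.1)) (rho A b a) := by
  have m := cj_mem (h.H4 ⟨(w1 p)⁻¹, rfl⟩) ha
  have := rho_h (A := A) p b (A.h (w1 p)⁻¹ * a * (A.h (w1 p)⁻¹)⁻¹)
  rw [← cj_cj, ← map_mul, mul_inv_cancel, map_one, one_mul, inv_one, mul_one] at this
  rw [← this, h.h_A4 _ (h.rho_mem (h.B1_Qs hb) m), h.h_A4 _ ha, h.rho_sm hb ha, h.sm_sm _ _ (h.rho_mem (h.B1_Qs hb) ha)]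
  congr 3
  have s1 := sig_ne (T := T) p.1.ne_zero
  have s2 := sig_ne (T := T) p.2.ne_zero
  simp [chi4, w1]
  field_simp

theorem rho_inj {b b' : G} (hb : b ∈ B1 A t) (hb' : b' ∈ B1 A t) (e : ∀ a ∈ A4 A t, rho A b a = rho A b' a) : b = b' := by
  have key := triv_of (Y := B1 A t ⊓ Cs (A6 A t)) h.cf.inv h.dbB1.two1.to_inf_left (ns_inf h.dbB1.tY (ns_cs h.db6.tY))
    fun y hy hc => by
      obtain ⟨c, hc1, rfl⟩ := h.dbB1.fix1 hy.1 hc
      have := h.I27_fix (mem_inf.2 ⟨h.B1_Qs hy.1, hy.2⟩) hc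
      rw [ι_eq_one]
      ext <;> simp_all
  have : b * b' ∈ B1 A t ⊓ Cs (A6 A t) := mem_inf.2 ⟨mul_mem hb hb', mem_Cs.2 fun a ha => by
    have m : c6 A a ∈ A4 A t := (mem_cjs1 A).1 ha
    have := h.rho_mul_left (h.B1_Qs hb) (h.B1_Qs hb') m
    rw [e _ m, h.sa.db.sq1 (h.rho_mem (h.B1_Qs hb') m), rho, c6_c6] at this
    exact (commutatorElement_eq_one_iff_mul_comm.1 this).symm⟩
  rw [key, mem_bot, ← h.dbB1.inv1 hb', mul_inv_eq_one] at this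
  exact this

theorem exists_par : ∃ β : K, Nonempty (Par A t (QuadraticAlgebra K β 1)) := by
  obtain ⟨b₀, hb₀, e₀⟩ := h.dbB1.onto1 (x := A.ι (x1 T 1)) (by simp)
  have q₀ := h.B1_Qs hb₀
  have z : ∀ x, A.ι (x4 T x) ∈ A4 A t := fun x => h.sa.db.leX (by simp)
  have ab : ∀ {a a'}, a ∈ A4 A t → a' ∈ A4 A t → a * a' = a' * a := fun ha ha' => mem_Cs.1 (h.sa.db.ab ha') _ ha
  have tb : ∀ a ∈ A4 A t, t * rho A b₀ a * t = t * a * t * rho A b₀ (t * a * t) := fun a ha => by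
    have m : t * a * t ∈ A4 A t := t_mem h.cf.inv h.sa.db.tY ha
    rw [h.rho_t, cj_t h.cf.inv b₀, e₀, h.rho_mul_left (h.x1_Qs 1) q₀ m, h.rho_one m]
  let a₀ : K → K → G := fun x y => A.ι (x4 T x) * rho A b₀ (A.ι (x4 T y))
  have am : ∀ x y, a₀ x y ∈ A4 A t := fun x y => mul_mem (z x) (h.rho_mem q₀ (z y))
  have aadd : ∀ x y x' y', a₀ (x + x') (y + y') = a₀ x y * a₀ x' y' := fun x y x' y' => by
    simp only [a₀, x4_add, map_mul, h.rho_mul_right q₀ (z y) (z y'), mul_assoc]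
    rw [← mul_assoc (rho A b₀ _), ab (h.rho_mem q₀ (z y)) (z x'), mul_assoc]
  have at' : ∀ x y, t * a₀ x y * t = a₀ (x + y) y := fun x y => by
    simp only [a₀, cj_mul2 t h.cf.inv.1, tb _ (z y), h.t_im, x4_add, map_mul, mul_assoc]
  have aphi : ∀ x y, ⁅t, a₀ x y⁆ = A.ι (x4 T y) := fun x y => by
    have := cj_t h.cf.inv (a₀ x y)
    rw [at', add_comm, ← zero_add y, zero_add y, show a₀ (y + x) y = A.ι (x4 T y) * a₀ x y by
      simp only [a₀, x4_add, map_mul, mul_assoc]] at this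
    exact (mul_right_cancel this).symm
  have ainj : ∀ x y x' y', a₀ x y = a₀ x' y' → x = x' ∧ y = y' := fun x y x' y' e => by
    have e1 : y = y' := by
      have := (aphi x y).symm.trans (e ▸ aphi x' y')
      simpa using congrArg Co.a4 ((ι_inj A).1 this)
    subst e1
    exact ⟨by simpa using congrArg Co.a4 ((ι_inj A).1 (mul_right_cancel e)), rfl⟩
  have asurj : ∀ g ∈ A4 A t, ∃ x y, g = a₀ x y := fun g hg => by
    obtain ⟨c, hc, e⟩ := h.sa.db.phi1 h.cf.inv hg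
    obtain ⟨d, hd, e'⟩ := h.sa.db.fix1 (mul_mem (inv_mem (am 0 c.a4)) hg)
      (cz_of_phi_eq h.cf.inv (by rw [aphi, ← e, ← eq_x4 hc]))
    refine ⟨d.a4, c.a4, ?_⟩
    rw [← add_zero d.a4, ← zero_add c.a4, aadd, ab (am _ _) (am _ _)]
    rw [show a₀ d.a4 0 = A.ι d by simp [a₀, x4_zero, rho, c6_one, ← eq_x4 hd], e', mul_inv_cancel_left]
  have asm : ∀ c x y, rho A (A.ι (x1 T c)) (a₀ x y) = a₀ (c * x) (c * y) := fun c x y => by
    simp only [a₀, h.rho_mul_right (h.x1_Qs c) (z x) (h.rho_mem q₀ (z y)), ← h.rho_sm hb₀ (z y), rho_x]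
  obtain ⟨β, γ, eβ⟩ := asurj _ (h.rho_mem q₀ (am 0 1))
  have a01 : ∀ y, rho A b₀ (A.ι (x4 T y)) = a₀ 0 y := fun y => by simp [a₀, x4_zero]
  obtain rfl : γ = 1 := by
    have := tb _ (am 0 1)
    rw [eβ, at', at', zero_add, show a₀ 1 1 = A.ι (x4 T 1) * a₀ 0 1 by simp [a₀, x4_zero],
      h.rho_mul_right q₀ (z 1) (am 0 1), eβ, a01, mul_assoc, ← mul_assoc (a₀ 0 1), h.sa.db.sq1 (am 0 1), one_mul,
      show A.ι (x4 T 1) * a₀ β γ = a₀ (1 + β) γ by simp only [a₀, x4_add, map_mul, mul_assoc]] at this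
    have := (ainj _ _ _ _ this).1
    grind
  have aρ : ∀ x y, rho A b₀ (a₀ x y) = a₀ (y * β) (x + y) := fun x y => by
    have e1 : a₀ x y = A.ι (x4 T x) * rho A (A.ι (x1 T y)) (a₀ 0 1) := by rw [asm]; simp [a₀, x4_zero]
    rw [e1, h.rho_mul_right q₀ (z x) (h.rho_mem (h.x1_Qs y) (am 0 1)), h.rho_sm hb₀ (am 0 1), eβ, asm, a01, ← aadd]
    simp
  let a : QuadraticAlgebra K β 1 → G := fun r => a₀ r.re r.im
  have ex : ∀ y : K, ∃ b ∈ B1 A t, ⁅t, b⁆ = A.ι (x1 T y) ∧ ∀ s, rho A b (a s) = a (⟨0, y⟩ * s) := fun y => by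
    by_cases y0 : y = 0
    · exact ⟨1, one_mem _, by simp [y0, x1_zero], fun s => by simp [a, a₀, y0, rho, x4_zero, c6_one]⟩
    · refine ⟨_, cj_mem (h.HB1 ⟨(Units.mk0 y y0, 1), rfl⟩) hb₀, ?_, fun s => ?_⟩
      · rw [comm_cj (h.cf.Ht ⟨_, rfl⟩), e₀, h_x1]; simp
      · rw [h.rho_hb _ hb₀ (am _ _), aρ, asm]
        simp only [a]
        congr 1 <;> simp <;> ring
  have ex2 : ∀ (r : QuadraticAlgebra K β 1) {b : G}, b ∈ B1 A t → (∀ s, rho A b (a s) = a (⟨0, r.im⟩ * s)) →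
      ∀ s, rho A (A.ι (x1 T r.re) * b) (a s) = a (r * s) := fun r b hb e s => by
    rw [h.rho_mul_left (h.x1_Qs _) (h.B1_Qs hb) (am _ _), e, asm]
    simp only [a, ← aadd]
    congr 1 <;> simp <;> ring
  have x1m : ∀ c, A.ι (x1 T c) ∈ B1 A t := fun c => h.dbB1.leX (by simp)
  obtain ⟨b, bm, bρ⟩ : ∃ b : QuadraticAlgebra K β 1 → G, (∀ r, b r ∈ B1 A t) ∧ ∀ r s, rho A (b r) (a s) = a (r * s) := by
    choose b hb _ e using ex
    exact ⟨fun r => A.ι (x1 T r.re) * b r.im, fun r => mul_mem (x1m _) (hb _), fun r => ex2 r (hb _) (e _)⟩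
  have uniq : ∀ r, ∀ g ∈ B1 A t, (∀ s, rho A g (a s) = a (r * s)) → g = b r := fun r g hg e =>
    h.rho_inj hg (bm r) fun a' ha' => by
      obtain ⟨x, y, rfl⟩ := asurj a' ha'
      exact (e ⟨x, y⟩).trans (bρ r ⟨x, y⟩).symm
  have a_add : ∀ r s, a (r + s) = a r * a s := fun r s => aadd _ _ _ _
  have a_inj : Function.Injective a := fun r s e => QuadraticAlgebra.ext (ainj _ _ _ _ e).1 (ainj _ _ _ _ e).2
  have t_a : ∀ r, t * a r * t = a (qbar β r) := fun r => at' _ _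
  have a_sm : ∀ (c : K) r, rho A (A.ι (x1 T c)) (a r) = a (c • r) := fun c r => asm _ _ _
  have tt : ∀ g, t * (t * g * t) * t = g := fun g => by
    rw [← mul_assoc, ← mul_assoc, h.cf.inv.1, one_mul, mul_assoc, h.cf.inv.1, mul_one]
  refine ⟨β, ⟨⟨a, fun r => c1 A (b r), qbar β, ⟨0, 1⟩, by ext <;> simp [qbar, QuadraticAlgebra.re_one, QuadraticAlgebra.im_one],
    fun r => ⟨r.re, r.im, by ext <;> simp⟩,
    a_add, fun r s => ?_, a_inj, fun r s e => ?_, fun g => ⟨fun hg => ?_, ?_⟩, fun g => ⟨fun hg => ?_, ?_⟩,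
    fun c => by simp [a, a₀, x4_zero, rho, c6_one], fun c => ?_, t_a, fun r => ?_, fun p r => ?_, fun p r => ?_,
    fun r s => ?_⟩⟩⟩
  · rw [← c1_mul, uniq (r + s) _ (mul_mem (bm r) (bm s)) fun u => by
      rw [h.rho_mul_left (h.B1_Qs (bm r)) (h.B1_Qs (bm s)) (am _ _), bρ, bρ, add_mul, a_add]]
  · have e1 : b r = b s := by rw [← c1_c1 (A := A) (b r), show c1 A (b r) = c1 A (b s) from e, c1_c1]
    simpa using a_inj ((bρ r 1).symm.trans (by rw [e1, bρ s 1] : rho A (b r) (a 1) = a (s * 1)))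
  · obtain ⟨x, y, rfl⟩ := asurj g hg
    exact ⟨⟨x, y⟩, rfl⟩
  · rintro ⟨r, rfl⟩; exact am _ _
  · have hg' : c1 A g ∈ B1 A t := by rwa [mem_B1, c1_c1]
    obtain ⟨c, hc, e⟩ := h.dbB1.phi1 h.cf.inv hg'
    obtain ⟨b', hb', e1, e2⟩ := ex c.a1
    obtain ⟨d, hd, e'⟩ := h.dbB1.fix1 (mul_mem (inv_mem hb') hg') (cz_of_phi_eq h.cf.inv (by rw [e1, ← e, ← eq_x1 hc]))
    refine ⟨⟨d.a1, c.a1⟩, ?_⟩
    rw [← uniq _ _ (mul_mem (x1m d.a1) hb') (ex2 ⟨d.a1, c.a1⟩ hb' e2), mem_Cs.1 (h.dbB1.ab hb') _ (x1m _), ← eq_x1 hd, e',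
      mul_inv_cancel_left, c1_c1]
  · rintro ⟨r, rfl⟩; exact mem_B1.1 (bm r)
  · rw [← uniq _ _ (x1m c) fun s => by rw [a_sm, Algebra.smul_def], ← c1_x5, c1_c1]
  · rw [← h.c1_t, uniq (qbar β r) _ (t_mem h.cf.inv h.dbB1.tY (bm r)) fun s => by
      rw [← tt (a s), ← h.rho_t, t_a, bρ, t_a, map_mul]
      congr 2
      ext <;> simp [qbar, add_assoc, CharTwo.add_self_eq_zero]]
  · rw [h.h_A4 p (am _ _), a_sm]
  · rw [← c1_c1 (A := A) (A.h p * _ * _), c1_eq (A.h p * _ * _), c3_h, c6_h, c3_h, ← c1_eq, c1_c1,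
      uniq (wt T.σ (p.1 : K) p.2 5 • r) _ (cj_mem (h.HB1 ⟨_, rfl⟩) (bm r)) fun s => by
        rw [h.rho_hb _ (bm r) (am _ _), bρ, a_sm, smul_mul_assoc]
        congr 2
        have s1 := sig_ne (T := T) p.1.ne_zero
        have s2 := sig_ne (T := T) p.2.ne_zero
        simp [w8, w1, wt, T.sq]
        field_simp]
  · rw [c1_c1, cj_eq, ← rho, bρ]
    exact mem_Cs.1 (h.sa.c46 (h.c6_mem (am _ _))) _ (am _ _)

end H1

theorem jobRa : JobRa.{u, v} := fun kit K _ _ _ T G _ _ A t h => by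
  obtain ⟨β, hP⟩ := h.exists_par
  exact ⟨_, inferInstance, inferInstance, hP⟩

end H65.SR
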