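/- STD-R (S3323): job Rb. -/
import Cfsg.Agent.H65.SRRa

set_option autoImplicit false
set_option linter.unusedSectionVars false
set_option linter.unusedVariables false
set_option linter.unusedSimpArgs false

open Subgroup H63.Oc H64.SG
open scoped commutatorElement

universe u v

namespace H65.SR

attribute [-simp] Subgroup.mem_map

theorem eq_one_of_sq_odd {G : Type*} [Group G] [Finite G] {N : Subgroup G} (ho : Odd (Nat.card N)) {z : G} (hz : z ∈ N)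
    (h2 : z * z = 1) : z = 1 :=
  eq_one_of_odd ⟨1, by simpa [pow_two] using h2⟩ (ho.of_dvd_nat (N.orderOf_dvd_natCard hz))

theorem odd_of_mem {G : Type*} [Group G] [Finite G] {N : Subgroup G} (ho : Odd (Nat.card N)) {z : G} (hz : z ∈ N) :
    Odd (orderOf z) := ho.of_dvd_nat (N.orderOf_dvd_natCard hz)

variable {K : Type*} [Field K] [Fintype K] [CharP K 2] {T : TF K} {G : Type*} [Group G] [Finite G]
  {A : AD T G} {t : G} {R : Type*} [CommRing R] [Algebra K R]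

namespace Par
variable (P : Par A t R)

include P in
theorem alg_inj : Function.Injective (algebraMap K R) := fun c d e => by
  have := (P.a_alg c).symm.trans (e ▸ P.a_alg d)
  simpa using congrArg Co.a4 ((ι_inj A).1 this)

include P in
theorem char2 : CharP R 2 := charP_of_injective_algebraMap P.alg_inj 2

theorem a_zero : P.a 0 = 1 := by simpa using (P.a_add 0 0).symm
theorem b_zero : P.b 0 = 1 := by simpa using (P.b_add 0 0).symm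
theorem ma (r : R) : P.a r ∈ A4 A t := (P.a_mem _).2 ⟨r, rfl⟩
theorem mb (r : R) : P.b r ∈ B5 A t := (P.b_mem _).2 ⟨r, rfl⟩
theorem mb1 (r : R) : c1 A (P.b r) ∈ B1 A t := by rw [mem_B1, c1_c1]; exact P.mb r
theorem mb9 (r : R) : c9 A (P.b r) ∈ B9 A t := cj1_mem A (P.mb1 r)
theorem mb3 (r : R) : c3 A (P.b r) ∈ B3 A t := cj8_mem A (P.mb r)
theorem mb7 (r : R) : c7 A (P.b r) ∈ B7 A t := cj1_mem A (P.mb3 r)
theorem ma6 (r : R) : c6 A (P.a r) ∈ A6 A t := cj1_mem A (P.ma r)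
theorem ma2 (r : R) : c2 A (P.a r) ∈ A2 A t := cj8_mem A (P.ma6 r)
theorem a_one : P.a 1 = A.ι (x4 T 1) := by rw [← P.a_alg, map_one]
theorem b_one : P.b 1 = A.ι (x5 T 1) := by rw [← P.b_alg, map_one]

/-- coordinates on `A₄A₆` -/
def ww (v : R × R) : G := P.a v.1 * c6 A (P.a v.2)

/-- `g` acts on `A₄A₆` as `f` -/
def Ac (g : G) (f : R × R → R × R) : Prop := ∀ v, g * P.ww v * g⁻¹ = P.ww (f v)

variable {P}

theorem Ac.mul {g g' : G} {f f' : R × R → R × R} (h : P.Ac g f) (h' : P.Ac g' f') : P.Ac (g * g') (f ∘ f') :=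
  fun v => by rw [cj_cj, h', h]; rfl

theorem Ac.congr {g : G} {f f' : R × R → R × R} (h : P.Ac g f) (e : ∀ v, f v = f' v) : P.Ac g f' :=
  fun v => by rw [h, e]

theorem Ac.same {g g' : G} {f : R × R → R × R} (h : P.Ac g f) (h' : P.Ac g' f) :
    g'⁻¹ * g ∈ Cs (A4 A t) ∧ g'⁻¹ * g ∈ Cs (A6 A t) := by
  have key : ∀ v, P.ww v * (g'⁻¹ * g) = g'⁻¹ * g * P.ww v := fun v => by
    calc P.ww v * (g'⁻¹ * g) = g'⁻¹ * (g' * P.ww v * g'⁻¹) * g := by group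
      _ = _ := by rw [h', ← h]; group
  refine ⟨mem_Cs.2 fun a ha => ?_, mem_Cs.2 fun a ha => ?_⟩
  · obtain ⟨r, rfl⟩ := (P.a_mem _).1 ha
    simpa [ww, a_zero, c6_one] using key (r, 0)
  · obtain ⟨r, e⟩ := (P.a_mem _).1 ((mem_cjs1 A).1 ha)
    have := key (0, r)
    rwa [ww, a_zero, one_mul, ← e, c6, n1_cj] at this

end Par

namespace H1
variable (h : H1 A t) (P : Par A t R)
include h

theorem ac1 (r : R) : P.Ac (c1 A (P.b r)) fun v => (v.1 + r * v.2, v.2) := fun v => by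
  rw [Par.ww, Par.ww, ← conj_mul, P.R1, cj_eq_of_cs (h.Qs_c4 (h.B1_Qs (P.mb1 r))) (P.ma _), P.a_add, mul_assoc,
    mem_Cs.1 (h.sa.c46 (P.ma6 _)) _ (P.ma _)]

theorem acn : P.Ac A.n1 fun v => (v.2, v.1) := fun v => by
  rw [n1_inv, Par.ww, Par.ww, ← c6, c6_mul, c6_c6, mem_Cs.1 (h.sa.c46 (P.ma6 _)) _ (P.ma _)]

theorem ac9 (r : R) : P.Ac (c9 A (P.b r)) fun v => (v.1, v.2 + r * v.1) :=
  (((h.acn P).mul (h.ac1 P r)).mul (h.acn P)).congr fun v => rfl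

theorem acnn (r : Rˣ) : P.Ac (P.nn r) fun v => (r * v.2, (r⁻¹ : Rˣ) * v.1) := by
  haveI := P.char2
  refine (((h.ac1 P r).mul (h.ac9 P (r⁻¹ : Rˣ))).mul (h.ac1 P r)).congr fun v => ?_
  have := r.mul_inv
  ext <;> simp only [Function.comp] <;> grind

theorem nn1 : P.nn 1 = A.n1 := by
  rw [Par.nn, inv_one, Units.val_one, P.b_one, c9, c1_x5, ← n1_eq]

theorem dbB9 : Db t ⊥ (cjs A.n1 (A.im (sU1 T))) (B9 A t) := h.dbB1.cj1 h.cf.n1t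

theorem nn_sq (r : Rˣ) : P.nn r * P.nn r = 1 := by
  have e1 := h.dbB1.sq1 (P.mb1 r)
  have e2 := h.dbB9.sq1 (P.mb9 (r⁻¹ : Rˣ))
  rw [Par.nn, ← cj_mul2 _ e1, e2, mul_one, e1]

theorem nn_mem (r : Rˣ) : P.nn r ∈ B1 A t ⊔ B9 A t :=
  mul_mem (mul_mem (mem_sup_left (P.mb1 _)) (mem_sup_right (P.mb9 _))) (mem_sup_left (P.mb1 _))

theorem S1_T : B1 A t ⊔ B9 A t ≤ Cs (TT A 1) :=
  sup_le h.c1T ((cs_cj h.c1T).trans (by rw [cjs_eq (cs_le_ns h.la.tt11)]))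

theorem cjs1_46 : cjs A.n1 (A4 A t ⊔ A6 A t) = A4 A t ⊔ A6 A t := by rw [cjs_sup, h.cjs1_A6, sup_comm]; rfl

theorem S1_N1 : B1 A t ⊔ B9 A t ≤ Ns (N1 A t) := fun g hg => by
  have n1 : B1 A t ≤ Ns (A4 A t ⊔ A6 A t) := fun b hb =>
    ns_between (h.Qs_cV (h.B1_Qs hb)) le_sup_left (sup_le h.le4 h.le6)
  have n2 := ns_cs (sup_le n1 (h.cjs1_46 ▸ ns_cj n1) hg)
  have e : N1 A t = (B1 A t ⊔ B9 A t) ⊓ Cs (A4 A t ⊔ A6 A t) := le_antisymm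
    (fun x hx => mem_inf.2 ⟨hx.1.1, cs_sup hx.1.2 hx.2⟩)
    fun x hx => ⟨⟨hx.1, cs_anti le_sup_left hx.2⟩, cs_anti le_sup_right hx.2⟩
  exact e ▸ ns_inf (le_normalizer hg) n2

theorem N1_ker : Odd (Nat.card (N1 A t)) ∧ ∀ x ∈ Ns (N1 A t), ⁅t, x⁆ ∈ Cs (N1 A t) := by
  have := ker_lemma h.cf.inv (N := N1 A t) (ns_inf (ns_inf (ns_sup h.dbB1.tY h.dbB9.tY) (ns_cs h.sa.db.tY))
    (ns_cs h.db6.tY)) (eq_bot_iff.2 fun g hg => by
      obtain ⟨c, hc, rfl⟩ := h.mem_Q1 hg.2 hg.1.1.2 hg.1.2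
      have := h.la.memT ⟨c, rfl⟩ (h.S1_T hg.1.1.1)
      rw [mem_bot, ι_eq_one]
      ext <;> simp_all [sU])
  exact ⟨this.1, this.2.2.2⟩

theorem N1_cen : N1 A t ≤ Cs (B1 A t ⊔ B9 A t) := by
  have u1 : ∀ c, A.ι (x1 T c) ∈ Cs (N1 A t) := fun c => by
    obtain ⟨b, hb, e⟩ := h.dbB1.onto1 (x := A.ι (x1 T c)) (by simp)
    exact e ▸ h.N1_ker.2 b (h.S1_N1 (mem_sup_left hb))
  have u9 : ∀ c, A.n1 * A.ι (x1 T c) * A.n1 ∈ Cs (N1 A t) := fun c => by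
    obtain ⟨b, hb, e⟩ := h.dbB9.onto1 (cj1_mem A (by simp : A.ι (x1 T c) ∈ A.im (sU1 T)))
    exact e ▸ h.N1_ker.2 b (h.S1_N1 (mem_sup_right hb))
  have n1 : A.n1 ∈ Cs (N1 A t) := by rw [n1_eq A]; exact mul_mem (mul_mem (u1 1) (u9 1)) (u1 1)
  obtain ⟨s, hs⟩ := exists_s (T := T) h.cf.card
  have s0 : s ≠ 0 := by rintro rfl; simp at hs
  have s1 : s ≠ 1 := by rintro rfl; simp at hs
  have hk := h.la.hn (Units.mk0 s s0) ▸ mul_mem (mul_mem (mul_mem (u1 _) (u9 _)) (u1 _)) n1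
  have b1 : B1 A t ≤ Cs (N1 A t) := fun b hb => by
    obtain ⟨b', hb', rfl⟩ := surj_of_fpf (h.HB1 ⟨(Units.mk0 s s0 ^ 2, (Units.mk0 s s0)⁻¹), rfl⟩)
      (h.frB1.fix0 h.cf.inv (h.cf.Ht ⟨_, rfl⟩) (eq_bot_iff.2 (by
        rintro _ ⟨⟨c, hc, rfl⟩, e⟩
        have := mem_Cz.1 e
        rw [eq_comm, ← mul_inv_eq_iff_eq_mul, A.tor.h_conj, ι_inj] at this
        have e1 := congrArg Co.a1 this
        simp at e1
        rw [mem_bot, eq_x1 hc, show c.a1 = 0 by grind, x1_zero, map_one]))) b hb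
    exact comm_mem_left (ns_cs (h.S1_N1 (mem_sup_left hb'))) hk
  exact cs_symm (sup_le b1 ((cjs_mono b1).trans (cjs_eq (le_normalizer n1)).le))

theorem mem_N1 {g : G} (h1 : g ∈ B1 A t ⊔ B9 A t) (h2 : g ∈ Cs (A4 A t) ∧ g ∈ Cs (A6 A t)) : g ∈ N1 A t :=
  ⟨⟨h1, h2.1⟩, h2.2⟩

theorem eq_of_inv {g g' : G} {f : R × R → R × R} (hg : g ∈ B1 A t ⊔ B9 A t) (hg' : g' ∈ B1 A t ⊔ B9 A t)
    (e : g * g = 1) (e' : g' * g' = 1) (a : P.Ac g f) (a' : P.Ac g' f) : g = g' := by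
  have m : g'⁻¹ * g ∈ N1 A t := h.mem_N1 (mul_mem (inv_mem hg') hg) (a.same a')
  have c := mem_Cs.1 (h.N1_cen m) _ hg'
  have := eq_one_of_sq_odd h.N1_ker.1 m (by
    calc g'⁻¹ * g * (g'⁻¹ * g) = (g' * g')⁻¹ * (g' * (g' * (g'⁻¹ * g)) * (g'⁻¹ * g)) := by group
      _ = (g' * g')⁻¹ * (g * g) := by rw [c]; group
      _ = 1 := by rw [e, e', inv_one, mul_one])
  rw [inv_mul_eq_one.1 this]

theorem c5 : B1 A t ⊔ B9 A t ≤ Cs (B5 A t) := by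
  have h1 : B1 A t ≤ Cs (B5 A t) := cjs88 A (B5 A t) ▸ cs_cj (h.A7s_cs h.l7 h.l3)
  exact sup_le h1 (h.cjs1_B5 ▸ cs_cj h1)

theorem slf : SLf P := by
  haveI := P.char2
  refine ⟨h.nn1 P, fun r s => ?_, fun r s => ?_, h.nn_sq P, h.N1_ker.1, h.N1_cen, h.c5, fun r s => ?_⟩
  · refine h.eq_of_inv P (mul_mem (mul_mem (h.nn_mem P r) (mem_sup_left (P.mb1 s))) (h.nn_mem P r))
      (mem_sup_right (P.mb9 _)) (by rw [← cj_mul2 _ (h.nn_sq P r), h.dbB1.sq1 (P.mb1 s), mul_one, h.nn_sq])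
      (h.dbB9.sq1 (P.mb9 _)) (((h.acnn P r).mul (h.ac1 P s)).mul (h.acnn P r)) ((h.ac9 P _).congr fun v => ?_)
    have := r.mul_inv
    ext <;> simp only [Function.comp] <;> grind
  · simpa [Par.ww, P.a_zero, c6_one, inv_eq_of_mul_eq_one_right (h.nn_sq P r)] using h.acnn P r (s, 0)
  · have n1 : A.n1 ∈ B1 A t ⊔ B9 A t := h.nn1 P ▸ h.nn_mem P 1
    have a1 := ((h.acnn P r).mul (h.acn P)).mul ((h.acnn P s).mul (h.acn P))
    have a2 : P.Ac (P.nn (r * s) * A.n1) _ := ((h.acnn P (r * s)).mul (h.acn P)).congr (f' := fun v =>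
      ((r : R) * (s * v.1), (r⁻¹ : Rˣ) * ((s⁻¹ : Rˣ) * v.2))) fun v => by simp [mul_assoc, mul_left_comm]
    have m1 := mul_mem (h.nn_mem P (r * s)) n1
    have m : (P.nn (r * s) * A.n1)⁻¹ * (P.nn r * A.n1 * (P.nn s * A.n1)) ∈ N1 A t :=
      h.mem_N1 (mul_mem (inv_mem m1) (mul_mem (mul_mem (h.nn_mem P r) n1) (mul_mem (h.nn_mem P s) n1))) (a1.same a2)
    have := cj_mem (h.S1_N1 m1) m
    convert this using 1
    group

end H1

theorem jobRb : JobRb.{u, v} := fun kit K _ _ _ T G _ _ A t h R _ _ P => h.slf P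

end H65.SR
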