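/- STD-R (S3323): job Rc. -/
import Cfsg.Agent.H65.SRRb

set_option autoImplicit false
set_option linter.unusedSectionVars false
set_option linter.unusedVariables false
set_option linter.unusedSimpArgs false

open Subgroup H63.Oc H64.SG
open scoped commutatorElement

universe u v

namespace H65.SR

attribute [-simp] Subgroup.mem_map

section Gen
variable {G : Type*} [Group G] {N : Subgroup G} {x y z g : G}

/-- congruence modulo `N` -/
def Cg (N : Subgroup G) (x y : G) : Prop := x * y⁻¹ ∈ N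

theorem Cg.rfl : Cg N x x := by simp [Cg]
theorem Cg.of_eq (h : x = y) : Cg N x y := h ▸ Cg.rfl
theorem Cg.symm (h : Cg N x y) : Cg N y x := by simpa [Cg] using inv_mem h
theorem Cg.trans (h : Cg N x y) (h' : Cg N y z) : Cg N x z := by simpa [Cg, mul_assoc] using mul_mem h h'
theorem Cg.cj (hg : g ∈ Ns N) (h : Cg N x y) : Cg N (g * x * g⁻¹) (g * y * g⁻¹) := by
  have := cj_mem hg h
  unfold Cg
  convert this using 1; group
theorem Cg.mul {x' y' : G} (h : Cg N x y) (h' : Cg N x' y') (hx : x ∈ Ns N) : Cg N (x * x') (y * y') := by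
  have := mul_mem (cj_mem hx h') h
  unfold Cg
  convert this using 1; group
theorem Cg.mono {M : Subgroup G} (h : Cg N x y) (hle : N ≤ M) : Cg M x y := hle h
theorem Cg.of_comm (h : ⁅g, x⁆ ∈ N) : Cg N (g * x * g⁻¹) x := h
theorem Cg.left (h : x ∈ N) : Cg N (x * y) y := by simpa [Cg] using h
theorem Cg.one (h : Cg N x 1) : x ∈ N := by simpa [Cg] using h

end Gen

theorem exists_z {K : Type*} [Field K] [Fintype K] [CharP K 2] (T : TF K) (x : K) :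
    ∃ z, z + T.σ z = x ∨ z + T.σ z = x + 1 := by
  let L : K →+ K := AddMonoidHom.id K + T.σ.toAddMonoidHom
  have hL : ∀ z, L z = z + T.σ z := fun z => rfl
  have fix : ∀ w, T.σ w = w → w = 0 ∨ w = 1 := fun w e => by
    have := T.sq w
    rw [e, e] at this
    grind
  have hk : (L.ker : Set K) = {0, 1} := by
    ext w
    simp only [SetLike.mem_coe, AddMonoidHom.mem_ker, hL, Set.mem_insert_iff, Set.mem_singleton_iff]
    refine ⟨fun e => fix w (by grind), ?_⟩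
    rintro (rfl | rfl) <;> simp [CharTwo.add_self_eq_zero]
  have hi : L.range.index = 2 := by
    rw [AddSubgroup.index_range, ← Set.ncard_pair (zero_ne_one' K), ← hk]; rfl
  have h1 : (1 : K) ∉ L.range := by
    rintro ⟨w, e⟩
    rw [hL] at e
    have e1 : T.σ w = w + 1 := by grind
    have := T.sq w
    rw [e1, map_add, e1, map_one] at this
    have e2 : w = 0 ∨ w = 1 := by grind
    rcases e2 with rfl | rfl <;> simp at e1
  by_cases hx : x ∈ L.range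
  · obtain ⟨z, e⟩ := hx; exact ⟨z, Or.inl e⟩
  · obtain ⟨z, e⟩ := (AddSubgroup.add_mem_iff_of_index_two hi).2 (iff_of_false hx h1); exact ⟨z, Or.inr e⟩

variable {K : Type*} [Field K] [Fintype K] [CharP K 2] {T : TF K} {G : Type*} [Group G] [Finite G]
  {A : AD T G} {t : G} {R : Type*} [CommRing R] [Algebra K R]

theorem c2_mul (a b : G) : c2 A (a * b) = c2 A a * c2 A b := by
  change c3 A (c6 A _) = c3 A (c6 A _) * c3 A (c6 A _); rw [c6_mul, c3_mul]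
theorem c7_mul (a b : G) : c7 A (a * b) = c7 A a * c7 A b := by
  change c6 A (c3 A _) = c6 A (c3 A _) * c6 A (c3 A _); rw [c3_mul, c6_mul]
theorem c6_inj {a b : G} (h : c6 A a = c6 A b) : a = b := by rw [← c6_c6 (A := A) a, h, c6_c6]
theorem c3_inj {a b : G} (h : c3 A a = c3 A b) : a = b := by rw [← c3_c3 (A := A) a, h, c3_c3]
theorem c3_c1 (g : G) : c3 A (c1 A g) = c7 A g := c3_c3 _
theorem c3_c7 (g : G) : c3 A (c7 A g) = c1 A g := rfl
theorem c3_c2 (g : G) : c3 A (c2 A g) = c6 A g := c3_c3 _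
theorem c3_c6 (g : G) : c3 A (c6 A g) = c2 A g := rfl
theorem c6_c7 (g : G) : c6 A (c7 A g) = c3 A g := c6_c6 _
theorem c6_c3 (g : G) : c6 A (c3 A g) = c7 A g := rfl
theorem c3_comm (a b : G) : c3 A ⁅a, b⁆ = ⁅c3 A a, c3 A b⁆ := cj_comm2 A.n8_sq a b
theorem c6_comm (a b : G) : c6 A ⁅a, b⁆ = ⁅c6 A a, c6 A b⁆ := cj_comm2 A.n1_sq a b
theorem c3_eq (a : G) : c3 A a = A.n8 * a * A.n8⁻¹ := by rw [n8_inv]; rfl
theorem c6_eq (a : G) : c6 A a = A.n1 * a * A.n1⁻¹ := by rw [n1_inv]; rfl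

namespace Par
variable (P : Par A t R)

/-- coordinates on `V* / A₄` -/
def vw (m : R × R × R × R) : G := c2 A (P.a m.1) * c3 A (P.b m.2.1) * P.b m.2.2.1 * c6 A (P.a m.2.2.2)

/-- coordinates on `A₇* / A₄A₆` -/
def tw (m : R × R × R) : G := c3 A (P.b m.1) * P.b m.2.1 * c7 A (P.b m.2.2)

theorem a_eq_one {r : R} (h : P.a r = 1) : r = 0 := P.a_inj (h.trans P.a_zero.symm)
theorem b_eq_one {r : R} (h : P.b r = 1) : r = 0 := P.b_inj (h.trans P.b_zero.symm)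

theorem h3 (p : Kˣ × Kˣ) (r : R) :
    A.h p * c3 A (P.b r) * (A.h p)⁻¹ = c3 A (P.b (wt T.σ (p.1 : K) p.2 3 • r)) := by
  apply c3_inj (A := A)
  rw [c3_h, c3_c3, c3_c3, P.h_b]
  congr 2
  have s1 := sig_ne (T := T) p.1.ne_zero
  have s2 := sig_ne (T := T) p.2.ne_zero
  simp [w8, wt, T.sq]
  field_simp

theorem h7 (p : Kˣ × Kˣ) (r : R) :
    A.h p * c7 A (P.b r) * (A.h p)⁻¹ = c7 A (P.b (wt T.σ (p.1 : K) p.2 7 • r)) := by
  apply c6_inj (A := A)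
  rw [c6_h, c6_c7, c6_c7, P.h3]
  congr 3
  have s1 := sig_ne (T := T) p.1.ne_zero
  simp [w1, wt, T.sq]
  field_simp

theorem h1 (p : Kˣ × Kˣ) (r : R) : A.h p * c1 A (P.b r) * (A.h p)⁻¹ = c1 A (P.b ((p.1 : K) • r)) := by
  apply c3_inj (A := A)
  rw [c3_h, c3_c1, c3_c1, P.h7]
  congr 3
  have s2 := sig_ne (T := T) p.2.ne_zero
  simp [w8, wt, T.sq]
  field_simp

/-- `g` acts on `A₇* / A₄A₆` as `f` -/
def Ac3 (g : G) (f : R × R × R → R × R × R) : Prop :=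
  g ∈ Ns (A4 A t ⊔ A6 A t) ∧ ∀ v, Cg (A4 A t ⊔ A6 A t) (g * P.tw v * g⁻¹) (P.tw (f v))

variable {P}

theorem Ac3.mul {g g' : G} {f f' : R × R × R → R × R × R} (h : P.Ac3 g f) (h' : P.Ac3 g' f') :
    P.Ac3 (g * g') (f ∘ f') :=
  ⟨mul_mem h.1 h'.1, fun v => by rw [cj_cj]; exact ((h'.2 v).cj h.1).trans (h.2 _)⟩

theorem Ac3.congr {g : G} {f f' : R × R × R → R × R × R} (h : P.Ac3 g f) (e : ∀ v, f v = f' v) : P.Ac3 g f' :=
  ⟨h.1, fun v => e v ▸ h.2 v⟩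

theorem exists_beta0 (P : Par A t R) : ∃ β₀ : K, P.η ^ 2 = P.η + algebraMap K R β₀ := by
  haveI := P.char2
  obtain ⟨x, y, e⟩ := P.span (P.η * (P.η + 1))
  have e1 := congrArg P.bar e
  rw [map_mul, map_add, map_add, map_smul, P.bar_η, map_one, AlgEquiv.commutes, smul_add, Algebra.smul_def,
    Algebra.smul_def] at e1
  rw [Algebra.smul_def] at e
  have : algebraMap K R y = 0 := by grind
  exact ⟨x, by grind⟩

end Par

namespace H1
variable (h : H1 A t)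
include h

theorem vs_uniq {g2 g3 g5 g6 : G} (h2 : g2 ∈ A2 A t) (h3 : g3 ∈ B3 A t) (h5 : g5 ∈ B5 A t) (h6 : g6 ∈ A6 A t)
    (e : g2 * g3 * g5 * g6 ∈ A4 A t) : g2 = 1 ∧ g3 = 1 ∧ g5 = 1 ∧ g6 = 1 := by
  have key : ∀ {g2 g3 g5 g6 : G}, g2 ∈ A.im (sZ2 T) → g3 ∈ A.im (sU3 T) → g5 ∈ A.im (sU5 T) → g6 ∈ A.im (sZ6 T) →
      g2 * g3 * g5 * g6 ∈ A.im (sZ T) → g2 = 1 ∧ g3 = 1 ∧ g5 = 1 ∧ g6 = 1 := by
    rintro _ _ _ _ ⟨c2, h2, rfl⟩ ⟨c3, h3, rfl⟩ ⟨c5, h5, rfl⟩ ⟨c6, h6, rfl⟩ e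
    simp only [← map_mul, ι_mem_im] at e
    simp only [ι_eq_one, Co.ext_iff]
    simp_all
  have e1 := h.sa.db.phi1 h.cf.inv e
  rw [h.Vs_mul (mul_mem (mul_mem (h.le2 h2) (h.le3 h3)) (h.le5 h5)) (h.le6 h6),
    h.Vs_mul (mul_mem (h.le2 h2) (h.le3 h3)) (h.le5 h5), h.Vs_mul (h.le2 h2) (h.le3 h3)] at e1
  obtain ⟨p2, p3, p5, p6⟩ := key (h.db2.phi1 h.cf.inv h2) (h.db3.phi1 h.cf.inv h3) (h.db5.phi1 h.cf.inv h5)
    (h.db6.phi1 h.cf.inv h6) e1
  rw [comm_eq_one_iff] at p2 p3 p5 p6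
  exact key (h.db2.fix1 h2 p2) (h.db3.fix1 h3 p3) (h.db5.fix1 h5 p5) (h.db6.fix1 h6 p6)
    (h.sa.db.fix1 e (mul_mem (mul_mem (mul_mem p2 p3) p5) p6))

theorem a7_uniq {g3 g5 g7 : G} (h3 : g3 ∈ B3 A t) (h5 : g5 ∈ B5 A t) (h7 : g7 ∈ B7 A t)
    (e : g3 * g5 * g7 ∈ A4 A t ⊔ A6 A t) : g3 = 1 ∧ g5 = 1 ∧ g7 = 1 := by
  have h7' : g7 ∈ Vs A t := (mul_mem_cancel_left (mul_mem (h.le3 h3) (h.le5 h5))).1 (sup_le h.le4 h.le6 e)
  have e7 : g7 = 1 := mem_bot.1 (triv_of h.cf.inv h.dbV.two1.to_inf_right (ns_inf h.dbB7.tY h.dbV.tY) (fun y hy hc => by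
    obtain ⟨c, hc1, rfl⟩ := h.dbB7.fix1 hy.1 hc
    have := h.Vs_fix hy.2 hc
    rw [ι_eq_one]
    ext <;> simp_all) ▸ mem_inf.2 ⟨h7, h7'⟩)
  obtain ⟨a, ha, b, hb, e1⟩ := (mem_sup_ns ((h.Vs_cs h.le4 h.le6).trans cs_le_ns)).1 e
  have := h.vs_uniq (one_mem _) h3 h5 (inv_mem hb) (by
    rw [e7, mul_one] at e1
    rw [one_mul, ← e1, mul_inv_cancel_right]; exact ha)
  exact ⟨this.2.1, this.2.2.1, e7⟩

variable (P : Par A t R)

theorem vw_mem (m : R × R × R × R) : P.vw m ∈ Vs A t :=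
  mul_mem (mul_mem (mul_mem (h.le2 (P.ma2 _)) (h.le3 (P.mb3 _))) (h.le5 (P.mb _))) (h.le6 (P.ma6 _))

theorem Vs_comm {x y : G} (hx : x ∈ Vs A t) (hy : y ∈ Vs A t) : Commute x y := mem_Cs.1 (h.Vs_ab hy) _ hx
theorem A7s_comm {x y : G} (hx : x ∈ A7s A t) (hy : y ∈ A7s A t) : Commute x y := mem_Cs.1 (h.db7.ab hy) _ hx

theorem vw_add (m m' : R × R × R × R) : P.vw (m + m') = P.vw m * P.vw m' := by
  simp only [Par.vw, Prod.fst_add, Prod.snd_add, P.a_add, P.b_add, c2_mul, c3_mul, c6_mul]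
  rw [(h.Vs_comm (h.le6 (P.ma6 _)) (mul_mem (mul_mem (h.le2 (P.ma2 _)) (h.le3 (P.mb3 _))) (h.le5 (P.mb _)))).mul_mul_mul_comm,
    (h.Vs_comm (h.le5 (P.mb _)) (mul_mem (h.le2 (P.ma2 _)) (h.le3 (P.mb3 _)))).mul_mul_mul_comm,
    (h.Vs_comm (h.le3 (P.mb3 _)) (h.le2 (P.ma2 _))).mul_mul_mul_comm]

theorem vw_inj {m m' : R × R × R × R} (e : Cg (A4 A t) (P.vw m) (P.vw m')) : m = m' := by
  haveI := P.char2
  rw [Cg, h.dbV.inv1 (h.vw_mem P m'), ← h.vw_add] at e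
  obtain ⟨e2, e3, e5, e6⟩ := h.vs_uniq (P.ma2 _) (P.mb3 _) (P.mb _) (P.ma6 _) e
  have f2 := P.a_eq_one (c6_inj (A := A) (c3_inj (A := A) (e2.trans (by rw [c6_one, c3_one]))))
  have f3 := P.b_eq_one (c3_inj (A := A) (e3.trans c3_one.symm))
  have f5 := P.b_eq_one e5
  have f6 := P.a_eq_one (c6_inj (A := A) (e6.trans c6_one.symm))
  simp only [Prod.fst_add, Prod.snd_add] at f2 f3 f5 f6
  ext <;> grind

theorem vw_surj {g : G} (hg : g ∈ Vs A t) : ∃ m, Cg (A4 A t) g (P.vw m) := by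
  let J : Subgroup G :=
    { carrier := {g | g ∈ Vs A t ∧ ∃ m, Cg (A4 A t) g (P.vw m)}
      one_mem' := ⟨one_mem _, 0, Cg.of_eq (by simp [Par.vw, P.a_zero, P.b_zero, c2, c3, c6, A.n1_sq, A.n8_sq])⟩
      mul_mem' := by
        rintro x y ⟨hx, m, e⟩ ⟨hy, m', e'⟩
        exact ⟨mul_mem hx hy, m + m', h.vw_add P m m' ▸ e.mul e' (cs_le_ns (h.Vs_c4 hx))⟩
      inv_mem' := by
        rintro x ⟨hx, m, e⟩
        exact ⟨inv_mem hx, m, by rwa [h.dbV.inv1 hx]⟩ }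
  have z : ∀ r, P.a r = P.a r * c6 A 1 := fun r => by rw [c6_one, mul_one]
  refine (h.genV.le.trans (sup_le (sup_le (sup_le (sup_le (fun x hx => ⟨h.le2 hx, ?_⟩) fun x hx => ⟨h.le3 hx, ?_⟩)
    fun x hx => ⟨h.le4 hx, ?_⟩) fun x hx => ⟨h.le5 hx, ?_⟩) fun x hx => ⟨h.le6 hx, ?_⟩ : _ ≤ J) hg).2
  · obtain ⟨r, e⟩ := (P.a_mem _).1 ((mem_cjs1 A).1 ((mem_cjs8 A).1 hx))
    exact ⟨(r, 0, 0, 0), Cg.of_eq (by simp [Par.vw, P.a_zero, P.b_zero, c3_one, c6_one, ← e, c2, c6, n1_cj, n8_cj, A.n1_sq])⟩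
  · obtain ⟨r, e⟩ := (P.b_mem _).1 ((mem_cjs8 A).1 hx)
    exact ⟨(0, r, 0, 0), Cg.of_eq (by simp [Par.vw, P.a_zero, P.b_zero, ← e, c2, c3, c6, n8_cj, A.n1_sq, A.n8_sq])⟩
  · exact ⟨0, by simpa [Cg, Par.vw, P.a_zero, P.b_zero, c2, c3, c6, A.n1_sq, A.n8_sq] using hx⟩
  · obtain ⟨r, e⟩ := (P.b_mem _).1 hx
    exact ⟨(0, 0, r, 0), Cg.of_eq (by simp [Par.vw, P.a_zero, P.b_zero, ← e, c2, c3, c6, A.n1_sq, A.n8_sq])⟩
  · obtain ⟨r, e⟩ := (P.a_mem _).1 ((mem_cjs1 A).1 hx)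
    exact ⟨(0, 0, 0, r), Cg.of_eq (by simp [Par.vw, P.a_zero, P.b_zero, ← e, c2, c3, c6, n1_cj, A.n1_sq, A.n8_sq])⟩

theorem c3_A4 {a : G} (ha : a ∈ A4 A t) : c3 A a = a := by rw [c3_eq, cj_eq_of_cs' (h.sa.cC ha) n8_C]

theorem R1' (r s : R) : c7 A (P.b r) * c2 A (P.a s) * (c7 A (P.b r))⁻¹ = c2 A (P.a s) * P.a (r * s) := by
  have := congrArg (c3 A) (P.R1 r s)
  rw [h.dbB1.inv1 (P.mb1 r), c3_mul, c3_mul, c3_mul, c3_c1, c3_c6, h.c3_A4 (P.ma _)] at this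
  rwa [h.dbB7.inv1 (P.mb7 r)]

theorem comm7 (s : R) {g : G} {m : R × R × R × R} (e : Cg (A4 A t) g (P.vw m)) :
    ⁅c7 A (P.b s), g⁆ = P.a (s * m.1) := by
  have m7 := h.l7 (P.mb7 s)
  have e1 : g = g * (P.vw m)⁻¹ * (c2 A (P.a m.1) * (c3 A (P.b m.2.1) * P.b m.2.2.1 * c6 A (P.a m.2.2.2))) := by
    rw [Par.vw]; group
  rw [e1, comm_mul_right, comm_eq_one_of_cs (h.A7s_c4 m7) e, comm_mul_right,
    comm_eq_one_of_cs (h.db7.ab m7) (mul_mem (mul_mem (h.l3 (P.mb3 _)) (h.l5 (P.mb _))) (h.l6 (P.ma6 _))),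
    commutatorElement_def, h.R1', ← (h.Vs_comm (h.le4 (P.ma _)) (h.le2 (P.ma2 _))).eq]
  simp only [mul_one, mul_inv_cancel, mul_inv_cancel_right, one_mul]
  exact cj_eq_of_cs (h.sa.db.ab e) (P.ma _)

theorem v17 (r s : R) : ⁅c1 A (P.b r), c7 A (P.b s)⁆ ∈ Vs A t :=
  h.dbQ.comm (h.B1_Qs (P.mb1 r)) (h.b7_Qs (P.mb7 s))

theorem c3_vw (m : R × R × R × R) : c3 A (P.vw m) = P.vw (m.2.2.2, m.2.2.1, m.2.1, m.1) := by
  simp only [Par.vw, c3_mul, c3_c2, c3_c3, c3_c6]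
  have c := fun {x y} (hx : x ∈ Vs A t) (hy : y ∈ Vs A t) => (h.Vs_comm hx hy).eq
  have m2 := h.le2 (P.ma2 m.2.2.2)
  have m3 := h.le3 (P.mb3 m.2.2.1)
  have m5 := h.le5 (P.mb m.2.1)
  have m6 := h.le6 (P.ma6 m.1)
  rw [c (mul_mem (mul_mem m6 m5) m3) m2, c (mul_mem m6 m5) m3, c m6 m5]
  simp only [mul_assoc]

theorem exists_beta : ∃ β : R → R → R, ∀ r s, Cg (A4 A t) ⁅c1 A (P.b r), c7 A (P.b s)⁆ (P.vw (0, β r s, β s r, 0)) := by
  choose m hm using fun r s => h.vw_surj P (h.v17 P r s)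
  have e1 : ∀ r s, (m r s).1 = 0 := fun r s => by
    have k : ∀ s, c7 A (P.b s) * c1 A (P.b r) * (c7 A (P.b s))⁻¹ = ⁅c1 A (P.b r), c7 A (P.b s)⁆ * c1 A (P.b r) :=
      fun s => by rw [cj_eq, ← commutatorElement_inv, h.dbV.inv1 (h.v17 P r s)]
    have k2 : ∀ s s', c7 A (P.b s) * c7 A (P.b s') * c1 A (P.b r) * (c7 A (P.b s) * c7 A (P.b s'))⁻¹ =
        P.a (s * (m r s').1) * ⁅c1 A (P.b r), c7 A (P.b s')⁆ * (⁅c1 A (P.b r), c7 A (P.b s)⁆ * c1 A (P.b r)) :=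
      fun s s' => by rw [cj_cj, k, ← conj_mul, k, cj_eq, h.comm7 P s (hm r s')]
    have a1 := k2 1 1
    rw [h.dbB7.sq1 (P.mb7 1), mul_assoc (P.a _), ← mul_assoc ⁅_, _⁆, h.Vs_sq (h.v17 P r 1)] at a1
    have a2 : (m r 1).1 = 0 := P.a_eq_one (by simpa using a1.symm)
    have a3 := k2 s 1
    rw [(h.A7s_comm (h.l7 (P.mb7 s)) (h.l7 (P.mb7 1))).eq, k2, a2, mul_zero, P.a_zero, one_mul, one_mul,
      ← mul_assoc, ← mul_assoc, mul_left_inj, (h.Vs_comm (h.v17 P r 1) (h.v17 P r s)).eq, mul_assoc] at a3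
    exact P.a_eq_one (by simpa using a3)
  have e2 : ∀ r s, m s r = ((m r s).2.2.2, (m r s).2.2.1, (m r s).2.1, (m r s).1) := fun r s => by
    have := (hm r s).cj (h.N4 (h.C_le_N n8_C))
    rw [← c3_eq, ← c3_eq, c3_comm, c3_c1, c3_c7, ← commutatorElement_inv, h.dbV.inv1 (h.v17 P s r), h.c3_vw] at this
    exact h.vw_inj P ((hm s r).symm.trans this)
  refine ⟨fun r s => (m r s).2.1, fun r s => ?_⟩
  have := hm r s
  rwa [show m r s = (0, (m r s).2.1, (m s r).2.1, 0) by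
    ext
    · exact e1 r s
    · rfl
    · rw [e2 r s]
    · rw [e2 s r]; exact e1 s r] at this

theorem tw_mem (m : R × R × R) : P.tw m ∈ A7s A t := mul_mem (mul_mem (h.l3 (P.mb3 _)) (h.l5 (P.mb _))) (h.l7 (P.mb7 _))

theorem tw_add (m m' : R × R × R) : P.tw (m + m') = P.tw m * P.tw m' := by
  simp only [Par.tw, Prod.fst_add, Prod.snd_add, P.b_add, c3_mul, c7_mul]
  rw [(h.A7s_comm (h.l7 (P.mb7 _)) (mul_mem (h.l3 (P.mb3 _)) (h.l5 (P.mb _)))).mul_mul_mul_comm,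
    (h.A7s_comm (h.l5 (P.mb _)) (h.l3 (P.mb3 _))).mul_mul_mul_comm]

theorem ac3_uniq {g : G} {f f' : R × R × R → R × R × R} (a : P.Ac3 g f) (a' : P.Ac3 g f') (v : R × R × R) :
    f v = f' v := by
  haveI := P.char2
  have e := (a.2 v).symm.trans (a'.2 v)
  rw [Cg, h.db7.inv1 (h.tw_mem P _), ← h.tw_add] at e
  obtain ⟨e3, e5, e7⟩ := h.a7_uniq (P.mb3 _) (P.mb _) (P.mb7 _) e
  have f3 := P.b_eq_one (c3_inj (A := A) (e3.trans c3_one.symm))
  have f5 := P.b_eq_one e5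
  have f7 := P.b_eq_one (c3_inj (A := A) (c6_inj (A := A) (e7.trans (by rw [c3_one, c6_one]))))
  simp only [Prod.fst_add, Prod.snd_add] at f3 f5 f7
  ext <;> grind

theorem c6_B5 {b : G} (hb : b ∈ B5 A t) : c6 A b = b := by rw [c6_eq, cj_eq_of_cs h.n15 hb]

theorem ac3n : P.Ac3 A.n1 fun v => (v.2.2, v.2.1, v.1) := ⟨ns_of_cjs_eq h.cjs1_46, fun v => Cg.of_eq (by
  simp only [← c6_eq, Par.tw, c6_mul, c6_c3, c6_c7, h.c6_B5 (P.mb _)]
  have c := fun {x y} (hx : x ∈ A7s A t) (hy : y ∈ A7s A t) => (h.A7s_comm hx hy).eq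
  rw [c (mul_mem (h.l7 (P.mb7 _)) (h.l5 (P.mb _))) (h.l3 (P.mb3 _)), c (h.l7 (P.mb7 _)) (h.l5 (P.mb _)), mul_assoc])⟩

theorem ac31 {β : R → R → R}
    (hβ : ∀ r s, Cg (A4 A t) ⁅c1 A (P.b r), c7 A (P.b s)⁆ (P.vw (0, β r s, β s r, 0))) (r : R) :
    P.Ac3 (c1 A (P.b r)) fun v => (v.1 + β r v.2.2, v.2.1 + β v.2.2 r, v.2.2) := by
  have q := h.B1_Qs (P.mb1 r)
  have n : ∀ x ∈ A7s A t, x ∈ Ns (A4 A t ⊔ A6 A t) := fun x hx => cs_le_ns (h.A7s_cs le_rfl (sup_le h.l4 h.l6) hx)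
  refine ⟨ns_between (h.Qs_cV q) le_sup_left (sup_le h.le4 h.le6), fun v => ?_⟩
  have e1 : (fun v : R × R × R => (v.1 + β r v.2.2, v.2.1 + β v.2.2 r, v.2.2)) v =
      (v.1, v.2.1, 0) + ((β r v.2.2, β v.2.2 r, 0) + (0, 0, v.2.2)) := by simp
  have e2 : P.tw v = P.tw (v.1, v.2.1, 0) * c7 A (P.b v.2.2) := by simp [Par.tw, P.b_zero, c7, c3, A.n1_sq, A.n8_sq]
  have m : P.tw (v.1, v.2.1, 0) ∈ Vs A t := by
    simpa [Par.tw, P.b_zero, c7, c3_one, A.n1_sq] using mul_mem (h.le3 (P.mb3 v.1)) (h.le5 (P.mb v.2.1))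
  rw [e1, h.tw_add, h.tw_add, e2, ← conj_mul, cj_eq _ (c7 A _)]
  refine ((Cg.of_comm ((h.Qs_cV q).2 _ m)).mono le_sup_left).mul (((hβ r v.2.2).mono le_sup_left).trans
    (Cg.of_eq ?_) |>.mul (Cg.of_eq ?_) (cs_le_ns (h.Vs_cs le_rfl (sup_le h.le4 h.le6) (h.v17 P r _))))
    (cs_le_ns (h.Vs_cs le_rfl (sup_le h.le4 h.le6) (cj_mem (h.Qs_nV q) m)))
  · simp [Par.tw, Par.vw, P.a_zero, P.b_zero, c7, c2, c6, c3_one, A.n1_sq, A.n8_sq]
  · simp [Par.tw, P.b_zero, c3_one]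

theorem exists_theta (S : SLf P) : ∃ θ : R →+* R, (∀ c, θ (algebraMap K R c) = algebraMap K R (T.σ c)) ∧
    (∀ r, θ (θ r) = r ^ 2) ∧ (∀ r, θ (P.bar r) = P.bar (θ r)) ∧
    ∀ r s, Cg (A4 A t) ⁅c1 A (P.b r), c7 A (P.b s)⁆ (P.vw (0, θ r * s, r * θ s, 0)) := by
  haveI := P.char2
  obtain ⟨β, hβ⟩ := h.exists_beta P
  have uq : ∀ {r s x y}, Cg (A4 A t) ⁅c1 A (P.b r), c7 A (P.b s)⁆ (P.vw (0, x, y, 0)) → β r s = x := fun e =>
    congrArg (fun m => m.2.1) (h.vw_inj P ((hβ _ _).symm.trans e))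
  have n4 : ∀ {x}, x ∈ Qs A t → x ∈ Ns (A4 A t) := fun hx => cs_le_ns (h.Qs_c4 hx)
  have add1 : ∀ r r' s, β (r + r') s = β r s + β r' s ∧ β s (r + r') = β s r + β s r' := fun r r' s => by
    have q := h.B1_Qs (P.mb1 r)
    have := ((Cg.of_comm ((h.Qs_cV q).2 _ (h.v17 P r' s))).trans (hβ r' s)).mul (hβ r s)
      (n4 (h.Vs_Qs (cj_mem (h.Qs_nV q) (h.v17 P r' s))))
    rw [← comm_mul_left, ← c1_mul, ← P.b_add, ← h.vw_add] at this
    have e := h.vw_inj P ((hβ _ _).symm.trans this)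
    simp only [Prod.mk_add_mk, Prod.mk.injEq] at e
    exact ⟨e.2.1.trans (add_comm _ _), e.2.2.1.trans (add_comm _ _)⟩
  have z1 : ∀ s, β 0 s = 0 := fun s => by simpa using (add1 0 0 s).1
  have z2 : ∀ s, β s 0 = 0 := fun s => by simpa using (add1 0 0 s).2
  have sm : ∀ (c d : K) r s, β (c • r) (d • s) = (T.σ c * d) • β r s := fun c d r s => by
    by_cases c0 : c = 0
    · simp [c0, z1]
    by_cases d0 : d = 0
    · simp [d0, z2]
    obtain ⟨μ, hμ⟩ := sig_surj T (d / c)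
    obtain ⟨b, -, e2, -, -⟩ := exT1 T (μ := μ) (by rintro rfl; simp [c0, d0, eq_comm] at hμ)
    have := (hβ r s).cj (h.H4 ⟨(Units.mk0 c c0, b), rfl⟩)
    simp only [conjugate_commutatorElement, Par.vw, ← conj_mul, P.h1, P.h7, P.h3, P.h_b, P.a_zero, c2, c6_one, mul_one,
      A.n8_sq, mul_inv_cancel, wt, Units.val_mk0, e2, hμ, mul_div_cancel₀ _ c0] at this
    refine (uq (y := (c * T.σ c * (b ^ 2 * T.σ b ^ 2)) • β s r) ?_)
    simp only [Par.vw, P.a_zero, c2, c6_one, mul_one, A.n8_sq]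
    rwa [show c * T.σ c * (d / c) = T.σ c * d by field_simp] at this
  have br : ∀ r s, β (P.bar r) (P.bar s) = P.bar (β r s) := fun r s => by
    have := (hβ r s).cj h.sa.db.tY
    have e7 : ∀ g, t * c7 A g * t = c7 A (t * g * t) := fun g => by rw [← c6_c3, ← c6_c3, h.c3_t, h.c6_t]
    simp only [Par.vw, P.a_zero, c2, c6_one, mul_one, A.n8_sq, one_mul, inv_eq_of_mul_eq_one_right h.cf.inv.1,
      cj_comm2 h.cf.inv.1, cj_mul2 t h.cf.inv.1, ← h.c1_t, ← h.c3_t, e7, P.t_b] at this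
    refine uq (y := P.bar (β s r)) ?_
    simpa only [Par.vw, P.a_zero, c2, c6_one, mul_one, A.n8_sq, one_mul] using this
  have x := h.ac31 P hβ
  have y : ∀ r, P.Ac3 (c9 A (P.b r)) fun v => (v.1, v.2.1 + β v.1 r, v.2.2 + β r v.1) := fun r =>
    (((h.ac3n P).mul (x r)).mul (h.ac3n P)).congr fun v => rfl
  have nn : ∀ u : Rˣ, P.Ac3 (P.nn u) _ := fun u => ((x u).mul (y (u⁻¹ : Rˣ))).mul (x u)
  have b1 : ∀ s, β 1 s = s := fun s => by
    have := h.ac3_uniq P (nn 1) (S.nn1 ▸ h.ac3n P) (0, 0, s)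
    simp only [Function.comp, inv_one, Units.val_one, zero_add, Prod.mk.injEq] at this
    rw [this.2.2, z2, add_zero] at this
    exact this.1
  have rel : ∀ (u : Rˣ) r, P.nn u * c1 A (P.b r) = c9 A (P.b ((u⁻¹ : Rˣ) ^ 2 * r)) * P.nn u := fun u r => by
    rw [← S.nn_b, mul_assoc, S.nn_sq, mul_one]
  have bb : ∀ (u : Rˣ) a, β u (β (u⁻¹ : Rˣ) a) = a := fun u a => by
    have := h.ac3_uniq P ((nn u).mul (x (u ^ 2))) (rel u _ ▸ (y _).mul (nn u)) (a, 0, 0)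
    simp only [Function.comp, z1, z2, add_zero, zero_add, Prod.mk.injEq, ← mul_pow, Units.inv_mul, one_pow, b1] at this
    grind
  obtain ⟨σ₀, hs⟩ := exists_s (T := T) h.cf.card
  have s0 : σ₀ ≠ 0 := by rintro rfl; simp at hs
  have s1 : σ₀ ≠ 1 := by rintro rfl; simp at hs
  have main : ∀ (u : Rˣ) r, β (β u 1) r = u ^ 2 * r ∧ β (u ^ 2) 1 = β u (β u 1) := fun u r => by
    have bb' : ∀ a, β (u⁻¹ : Rˣ) (β u a) = a := fun a => by simpa using bb u⁻¹ a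
    have key : ∀ r s, β (β r s) (u⁻¹ : Rˣ) + β (β (u⁻¹ : Rˣ) (β r s)) u + β s r = β (β u s) ((u⁻¹ : Rˣ) ^ 2 * r) ∧
        β (u⁻¹ : Rˣ) (β r s) = β ((u⁻¹ : Rˣ) ^ 2 * r) (β u s) := fun r s => by
      have := h.ac3_uniq P ((nn u).mul (x r)) (rel u _ ▸ (y _).mul (nn u)) (0, 0, s)
      simp only [Function.comp, z1, z2, add_zero, zero_add, Prod.mk.injEq, (add1 _ _ _).1, (add1 _ _ _).2, bb, bb',
        CharTwo.add_self_eq_zero] at this
      grind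
    have del : ∀ s, β s (u⁻¹ : Rˣ) + β (β (u⁻¹ : Rˣ) s) u = 0 := fun s => by
      have k1 := (key 1 s).1
      have k2 := (key (σ₀ • 1) s).1
      have l1 := sm σ₀ 1 1 s
      have l2 := sm (T.σ σ₀) 1 s (u⁻¹ : Rˣ)
      have l3 := sm 1 (T.σ σ₀) (u⁻¹ : Rˣ) s
      have l4 := sm (T.σ σ₀) 1 (β (u⁻¹ : Rˣ) s) u
      have l5 := sm 1 σ₀ s 1
      have l6 := sm 1 σ₀ (β u s) ((u⁻¹ : Rˣ) ^ 2 * 1)
      simp only [one_smul, map_one, one_mul, mul_one, b1, T.sq] at k1 l1 l2 l3 l4 l5 l6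
      rw [l1, l2, l3, l4, l5, mul_smul_comm, mul_one, l6, ← k1, ← smul_add, smul_add σ₀, add_left_inj, ← sub_eq_zero,
        ← sub_smul] at k2
      have : σ₀ ^ 2 - σ₀ ≠ 0 := by grind
      rw [← inv_smul_smul₀ this (β s _ + _), k2, smul_zero]
    constructor
    · have := (key (u ^ 2 * r) 1).1
      rw [del, zero_add, b1, ← mul_assoc, ← mul_pow, Units.inv_mul, one_pow, one_mul] at this
      exact this.symm
    · have := congrArg (β u) (key (u ^ 2) 1).2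
      rwa [bb, ← mul_pow, Units.inv_mul, one_pow, b1] at this
  obtain ⟨β₀, hη⟩ := P.exists_beta0
  obtain ⟨u, c, hu⟩ : ∃ (u : Rˣ) (c : K), (u : R) = P.η + algebraMap K R c := by
    have key : ∀ c : K, β₀ + c ^ 2 + c ≠ 0 → ∃ (u : Rˣ) (c : K), (u : R) = P.η + algebraMap K R c := fun c hc =>
      ⟨Units.mkOfMulEqOne (P.η + algebraMap K R c) ((P.η + algebraMap K R c + 1) * algebraMap K R (β₀ + c ^ 2 + c)⁻¹) (by
        rw [← mul_assoc, show (P.η + algebraMap K R c) * (P.η + algebraMap K R c + 1) =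
          algebraMap K R (β₀ + c ^ 2 + c) by rw [map_add, map_add, map_pow]; grind, ← map_mul, mul_inv_cancel₀ hc,
          map_one]), c, rfl⟩
    by_cases h0 : β₀ = 0
    · exact key σ₀ (by grind)
    · exact key 0 (by simpa using h0)
  have lin : ∀ (x y : K) s, β (algebraMap K R x + y • P.η) s = T.σ x • s + T.σ y • β P.η s := fun x y s => by
    have l1 := sm x 1 1 s
    have l2 := sm y 1 P.η s
    simp only [one_smul, mul_one, b1] at l1 l2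
    rw [(add1 _ _ _).1, l2, Algebra.algebraMap_eq_smul_one, l1]
  have mη : ∀ s, β P.η s = β P.η 1 * s := by
    obtain ⟨x, y, e⟩ := P.span (β u 1)
    have k : ∀ s, T.σ x • s + T.σ y • β P.η s = u ^ 2 * s := fun s => by rw [← lin, ← e, (main u s).1]
    have y0 : T.σ y ≠ 0 := fun y0 => by
      have k1 := k 1
      rw [y0, zero_smul, add_zero, mul_one, hu, ← Algebra.algebraMap_eq_smul_one] at k1
      have k2 := congrArg P.bar k1
      rw [AlgEquiv.commutes, map_pow, map_add, P.bar_η, AlgEquiv.commutes] at k2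
      have : (1 : R) = 0 := by grind
      exact one_ne_zero (P.alg_inj (by simpa using this : algebraMap K R 1 = algebraMap K R 0))
    intro s
    have k1 := k 1
    have k2 := k s
    rw [← inv_smul_smul₀ y0 (β P.η s), ← inv_smul_smul₀ y0 (β P.η 1 * s)]
    congr 1
    simp only [Algebra.smul_def] at k1 k2 ⊢
    grind
  have mul : ∀ r s, β r s = β r 1 * s := fun r s => by
    obtain ⟨x, y, rfl⟩ := P.span r
    rw [lin, lin, mη s]
    simp only [Algebra.smul_def]; ring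
  have alg : ∀ c, β (algebraMap K R c) 1 = algebraMap K R (T.σ c) := fun c => by
    simpa [Algebra.algebraMap_eq_smul_one] using lin c 0 1
  have e2 : β (P.η ^ 2) 1 = β P.η 1 ^ 2 := by
    have k := (main u 1).2
    rw [mul _ (β u 1), hu, CharTwo.add_sq, (add1 _ _ _).1, (add1 _ _ _).1, ← map_pow, alg, alg, map_pow, map_pow] at k
    grind
  have lin1 : ∀ x y : K, β (algebraMap K R x + y • P.η) 1 = algebraMap K R (T.σ x) + algebraMap K R (T.σ y) * β P.η 1 :=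
    fun x y => by rw [lin]; simp [Algebra.smul_def]
  let θ : R →+* R :=
    { toFun := fun r => β r 1
      map_one' := b1 1
      map_zero' := z1 1
      map_add' := fun r s => (add1 r s 1).1
      map_mul' := fun r s => by
        obtain ⟨x, y, rfl⟩ := P.span r
        obtain ⟨x', y', rfl⟩ := P.span s
        rw [show (algebraMap K R x + y • P.η) * (algebraMap K R x' + y' • P.η) =
          algebraMap K R (x * x' + y * y' * β₀) + (x * y' + y * x' + y * y') • P.η by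
            simp only [Algebra.smul_def, map_add, map_mul]; grind, lin1, lin1, lin1]
        rw [hη, (add1 _ _ _).1, alg] at e2
        simp only [map_add, map_mul]
        grind }
  have hθ : ∀ r, θ r = β r 1 := fun r => rfl
  refine ⟨θ, alg, fun r => ?_, fun r => by rw [hθ, hθ, ← br, map_one], fun r s => ?_⟩
  · have k := (main u 1).1
    rw [← hθ, ← hθ, hu, map_add, map_add, hθ (algebraMap K R c), alg, hθ (algebraMap K R _), alg, T.sq, map_pow] at k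
    obtain ⟨x, y, rfl⟩ := P.span r
    simp only [Algebra.smul_def, map_add, map_mul, hθ (algebraMap K R _), alg, T.sq, map_pow]
    grind
  · rw [hθ, hθ, ← mul, mul_comm r, ← mul]; exact hβ r s

theorem exists_split (S : SLf P) : ∃ (P' : Par A t (K × K)) (sw : Bool), Sp2 P' sw := by
  haveI := P.char2
  obtain ⟨θ, θ1, θ2, θ3, θ4⟩ := h.exists_theta P S
  obtain ⟨β₀, hη⟩ := P.exists_beta0
  obtain ⟨x, hx⟩ : ∃ x : K, θ P.η = P.η + algebraMap K R x := by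
    obtain ⟨x, y, e⟩ := P.span (θ P.η)
    have := θ3 P.η
    rw [P.bar_η, map_add, map_one, e, map_add, AlgEquiv.commutes, map_smul, P.bar_η, smul_add, add_assoc,
      add_right_inj, add_right_inj] at this
    obtain rfl : y = 1 := P.alg_inj (by rw [Algebra.algebraMap_eq_smul_one, ← this, map_one])
    exact ⟨x, by rw [e, one_smul, add_comm]⟩
  have hb : β₀ = x + T.σ x := P.alg_inj (by
    have := θ2 P.η
    rw [hx, map_add, hx, θ1, hη] at this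
    rw [map_add]; grind)
  obtain ⟨z, hz⟩ := exists_z T x
  have hz2 : z ^ 2 + z = β₀ := by
    rcases hz with hz | hz <;>
    · have := congrArg T.σ hz
      simp only [map_add, map_one, T.sq] at this
      grind
  obtain ⟨e, he⟩ : ∃ e, e = P.η + algebraMap K R z := ⟨_, rfl⟩
  have e2 : e * e = e := by
    have := congrArg (algebraMap K R) hz2
    rw [map_add, map_pow] at this
    grind
  have eb : P.bar e = e + 1 := by rw [he, map_add, P.bar_η, AlgEquiv.commutes]; ring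
  obtain ⟨sw, hsw⟩ : ∃ sw : Bool, θ e = if sw then e + 1 else e := by
    rcases hz with hz | hz
    · refine ⟨false, ?_⟩
      have := congrArg (algebraMap K R) hz
      simp only [he, map_add, hx, θ1] at this ⊢
      grind
    · refine ⟨true, ?_⟩
      have := congrArg (algebraMap K R) hz
      simp only [he, map_add, hx, θ1, map_one] at this ⊢
      grind
  let ψ : K × K → R := fun r => algebraMap K R r.1 * e + algebraMap K R r.2 * (e + 1)
  have ψadd : ∀ r s, ψ (r + s) = ψ r + ψ s := fun r s => by simp only [ψ, Prod.fst_add, Prod.snd_add, map_add]; ring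
  have ψmul : ∀ r s, ψ (r * s) = ψ r * ψ s := fun r s => by
    simp only [ψ, Prod.fst_mul, Prod.snd_mul, map_mul]; grind
  have ψsm : ∀ (c : K) r, ψ (c • r) = c • ψ r := fun c r => by
    simp only [ψ, Prod.smul_fst, Prod.smul_snd, smul_eq_mul, map_mul]
    rw [Algebra.smul_def]; ring
  have ψalg : ∀ c, ψ (algebraMap K (K × K) c) = algebraMap K R c := fun c => by
    simp only [ψ, Prod.algebraMap_apply, Algebra.algebraMap_self, RingHom.id_apply]; grind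
  have ψbar : ∀ r, ψ r.swap = P.bar (ψ r) := fun r => by
    simp only [ψ, Prod.fst_swap, Prod.snd_swap, map_add, map_mul, AlgEquiv.commutes, eb, map_one]; grind
  have ψθ : ∀ r, ψ (th T sw r) = θ (ψ r) := fun r => by
    cases sw <;> simp only [ψ, th_true, th_false, map_add, map_mul, θ1, hsw, map_one] <;> grind
  have ψinj : Function.Injective ψ := fun r s e1 => by
    have e3 := congrArg P.bar e1
    simp only [ψ, map_add, map_mul, AlgEquiv.commutes, eb, map_one] at e1 e3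
    ext <;> apply P.alg_inj <;> grind
  have ψsurj : ∀ r, ∃ s, r = ψ s := fun r => by
    obtain ⟨a, b, rfl⟩ := P.span r
    refine ⟨(a + b * z + b, a + b * z), ?_⟩
    simp only [ψ, map_add, map_mul, Algebra.smul_def, he]
    grind
  refine ⟨⟨fun r => P.a (ψ r), fun r => P.b (ψ r), AlgEquiv.ofRingEquiv (f := RingEquiv.prodComm) fun c => rfl, (1, 0),
    Prod.ext (by simp [CharTwo.add_self_eq_zero]; rfl) (by simp; rfl), fun r => ⟨r.2, r.1 + r.2, by ext <;> simp; grind⟩,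
    fun r s => by rw [ψadd, P.a_add], fun r s => by rw [ψadd, P.b_add], P.a_inj.comp ψinj, P.b_inj.comp ψinj,
    fun g => (P.a_mem g).trans ⟨fun ⟨r, e⟩ => (ψsurj r).imp fun s (e' : r = ψ s) => by rw [e, e'], fun ⟨r, e⟩ => ⟨_, e⟩⟩,
    fun g => (P.b_mem g).trans ⟨fun ⟨r, e⟩ => (ψsurj r).imp fun s (e' : r = ψ s) => by rw [e, e'], fun ⟨r, e⟩ => ⟨_, e⟩⟩,
    fun c => by rw [ψalg, P.a_alg], fun c => by rw [ψalg, P.b_alg], fun r => by rw [P.t_a, ← ψbar]; rfl,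
    fun r => by rw [P.t_b, ← ψbar]; rfl, fun p r => by rw [P.h_a, ψsm], fun p r => by rw [P.h_b, ψsm],
    fun r s => by rw [P.R1, ψmul]⟩, sw, fun r => rfl, fun r s => ?_⟩
  have := θ4 (ψ r) (ψ s)
  rw [Cg, h.dbV.inv1 (h.vw_mem P _)] at this
  simpa [Par.vw, P.a_zero, c2, c6_one, A.n8_sq, ψmul, ψθ] using this

end H1

theorem jobRc : JobRc.{u, v} := fun kit K _ _ _ T G _ _ A t h R _ _ P S => h.exists_split P S

end H65.SR
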