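/- STD-R (S3323): job RP. -/
import Cfsg.Agent.H65.SRRc

set_option autoImplicit false
set_option linter.unusedSectionVars false
set_option linter.unusedVariables false
set_option linter.unusedSimpArgs false

open Subgroup H63.Oc H64.SG
open scoped commutatorElement

universe u v

namespace H65.SR

attribute [-simp] Subgroup.mem_map

variable {K : Type*} [Field K] [Fintype K] [CharP K 2] {T : TF K} {G : Type*} [Group G] [Finite G]
  {A : AD T G} {t : G} {R : Type*} [CommRing R] [Algebra K R]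

/-- the coordinate on `U*₄ / A₄` -/
noncomputable def Par.pi (P : Par A t R) (y : G) : R := Function.invFun P.a ⁅c6 A y, c3 A (P.b 1)⁆

theorem c6_mem6 {y : G} (hy : y ∈ U4s A t) : c6 A y ∈ U6s A t := cj1_mem A hy
theorem c2_mem2 {y : G} (hy : y ∈ U4s A t) : c2 A y ∈ U2s A t := cj8_mem A (c6_mem6 hy)
theorem c8_mem8 {y : G} (hy : y ∈ U4s A t) : c8 A y ∈ U8s A t := cj1_mem A (c2_mem2 hy)
theorem c3_x5 (c : K) : c3 A (A.ι (x5 T c)) = A.ι (x3 T c) := n8_x5 A c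

namespace H1
variable (h : H1 A t) (P : Par A t R)
include h

theorem c3_U4s {y : G} (hy : y ∈ U4s A t) : c3 A y = y := by rw [c3_eq, cj_eq_of_cs h.U4s_n8 hy]

theorem a_inv (r : R) : (P.a r)⁻¹ = P.a r := h.sa.db.inv1 (P.ma r)

theorem comm63 {y : G} (hy : y ∈ U4s A t) (r : R) : ⁅c6 A y, c3 A (P.b r)⁆ = P.a (P.pi y * r) := by
  haveI := P.char2
  choose f hf using fun r => (P.a_mem _).1 ((h.Qs_cV (h.U6s_Qs (c6_mem6 hy))).2 _ (h.le3 (P.mb3 r)))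
  have e7 : ∀ s, y * c7 A (P.b s) * y⁻¹ = c7 A (P.b s) * c6 A (P.a (f s)) := fun s => by
    rw [cj_eq, ← c6_c6 (A := A) y, ← c6_c3, ← c6_comm, hf]
    exact (h.A7s_comm (h.l6 (P.ma6 _)) (h.l7 (P.mb7 _))).eq
  have e1 : ∀ s, y * c1 A (P.b s) * y⁻¹ = c1 A (P.b s) * c2 A (P.a (f s)) := fun s => by
    have := congrArg (c3 A) (e7 s)
    rwa [c3_mul, c3_mul, c3_mul, h.c3_U4s hy, h.c3_U4s (inv_mem hy)] at this
  have key : ∀ r s, s * f r = r * f s := fun r s => by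
    have := cj_eq_of_cs (h.U4s_cV hy) (h.v17 P r s)
    rw [conjugate_commutatorElement, e1, e7, comm_mul_left, comm_mul_right, comm_mul_right,
      comm_eq_one_of_cs (h.Vs_ab (h.le2 (P.ma2 _))) (h.le6 (P.ma6 _)), ← commutatorElement_inv (c7 A _),
      h.comm7 P s (m := (f r, 0, 0, 0)) (Cg.of_eq (by simp [Par.vw, P.a_zero, P.b_zero, c3_one, c6_one])),
      commutatorElement_def _ (c6 A _), P.R1, ← (h.Vs_comm (h.le4 (P.ma _)) (h.le6 (P.ma6 _))).eq, h.a_inv] at this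
    simp only [mul_one, mul_inv_cancel, mul_inv_cancel_right, cj_eq_of_cs (h.Qs_c4 (h.B1_Qs (P.mb1 r))) (P.ma _),
      cj_eq_of_cs (h.A7s_c4 (h.l7 (P.mb7 s))) (P.ma _)] at this
    rw [(h.Vs_comm (h.v17 P r s) (h.le4 (P.ma _))).eq, ← mul_assoc, mul_eq_right, ← P.a_add] at this
    have := P.a_eq_one this
    grind
  rw [hf, Par.pi, hf, Function.leftInverse_invFun P.a_inj, ← one_mul (f r), key, mul_comm]

theorem pi_eq {y : G} (hy : y ∈ U4s A t) {r : R} (e : ⁅c6 A y, c3 A (P.b 1)⁆ = P.a r) : P.pi y = r :=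
  P.a_inj (by rw [← e, h.comm63 P hy, mul_one])

theorem pi_mul {y y' : G} (hy : y ∈ U4s A t) (hy' : y' ∈ U4s A t) : P.pi (y * y') = P.pi y + P.pi y' :=
  h.pi_eq P (mul_mem hy hy') (by
    rw [c6_mul, comm_mul_left, h.comm63 P hy, h.comm63 P hy', cj_eq_of_cs (h.U6s_c4 (c6_mem6 hy)) (P.ma _), ← P.a_add,
      mul_one, mul_one, add_comm])

theorem pi_ker {y : G} (hy : y ∈ U4s A t) : P.pi y = 0 ↔ y ∈ A4 A t := by
  refine ⟨fun e => ?_, fun ha => h.pi_eq P hy (by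
    rw [comm_eq_one_of_cs (h.Vs_ab (h.le6 (h.c6_mem ha))) (h.le3 (P.mb3 1)), P.a_zero])⟩
  have := (h.sa.db.fr h.cf.inv).self h.cf.inv (Y := U4s A t ⊓ Cs (B7 A t)) (le_inf h.db4.le0 (h.A7s_cs h.l4 h.l7))
    h.fr4.two.to_inf_left (ns_inf h.fr4.tY (ns_cs h.dbB7.tY)) fun g hg => by
      obtain ⟨c, hc, rfl⟩ := h.fr4.mem hg.1.1 hg.2
      have := mem_Cs.1 (mem_inf.1 hg.1).2 _ (h.dbB7.leX (x := A.ι (x7 T 1)) (by simp))
      rw [← map_mul, ← map_mul, ι_inj] at this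
      have hc' := (mem_sU4 T).1 hc
      have e : c.b4 = 0 := by simpa [hc'] using congrArg Co.a6 this
      exact h.sa.db.leX (by simp [hc', e])
  refine this.le (mem_inf.2 ⟨hy, mem_Cs.2 fun b hb => ?_⟩)
  obtain ⟨r, e1⟩ := (P.b_mem _).1 ((mem_cjs8 A).1 ((mem_cjs1 A).1 hb))
  have e2 := congrArg (c6 A) (h.comm63 P hy r)
  rw [e, zero_mul, P.a_zero, c6_one, c6_comm, c6_c6, ← e1, c3, n8_cj, c6, n1_cj] at e2
  exact (commutatorElement_eq_one_iff_mul_comm.1 e2).symm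

theorem pi_L (c d : K) : P.pi (A.ι (y4 T c * x4 T d)) = algebraMap K R c :=
  h.pi_eq P (h.db4.leX ((ι_mem_im A).2 (by simp))) (by
    rw [map_mul, c6_mul, c6, c6, n1_y4, n1_x4, P.b_one, c3_x5, ← map_mul, ι_comm, P.a_alg, ι_inj, commutatorElement_def]
    ext <;> simp [CharTwo.add_self_eq_zero] <;> grind)

theorem pi_t {y : G} (hy : y ∈ U4s A t) : P.pi (t * y * t) = P.bar (P.pi y) :=
  h.pi_eq P (t_mem h.cf.inv h.fr4.tY hy) (by
    rw [← P.t_a, ← mul_one (P.pi y), ← h.comm63 P hy, cj_comm2 h.cf.inv.1, h.c6_t, P.b_one, c3_x5, h.t_im])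

theorem pi_h (p : Kˣ × Kˣ) {y : G} (hy : y ∈ U4s A t) :
    P.pi (A.h p * y * (A.h p)⁻¹) = wt T.σ (p.1 : K) p.2 4 • P.pi y := by
  have := congrArg (fun x => A.h (w1 p) * x * (A.h (w1 p))⁻¹) (h.comm63 P hy 1)
  simp only [conjugate_commutatorElement, ← c6_h, P.h3, h.comm63 P (cj_mem (h.HU4 ⟨p, rfl⟩) hy), P.h_a] at this
  have e := P.a_inj this
  have s1 := sig_ne (T := T) p.1.ne_zero
  have s2 := sig_ne (T := T) p.2.ne_zero
  have w0 : wt T.σ ((w1 p).1 : K) (w1 p).2 3 ≠ 0 := by simp [wt, w1]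
  rw [mul_smul_comm, mul_one, mul_one] at e
  rw [← inv_smul_smul₀ w0 (P.pi (_ * _)), e, smul_smul]
  congr 1
  simp [wt, w1, chi4]
  field_simp

theorem R3 {y : G} (hy : y ∈ U4s A t) (r : R) :
    c6 A y * c3 A (P.b r) * (c6 A y)⁻¹ = c3 A (P.b r) * P.a (P.pi y * r) := by
  rw [cj_eq, h.comm63 P hy, (h.Vs_comm (h.le4 (P.ma _)) (h.le3 (P.mb3 _))).eq]

theorem c19 (S : SLf P) {r s : R} (e : r * s = 0) : Commute (c1 A (P.b r)) (c9 A (P.b s)) := by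
  have m1 : c1 A (P.b r) ∈ B1 A t ⊔ B9 A t := mem_sup_left (P.mb1 r)
  have m9 : c9 A (P.b s) ∈ B1 A t ⊔ B9 A t := mem_sup_right (P.mb9 s)
  have m := cj_mem (h.S1_N1 (mul_mem m9 m1)) (h.mem_N1 (mul_mem (inv_mem (mul_mem m9 m1)) (mul_mem m1 m9))
    (((h.ac1 P r).mul (h.ac9 P s)).same (((h.ac9 P s).mul (h.ac1 P r)).congr fun v => by
      ext <;> simp only [Function.comp] <;> grind)))
  have m' : ⁅c1 A (P.b r), c9 A (P.b s)⁆ ∈ N1 A t := by
    convert m using 1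
    rw [commutatorElement_def]; group
  exact kit.odd' (is2_of_mem h.dbB1.two1 (P.mb1 r)) (mem_Cs.1 (S.cen m') _ m1).symm (odd_of_mem S.odd m')

theorem b46 {y y' : G} (hy : y ∈ U4s A t) (hy' : y' ∈ U4s A t) : ⁅y, c6 A y'⁆ = P.b (P.pi y * P.pi y') := by
  choose! κ hκ using fun y (hy : y ∈ U4s A t) y' (hy' : y' ∈ U4s A t) => (P.b_mem _).1 (h.c46 hy (c6_mem6 hy'))
  have sym : ∀ y ∈ U4s A t, ∀ y' ∈ U4s A t, κ y y' = κ y' y := fun y hy y' hy' => P.b_inj (by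
    rw [← h.c6_B5 (P.mb (κ y y')), ← hκ y hy y' hy', c6_comm, c6_c6, ← commutatorElement_inv, hκ y' hy' y hy,
      h.db5.inv1 (P.mb _)])
  have key : ∀ y ∈ U4s A t, ∀ y' ∈ U4s A t, ∀ y'' ∈ U4s A t, P.pi y'' * κ y y' = P.pi y' * κ y y'' :=
    fun y hy y' hy' y'' hy'' => by
      have e1 := congrArg (c3 A) (h.R3 P hy' (κ y y''))
      rw [c3_mul, c3_mul, c3_mul, c3_c3, h.c3_A4 (P.ma _), c3_c6, c3_eq, ← conj_inv, ← c3_eq, c3_c6] at e1
      nth_rewrite 1 [← hκ y hy y'' hy''] at e1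
      have e2 : ⁅c2 A y', y⁆ = c3 A (P.b (κ y y')) := by
        rw [← h.db5.inv1 (P.mb _), ← hκ y hy y' hy', commutatorElement_inv, c3_comm, c3_c6, h.c3_U4s hy]
      have w := h.dbQ.comm (h.U2s_Qs (c2_mem2 hy')) (h.U6s_Qs (c6_mem6 hy''))
      have m3 := h.le3 (P.mb3 (κ y y'))
      rw [conjugate_commutatorElement, cj_eq, cj_eq, e2, comm_mul_left, comm_mul_right, comm_mul_right,
        comm_eq_one_of_cs (h.U4s_cV hy) w, comm_eq_one_of_cs (h.Vs_ab m3) w, hκ y hy y'' hy'',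
        ← commutatorElement_inv (c6 A y'') (c3 A _), h.comm63 P hy'', h.a_inv, one_mul, one_mul,
        cj_eq_of_cs (h.Vs_ab w) (h.le5 (P.mb _)), cj_eq_of_cs (h.Vs_ab w) (h.le4 (P.ma _)),
        cj_eq_of_cs (h.Vs_ab m3) (h.le5 (P.mb _)), mul_right_inj] at e1
      exact P.a_inj e1
  have m : A.ι (y4 T 1 * x4 T 0) ∈ U4s A t := h.db4.leX ((ι_mem_im A).2 (by simp))
  have p1 := h.pi_L P 1 0
  rw [map_one] at p1
  have k1 : κ (A.ι (y4 T 1 * x4 T 0)) (A.ι (y4 T 1 * x4 T 0)) = 1 := P.b_inj (by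
    rw [← hκ _ m _ m, P.b_one, x4_zero, mul_one, c6, n1_y4, ι_comm, ι_inj, commutatorElement_def]
    ext <;> simp [CharTwo.add_self_eq_zero] <;> grind)
  have k2 := key y hy y' hy' _ m
  have k3 := key _ m y hy _ m
  rw [p1, one_mul] at k2 k3
  rw [hκ y hy y' hy', k2, sym y hy _ m, k3, k1, mul_one, mul_comm]

theorem pi_onto (s : R) : ∃ y ∈ U4s A t, P.pi y = s := by
  haveI := P.char2
  obtain ⟨x, c, rfl⟩ := P.span s
  have m : ∀ c, A.ι (y4 T c * x4 T 0) ∈ U4s A t := fun c => h.db4.leX ((ι_mem_im A).2 (by simp))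
  obtain ⟨y, hy, e⟩ := h.db4.onto _ ((ι_mem_im A).2 (by simp : y4 T c * x4 T 0 ∈ sU4 T))
  have e1 := h.pi_t P hy
  rw [cj_t h.cf.inv, ← inv_mul_cancel_right ⁅t, y⁆ (A.ι (y4 T c * x4 T 0)), h.pi_mul P (mul_mem (h.db4.le0 e) (m c)) hy,
    h.pi_mul P (h.db4.le0 e) (m c), (h.pi_ker P (h.db4.le0 e)).2 e, h.pi_L] at e1
  obtain ⟨x', c', e2⟩ := P.span (P.pi y)
  rw [e2, map_add, AlgEquiv.commutes, map_smul, P.bar_η, smul_add, ← Algebra.algebraMap_eq_smul_one] at e1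
  obtain rfl : c = c' := P.alg_inj (by grind)
  refine ⟨_, mul_mem (m (x + x')) hy, ?_⟩
  rw [h.pi_mul P (m _) hy, h.pi_L, e2, map_add]
  grind

end H1

theorem jobRP : JobRP.{u, v} := fun kit K _ _ _ T G _ _ A t h P sw S sp =>
  ⟨P.pi, fun y hy y' hy' => h.pi_mul P hy hy', h.pi_onto P, fun y hy => h.pi_ker P hy, h.pi_L P,
    fun y hy => (h.pi_t P hy).trans (sp.bar _), fun p y hy => h.pi_h P p hy, fun y hy => h.R3 P hy,
    fun x y => h.c19 P S (by simp), fun y hy y' hy' => h.b46 P hy hy'⟩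

end H65.SR
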