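/- STD-R (S3323): job DW. -/
import Cfsg.Agent.H65.SRRP

set_option autoImplicit false
set_option linter.unusedSectionVars false
set_option linter.unusedVariables false
set_option linter.unusedSimpArgs false

open Subgroup H63.Oc H64.SG
open scoped commutatorElement

universe u v

namespace H65.SR

attribute [-simp] Subgroup.mem_map

theorem cjs_cjs {G : Type*} [Group G] (g g' : G) (Y : Subgroup G) : cjs g (cjs g' Y) = cjs (g * g') Y := by
  ext x; simp only [mem_cjs, mul_inv_rev, mul_assoc]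

theorem cjs_one {G : Type*} [Group G] (Y : Subgroup G) : cjs 1 Y = Y := by
  ext x; simp only [mem_cjs, inv_one, one_mul, mul_one]

theorem mem_cjs' {G : Type*} [Group G] {n g : G} {Y : Subgroup G} : g ∈ cjs n Y ↔ ∃ y ∈ Y, g = n * y * n⁻¹ :=
  ⟨fun h => ⟨_, mem_cjs.1 h, by group⟩, by rintro ⟨y, hy, rfl⟩; exact cj_mem_cjs hy⟩

variable {K : Type*} [Field K] [Fintype K] [CharP K 2] {T : TF K} {G : Type*} [Group G] [Finite G]
  {A : AD T G} {t : G}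

theorem w0_cj (g : G) : w0 A * g * (w0 A)⁻¹ = c6 A (c3 A (c6 A (c3 A (c6 A (c3 A (c6 A (c3 A g))))))) := by
  simp only [w0, pow_succ, pow_zero, one_mul, mul_inv_rev, n1_inv, n8_inv, c6, c3, mul_assoc]

theorem c8_eq (g : G) : c8 A g = c6 A (c3 A (c6 A g)) := rfl
theorem c9_eq (g : G) : c9 A g = c6 A (c1 A g) := rfl
theorem c0_eq (g : G) : c0 A g = c3 A (c8 A g) := rfl
theorem c10_eq (g : G) : c10 A g = c6 A (c0 A g) := rfl
theorem c2_eq (g : G) : c2 A g = c3 A (c6 A g) := rfl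
theorem c7_eq (g : G) : c7 A g = c6 A (c3 A g) := rfl
theorem cj_c2 (g : G) : c2 A g = A.n8 * A.n1 * g * (A.n8 * A.n1)⁻¹ := by rw [cj_cj, ← c6_eq, ← c3_eq]; rfl
theorem cj_c8 (g : G) : c8 A g = A.n1 * (A.n8 * A.n1) * g * (A.n1 * (A.n8 * A.n1))⁻¹ := by
  rw [cj_cj, ← cj_c2, ← c6_eq]; rfl
theorem cj_c7 (g : G) : c7 A g = A.n1 * A.n8 * g * (A.n1 * A.n8)⁻¹ := by rw [cj_cj, ← c3_eq, ← c6_eq]; rfl
theorem cj_c1 (g : G) : c1 A g = A.n8 * (A.n1 * A.n8) * g * (A.n8 * (A.n1 * A.n8))⁻¹ := by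
  rw [cj_cj, ← cj_c7, ← c3_eq]; rfl
theorem cj_id (g : G) : id g = 1 * g * 1⁻¹ := by simp
theorem U2s_eq : U2s A t = cjs (A.n8 * A.n1) (U4s A t) := cjs_cjs _ _ _
theorem U8s_eq : U8s A t = cjs (A.n1 * (A.n8 * A.n1)) (U4s A t) := by rw [← cjs_cjs, ← U2s_eq]; rfl
theorem B7_eq : B7 A t = cjs (A.n1 * A.n8) (B5 A t) := cjs_cjs _ _ _
theorem B1_eq : B1 A t = cjs (A.n8 * (A.n1 * A.n8)) (B5 A t) := by rw [← cjs_cjs, ← B7_eq]; rfl

theorem H1.wf (h : H1 A t) : WF A t := by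
  have sq : w0 A * w0 A = 1 := by rw [w0, ← pow_add]; exact h.cf.braid
  have e : (A.n8 * A.n1) ^ 4 = w0 A := by
    rw [← inv_eq_of_mul_eq_one_right sq, w0, ← inv_pow, mul_inv_rev, n1_inv, n8_inv]
  have n1 : Commute (w0 A) A.n1 := by
    change w0 A * A.n1 = A.n1 * w0 A
    conv_rhs => rw [← e]
    simp only [w0, pow_succ, pow_zero, one_mul, mul_assoc]
  have n8 : Commute (w0 A) A.n8 := by
    change w0 A * A.n8 = A.n8 * w0 A
    conv_lhs => rw [← e]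
    simp only [w0, pow_succ, pow_zero, one_mul, mul_assoc]
  refine ⟨sq, n1, n8, pow_mem (mul_mem h.cf.n1t h.cf.n8t) 4, fun p => ?_, fun g hg => ?_, fun g hg => ?_, fun g hg => ?_⟩
  · simp only [w0_cj, c6, c3, A.n1_h, A.tor.n8_h]
    congr 1
    have s1 := sig_ne (T := T) p.1.ne_zero
    have s2 := sig_ne (T := T) p.2.ne_zero
    ext <;> simp [w1, w8, T.sq] <;> field_simp
  · rw [w0_cj, c1_eq, c3_c3, c6_c6, c3_c3, h.c6_B5 hg]; rfl
  · have e1 : w0 A * c8 A g * (w0 A)⁻¹ = c6 A (w0 A * c2 A g * (w0 A)⁻¹) := by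
      rw [c6_eq, ← cj_cj, ← n1.eq, cj_cj, ← c6_eq]; rfl
    rw [e1, w0_cj, c2_eq, c3_c3, c6_c6, c6_c6, h.c3_U4s hg]; rfl
  · rw [w0_cj, c2_eq, c3_c3, c6_c6, h.c3_U4s hg]; rfl

variable {P : Par A t (K × K)} {sw : Bool} {π : G → K × K} {k k' m n : G} {c c' : G → G} {w w' v v' : K × K}

theorem DB.mul (h : DB P k c w) (h' : DB P k' c w') : DB P (k * k') c (w * w') := fun r => by
  rw [cj_cj, h', h, mul_assoc]
theorem DB.inv (h : DB P k c w) (e : w * w' = 1) : DB P k⁻¹ c w' := fun r => by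
  have := h (w' * r)
  rw [← mul_assoc, e, one_mul] at this
  rw [← this]; group
theorem DB.cj (h : DB P k c w) (m : G) (hc : ∀ g ∈ B5 A t, c' g = m * c g * m⁻¹) : DB P (m * k * m⁻¹) c' w := fun r => by
  rw [hc _ (P.mb _), hc _ (P.mb _), ← h]; group
theorem DB.of_eq (h : DB P k c w) (e : w = w') : DB P k c w' := e ▸ h
theorem DB.ns (h : DB P k c w) (hc : ∀ g, c g = n * g * n⁻¹) : k ∈ Ns (cjs n (B5 A t)) := mem_ns_of fun g hg => by
  obtain ⟨y, hy, rfl⟩ := mem_cjs'.1 hg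
  obtain ⟨r, rfl⟩ := (P.b_mem _).1 hy
  rw [← hc, h, hc]; exact cj_mem_cjs (P.mb _)
theorem DB.cs (h : DB P k c 1) (hc : ∀ g, c g = n * g * n⁻¹) : k ∈ Cs (cjs n (B5 A t)) := mem_Cs.2 fun g hg => by
  obtain ⟨y, hy, rfl⟩ := mem_cjs'.1 hg
  obtain ⟨r, rfl⟩ := (P.b_mem _).1 hy
  rw [← hc, eq_comm, ← mul_inv_eq_iff_eq_mul, h, one_mul]

theorem DU.mul (h : DU P π k c w v) (h' : DU P π k' c w' v') : DU P π (k * k') c (w * w') (v * v') :=
  ⟨fun r => by rw [cj_cj, h'.1, h.1, mul_assoc], fun y hy => by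
    obtain ⟨y', hy', e, e'⟩ := h'.2 y hy
    obtain ⟨y'', hy'', f, f'⟩ := h.2 y' hy'
    exact ⟨y'', hy'', by rw [cj_cj, e, f], by rw [f', e', mul_assoc]⟩⟩
theorem DU.ns (h : DU P π k c w v) (hc : ∀ g, c g = n * g * n⁻¹) : k ∈ Ns (cjs n (U4s A t)) := mem_ns_of fun g hg => by
  obtain ⟨y, hy, rfl⟩ := mem_cjs'.1 hg
  obtain ⟨y', hy', e, -⟩ := h.2 y hy
  rw [← hc, e, hc]; exact cj_mem_cjs hy'
theorem DU.inv (h : DU P π k c w v) (hc : ∀ g, c g = n * g * n⁻¹) (e : w' * w = 1) (e' : v * v' = 1) :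
    DU P π k⁻¹ c w' v' :=
  ⟨fun r => by
    have := h.1 (v' * r)
    rw [← mul_assoc, e', one_mul] at this
    rw [← this]; group, fun y hy => by
    obtain ⟨y', hy', e1⟩ := mem_cjs'.1 (cj_mem (inv_mem (h.ns hc)) (cj_mem_cjs (g := n) hy))
    obtain ⟨y'', hy'', e2, e3⟩ := h.2 y' hy'
    rw [hc, ← e1, hc] at e2
    obtain rfl : y = y'' := by simpa [mul_assoc] using e2
    exact ⟨y', hy', by rw [hc, hc, e1], by rw [e3, ← mul_assoc, e, one_mul]⟩⟩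
theorem DU.cj (h1 : H1 A t) (h : DU P π k c w v) (m : G) (hc : ∀ g ∈ U4s A t, c' g = m * c g * m⁻¹) :
    DU P π (m * k * m⁻¹) c' w v :=
  ⟨fun r => by rw [hc _ (h1.db4.le0 (P.ma _)), hc _ (h1.db4.le0 (P.ma _)), ← h.1]; group, fun y hy => by
    obtain ⟨y', hy', e, e'⟩ := h.2 y hy
    exact ⟨y', hy', by rw [hc _ hy, hc _ hy', ← e]; group, e'⟩⟩
theorem DU.of_eq {θ : K × K → K × K} (h : DU P π k c w (w * θ w)) (e : w = w') : DU P π k c w' (w' * θ w') := e ▸ h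
theorem DU.csA (h : DU P π k c w 1) (hc : ∀ g, c g = n * g * n⁻¹) : k ∈ Cs (cjs n (A4 A t)) := mem_Cs.2 fun g hg => by
  obtain ⟨y, hy, rfl⟩ := mem_cjs'.1 hg
  obtain ⟨r, rfl⟩ := (P.a_mem _).1 hy
  rw [← hc, eq_comm, ← mul_inv_eq_iff_eq_mul, h.1, one_mul]

theorem RP.inv (rp : RP P π) {y : G} (hy : y ∈ U4s A t) : π y⁻¹ = π y := by
  have e1 : π 1 = 0 := (rp.ker 1 (one_mem _)).2 (one_mem _)
  have := rp.mul _ (inv_mem hy) _ hy
  rw [inv_mul_cancel, e1] at this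
  ext
  · have := congrArg Prod.fst this; simp at this; grind
  · have := congrArg Prod.snd this; simp at this; grind

theorem RP.eq (rp : RP P π) {y y' : G} (hy : y ∈ U4s A t) (hy' : y' ∈ U4s A t) (e : π y' = π y) : y' * y⁻¹ ∈ A4 A t :=
  (rp.ker _ (mul_mem hy' (inv_mem hy))).1 (by
    rw [rp.mul _ hy' _ (inv_mem hy), rp.inv hy, e]; ext <;> simp [CharTwo.add_self_eq_zero])

theorem DU.cs (h1 : H1 A t) (rp : RP P π) (h : DU P π k c 1 1) (hc : ∀ g, c g = n * g * n⁻¹) (ho : Odd (orderOf k)) :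
    k ∈ Cs (cjs n (U4s A t)) :=
  kit.stab (Y₀ := cjs n (A4 A t)) (h1.sa.db.two1.map _) ho (h.csA hc) fun g hg => by
    obtain ⟨y, hy, rfl⟩ := mem_cjs'.1 hg
    obtain ⟨y', hy', e, e'⟩ := h.2 y hy
    rw [commutatorElement_def, ← hc, e, hc, hc, conj_inv, conj_mul]
    exact cj_mem_cjs (rp.eq hy hy' (by rw [e', one_mul]))

theorem th_swap (r : K × K) : th T sw r.swap = (th T sw r).swap := by cases sw <;> rfl

theorem DB.tt (h0 : H0 A t) (sp : Sp2 P sw) (h : DB P k c w) (hc : ∀ g, c (t * g * t) = t * c g * t) :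
    DB P (t * k * t) c w.swap := fun r => by
  have e : ∀ r, t * c (P.b r) * t = c (P.b r.swap) := fun r => by rw [← hc, P.t_b, sp.bar]
  have := cj_inv2 h0.cf.inv.1 (h r.swap)
  rwa [e, e, Prod.swap_swap, Prod.swap_mul, Prod.swap_swap] at this

theorem DU.tt (h1 : H1 A t) (sp : Sp2 P sw) (rp : RP P π) (h : DU P π k c w v) (hc : ∀ g, c (t * g * t) = t * c g * t) :
    DU P π (t * k * t) c w.swap v.swap :=
  ⟨fun r => by
    have e : ∀ r, t * c (P.a r) * t = c (P.a r.swap) := fun r => by rw [← hc, P.t_a, sp.bar]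
    have := cj_inv2 h1.cf.inv.1 (h.1 r.swap)
    rwa [e, e, Prod.swap_swap, Prod.swap_mul, Prod.swap_swap] at this, fun y hy => by
    have m := t_mem h1.cf.inv h1.fr4.tY hy
    obtain ⟨y', hy', e, e'⟩ := h.2 _ m
    refine ⟨_, t_mem h1.cf.inv h1.fr4.tY hy', ?_, by rw [rp.pit _ hy', e', rp.pit _ hy, Prod.swap_mul, Prod.swap_swap]⟩
    have := cj_inv2 h1.cf.inv.1 e
    rwa [← hc, ← hc, ← mul_assoc, ← mul_assoc, h1.cf.inv.1, one_mul, mul_assoc y, h1.cf.inv.1, mul_one] at this⟩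

theorem wt_mul {R : Type*} [CommRing R] (θ : R →+* R) (a b a' b' : R) (i : ℕ) :
    wt θ (a * a') (b * b') i = wt θ a b i * wt θ a' b' i := by
  rcases i with _ | _ | _ | _ | _ | _ | _ | _ | i <;> simp only [wt, map_mul] <;> ring

theorem wt_one {R : Type*} [CommRing R] (θ : R →+* R) (i : ℕ) : wt θ 1 1 i = 1 := by
  rcases i with _ | _ | _ | _ | _ | _ | _ | _ | i <;> simp [wt]

theorem wt_swap (a b : K × K) (i : ℕ) : wt (th T sw) a.swap b.swap i = (wt (th T sw) a b i).swap := by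
  rcases i with _ | _ | _ | _ | _ | _ | _ | _ | i <;> simp only [wt, th_swap, Prod.swap_mul, pow_two]

theorem wt_alg (a b : K) (i : ℕ) : wt (th T sw) (algebraMap K (K × K) a) (algebraMap K (K × K) b) i =
    algebraMap K (K × K) (wt T.σ a b i) := by
  rcases i with _ | _ | _ | _ | _ | _ | _ | _ | i <;> cases sw <;> rfl

theorem Dg.mul {a b a' b' : K × K} (h : Dg P sw π k a b) (h' : Dg P sw π k' a' b') :
    Dg P sw π (k * k') (a * a') (b * b') := by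
  have e : ∀ i, wt (th T sw) (a * a') (b * b') i * th T sw (wt (th T sw) (a * a') (b * b') i) =
      wt (th T sw) a b i * th T sw (wt (th T sw) a b i) * (wt (th T sw) a' b' i * th T sw (wt (th T sw) a' b' i)) :=
    fun i => by rw [wt_mul, map_mul]; ring
  refine ⟨mul_mem h.cH h'.cH, ?_, ?_, ?_, ?_, ?_, ?_, ?_, ?_⟩ <;> (try rw [e]) <;> rw [wt_mul]
  exacts [h.d1.mul h'.d1, h.d3.mul h'.d3, h.d5.mul h'.d5, h.d7.mul h'.d7, h.d2.mul h'.d2, h.d4.mul h'.d4,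
    h.d6.mul h'.d6, h.d8.mul h'.d8]

theorem Dg.inv {a b a' b' : K × K} (h : Dg P sw π k a b) (ea : a * a' = 1) (eb : b * b' = 1) : Dg P sw π k⁻¹ a' b' := by
  have e : ∀ i, wt (th T sw) a b i * wt (th T sw) a' b' i = 1 := fun i => by rw [← wt_mul, ea, eb, wt_one]
  have e1 : ∀ i, wt (th T sw) a' b' i * wt (th T sw) a b i = 1 := fun i => by rw [mul_comm, e]
  have e2 : ∀ i, wt (th T sw) a b i * th T sw (wt (th T sw) a b i) *
      (wt (th T sw) a' b' i * th T sw (wt (th T sw) a' b' i)) = 1 := fun i => by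
    rw [mul_mul_mul_comm, ← map_mul, e, map_one, mul_one]
  exact ⟨inv_mem h.cH, h.d1.inv (e 1), h.d3.inv (e 3), h.d5.inv (e 5), h.d7.inv (e 7), h.d2.inv cj_c2 (e1 2) (e2 2),
    h.d4.inv cj_id (e1 4) (e2 4), h.d6.inv c6_eq (e1 6) (e2 6), h.d8.inv cj_c8 (e1 8) (e2 8)⟩

theorem n1_nH : A.n1 ∈ Ns A.h.range := mem_ns_of fun k hk => by rw [n1_inv]; exact n1_H hk
theorem n8_nH : A.n8 ∈ Ns A.h.range := mem_ns_of fun k hk => by rw [n8_inv]; exact n8_H hk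

theorem Dg2.wv (wf : WF A t) {a b : (K × K)ˣ} (h : Dg2 P sw π k a b) : Dg2 P sw π (w0 A * k * (w0 A)⁻¹) a⁻¹ b⁻¹ :=
  ⟨h.2, by rw [← cj_cj, wf.sq, inv_inv, inv_inv]; simpa using h.1⟩

theorem Dg2.n1' (h1 : H1 A t) {a b : (K × K)ˣ} (h : Dg2 P sw π k a b) :
    Dg P sw π (A.n1 * k * A.n1⁻¹) (a⁻¹ : (K × K)ˣ) (a * b : (K × K)ˣ) := by
  have wf := h1.wf
  have ea := a.mul_inv
  have eb := congrArg (th T sw) ea
  rw [map_mul, map_one] at eb
  refine ⟨cj_mem (ns_cs n1_nH) h.1.cH, ?_, (h.1.d7.cj _ fun g _ => by rw [← c6_eq, c6_c7]).of_eq ?_,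
    (h.1.d5.cj _ fun g hg => by rw [← c6_eq, id, h1.c6_B5 hg]).of_eq ?_,
    (h.1.d3.cj _ fun g _ => by rw [← c6_eq, c6_c3]).of_eq ?_,
    (h.1.d8.cj h1 _ fun g _ => by rw [← c6_eq, c8_eq, c6_c6]; rfl).of_eq ?_,
    (h.1.d6.cj h1 _ fun g _ => by rw [← c6_eq, c6_c6]; rfl).of_eq ?_,
    (h.1.d4.cj h1 _ fun g _ => by rw [← c6_eq]; rfl).of_eq ?_,
    (h.1.d2.cj h1 _ fun g _ => by rw [← c6_eq]; rfl).of_eq ?_⟩
  · have := h.2.d1.cj (c' := c1 A) (A.n1 * w0 A) fun g hg => by rw [cj_cj, wf.c9 g hg, ← c6_eq, c9_eq, c6_c6]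
    rwa [cj_cj, ← cj_cj (w0 A), wf.sq, one_mul, inv_one, mul_one] at this
  all_goals simp only [wt, Units.val_mul, map_mul] <;> grind

theorem Dg2.n8' (h1 : H1 A t) {a b : (K × K)ˣ} (h : Dg2 P sw π k a b) :
    Dg P sw π (A.n8 * k * A.n8⁻¹) (a * (b ^ 2 * thU T sw b) : (K × K)ˣ) (b⁻¹ : (K × K)ˣ) := by
  have wf := h1.wf
  have ea := b.mul_inv
  have eb := congrArg (th T sw) ea
  rw [map_mul, map_one] at eb
  refine ⟨cj_mem (ns_cs n8_nH) h.1.cH, (h.1.d7.cj _ fun g _ => by rw [← c3_eq, c3_c7]).of_eq ?_,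
    (h.1.d5.cj _ fun g _ => by rw [← c3_eq]; rfl).of_eq ?_,
    (h.1.d3.cj _ fun g hg => by rw [← c3_eq, c3_c3]; rfl).of_eq ?_,
    (h.1.d1.cj _ fun g _ => by rw [← c3_eq, c3_c1]).of_eq ?_,
    (h.1.d6.cj h1 _ fun g _ => by rw [← c3_eq]; rfl).of_eq ?_,
    (h.1.d4.cj h1 _ fun g hg => by rw [← c3_eq, id, h1.c3_U4s hg]).of_eq ?_,
    (h.1.d2.cj h1 _ fun g _ => by rw [← c3_eq, c3_c2]).of_eq ?_, ?_⟩
  rotate_right
  · have := h.2.d8.cj (c' := c8 A) h1 (A.n8 * w0 A) fun g hg => by rw [cj_cj, wf.c0 g hg, ← c3_eq, c0_eq, c3_c3]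
    rwa [cj_cj, ← cj_cj (w0 A), wf.sq, one_mul, inv_one, mul_one] at this
  all_goals
    simp only [wt, Units.val_mul, Units.val_pow_eq_pow_val, Units.coe_map, MonoidHom.coe_coe, map_mul, map_pow,
      th_th] <;> grind

theorem Dg.tt (h1 : H1 A t) (sp : Sp2 P sw) (rp : RP P π) {a b : K × K} (h : Dg P sw π k a b) :
    Dg P sw π (t * k * t) a.swap b.swap := by
  have e : ∀ i, wt (th T sw) a.swap b.swap i * th T sw (wt (th T sw) a.swap b.swap i) =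
      (wt (th T sw) a b i * th T sw (wt (th T sw) a b i)).swap := fun i => by rw [wt_swap, th_swap, Prod.swap_mul]
  refine ⟨t_mem h1.cf.inv (ns_cs (h1.cf.t_ns (H_le A))) h.cH, ?_, ?_, ?_, ?_, ?_, ?_, ?_, ?_⟩ <;> (try rw [e]) <;>
    rw [wt_swap]
  exacts [h.d1.tt h1.toH0 sp h1.c1_t, h.d3.tt h1.toH0 sp h1.c3_t, h.d5.tt h1.toH0 sp fun _ => rfl,
    h.d7.tt h1.toH0 sp fun g => by rw [c7_eq, c7_eq, h1.c3_t, h1.c6_t],
    h.d2.tt h1 sp rp fun g => by rw [c2_eq, c2_eq, h1.c6_t, h1.c3_t], h.d4.tt h1 sp rp fun _ => rfl,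
    h.d6.tt h1 sp rp h1.c6_t, h.d8.tt h1 sp rp fun g => by rw [c8_eq, c8_eq, h1.c6_t, h1.c3_t, h1.c6_t]]

theorem dg_h (h1 : H1 A t) (rp : RP P π) (p : Kˣ × Kˣ) :
    Dg P sw π (A.h p) (algebraMap K (K × K) p.1) (algebraMap K (K × K) p.2) := by
  have d4 : ∀ p : Kˣ × Kˣ, DU P π (A.h p) id (algebraMap K (K × K) (wt T.σ (p.1 : K) p.2 4))
      (algebraMap K (K × K) (wt T.σ (p.1 : K) p.2 4) * th T sw (algebraMap K (K × K) (wt T.σ (p.1 : K) p.2 4))) :=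
    fun p => ⟨fun r => by
      rw [id, P.h_a, id]
      congr 1
      cases sw <;> ext <;> simp [th_true, th_false, wt, chi4, T.sq] <;> exact Or.inl (by ring),
    fun y hy => ⟨_, cj_mem (h1.HU4 ⟨p, rfl⟩) hy, rfl, by rw [rp.pih p y hy, Algebra.smul_def]⟩⟩
  have d6 : ∀ p : Kˣ × Kˣ, DU P π (A.h p) (c6 A) (algebraMap K (K × K) (wt T.σ (p.1 : K) p.2 6))
      (algebraMap K (K × K) (wt T.σ (p.1 : K) p.2 6) * th T sw (algebraMap K (K × K) (wt T.σ (p.1 : K) p.2 6))) :=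
    fun p => by
      have := (d4 (w1 p)).cj (c' := c6 A) h1 A.n1 fun g _ => c6_eq g
      rw [n1_inv, A.n1_h, w1_w1] at this
      refine this.of_eq (congrArg _ ?_)
      have s1 := sig_ne (T := T) p.1.ne_zero
      simp [wt, w1]; field_simp
  have w88 : ∀ p : Kˣ × Kˣ, w8 T (w8 T p) = p := fun p => by
    have s2 := sig_ne (T := T) p.2.ne_zero
    ext <;> simp [w8]; field_simp
  have d2 : ∀ p : Kˣ × Kˣ, DU P π (A.h p) (c2 A) (algebraMap K (K × K) (wt T.σ (p.1 : K) p.2 2))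
      (algebraMap K (K × K) (wt T.σ (p.1 : K) p.2 2) * th T sw (algebraMap K (K × K) (wt T.σ (p.1 : K) p.2 2))) :=
    fun p => by
      have := (d6 (w8 T p)).cj (c' := c2 A) h1 A.n8 fun g _ => c3_eq _
      rw [n8_inv, A.tor.n8_h, w88] at this
      refine this.of_eq (congrArg _ ?_)
      have s2 := sig_ne (T := T) p.2.ne_zero
      simp [wt, w8]; field_simp
  refine ⟨H_cs A le_rfl ⟨p, rfl⟩, ?_, ?_, ?_, ?_, ?_, ?_, ?_, ?_⟩ <;> rw [wt_alg]
  · exact fun r => by rw [P.h1, Algebra.smul_def]; rfl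
  · exact fun r => by rw [P.h3, Algebra.smul_def]
  · exact fun r => by rw [id, P.h_b, Algebra.smul_def]; rfl
  · exact fun r => by rw [P.h7, Algebra.smul_def]
  · exact d2 p
  · exact d4 p
  · exact d6 p
  · have := (d2 (w1 p)).cj (c' := c8 A) h1 A.n1 fun g _ => c6_eq _
    rw [n1_inv, A.n1_h, w1_w1] at this
    exact this.of_eq (congrArg _ (by simp [wt, w1]))

theorem Dg.nU {a b : K × K} (h : Dg P sw π k a b) (i : ℕ) : k ∈ Ns (Ui A t i) := by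
  have e8 := h.d8.ns cj_c8
  have e1 := h.d1.ns cj_c1
  have e2 := h.d2.ns cj_c2
  have e4 := h.d4.ns cj_id
  have e5 := h.d5.ns cj_id
  have e7 := h.d7.ns cj_c7
  rw [← U8s_eq] at e8
  rw [← B1_eq] at e1
  rw [← U2s_eq] at e2
  rw [cjs_one] at e4 e5
  rw [← B7_eq] at e7
  rcases i with _ | _ | _ | _ | _ | _ | _ | _ | i
  exacts [e8, e1, e2, h.d3.ns c3_eq, e4, e5, h.d6.ns c6_eq, e7, e8]

theorem Dg.cen (h1 : H1 A t) (rp : RP P π) {a b : K × K} (h : Dg P sw π k a b) (ho : Odd (orderOf k)) (i : ℕ)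
    (e : wt (th T sw) a b i = 1) : k ∈ Cs (Ui A t i) := by
  have u : ∀ {c n j}, DU P π k c (wt (th T sw) a b j) (wt (th T sw) a b j * th T sw (wt (th T sw) a b j)) →
      wt (th T sw) a b j = 1 → (∀ g, c g = n * g * n⁻¹) → k ∈ Cs (cjs n (U4s A t)) := fun d e hc => by
    rw [e, map_one, mul_one] at d
    exact d.cs h1 rp hc ho
  have e8 := fun e => u h.d8 e cj_c8
  have e1 := fun e => (h.d1.of_eq (w' := 1) e).cs cj_c1
  have e2 := fun e => u h.d2 e cj_c2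
  have e4 := fun e => u h.d4 e cj_id
  have e5 := fun e => (h.d5.of_eq (w' := 1) e).cs cj_id
  have e7 := fun e => (h.d7.of_eq (w' := 1) e).cs cj_c7
  rw [← U8s_eq] at e8
  rw [← B1_eq] at e1
  rw [← U2s_eq] at e2
  rw [cjs_one] at e4 e5
  rw [← B7_eq] at e7
  rcases i with _ | _ | _ | _ | _ | _ | _ | _ | i
  exacts [e8 e, e1 e, e2 e, (h.d3.of_eq e).cs c3_eq, e4 e, e5 e, u h.d6 e c6_eq, e7 e, e8 e]

theorem Dg2.mul {a b a' b' : (K × K)ˣ} (h : Dg2 P sw π k a b) (h' : Dg2 P sw π k' a' b') :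
    Dg2 P sw π (k * k') (a * a') (b * b') :=
  ⟨h.1.mul h'.1, by rw [← conj_mul, mul_inv, mul_inv]; exact h.2.mul h'.2⟩

theorem Dg2.inv {a b : (K × K)ˣ} (h : Dg2 P sw π k a b) : Dg2 P sw π k⁻¹ a⁻¹ b⁻¹ :=
  ⟨h.1.inv a.mul_inv b.mul_inv, by rw [← conj_inv]; exact h.2.inv a⁻¹.mul_inv b⁻¹.mul_inv⟩

theorem Dg2.tt (h1 : H1 A t) (sp : Sp2 P sw) (rp : RP P π) {a b : (K × K)ˣ} (h : Dg2 P sw π k a b) :
    Dg2 P sw π (t * k * t) (swU a) (swU b) :=
  ⟨h.1.tt h1 sp rp, by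
    have e : w0 A * t * (w0 A)⁻¹ = t := by rw [mem_Cz.1 h1.wf.ct, mul_inv_cancel_right]
    rw [← conj_mul, ← conj_mul, e]
    exact h.2.tt h1 sp rp⟩

theorem dg2_h (h1 : H1 A t) (rp : RP P π) (p : Kˣ × Kˣ) : Dg2 P sw π (A.h p) (dU p.1) (dU p.2) :=
  ⟨dg_h h1 rp p, by rw [h1.wf.h]; exact dg_h h1 rp p⁻¹⟩

theorem Dg2.odd (h1 : H1 A t) (sp : Sp2 P sw) (rp : RP P π) {a b : (K × K)ˣ} (h : Dg2 P sw π k a b) :
    Odd (orderOf k) := by
  have one : Dg2 P sw π 1 1 1 := by simpa using dg2_h (sw := sw) h1 rp 1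
  let Z : Subgroup G :=
    { carrier := {k | Dg2 P sw π k 1 1}
      one_mem' := one
      mul_mem' := fun h h' => by simpa using Dg2.mul h h'
      inv_mem' := fun h => by simpa using Dg2.inv h }
  have ho := (ker_lemma h1.cf.inv (N := Z) (mem_ns_of fun k hk => by
      rw [inv_eq_of_mul_eq_one_right h1.cf.inv.1]
      change Dg2 P sw π _ 1 1
      simpa using Dg2.tt h1 sp rp hk) (eq_bot_iff.2 fun k hk => by
    have d : Dg P sw π k 1 1 := hk.1.1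
    have d4 := d.d4
    have d6 := d.d6
    rw [wt_one, map_one, mul_one] at d4 d6
    obtain ⟨c, hc, rfl⟩ := h1.mem_Q1 hk.2 (cjs_one (A4 A t) ▸ d4.csA cj_id) (d6.csA c6_eq)
    have := h1.la.memT ⟨c, rfl⟩ (cs_anti (TT_le_H A 1) d.cH)
    rw [mem_bot, ι_eq_one]
    ext <;> simp_all [sU])).1
  have pw : ∀ n : ℕ, Dg2 P sw π (k ^ n) (a ^ n) (b ^ n) := fun n => by
    induction n with
    | zero => simpa using one
    | succ n ih => simpa only [pow_succ] using ih.mul h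
  have e : ∀ a : (K × K)ˣ, a ^ (Fintype.card K - 1) = 1 := fun a => by
    have := a.mul_inv
    ext <;> simp only [Units.val_pow_eq_pow_val, Prod.pow_fst, Prod.pow_snd, Units.val_one, Prod.fst_one, Prod.snd_one] <;>
      refine FiniteField.pow_card_sub_one_eq_one _ fun e => ?_
    · have := congrArg Prod.fst this
      rw [Prod.fst_mul, e, zero_mul] at this
      exact zero_ne_one this
    · have := congrArg Prod.snd this
      rw [Prod.snd_mul, e, zero_mul] at this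
      exact zero_ne_one this
  have m : k ^ (Fintype.card K - 1) ∈ Z := by
    have := pw (Fintype.card K - 1)
    rwa [e, e] at this
  have oq : Odd (Fintype.card K - 1) := Nat.Even.sub_odd Fintype.card_pos
    (Nat.even_iff.2 ((FiniteField.even_card_iff_char_two).1 (ringChar.eq K 2))) odd_one
  refine (oq.mul ho).of_dvd_nat (orderOf_dvd_of_pow_eq_one ?_)
  rw [pow_mul]
  exact orderOf_dvd_iff_pow_eq_one.1 (Z.orderOf_dvd_natCard m)

theorem jobDW : JobDW.{u, v} := fun kit K _ _ _ T G _ _ A t P sw π h => by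
  have h1 := h.toH1
  have wf := h1.wf
  refine ⟨wf, Dg2.mul, Dg2.inv, fun d => ⟨by simpa only [n1_inv] using d.n1' h1, ?_⟩,
    fun d => ⟨by simpa only [n8_inv] using d.n8' h1, ?_⟩, Dg2.wv wf,
    Dg2.tt h1 h.sp h.rp, dg2_h h1 h.rp, Dg2.odd h1 h.sp h.rp, fun d => d.1.nU, fun d => ?_,
    fun d => d.1.cen h1 h.rp (d.odd h1 h.sp h.rp)⟩
  · have := (d.wv wf).n1' h1
    rw [← cj_cj, ← wf.n1.eq, cj_cj, n1_inv, ← mul_inv] at this
    exact this
  · have := (d.wv wf).n8' h1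
    rw [← cj_cj, ← wf.n8.eq, cj_cj, n8_inv, thU, map_inv, inv_pow, ← mul_inv, ← mul_inv] at this
    exact this
  · exact ns_of_St ((h1.hgen le_rfl h1.HUs).trans (iSup_le fun i =>
      inf_le_right.trans (le_St_ns (h1.Ui_Us i) (d.1.nU i))))

end H65.SR
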