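/- STD-R (S3323): assembly of the jobs. -/
import Cfsg.Agent.H65.SRSpec2
import Cfsg.Agent.H65.SRKit
import Cfsg.Agent.S1054
import Cfsg.Agent.S1062
import Cfsg.Agent.S1072

set_option autoImplicit false
set_option linter.unusedSectionVars false
set_option linter.unusedVariables false

open Subgroup H63.Oc H64.SG
open scoped commutatorElement

universe u v

namespace H65.SR

structure Jobs : Prop where
  s1 : JobS1.{u, v}
  lb : JobLB.{u, v}
  semi : JobSemi.{u, v}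
  la : JobLA.{u, v}
  s2a : JobS2a.{u, v}
  s2b : JobS2b.{u, v}
  lt : JobLT.{u, v}
  a1 : JobA1.{u, v}
  a1c : JobA1c.{u, v}
  a2 : JobA2.{u, v}
  a3 : JobA3.{u, v}
  v1 : JobV1.{u, v}
  v2 : JobV2.{u, v}
  q1 : JobQ1.{u, v}
  q2 : JobQ2.{u, v}
  u1 : JobU1.{u, v}
  u2 : JobU2.{u, v}
  ra : JobRa.{u, v}
  rb : JobRb.{u, v}
  rc : JobRc.{u, v}
  rp : JobRP.{u, v}
  dw : JobDW.{u, v}
  rt : JobRT.{u, v}
  sm : JobSM.{u, v}
  w1 : JobW1.{u, v}
  w2 : JobW2.{u, v}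
  f2 : JobF2.{u, v}
  f3 : JobF3.{u, v}
  ct : JobCT.{u, v}
  f5 : JobF5.{u, v}
  liftA : JobLiftA.{u, v}
  liftB : JobLiftB.{u, v}
  liftC : JobLiftC.{u, v}
  fin : JobEnd.{u, v}

variable {K : Type v} [Field K] [Fintype K] [CharP K 2] {T : TF K} {G : Type u} [Group G] [Finite G]
  {A : AD T G} {t : G}

theorem Jobs.hla (J : Jobs.{u, v}) (h : Bs A) : LA A :=
  J.la J.semi kit K T G A 1 h (J.lb kit K T G A 1 h.card)

theorem Jobs.h7 (J : Jobs.{u, v}) (h : Cf A t) : H7 A t := by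
  have la := J.hla h.toBs
  have h0 : H0 A t := ⟨h, la, J.lt kit K T G A t h la⟩
  obtain ⟨A', s1⟩ := J.a1 kit K T G A t h0
  have s2 := J.a1c kit K T G A t h0 A' s1
  have h1 : H1 A t := ⟨h0, J.a3 kit K T G A t h0 A' s2 (J.a2 kit K T G A t h0 A' s2)⟩
  have h2 : H2 A t := ⟨h1, J.v1 kit K T G A t h1⟩
  have h3 : H3 A t := ⟨h2, J.v2 kit K T G A t h2⟩
  have h4 : H4 A t := ⟨h3, J.q1 kit K T G A t h3⟩
  have h5 : H5 A t := ⟨h4, J.q2 kit K T G A t h4⟩
  have h6 : H6 A t := ⟨h5, J.u1 kit K T G A t h5⟩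
  exact ⟨h6, J.u2 kit K T G A t h6⟩

theorem Jobs.core (J : Jobs.{u, v}) (h : Cf A t) : (∃ P B, TwoP A t P B) ∧ ∃ G₀, GenP A G₀ := by
  have h7 := J.h7 h
  refine ⟨⟨Us A t, A4 A t, h7.su.fr, h7.su.nt,
    h7.sv.le4.trans (h7.sq.db.le0.trans le_sup_left), h7.su.cA, h7.sa.db⟩, ?_⟩
  obtain ⟨R, _, _, ⟨P₀⟩⟩ := J.ra kit K T G A t h7
  obtain ⟨P, sw, sp⟩ := J.rc kit K T G A t h7 R P₀ (J.rb kit K T G A t h7 R P₀)
  have sl := J.rb kit K T G A t h7 _ P
  obtain ⟨π, rp⟩ := J.rp kit K T G A t h7 P sw sl sp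
  have h8 : H8 P sw π := ⟨h7, sl, sp, rp⟩
  have h9 : H9 P sw π := ⟨h8, J.dw kit K T G A t P sw π h8⟩
  have h10 : H10 P sw π := ⟨h9, J.rt kit K T G A t P sw π h9⟩
  have h11 : H11 P sw π := ⟨h10, J.sm kit K T G A t P sw π h10⟩
  cases sw
  · exact J.w2 kit K T G A t P π h11 (J.w1 kit K T G A t P π h10)
  · obtain ⟨ys, sy⟩ := J.f2 kit K T G A t P π h11
    obtain ⟨a2, c⟩ := J.f3 kit K T G A t P π ys h10 sy
    exact J.f5 J.ct kit K T G A t P π ys h10 sy a2 c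

theorem ns_oddGenerated (g : G) : g ∈ Ns (Cfsg.oddGenerated (⊤ : Subgroup G)) := mem_ns_of fun y hy => by
  have : Cfsg.oddGenerated (⊤ : Subgroup G) ≤ (Cfsg.oddGenerated ⊤).comap (MulAut.conj g).toMonoidHom :=
    (closure_le _).2 fun x hx => subset_closure ⟨mem_top _, by
      have := MulEquiv.orderOf_eq (MulAut.conj g) x
      exact (congrArg Odd this).mpr hx.2⟩
  exact this hy

theorem le_oddGenerated {X : Subgroup G} (h : commutator X = ⊤) : X ≤ Cfsg.oddGenerated ⊤ := by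
  haveI : Fact (Nat.Prime 2) := ⟨Nat.prime_two⟩
  set N := Cfsg.oddGenerated (⊤ : Subgroup G)
  haveI : N.Normal := ⟨fun y hy g => cj_mem (ns_oddGenerated g) hy⟩
  have h2 : IsPGroup 2 (G ⧸ N) := fun x => by
    obtain ⟨g, rfl⟩ := QuotientGroup.mk_surjective x
    obtain ⟨k, n, hn, e⟩ := Nat.exists_eq_two_pow_mul_odd (orderOf_pos g).ne'
    refine ⟨k, ?_⟩
    rw [← QuotientGroup.mk_pow, QuotientGroup.eq_one_iff]
    refine subset_closure ⟨mem_top _, hn.of_dvd_nat (orderOf_dvd_of_pow_eq_one ?_)⟩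
    rw [← pow_mul, ← e, pow_orderOf_eq_one]
  haveI := H1.isSolvable_of_isPGroup h2
  let f := (QuotientGroup.mk' N).comp X.subtype
  by_contra hc
  have h3 : f.range ≠ ⊥ := fun e => hc fun x hx => by
    have : f ⟨x, hx⟩ ∈ f.range := ⟨_, rfl⟩
    rw [e, mem_bot] at this
    exact (QuotientGroup.eq_one_iff x).1 this
  refine (IsSolvable.commutator_lt_of_ne_bot h3).ne ?_
  rw [MonoidHom.range_eq_map, ← map_commutator, ← commutator_def, h]

theorem perfect_of_simple {X : Type*} [Group X] (h : IsSimpleGroup X) (h' : ¬ IsMulCommutative X) :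
    commutator X = ⊤ := by
  refine (h.eq_bot_or_eq_top_of_normal _ inferInstance).resolve_left fun e => h' ⟨⟨fun a b => ?_⟩⟩
  have : ⁅a, b⁆ ∈ commutator X := commutator_mem_commutator (mem_top a) (mem_top b)
  rw [e, mem_bot] at this
  exact commutatorElement_eq_one_iff_mul_comm.1 this

theorem perfect_equiv {X Y : Type*} [Group X] [Group Y] (e : X ≃* Y) (h : commutator Y = ⊤) :
    commutator X = ⊤ := by
  have := map_commutator (⊤ : Subgroup Y) ⊤ e.symm.toMonoidHom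
  rwa [← commutator_def, h, map_top_of_surjective _ e.symm.surjective, ← commutator_def, eq_comm] at this

theorem odd_relIndex {X N : Subgroup G} (hle : X ≤ N) {n : ℕ} (hX : 2 ^ n ∣ Nat.card X)
    (hN : ∀ S : Subgroup G, S ≤ N → IsPGroup 2 S → Nat.card S ≤ 2 ^ n) : Odd (X.relIndex N) := by
  haveI : Fact (Nat.Prime 2) := ⟨Nat.prime_two⟩
  by_contra h
  have h1 : 2 ^ (n + 1) ∣ Nat.card N := by
    rw [← (X.subgroupOf N).card_mul_index, Nat.card_congr (subgroupOfEquivOfLe hle).toEquiv, pow_succ]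
    exact Nat.mul_dvd_mul hX (Nat.not_odd_iff_even.1 h).two_dvd
  obtain ⟨S, hS⟩ := Sylow.exists_subgroup_card_pow_prime 2 h1
  have := hN (S.map N.subtype) (map_subtype_le S) ((IsPGroup.of_card hS).map _)
  rw [card_map_of_injective N.subtype_injective, hS, pow_succ] at this
  have : 0 < 2 ^ n := by positivity
  omega

theorem Jobs.main (J : Jobs.{u, v}) {G : Type u} [Group G] [Finite G]
    (hFs : IsSimpleGroup (Cfsg.generalizedFittingSubgroup G))
    (hFna : ¬ IsMulCommutative (Cfsg.generalizedFittingSubgroup G))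
    (L : Subgroup G) (hL : Cfsg.IsStandardSubgroup L)
    {K : Type v} [Field K] [Fintype K] (m : ℕ) (hm : 1 ≤ m) (hK : Fintype.card K = 2 ^ (2 * m + 1))
    (e : L ≃* Cfsg.Lie.twistedF4 K (2 ^ m))
    (hcyc : ∀ R : Sylow 2 (centralizer (L : Set G)), IsCyclic R) :
    ∃ G₀ : Subgroup G, G₀ ≤ Cfsg.oddGenerated (⊤ : Subgroup G) ∧
      Odd (G₀.relIndex (Cfsg.oddGenerated (⊤ : Subgroup G))) ∧
      (Nonempty (G₀ ≃* Cfsg.Lie.chevF4.group K) ∨
        Nonempty (G₀ ≃* Cfsg.Lie.twistedF4 K (2 ^ m) × Cfsg.Lie.twistedF4 K (2 ^ m))) := by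
  haveI : Fact (Nat.Prime 2) := ⟨Nat.prime_two⟩
  haveI : CharP K 2 := charP_of_card_eq_prime_pow hK
  obtain ⟨T, A, t, rfl, pre⟩ := J.s1 G hFs hFna L hL K m hm hK ⟨e⟩ hcyc
  have la := J.hla pre.toBs
  obtain ⟨n1, n2⟩ := J.s2a kit K T G A t pre la
  obtain ⟨O, cf⟩ := J.s2b kit K T G A t pre la n1 n2
  obtain ⟨G', _, _, φ, A', t', cv, cf'⟩ := J.liftA kit K T G A t O cf la
  obtain ⟨⟨P', B', tp'⟩, G₀', gp⟩ := J.core cf'
  obtain ⟨P, B, tp⟩ := J.liftB kit K T G A t O cf la G' φ A' t' cv P' B' tp'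
  obtain ⟨G₀, h0⟩ := J.liftC kit K T G A t O cf la G' φ A' t' cv G₀' gp
  have hE := J.fin kit K T G A t O cf la P B tp
  have key : commutator G₀ = ⊤ ∧ Fintype.card K ^ 24 ∣ Nat.card G₀ := by
    rcases h0 with ⟨⟨f⟩⟩ | ⟨⟨f⟩⟩
    · obtain ⟨s1, s2⟩ := Cfsg.Agent.S1054.result (F := K) Cfsg.Lie.chevF4 (by simp)
      refine ⟨perfect_equiv f (perfect_of_simple s1 s2), ?_⟩
      rw [Nat.card_congr f.toEquiv, Cfsg.Agent.S1062.result rfl]
      simp only [mul_assoc]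
      exact dvd_mul_right _ _
    · obtain ⟨s1, s2⟩ := Cfsg.Agent.S1072.result hm hK
      have p1 := perfect_equiv e (perfect_of_simple s1 s2)
      refine ⟨perfect_equiv f ?_, ?_⟩
      · rw [commutator_def, ← top_prod_top, commutator_prod_prod, ← commutator_def, p1]
      · have h1 : Fintype.card K ^ 12 ∣ Nat.card A.G0 := by
          rw [← la.cardU]
          exact card_dvd_of_le (by rintro _ ⟨c, rfl⟩; exact ι_mem A c)
        rw [Nat.card_congr f.toEquiv, Nat.card_prod, show 24 = 12 + 12 from rfl, pow_add]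
        exact Nat.mul_dvd_mul h1 h1
  rw [hK, ← pow_mul] at hE key
  exact ⟨G₀, le_oddGenerated key.1, odd_relIndex (le_oddGenerated key.1) key.2 hE,
    h0.imp id fun ⟨f⟩ => ⟨f.trans (e.prodCongr e)⟩⟩

end H65.SR
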