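/- Tower SIM, chapter XB: assembly of the frame case (job SIM-XB-C3). -/
import Cfsg.Agent.H42.SimXBSpec

set_option autoImplicit false

namespace H65.SimC3

open Subgroup Cfsg H98 Matrix H0.Sim H42.SX

variable {n : ℕ} {F : Type} [Field F]

theorem fr_inj (c : GL (Fin n) F) {i j : Fin n} (h : fr c i = fr c j) : i = j := by
  have h1 : ∀ k, ((c⁻¹ : GL (Fin n) F) : Mt n F) * fr c k * (c : Mt n F) = Matrix.single k k 1 := by
    intro k
    unfold fr
    simp only [← mul_assoc, Units.inv_mul, one_mul]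
    rw [mul_assoc, Units.inv_mul, mul_one]
  have h2 : (Matrix.single i i 1 : Mt n F) = Matrix.single j j 1 := by
    rw [← h1 i, ← h1 j, h]
  by_contra hne
  have h3 := congrFun (congrFun h2 i) i
  rw [Matrix.single_apply_same, Matrix.single_apply_of_row_ne (Ne.symm hne)] at h3
  exact one_ne_zero h3

theorem pm_uniq {c b : GL (Fin n) F} {π π' : Equiv.Perm (Fin n)} (h : Pm c b π) (h' : Pm c b π') :
    π = π' :=
  Equiv.ext fun i => fr_inj c ((h i).symm.trans (h' i))

theorem pm_st {c s : GL (Fin n) F} {π : Equiv.Perm (Fin n)} (h : Pm c s π) :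
    St s (dr c : Set (Mt n F)) := by
  intro m hm
  induction hm using Submodule.span_induction with
  | mem x hx =>
    obtain ⟨i, rfl⟩ := hx
    rw [h i]
    exact Submodule.subset_span ⟨_, rfl⟩
  | zero =>
    rw [mul_zero, zero_mul]
    exact (dr c).zero_mem
  | add x y _ _ hx hy =>
    rw [mul_add, add_mul]
    exact (dr c).add_mem hx hy
  | smul a x _ hx =>
    rw [mul_smul_comm, smul_mul_assoc]
    exact (dr c).smul_mem a hx

theorem jobC3 : H42.SX.JobC3 := by
  intro rho sw n4 dgj nf z sf n F _ _ u q p H Q b c hc K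
  classical
  obtain ⟨ρ, hρ, hker⟩ := rho n F c H K.st
  obtain ⟨z1, z2, z3, z4⟩ := z n F u q K.par
  obtain ⟨dg, dinj, dmem, drange, dconj⟩ := dgj n F u q c K.par hc
  have hsurj : Function.Surjective ρ := by
    rw [← MonoidHom.range_eq_top, eq_top_iff, ← Equiv.Perm.closure_isSwap, Subgroup.closure_le]
    rintro σ ⟨i, j, hij, rfl⟩
    obtain ⟨s, hs, hp⟩ := sw n F u q c K.par hc i j hij
    exact ⟨⟨s, K.mp s hs (pm_st hp)⟩, pm_uniq (hρ _) hp⟩
  have hZ : ∀ h : H, (h : GL (Fin n) F) ∈ Zg n F u q → ρ h = 1 := by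
    intro h hh
    obtain ⟨a, ha⟩ := z4 _ hh
    rw [hker, ha]
    have : Matrix.scalar (Fin n) a = a • (1 : Mt n F) := by
      rw [Matrix.scalar_apply, ← Matrix.smul_one_eq_diagonal]
    rw [this]
    exact (dr c).smul_mem a K.one
  have hbH : b ∈ H := K.QH K.bQ
  have hπ1 : ρ ⟨b, hbH⟩ ≠ 1 := fun h => K.bA ((hker _).1 h)
  have hπp : ρ ⟨b, hbH⟩ ^ p = 1 := by
    rw [← map_pow]
    exact hZ _ K.bp
  have hn4 : n ≤ 4 := by
    have hN : (Q.subgroupOf H).Normal := (Subgroup.normal_subgroupOf_iff_le_normalizer K.QH).2 K.nQ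
    refine n4 n p ((Q.subgroupOf H).map ρ) K.pp (hN.map ρ hsurj) ?_ ?_
    · rintro ⟨_, y, hy, rfl⟩
      obtain ⟨k, hk⟩ := K.pQ y hy
      refine ⟨k, Subtype.ext ?_⟩
      show ρ y ^ p ^ k = 1
      rw [← map_pow]
      exact hZ _ hk
    · intro h
      have : ρ ⟨b, hbH⟩ ∈ (Q.subgroupOf H).map ρ := ⟨⟨b, hbH⟩, K.bQ, rfl⟩
      rw [h] at this
      exact hπ1 (Subgroup.mem_bot.1 this)
  have hdl : ∀ t, dl b (dg t) = dg (dc (ρ ⟨b, hbH⟩) t) := by
    intro t
    unfold dl
    rw [dconj b _ (hρ ⟨b, hbH⟩) t, ← map_inv, ← map_mul]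
    rfl
  have hnf := nf n p (mu F u q) (ρ ⟨b, hbH⟩) K.pp hn4 hπ1 hπp (by
    intro t ht
    apply dinj
    rw [← hdl, ← hdl, ← hdl, map_one]
    exact K.del _ ((dmem t).2 ht) (dmem t).1)
  have hm : Nat.card (mu F u q) ≤ 8 ∧ (3 ≤ n → Nat.card (mu F u q) ≤ 4) := by
    rcases hnf with ⟨h2, h8⟩ | h4 | h3
    · exact ⟨z3 8 (by norm_num) h8, fun h => by omega⟩
    · have := z3 4 (by norm_num) h4
      exact ⟨by omega, fun _ => this⟩
    · have := z3 3 (by norm_num) h3
      exact ⟨by omega, fun _ => by omega⟩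
  have hk : Nat.card ρ.ker ≤ Nat.card (mu F u q) ^ n := by
    have h1 : ∀ x : ρ.ker, ∃ t, dg t = ((x : H) : GL (Fin n) F) := fun x =>
      drange _ (K.HG (x : H).2) ((hker _).1 x.2)
    choose f hf using h1
    have h2 : Function.Injective f := by
      intro x y hxy
      apply Subtype.ext
      apply Subtype.ext
      rw [← hf x, ← hf y, hxy]
    have h3 := Nat.card_le_card_of_injective f h2
    rwa [Nat.card_fun, Nat.card_eq_fintype_card (α := Fin n), Fintype.card_fin] at h3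
  have hH : Nat.card H ≤ Nat.card (mu F u q) ^ n * n.factorial := by
    have h1 : Nat.card ρ.ker * ρ.ker.index = Nat.card H := Subgroup.card_mul_index _
    have h2 : ρ.ker.index = n.factorial := by
      rw [Subgroup.index_ker, MonoidHom.range_eq_top.2 hsurj, Subgroup.card_top,
        Nat.card_eq_fintype_card, Fintype.card_perm, Fintype.card_fin]
    rw [← h1, h2]
    exact Nat.mul_le_mul_right _ hk
  intro r f hr hq
  rw [z1]
  exact (Nat.mul_le_mul_right _ hH).trans (sf u n q r f _ hr hq z2 K.par.two hn4 hm.1 hm.2)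

end H65.SimC3
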