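/- Tower SIM, chapter XS: a proper subring with a non-scalar centraliser is moved (job NS). -/
import Cfsg.Agent.H52.SimXSSpec

set_option autoImplicit false

namespace H65.SimNS

open Subgroup Cfsg H98 Matrix H0.Sim H52.XS

theorem mem_GR {n : ℕ} {F : Type} [Field F] [Fintype F] {u : Bool} {q : ℕ}
    {R : Subalgebra F (Mt n F)} {x : GL (Fin n) F} :
    x ∈ GR u q R ↔ x ∈ Gam n F u q ∧ (x : Mt n F) ∈ R := by
  classical
  unfold GR
  rw [Subgroup.mem_inf, Submonoid.mem_units_iff]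
  refine ⟨fun h => ⟨h.1, h.2.1⟩, fun h => ⟨h.1, h.2, ?_⟩⟩
  obtain ⟨k, hk⟩ : x⁻¹ ∈ Submonoid.powers x :=
    mem_powers_iff_mem_zpowers.2 (Subgroup.inv_mem _ (Subgroup.mem_zpowers x))
  have hk' : x ^ k = x⁻¹ := hk
  rw [← hk', Units.val_pow_eq_pow_val]
  exact R.pow_mem h.2 k

theorem job : H52.XS.JobNS := by
  intro sq n F _ _ u q par R x m hx hxR hxZ hm hsc
  by_contra hcon
  push Not at hcon
  obtain ⟨-, h2, h3⟩ := sq n F u q par
  have key : ∀ s ∈ Sg n F u q, ∀ y ∈ GR u q R, s * y * s⁻¹ ∈ GR u q R := by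
    intro s hs y hy
    rw [mem_GR] at hy ⊢
    refine ⟨mul_mem (mul_mem hs.1 hy.1) (inv_mem hs.1), ?_⟩
    simpa only [Units.val_mul, SetLike.mem_coe] using hcon s hs _ hy.2
  have hN : Sg n F u q ≤ normalizer (GR u q R : Set (GL (Fin n) F)) := by
    intro s hs
    rw [Subgroup.mem_normalizer_iff]
    refine fun y => ⟨key s hs y, fun hy => ?_⟩
    have := key s⁻¹ (inv_mem hs) _ hy
    simpa [mul_assoc] using this
  rcases h2 (GR u q R) inf_le_left hN with h | h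
  · exact hxZ (h (mem_GR.2 ⟨hx, hxR⟩))
  · exact hsc (h3 m fun s hs => (hm _ (mem_GR.1 (h hs)).2).symm)

end H65.SimNS
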