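import Cfsg.Agent.H81.Zeta
import Cfsg.Agent.H65.ES62G
set_option maxRecDepth 1000000
set_option Elab.async false
namespace H65.ES62L
open H71 H81
noncomputable def Ls : List Lv := [⟨0x1, [22,20,21], [0,1,0,1,0,1,1,1,1,1,1,0,1,0,1,0,1,1,1,1,1,0,1,1,1,1,1,0,1,1,4,0,1,1,0,1,1,1,7,0,1,1,0,2,0,1,1,0,2,0,1,1,0,1,1,11,2,3,4,8,8,4,11,1,1], 0, 426158546, 22, 63⟩,
  ⟨0x9, [18,19,16,14,12], [0,0,0,0,0,0,0,3,0,0,0,0,0,0,0,4,0,0,0,0,0,0,0,3,0,0,0,0,0,0,0], 0x80008000c000c0000000000080008000400040000000000000000, 357414846, 14, 32⟩,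
  ⟨0x3f, [10,11,8], [0,0,0,0,3,0,0,0,0,3,0,0,0,0], 0x400000002000000000000000d0000, 319367690, 8, 15⟩,
  ⟨0x5, [6,7,4], [0,0,0,3,0,0,0], 0x10000000100010001, 915053519, 5, 8⟩,
  ⟨0x38, [2,3], [0,0], 0x200000000000000000000000000000000000000000000000000000000000000000000000000000000000000000000000000000000000000000000000000000000000000000000000000000000000000000000000000000000000000000000000000000000000000000000000000000000, 3873778, 1022, 3⟩,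
  ⟨0x25, [0], [0], 0x10000000000000000000000000000000000000000000000000000000000000000000000000000000000000000000000000000000000000000000000000000000000000000000000000000, 58346046, 1432, 2⟩]
theorem all {B : Subgroup (Matrix.symplecticGroup (Fin 3) (ZMod 2))} (h0 : GoodM (S62M.C) (MW.spM S62M.e) B [ES62G.a1, ES62G.a0]) : GoodM (S62M.C) (MW.spM S62M.e) B [ES62G.c11, ES62G.c11i, ES62G.c10, ES62G.c10i, ES62G.c9, ES62G.c9i, ES62G.c8, ES62G.c8i, ES62G.c7, ES62G.c7i, ES62G.c6, ES62G.c6i, ES62G.c5, ES62G.c5i, ES62G.c4, ES62G.c4i, ES62G.c3, ES62G.c3i, ES62G.c2, ES62G.c2i, ES62G.a1, ES62G.a1i, ES62G.a0, ES62G.a0i] := by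
  have h2 : GoodM (S62M.C) (MW.spM S62M.e) B [ES62G.a1, ES62G.a1i, ES62G.a0, ES62G.a0i] := ((GoodM.nil.pair (h0 ES62G.a0 (by simp)) (by decide +kernel)).pair (h0 ES62G.a1 (by simp)) (by decide +kernel))
  have h3 : GoodM (S62M.C) (MW.spM S62M.e) B [ES62G.c2, ES62G.c2i, ES62G.a1, ES62G.a1i, ES62G.a0, ES62G.a0i] := GoodM.word h2 [3,1,3,0,0] (by decide +kernel)
  have h4 : GoodM (S62M.C) (MW.spM S62M.e) B [ES62G.c3, ES62G.c3i, ES62G.c2, ES62G.c2i, ES62G.a1, ES62G.a1i, ES62G.a0, ES62G.a0i] := GoodM.word h3 [2,4,3] (by decide +kernel)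
  have h5 : GoodM (S62M.C) (MW.spM S62M.e) B [ES62G.c4, ES62G.c4i, ES62G.c3, ES62G.c3i, ES62G.c2, ES62G.c2i, ES62G.a1, ES62G.a1i, ES62G.a0, ES62G.a0i] := GoodM.word h4 [5,7,4] (by decide +kernel)
  have h6 : GoodM (S62M.C) (MW.spM S62M.e) B [ES62G.c5, ES62G.c5i, ES62G.c4, ES62G.c4i, ES62G.c3, ES62G.c3i, ES62G.c2, ES62G.c2i, ES62G.a1, ES62G.a1i, ES62G.a0, ES62G.a0i] := GoodM.word h5 [9,6,9,6,9,6,9,7,9,7,8,7,8] (by decide +kernel)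
  have h7 : GoodM (S62M.C) (MW.spM S62M.e) B [ES62G.c6, ES62G.c6i, ES62G.c5, ES62G.c5i, ES62G.c4, ES62G.c4i, ES62G.c3, ES62G.c3i, ES62G.c2, ES62G.c2i, ES62G.a1, ES62G.a1i, ES62G.a0, ES62G.a0i] := GoodM.word h6 [7,3,4,3] (by decide +kernel)
  have h8 : GoodM (S62M.C) (MW.spM S62M.e) B [ES62G.c7, ES62G.c7i, ES62G.c6, ES62G.c6i, ES62G.c5, ES62G.c5i, ES62G.c4, ES62G.c4i, ES62G.c3, ES62G.c3i, ES62G.c2, ES62G.c2i, ES62G.a1, ES62G.a1i, ES62G.a0, ES62G.a0i] := GoodM.word h7 [8,2,9] (by decide +kernel)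
  have h9 : GoodM (S62M.C) (MW.spM S62M.e) B [ES62G.c8, ES62G.c8i, ES62G.c7, ES62G.c7i, ES62G.c6, ES62G.c6i, ES62G.c5, ES62G.c5i, ES62G.c4, ES62G.c4i, ES62G.c3, ES62G.c3i, ES62G.c2, ES62G.c2i, ES62G.a1, ES62G.a1i, ES62G.a0, ES62G.a0i] := GoodM.word h8 [2,1,3,3,1] (by decide +kernel)
  have h10 : GoodM (S62M.C) (MW.spM S62M.e) B [ES62G.c9, ES62G.c9i, ES62G.c8, ES62G.c8i, ES62G.c7, ES62G.c7i, ES62G.c6, ES62G.c6i, ES62G.c5, ES62G.c5i, ES62G.c4, ES62G.c4i, ES62G.c3, ES62G.c3i, ES62G.c2, ES62G.c2i, ES62G.a1, ES62G.a1i, ES62G.a0, ES62G.a0i] := GoodM.word h9 [5,2,4] (by decide +kernel)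
  have h11 : GoodM (S62M.C) (MW.spM S62M.e) B [ES62G.c10, ES62G.c10i, ES62G.c9, ES62G.c9i, ES62G.c8, ES62G.c8i, ES62G.c7, ES62G.c7i, ES62G.c6, ES62G.c6i, ES62G.c5, ES62G.c5i, ES62G.c4, ES62G.c4i, ES62G.c3, ES62G.c3i, ES62G.c2, ES62G.c2i, ES62G.a1, ES62G.a1i, ES62G.a0, ES62G.a0i] := GoodM.word h10 [2,1,2,0] (by decide +kernel)
  have h12 : GoodM (S62M.C) (MW.spM S62M.e) B [ES62G.c11, ES62G.c11i, ES62G.c10, ES62G.c10i, ES62G.c9, ES62G.c9i, ES62G.c8, ES62G.c8i, ES62G.c7, ES62G.c7i, ES62G.c6, ES62G.c6i, ES62G.c5, ES62G.c5i, ES62G.c4, ES62G.c4i, ES62G.c3, ES62G.c3i, ES62G.c2, ES62G.c2i, ES62G.a1, ES62G.a1i, ES62G.a0, ES62G.a0i] := GoodM.word h11 [5,3,4] (by decide +kernel)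
  exact h12
theorem gen (B : Subgroup (Matrix.symplecticGroup (Fin 3) (ZMod 2))) (h0 : GoodM (S62M.C) (MW.spM S62M.e) B [ES62G.a1, ES62G.a0]) : B = ⊤ :=
  haveI : Finite (Matrix.symplecticGroup (Fin 3) (ZMod 2)) := Nat.finite_of_card_ne_zero (by rw [S62M.card]; norm_num)
  gen_of_lb (S62M.can) (MW.spM_inj S62M.e) (all h0) (Ls := Ls) (S62M.card) (by decide +kernel)
end H65.ES62L
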