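/- The group `G₂(4)` as a group of coded matrices. -/
import Cfsg.Agent.H65.MV
import Cfsg.Agent.H95.G24
import Cfsg.Agent.S1055

set_option autoImplicit false

namespace H65.G24M

open Cfsg H71 H81 H95.G24

theorem can : C.Can := can_cd2 _

theorem simple : IsSimpleGroup (Lie.chevG2.group H6.F4) :=
  (Cfsg.Agent.S1055.result ⟨H6.F4.w, by decide, by decide⟩).1

theorem equiv (K : Type*) [Field K] [Fintype K] (hK : Fintype.card K = 4) :
    Nonempty (Lie.chevG2.group H6.F4 ≃* Lie.chevG2.group K) := by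
  obtain ⟨a⟩ := equiv_F4
  obtain ⟨b⟩ := equiv_K K hK
  exact ⟨a.symm.trans b⟩

end H65.G24M
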