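/- Minimal degrees of `G₂(q)` (S2338): root tables and weight spaces of root subgroups. -/
import Cfsg.Agent.H63.Aut2
import Cfsg.Agent.H63.RSG2
import Cfsg.Agent.H2.MX2

set_option autoImplicit false
set_option linter.unusedSectionVars false
set_option linter.unusedSimpArgs false
set_option linter.unusedVariables false

namespace H65.MG

open Cfsg.Lie H63 H64 H2.MX Module
open scoped Classical

abbrev D : ChevalleyDatum := chevG2

def ra (r : ℕ) : ℤ := [-3, -3, -2, -1, -1, 0, 0, 1, 1, 2, 3, 3].getD r 0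
def rb (r : ℕ) : ℤ := [-2, -1, -1, -1, 0, -1, 1, 0, 1, 1, 1, 2].getD r 0
/-- the reflection in `r` -/
def rf (r s : ℕ) : ℕ :=
  ((List.range 12).find? fun u => ra u = ra s - D.pairing r s * ra r ∧ rb u = rb s - D.pairing r s * rb r).getD 0

theorem refl_val (r s : Rt D) : (refl r s : ℕ) = rf r s := by
  have h1 : ∀ r s : Rt D, rf r s < D.nroots ∧ ∀ i : Fin D.rank,
      certG2.rtc (rf r s) i = certG2.rtc s i - D.pairing r s * certG2.rtc r i := by decide +kernel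
  exact congrArg Fin.val (rt_inj (r := refl r s) (s := ⟨rf r s, (h1 r s).1⟩) (by
    rw [rt_refl]; funext i; exact ((h1 r s).2 i).symm))

theorem neg_val (r : ℕ) (h : r < 12) : D.neg r = 11 - r := by revert r; decide +kernel

variable {F : Type*} [Field F] [Fintype F] {G : Type*} [Group G] [Finite G] {x : ℕ → F → G}
  {V : Type*} [AddCommGroup V] [Module ℂ V] [FiniteDimensional ℂ V] {ρ : Representation ℂ G V} {ψ : AddChar F ℂ}

/-- the torus element with weights `α` on `a` and `β` on `b` -/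
def tor (x : ℕ → F → G) (α β : F) : G := hh D x 9 α * hh D x 11 β

structure Cx (x : ℕ → F → G) (ρ : Representation ℂ G V) (ψ : AddChar F ℂ) : Prop where
  ad : Ad D x
  simple : IsSimpleGroup G
  irr : ρ.IsIrreducible
  two : 2 ≤ finrank ℂ V
  hψ : ψ ≠ 1

/-- `g` acts on `v` as the scalar `ψ z` -/
def Sc (ρ : Representation ℂ G V) (ψ : AddChar F ℂ) (g : G) (v : V) (z : F) : Prop := ρ g v = ψ z • v

theorem Sc.mul {g g' : G} {v : V} {z z' : F} (h : Sc ρ ψ g v z) (h' : Sc ρ ψ g' v z') : Sc ρ ψ (g * g') v (z + z') := by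
  rw [Sc, mul_app, h', map_smul, h, smul_smul, AddChar.map_add_eq_mul, mul_comm]

theorem Sc.of_eq {g : G} {v : V} {z z' : F} (h : Sc ρ ψ g v z) (e : z = z') : Sc ρ ψ g v z' := e ▸ h

theorem Sc.move {a g y : G} {v : V} {z : F} (e : a * g = g * y) (h : Sc ρ ψ y v z) : Sc ρ ψ a (ρ g v) z := by
  rw [Sc, ← mul_app, e, mul_app, h, map_smul]

theorem sum_erase_le {ι : Type*} [Fintype ι] (f : ι → ℕ) (i : ι) {N : ℕ} (h : ∀ j, j ≠ i → N ≤ f j) :
    f i + Fintype.card ι * N ≤ ∑ j, f j + N := by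
  rw [← Finset.add_sum_erase _ _ (Finset.mem_univ i), ← Finset.card_univ,
    ← Finset.card_erase_add_one (Finset.mem_univ i), add_mul, one_mul, add_assoc]
  exact Nat.add_le_add_left (Nat.add_le_add_right
    (Finset.card_nsmul_le_sum _ _ _ fun j hj => h j (Finset.ne_of_mem_erase hj)) _) _

theorem sum_erase_eq {ι : Type*} [Fintype ι] (f : ι → ℕ) (i : ι) {N : ℕ} (h : ∀ j, j ≠ i → f j = N) :
    f i + Fintype.card ι * N = ∑ j, f j + N := by
  rw [← Finset.add_sum_erase _ _ (Finset.mem_univ i), ← Finset.card_univ,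
    ← Finset.card_erase_add_one (Finset.mem_univ i), add_mul, one_mul, add_assoc,
    Finset.sum_congr rfl fun j hj => h j (Finset.ne_of_mem_erase hj), Finset.sum_const, smul_eq_mul]

theorem pos_iff_ex {W : Submodule ℂ V} : 1 ≤ finrank ℂ W ↔ ∃ v ∈ W, v ≠ 0 :=
  ⟨fun h => ne_bot_of_finrank (by omega), fun ⟨v, h, h0⟩ => Nat.pos_of_ne_zero (finrank_ne_zero h h0)⟩

local notation "E" r => eig ρ ψ (x r)
local notation "P" r => ec ρ ψ (x r)
local notation "q" => Fintype.card F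

theorem sc_x {r : ℕ} {c : F} {v : V} (h : v ∈ (E r) c) (t : F) : Sc ρ ψ (x r t) v (c * t) := h t

theorem wt {r : ℕ} {c c' : F} {v : V} (h : v ∈ (E r) c) (e : c = c') : v ∈ (E r) c' := e ▸ h

theorem fx {r : ℕ} {v : V} (h : v ∈ (E r) 0) (t : F) : ρ (x r t) v = v := by simpa using h t

/-- `W` is invariant under the root subgroup -/
def Iv (x : ℕ → F → G) (ρ : Representation ℂ G V) (r : ℕ) (W : Submodule ℂ V) : Prop := ∀ t, ∀ v ∈ W, ρ (x r t) v ∈ W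

theorem Iv.ec {r : ℕ} {W : Submodule ℂ V} (h : Iv x ρ r W) (c : F) {v : V} (hv : v ∈ W) : (P r) c v ∈ W := by
  rw [ec_apply]; exact Submodule.sum_mem _ fun t _ => Submodule.smul_mem _ _ (h t v hv)

theorem E_mon {g : G} {s u : ℕ} {a c : F} {v : V} (e : ∀ t, g * x s t * g⁻¹ = x u (a * t)) (ha : a ≠ 0)
    (hv : v ∈ (E s) c) : ρ g v ∈ (E u) (c * a⁻¹) :=
  eig_conj (fun t => by rw [← mul_inv_cancel_left₀ ha t, ← e, inv_mul_cancel_left₀ ha]; group) hv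

theorem ec_mon {g : G} {s u : ℕ} {a : F} (e : ∀ t, g * x s t * g⁻¹ = x u (a * t)) (ha : a ≠ 0) (v : V) :
    (P u) 0 (ρ g v) = ρ g ((P s) 0 v) := by
  rw [ec_apply, ec_apply, map_sum, ← Equiv.sum_comp (Equiv.mulLeft₀ a ha)]
  refine Finset.sum_congr rfl fun t _ => ?_
  rw [Equiv.mulLeft₀_apply, ← e, map_smul, zero_mul, zero_mul, ← mul_app, ← mul_app, inv_mul_cancel_right]

namespace Cx
variable (h : Cx x ρ ψ)
include h

theorem sN : StN D x := h.ad.toStN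
theorem st : St D x := h.sN.toSt
theorem add (r : ℕ) (a b : F) (hr : r < 12 := by decide) : x r a * x r b = x r (a + b) := h.st.add r hr a b
theorem zero (r : ℕ) (hr : r < 12 := by decide) : x r 0 = 1 := h.st.x_zero ⟨r, hr⟩
theorem inv (r : ℕ) (a : F) (hr : r < 12 := by decide) : (x r a)⁻¹ = x r (-a) := h.st.x_inv ⟨r, hr⟩ a
theorem par (r : ℕ) (hr : r < 12 := by decide) : Par (x r) (XR D x ⟨r, hr⟩) :=
  ⟨fun a b => (h.add r a b hr).symm, fun _ => h.st.mem_XR⟩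

theorem rel (r s : ℕ) (l : List (ℕ × ℤ × ℕ × ℕ)) (t u : F)
    (hl : r < 12 ∧ s < 12 ∧ s ≠ r ∧ s ≠ D.neg r ∧ D.commTerms r s = l := by decide +kernel) :
    x s u * x r t = x r t * (x s u *
      wd x (l.map fun c => (c.1, (c.2.1 : F) * (-t) ^ c.2.2.1 * u ^ c.2.2.2))) := by
  obtain ⟨h1, h2, h3, h4, rfl⟩ := hl
  rw [← mul_assoc]; exact h.st.comm r s h1 h2 h3 h4 t u

theorem cm (r s : ℕ) (t u : F)
    (hl : r < 12 ∧ s < 12 ∧ s ≠ r ∧ s ≠ D.neg r ∧ D.commTerms r s = [] := by decide +kernel) :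
    x s u * x r t = x r t * x s u := by simpa using h.rel r s [] t u hl

theorem mv0 (r : ℕ) {s : ℕ} {c : F} {v : V} (hv : v ∈ (E s) c) (t : F)
    (hl : r < 12 ∧ s < 12 ∧ s ≠ r ∧ s ≠ D.neg r ∧ D.commTerms r s = [] := by decide +kernel) :
    ρ (x r t) v ∈ (E s) c := fun u => Sc.move (h.cm r s t u hl) (hv u)

/-- one commutator term -/
theorem mv1 (r : ℕ) {s u : ℕ} (k : ℤ) {c d : F} {v : V} (hv : v ∈ (E s) c) (hu : v ∈ (E u) d) (t : F)
    (hl : r < 12 ∧ s < 12 ∧ s ≠ r ∧ s ≠ D.neg r ∧ D.commTerms r s = [(u, k, 1, 1)] := by decide +kernel) :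
    ρ (x r t) v ∈ (E s) (c - k * d * t) := fun z => Sc.move (h.rel r s _ t z hl) (by
  simp only [List.map_cons, List.map_nil, wd_cons, wd_nil, mul_one]
  exact ((sc_x hv z).mul (sc_x hu _)).of_eq (by ring))

theorem mv1' (r : ℕ) {s u : ℕ} (k : ℤ) {c : F} {v : V} (hv : v ∈ (E s) c) (hu : v ∈ (E u) 0) (t : F)
    (hl : r < 12 ∧ s < 12 ∧ s ≠ r ∧ s ≠ D.neg r ∧ D.commTerms r s = [(u, k, 1, 1)] := by decide +kernel) :
    ρ (x r t) v ∈ (E s) c := by simpa using h.mv1 r k hv hu t hl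

theorem self {r : ℕ} {c : F} {v : V} (hv : v ∈ (E r) c) (t : F) : ρ (x r t) v ∈ (E r) c := by
  rw [hv t]; exact Submodule.smul_mem _ _ hv

theorem ec_mem (r : ℕ) (c : F) (v : V) (hr : r < 12 := by decide) : (P r) c v ∈ (E r) c := (h.par r hr).ec_mem c v

theorem ec_self {r : ℕ} {c : F} {v : V} (hv : v ∈ (E r) c) : (P r) c v = (q : ℂ) • v := by
  rw [ec_of_eig h.hψ hv, if_pos rfl]

theorem ec_ne {r : ℕ} {c c' : F} {v : V} (hv : v ∈ (E r) c') (e : c' ≠ c) : (P r) c v = 0 := by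
  rw [ec_of_eig h.hψ hv, if_neg e, zero_smul]

theorem eq_zero {r : ℕ} {c c' : F} {v : V} (hv : v ∈ (E r) c) (hv' : v ∈ (E r) c') (e : c' ≠ c) : v = 0 :=
  (smul_eq_zero.1 ((h.ec_self hv).symm.trans (h.ec_ne hv' e))).resolve_left card_ne

theorem wt_eq {r : ℕ} {c c' : F} {v : V} (hv : v ∈ (E r) c) (hv' : v ∈ (E r) c') (h0 : v ≠ 0) : c' = c :=
  by_contra fun e => h0 (h.eq_zero hv hv' e)

theorem ec_x (r : ℕ) (t : F) (v : V) (hr : r < 12 := by decide) : (P r) 0 (ρ (x r t) v) = (P r) 0 v := by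
  rw [ec_apply, ec_apply, ← Equiv.sum_comp (Equiv.addRight t) fun z => ψ (-(0 * z)) • ρ (x r z) v]
  simp [← mul_app, h.add r _ _ hr]

theorem ex (r : ℕ) {W : Submodule ℂ V} (hW : Iv x ρ r W) {v : V} (hv : v ∈ W) (h0 : v ≠ 0) (hr : r < 12 := by decide) :
    ∃ c, ∃ u, (u ∈ W ∧ u ∈ (E r) c) ∧ u ≠ 0 :=
  (h.par r hr).exists_eig h.hψ (fun g hg => by
    obtain ⟨t, rfl⟩ := h.st.mem_XR.1 hg
    exact mem_Pres (hW t)) hv h0

theorem split (r : ℕ) {W : Submodule ℂ V} (hW : Iv x ρ r W) (hr : r < 12 := by decide) :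
    finrank ℂ W = ∑ c, finrank ℂ ↥(W ⊓ (E r) c) := by
  refine le_antisymm ((Submodule.finrank_mono fun v hv => ?_).trans (finrank_sup_le _ _))
    (sum_finrank_le _ (fun _ => 0) _ (P r) ?_ ?_ _ fun c _ => inf_le_left)
  · rw [← Submodule.smul_mem_iff _ (card_ne (F := F)), ← (h.par r hr).sum_ec h.hψ]
    exact Submodule.sum_mem _ fun c hc => (Finset.le_sup (f := fun c => W ⊓ (E r) c) hc :)
      ⟨hW.ec c hv, h.ec_mem r c v hr⟩
  · intro c _ v hv e
    exact (smul_eq_zero.1 ((h.ec_self hv.2).symm.trans e)).resolve_left card_ne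
  · exact fun c _ c' _ hne _ v hv => h.ec_ne hv.2 hne.symm

/-- all weights have the same multiplicity -/
theorem even (r : ℕ) {W : Submodule ℂ V} (hW : Iv x ρ r W)
    (hm : ∀ c c', ∃ g, ∀ v, v ∈ W → v ∈ (E r) c → ρ g v ∈ W ∧ ρ g v ∈ (E r) c') (c : F) (hr : r < 12 := by decide) :
    finrank ℂ W = q * finrank ℂ ↥(W ⊓ (E r) c) := by
  have k : ∀ c c', finrank ℂ ↥(W ⊓ (E r) c) ≤ finrank ℂ ↥(W ⊓ (E r) c') := fun c c' => by
    obtain ⟨g, hg⟩ := hm c c'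
    exact finrank_le_of_map g fun v hv => hg v hv.1 hv.2
  rw [h.split r hW hr, Finset.sum_congr rfl fun c' _ => le_antisymm (k c' c) (k c c')]
  simp

/-- an operator that preserves the weight spaces commutes with the root subgroup -/
theorem comm_of (r : ℕ) {f : End ℂ V} (hf : ∀ c, ∀ v ∈ (E r) c, f v ∈ (E r) c) (t : F) (v : V)
    (hr : r < 12 := by decide) : f (ρ (x r t) v) = ρ (x r t) (f v) := by
  refine smul_right_injective V (card_ne (F := F)) ?_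
  simp only [← map_smul, ← (h.par r hr).sum_ec (ρ := ρ) h.hψ v, map_sum]
  exact Finset.sum_congr rfl fun c _ => by rw [h.ec_mem r c v hr t, map_smul, hf c _ (h.ec_mem r c v hr) t]

/-- on a line normalised by `g`, a root subgroup moved by `g` acts trivially -/
theorem line (r : ℕ) {W : Submodule ℂ V} (h1 : finrank ℂ W ≤ 1) (hW : Iv x ρ r W) {g : G} (hg : ∀ v ∈ W, ρ g v ∈ W)
    {a : F} (e : ∀ t, g * x r t * g⁻¹ = x r (a * t)) (ha : a ≠ 1) {v : V} (hv : v ∈ W) (hr : r < 12 := by decide) :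
    v ∈ (E r) 0 := fun t => by
  have := comm_mem_Fx h1 hv (mem_Pres hg) (mem_Pres (hW ((a - 1)⁻¹ * t)))
  rw [e, h.inv r _ hr, h.add r _ _ hr, show a * ((a - 1)⁻¹ * t) + -((a - 1)⁻¹ * t) = t by
    have := sub_ne_zero.2 ha; field_simp; ring] at this
  simpa [mem_Fx] using this

theorem tor_x {α β : F} (hα : α ≠ 0) (hβ : β ≠ 0) (r : ℕ) (t : F) (hr : r < 12 := by decide) :
    tor x α β * x r t * (tor x α β)⁻¹ = x r (α ^ ra r * β ^ rb r * t) := by
  have p : ∀ r < 12, D.pairing 9 r = ra r ∧ D.pairing 11 r = rb r := by decide +kernel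
  have h1 := h.sN.hh_conj ⟨9, by decide⟩ ⟨r, hr⟩ hα (β ^ rb r * t)
  have h2 := h.sN.hh_conj ⟨11, by decide⟩ ⟨r, hr⟩ hβ t
  simp only [(p r hr).1, (p r hr).2] at h1 h2
  rw [mul_assoc (α ^ _), ← h1, ← h2, tor]; group

theorem tor_n {α β : F} (hα : α ≠ 0) (hβ : β ≠ 0) (r i j : ℕ) (t : F)
    (hr : r < 12 ∧ ra r = i ∧ rb r = j := by decide) :
    tor x α β * x r t * (tor x α β)⁻¹ = x r (α ^ i * β ^ j * t) := by
  rw [h.tor_x hα hβ r t hr.1, hr.2.1, hr.2.2, zpow_natCast, zpow_natCast]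

theorem tE {α β : F} (hα : α ≠ 0) (hβ : β ≠ 0) {r : ℕ} (i j : ℕ) {c c' : F} {v : V} (hv : v ∈ (E r) c)
    (e : c = c' * (α ^ i * β ^ j)) (hr : r < 12 ∧ ra r = i ∧ rb r = j := by decide) : ρ (tor x α β) v ∈ (E r) c' := by
  have h0 : α ^ i * β ^ j ≠ 0 := mul_ne_zero (pow_ne_zero _ hα) (pow_ne_zero _ hβ)
  have := E_mon (fun t => h.tor_n hα hβ r i j t hr) h0 hv
  rwa [e, mul_inv_cancel_right₀ h0] at this

theorem tE0 {α β : F} (hα : α ≠ 0) (hβ : β ≠ 0) {r : ℕ} {v : V} (hv : v ∈ (E r) 0) (hr : r < 12 := by decide) :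
    ρ (tor x α β) v ∈ (E r) 0 := by
  simpa using E_mon (fun t => h.tor_x hα hβ r t hr) (mul_ne_zero (zpow_ne_zero _ hα) (zpow_ne_zero _ hβ)) hv

theorem nx (r s u : ℕ) {t : F} (ht : t ≠ 0) (hr : r < 12 ∧ s < 12 ∧ rf r s = u := by decide +kernel) :
    ∃ a, a ≠ 0 ∧ (∀ z, nn D x r t * x s z * (nn D x r t)⁻¹ = x u (a * z)) ∧
      ∀ z, nn D x r t * nn D x s z * (nn D x r t)⁻¹ = nn D x u (a * z) := by
  obtain ⟨η, h1, h2⟩ := h.sN.nn_conj ⟨r, hr.1⟩ ⟨s, hr.2.1⟩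
  simp only [negR_val, refl_val, hr.2.2] at h2
  refine ⟨_, mul_ne_zero (left_ne_zero_of_mul_eq_one h1) (zpow_ne_zero _ ht), fun z => (h2 t ht z).1,
    conj_nn (fun z => (h2 t ht z).1) fun z => ?_⟩
  rw [(h2 t ht z).2, mul_inv, zpow_neg, inv_inv, inv_eq_of_mul_eq_one_right h1]

theorem nE (r s u : ℕ) {t : F} (ht : t ≠ 0) (hr : r < 12 ∧ s < 12 ∧ rf r s = u := by decide +kernel) :
    ∃ a, a ≠ 0 ∧ ∀ c v, v ∈ (E s) c → ρ (nn D x r t) v ∈ (E u) (c * a) := by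
  obtain ⟨a, ha, e, -⟩ := h.nx r s u ht hr
  exact ⟨a⁻¹, inv_ne_zero ha, fun c v hv => E_mon e ha hv⟩

theorem nE0 (r : ℕ) {s : ℕ} (u : ℕ) {t : F} (ht : t ≠ 0) {v : V} (hv : v ∈ (E s) 0)
    (hr : r < 12 ∧ s < 12 ∧ rf r s = u := by decide +kernel) : ρ (nn D x r t) v ∈ (E u) 0 := by
  obtain ⟨a, -, e⟩ := h.nE r s u ht hr
  simpa using e 0 v hv

theorem ec_n (r s u : ℕ) {t : F} (ht : t ≠ 0) (v : V) (hr : r < 12 ∧ s < 12 ∧ rf r s = u := by decide +kernel) :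
    (P u) 0 (ρ (nn D x r t) v) = ρ (nn D x r t) ((P s) 0 v) := by
  obtain ⟨a, ha, e, -⟩ := h.nx r s u ht hr
  exact ec_mon e ha v

theorem nn_inv (r : ℕ) (t : F) (hr : r < 12 := by decide) : (nn D x r t)⁻¹ = nn D x r (-t) := h.st.nn_inv ⟨r, hr⟩ t
theorem nn_hh (r : ℕ) (t : F) (hr : r < 12 := by decide) : nn D x r t = hh D x r t * nn D x r 1 :=
  h.st.nn_eq_hh_mul ⟨r, hr⟩ t
theorem x_neg (r : ℕ) (t : F) (hr : r < 12 := by decide) :
    x (11 - r) (-t⁻¹) = x r (-t) * nn D x r t * x r (-t) := by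
  rw [← neg_val r hr]; exact h.st.x_neg_eq ⟨r, hr⟩ t

theorem ec_hh (r s : ℕ) {l : F} (hl : l ≠ 0) (v : V) (hr : r < 12 := by decide) (hs : s < 12 := by decide) :
    (P s) 0 (ρ (hh D x r l) v) = ρ (hh D x r l) ((P s) 0 v) :=
  ec_mon (h.sN.hh_conj ⟨r, hr⟩ ⟨s, hs⟩ hl) (zpow_ne_zero _ hl) v

/-- an element is determined by its action on the root elements -/
theorem ext {g g' : G} (e : ∀ r < 12, ∀ t, g * x r t * g⁻¹ = g' * x r t * g'⁻¹) : g = g' := by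
  have k : ∀ r < 12, g'⁻¹ * g * x r 1 = x r 1 * (g'⁻¹ * g) := fun r hr => by
    rw [mul_assoc, mul_inv_eq_iff_eq_mul.1 (e r hr 1)]; group
  rw [eq_comm, ← inv_mul_eq_one]
  exact h.ad.eq_one_of_comm fun i => ⟨k _ (simpleR i : Rt D).2, k _ (negR (simpleR i : Rt D)).2⟩

theorem tor_comm {α β α' β' : F} (hα : α ≠ 0) (hβ : β ≠ 0) (hα' : α' ≠ 0) (hβ' : β' ≠ 0) :
    tor x α β * tor x α' β' = tor x α' β' * tor x α β := h.ext fun r hr t => by
  rw [show ∀ a b y : G, a * b * y * (a * b)⁻¹ = a * (b * y * b⁻¹) * a⁻¹ from fun _ _ _ => by group,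
    show ∀ a b y : G, a * b * y * (a * b)⁻¹ = a * (b * y * b⁻¹) * a⁻¹ from fun _ _ _ => by group,
    h.tor_x hα hβ r _ hr, h.tor_x hα' hβ' r _ hr, h.tor_x hα hβ r _ hr, h.tor_x hα' hβ' r _ hr, mul_left_comm]

theorem sum_ne {c : F} (hc : c ≠ 0) : ∑ t ∈ Finset.univ.erase (0 : F), ψ (-(c * t)) = -1 := by
  have := sum_psi h.hψ (-c)
  rw [if_neg (neg_ne_zero.2 hc), ← Finset.add_sum_erase _ _ (Finset.mem_univ 0), mul_zero, AddChar.map_zero_eq_one] at this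
  simp only [neg_mul] at this
  exact eq_neg_of_add_eq_zero_right this

theorem ec_neg (r : ℕ) {w : V} (hw : w ∈ (E r) 0) (hr : r < 12 := by decide) :
    (P (11 - r)) 0 w = w + ∑ t ∈ Finset.univ.erase (0 : F), ρ (x r (-t)) (ρ (nn D x r t) w) := by
  rw [ec_apply, ← Finset.add_sum_erase _ _ (Finset.mem_univ 0), h.zero _ (by omega)]
  congr 1
  · simp
  · refine (Finset.sum_bijective (fun t => -t⁻¹) (neg_involutive.bijective.comp inv_involutive.bijective) (by simp)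
      fun t _ => ?_).symm
    simp [h.x_neg r t hr, mul_app, fx hw]

/-- the Hecke operator is injective -/
theorem hk_inj (r : ℕ) {w : V} (hw : w ∈ (E r) 0) (e : (P r) 0 (ρ (nn D x r 1) w) = 0)
    (hr : r < 12 ∧ r < 12 ∧ rf r r = 11 - r := by decide +kernel) : w = 0 := by
  have k : ∀ t, t ≠ 0 → (P r) 0 (ρ (nn D x r t) w) = 0 := fun t ht => by
    rw [h.nn_hh r t hr.1, mul_app, h.ec_hh r r ht _ hr.1 hr.1, e, map_zero]
  have e1 := h.ec_n r r _ one_ne_zero (ρ (nn D x r (-1)) w) hr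
  rw [k _ (by simp), map_zero, ← h.nn_inv r 1 hr.1, apply_inv, h.ec_neg r hw hr.1] at e1
  have e2 := congrArg ((P r) 0) e1
  rw [map_add, map_sum, Finset.sum_eq_zero fun t ht => (h.ec_x r _ _ hr.1).trans (k t (Finset.ne_of_mem_erase ht)),
    add_zero, map_zero, h.ec_self hw] at e2
  exact (smul_eq_zero.1 e2).resolve_left card_ne

section Hecke
variable (r : ℕ) {w : V} {K : ℂ} (hw : w ∈ eig ρ ψ (x r) 0) (hh1 : ∀ l, l ≠ 0 → ρ (hh D x r l) w = w)
include hh1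

theorem hk_n {t : F} (ht : t ≠ 0) (hr : r < 12 := by decide) : ρ (nn D x r t) w = ρ (nn D x r 1) w := by
  have k : ∀ t, t ≠ 0 → ρ (nn D x r t) w = ρ (nn D x r 1)⁻¹ w := fun t ht => by
    rw [← inv_inv (nn D x r t), h.nn_inv r t hr, h.nn_hh r _ hr, mul_inv_rev, mul_app]
    nth_rewrite 1 [← hh1 (-t) (neg_ne_zero.2 ht)]
    rw [inv_apply]
  rw [k t ht, k 1 one_ne_zero]

variable (e : ec ρ ψ (x r) 0 (ρ (nn D x r 1) w) = K • w)
include hw e

theorem hk1 (hr : r < 12 ∧ r < 12 ∧ rf r r = 11 - r := by decide +kernel) :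
    (P (11 - r)) 0 w = K • ρ (nn D x r 1) w := by
  have e1 := h.ec_n r r _ one_ne_zero (ρ (nn D x r (-1)) w) hr
  rwa [← mul_app, ← h.nn_inv r 1 hr.1, mul_inv_cancel, map_one, h.nn_inv r 1 hr.1, h.hk_n r hh1 (by simp) hr.1, e,
    map_smul] at e1

theorem hk2 (hr : r < 12 ∧ r < 12 ∧ rf r r = 11 - r := by decide +kernel) :
    K = -1 ∨ ρ (nn D x r 1) w = w := by
  have e1 := h.ec_neg r hw hr.1
  rw [h.hk1 r hw hh1 e hr, Finset.sum_congr rfl (g := fun t => ρ (x r (-t)) (ρ (nn D x r 1) w)) fun t ht =>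
    congrArg _ (h.hk_n r hh1 (Finset.ne_of_mem_erase ht) hr.1)] at e1
  rw [ec_apply, ← Equiv.sum_comp (Equiv.neg F), ← Finset.add_sum_erase _ _ (Finset.mem_univ 0)] at e
  simp only [Equiv.neg_apply, neg_zero, zero_mul, AddChar.map_zero_eq_one, one_smul, h.zero r hr.1, map_one,
    End.one_apply] at e
  have : (K + 1) • (ρ (nn D x r 1) w - w) = 0 := by
    rw [smul_sub, add_smul, add_smul, e1, ← e, one_smul, one_smul]; abel
  exact (smul_eq_zero.1 this).imp eq_neg_of_add_eq_zero_left sub_eq_zero.1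

theorem hk3 {z : F} (hz : z ≠ 0) (hr : r < 12 ∧ r < 12 ∧ rf r r = 11 - r := by decide +kernel) :
    (P (11 - r)) 0 ((P r) z (ρ (nn D x r 1) w)) = ((q : ℂ) - K) • ρ (nn D x r 1) w := by
  rw [ec_apply (c := z), map_sum, ← Finset.add_sum_erase _ _ (Finset.mem_univ 0), h.zero r hr.1,
    Finset.sum_congr rfl (g := fun t => ψ (-(z * t)) • K • ρ (nn D x r 1) w) fun t ht => by
      have e1 := h.x_neg r (-t) hr.1
      rw [neg_neg] at e1
      rw [map_smul, ← h.hk_n r hh1 (neg_ne_zero.2 (Finset.ne_of_mem_erase ht)) hr.1, ← fx hw t, ← mul_app, ← mul_app,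
        ← e1, h.ec_x _ _ _ (by omega), fx hw t, h.hk1 r hw hh1 e hr,
        h.hk_n r hh1 (neg_ne_zero.2 (Finset.ne_of_mem_erase ht)) hr.1],
    ← Finset.sum_smul, h.sum_ne hz]
  simp [h.ec_self (h.nE0 r _ one_ne_zero hw hr), sub_eq_add_neg, add_smul]

end Hecke

end Cx

end H65.MG
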