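/- Minimal degrees of `G₂(q)` (S2338): the weights of `X₁₀ X₁₁`, and the characteristic `≠ 3`. -/
import Cfsg.Agent.H65.MG1

set_option autoImplicit false
set_option linter.unusedSectionVars false
set_option linter.unusedSimpArgs false
set_option linter.unusedVariables false

namespace H65.MG

open Cfsg.Lie H63 H64 H2.MX Module
open scoped Classical

variable {F : Type*} [Field F] [Fintype F] {G : Type*} [Group G] [Finite G] {x : ℕ → F → G}
  {V : Type*} [AddCommGroup V] [Module ℂ V] [FiniteDimensional ℂ V] {ρ : Representation ℂ G V} {ψ : AddChar F ℂ}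

local notation "E" r => eig ρ ψ (x r)
local notation "P" r => ec ρ ψ (x r)
local notation "q" => Fintype.card F

/-- weights of `X₁₀ X₁₁` -/
abbrev WA (x : ℕ → F → G) (ρ : Representation ℂ G V) (ψ : AddChar F ℂ) (c d : F) : Submodule ℂ V :=
  eig ρ ψ (x 11) d ⊓ eig ρ ψ (x 10) c
/-- weights of `X₉ X₁₀ X₁₁` -/
abbrev WB (x : ℕ → F → G) (ρ : Representation ℂ G V) (ψ : AddChar F ℂ) (b c d : F) : Submodule ℂ V :=
  WA x ρ ψ c d ⊓ eig ρ ψ (x 9) b

local notation "A" => WA x ρ ψ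
local notation "B" => WB x ρ ψ

theorem exists_pow_ne {n : ℕ} (h0 : 0 < n) (h : n + 1 < q) : ∃ a : F, a ≠ 0 ∧ a ^ n ≠ 1 := by
  by_contra hc
  push Not at hc
  have := (Finset.card_le_card (s := Finset.univ.erase (0 : F)) (t := (Polynomial.nthRoots n (1 : F)).toFinset)
    fun a ha => by simpa [Polynomial.mem_nthRoots h0] using hc a (Finset.ne_of_mem_erase ha)).trans
    ((Multiset.toFinset_card_le _).trans (Polynomial.card_nthRoots n 1))
  rw [Finset.card_erase_of_mem (Finset.mem_univ _), Finset.card_univ] at this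
  omega

namespace Cx
variable (h : Cx x ρ ψ)
include h

theorem iv9 (c d : F) : Iv x ρ 9 (A c d) := fun t v hv => ⟨h.mv0 9 hv.1 t, h.mv0 9 hv.2 t⟩
theorem iv6 : Iv x ρ 6 (A 0 0) := fun t v hv => ⟨h.mv0 6 hv.1 t, h.mv1' 6 1 hv.2 hv.1 t⟩

theorem dimA1 (c : F) {d : F} (hd : d ≠ 0) : finrank ℂ (A c d) = finrank ℂ (A 0 1) := by
  have k1 : ∀ c c', finrank ℂ (A c d) ≤ finrank ℂ (A c' d) := fun c c' =>
    finrank_le_of_map (x 6 ((c - c') / d)) fun v hv => ⟨h.mv0 6 hv.1 _,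
      wt (h.mv1 6 1 hv.2 hv.1 _) (by field_simp; ring)⟩
  have k2 : ∀ {d d' : F}, d ≠ 0 → d' ≠ 0 → finrank ℂ (A 0 d) ≤ finrank ℂ (A 0 d') := fun {d d'} hd hd' =>
    finrank_le_of_map (tor x (d / d') (d / d')⁻¹) fun v hv => by
      have h0 := div_ne_zero hd hd'
      exact ⟨h.tE h0 (inv_ne_zero h0) 3 2 hv.1 (by field_simp), h.tE0 h0 (inv_ne_zero h0) hv.2⟩
  exact (le_antisymm (k1 _ _) (k1 _ _)).trans (le_antisymm (k2 hd one_ne_zero) (k2 one_ne_zero hd))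

theorem dimA2 {c : F} (hc : c ≠ 0) : finrank ℂ (A c 0) = finrank ℂ (A 0 1) := by
  obtain ⟨a, ha, e⟩ := h.nE 6 10 11 one_ne_zero
  obtain ⟨a', ha', e'⟩ := h.nE 6 11 10 one_ne_zero
  refine le_antisymm (h.dimA1 0 (mul_ne_zero hc ha) ▸ finrank_le_of_map (nn D x 6 1) fun v hv =>
    ⟨e c v hv.2, h.nE0 6 10 one_ne_zero hv.1⟩) (h.dimA1 0 (div_ne_zero hc ha') ▸ finrank_le_of_map (nn D x 6 1)
      fun v hv => ⟨h.nE0 6 11 one_ne_zero hv.2, ?_⟩)
  simpa [ha'] using e' _ v hv.1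

theorem sumA : finrank ℂ V = ∑ p : F × F, finrank ℂ (A p.2 p.1) := by
  rw [Fintype.sum_prod_type, ← finrank_top, h.split 11 (W := ⊤) fun _ _ _ => trivial]
  exact Finset.sum_congr rfl fun d _ => by rw [top_inf_eq, h.split 10 fun t v hv => h.mv0 10 hv t]

theorem dimA : finrank ℂ (A 0 0) + q * q * finrank ℂ (A 0 1) = finrank ℂ V + finrank ℂ (A 0 1) := by
  rw [h.sumA, ← Fintype.card_prod]
  refine sum_erase_eq (fun p : F × F => finrank ℂ (A p.2 p.1)) (0, 0) fun p hp => ?_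
  by_cases hd : p.1 = 0
  · rw [hd]; exact h.dimA2 fun e => hp (Prod.ext hd e)
  · exact h.dimA1 _ hd

theorem posA : 1 ≤ finrank ℂ (A 0 1) := by
  by_contra hN
  have h1 := h.dimA
  rw [show finrank ℂ (A 0 1) = 0 by omega, mul_zero, add_zero, add_zero] at h1
  have h3 := Submodule.eq_top_of_finrank_eq h1
  have := h.simple
  have := h.irr
  have h4 : ρ.ker = ⊤ := (IsSimpleGroup.eq_bot_or_eq_top_of_normal _ inferInstance).resolve_left fun e =>
    one_ne_zero (h.ad.eq_zero_of_x_eq_one ⟨11, by decide⟩ (Subgroup.mem_bot.1 (e.le (LinearMap.ext fun v =>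
      fx (h3.ge Submodule.mem_top : v ∈ A 0 0).1 1))))
  have : Nontrivial V := H29.nontrivial_of_isIrreducible ρ
  obtain ⟨v, hv⟩ := exists_ne (0 : V)
  rcases H29.eq_bot_or_eq_top_of_invariant ρ (Submodule.span ℂ {v}) (fun g u hu => by
    rwa [show ρ g = 1 from (h4 ▸ Subgroup.mem_top g : g ∈ ρ.ker)]) with h5 | h5
  · exact hv (Submodule.span_singleton_eq_bot.1 h5)
  · have := h.two
    rw [← finrank_top ℂ V, ← h5, finrank_span_singleton hv] at this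
    omega

theorem evenA (h3 : (3 : F) ≠ 0) {c : F} (hc : c ≠ 0) (b : F) : finrank ℂ (A 0 1) = q * finrank ℂ (B b c 0) :=
  (h.dimA2 hc).symm.trans (h.even 9 (h.iv9 c 0) (fun b b' => ⟨x 7 ((b - b') / (3 * c)), fun v hv h9 =>
    ⟨⟨h.mv0 7 hv.1 _, h.mv0 7 hv.2 _⟩, wt (h.mv1 7 3 h9 hv.2 _) (by push_cast; field_simp; ring)⟩⟩) b)

theorem exM (h3 : (3 : F) ≠ 0) (h4 : 4 < q) (hN : finrank ℂ (A 0 1) = q) {c : F} (hc : c ≠ 0) :
    1 ≤ finrank ℂ ↥(A 0 0 ⊓ (E 6) c) := by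
  obtain ⟨a, ha, e⟩ := h.nE 7 10 6 one_ne_zero
  have h1 : finrank ℂ (B 0 (c / a) 0) = 1 := by
    have := h.evenA h3 (div_ne_zero hc ha) 0
    rw [hN] at this
    exact (Nat.eq_of_mul_eq_mul_left (by omega) ((mul_one _).trans this)).symm
  obtain ⟨w, hw, w0⟩ := pos_iff_ex.1 h1.ge
  obtain ⟨α, a0, a1⟩ := exists_pow_ne (F := F) (n := 3) (by omega) h4
  have b0 := inv_ne_zero (pow_ne_zero 3 a0)
  have h6 := h.line 6 h1.le (fun t v hv => ⟨⟨h.mv0 6 hv.1.1 t, h.mv1' 6 1 hv.1.2 hv.1.1 t⟩, h.mv0 6 hv.2 t⟩)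
    (g := tor x α (α ^ 3)⁻¹) (fun v hv => ⟨⟨h.tE0 a0 b0 hv.1.1, h.tE a0 b0 3 1 hv.1.2 (by field_simp)⟩,
      h.tE0 a0 b0 hv.2⟩) (fun t => h.tor_n a0 b0 6 0 1 t) (by simpa using a1) hw
  exact pos_iff_ex.2 ⟨_, ⟨⟨h.nE0 7 11 one_ne_zero hw.1.1, h.nE0 7 10 one_ne_zero h6⟩, by
    simpa [ha] using e _ w hw.1.2⟩, apply_ne_zero ρ _ w0⟩

theorem cases3 (h3 : (3 : F) ≠ 0) : finrank ℂ (A 0 1) = q ∨ q ^ 3 + 1 ≤ finrank ℂ V := by
  have h1 := h.evenA h3 one_ne_zero 0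
  have h2 := h.posA
  have h4 := h.dimA
  have h5 : 2 ≤ q := Fintype.one_lt_card
  generalize finrank ℂ (B 0 1 0) = m at h1
  rcases m with _ | _ | m
  · omega
  · left; omega
  · right
    rw [h1] at h4
    obtain ⟨p, hp⟩ := Nat.exists_eq_add_of_le' h5
    rw [hp] at h4 ⊢
    nlinarith [Nat.zero_le (p * m), Nat.zero_le (p ^ 2 * m), Nat.zero_le (p ^ 3 * m), Nat.zero_le (p ^ 2),
      Nat.zero_le (p ^ 3)]

theorem boundA (h3 : (3 : F) ≠ 0) (h4 : 4 < q) : q ^ 3 - 1 ≤ finrank ℂ V := by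
  rcases h.cases3 h3 with hN | hN
  · have h1 := h.dimA
    have h2 := sum_erase_le (fun c => finrank ℂ ↥(A 0 0 ⊓ (E 6) c)) 0 fun c hc => h.exM h3 h4 hN hc
    rw [← h.split 6 h.iv6] at h2
    rw [hN] at h1
    have : q * q * q = q ^ 3 := by ring
    omega
  · omega

end Cx

end H65.MG
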