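/- Minimal degrees of `G₂(q)` (S2338): the case `q ≡ 1 mod 3`. -/
import Cfsg.Agent.H65.MG2

set_option autoImplicit false
set_option linter.unusedSectionVars false
set_option linter.unusedSimpArgs false
set_option linter.unusedVariables false

namespace H65.MG

open Cfsg.Lie H63 H64 H2.MX Module
open scoped Classical

variable {F : Type*} [Field F] [Fintype F] {G : Type*} [Group G] [Finite G] {x : ℕ → F → G}
  {V : Type*} [AddCommGroup V] [Module ℂ V] [FiniteDimensional ℂ V] {ρ : Representation ℂ G V} {ψ : AddChar F ℂ}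

local notation "E" r => eig ρ ψ (x r)
local notation "P" r => ec ρ ψ (x r)
local notation "q" => Fintype.card F
local notation "A" => WA x ρ ψ
local notation "B" => WB x ρ ψ

/-- the projection to the fixed space of `X₁₀ X₁₁`, up to a factor -/
noncomputable def RR (x : ℕ → F → G) (ρ : Representation ℂ G V) (ψ : AddChar F ℂ) : End ℂ V :=
  ec ρ ψ (x 10) 0 * ec ρ ψ (x 11) 0

local notation "R" => RR x ρ ψ

theorem R_apply (v : V) : R v = (P 10) 0 ((P 11) 0 v) := rfl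

theorem ec_of_comm {r : ℕ} {f : End ℂ V} (hf : ∀ t v, f (ρ (x r t) v) = ρ (x r t) (f v)) (c : F) (v : V) :
    f ((P r) c v) = (P r) c (f v) := by simp only [ec_apply, map_sum, map_smul, hf]

namespace Cx
variable (h : Cx x ρ ψ)
include h

theorem R_apply' (v : V) : R v = (P 11) 0 ((P 10) 0 v) :=
  ec_of_comm (h.comm_of 11 fun c v hv => Iv.ec (fun t v hv => h.mv0 10 hv t) 0 hv) 0 v

theorem R_mem (v : V) : R v ∈ A 0 0 := ⟨h.R_apply' v ▸ h.ec_mem 11 0 _, h.ec_mem 10 0 _⟩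

theorem R_self {v : V} (hv : v ∈ A 0 0) : R v = ((q : ℂ) * q) • v := by
  rw [R_apply, h.ec_self hv.1, map_smul, h.ec_self hv.2, smul_smul]

theorem R_E6 {c : F} {v : V} (hv : v ∈ (E 6) c) : R v ∈ (E 6) c :=
  (Iv.ec (W := (E 11) 0 ⊓ (E 6) c) (fun t v hv => ⟨h.mv0 10 hv.1 t, h.mv1' 10 (-1) hv.2 hv.1 t⟩) 0
    ⟨h.ec_mem 11 0 v, Iv.ec (fun t v hv => h.mv0 11 hv t) 0 hv⟩).2

theorem R_nb {t : F} (ht : t ≠ 0) (v : V) : R (ρ (nn D x 6 t) v) = ρ (nn D x 6 t) (R v) := by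
  rw [R_apply, h.ec_n 6 10 11 ht, h.ec_n 6 11 10 ht, h.R_apply']

theorem nb_mem {t : F} (ht : t ≠ 0) {v : V} (hv : v ∈ A 0 0) : ρ (nn D x 6 t) v ∈ A 0 0 :=
  ⟨h.nE0 6 11 ht hv.2, h.nE0 6 10 ht hv.1⟩

theorem R_x1 {u : V} (hu : u ∈ A 0 0) {c t : F} (h6 : u ∈ (E 6) c) (hc : c ≠ 0) (ht : t ≠ 0) : R (ρ (x 1 t) u) = 0 := by
  refine h.eq_zero (h.R_E6 (h.mv0 1 h6 t)) ?_ hc.symm
  have e := h.x_neg 10 (-t⁻¹)
  rw [inv_neg, inv_inv, neg_neg] at e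
  rw [e, mul_app, mul_app, fx hu.2, h.R_apply', h.ec_x 10, ← h.R_apply']
  exact h.R_E6 (h.nE0 10 6 (by simpa) hu.1)

theorem R_x0 {u : V} (hu : u ∈ A 0 0) (t : F) : R (ρ (x 0 t) u) = R (ρ (nn D x 11 (-t⁻¹)) u) := by
  have e := h.x_neg 11 (-t⁻¹)
  rw [inv_neg, inv_inv, neg_neg] at e
  rw [e, mul_app, mul_app, fx hu.1, R_apply, h.ec_x 11, ← R_apply]

theorem R_sum {u : V} (hu : u ∈ A 0 0) {c : F} (h6 : u ∈ (E 6) c) (hc : c ≠ 0) (e : F) :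
    R ((P 0) e ((P 1) 0 u)) = ((q : ℂ) * q) • u +
      ∑ t ∈ Finset.univ.erase (0 : F), ψ (-(e * t)) • (P 6) c (R (ρ (nn D x 11 (-t⁻¹)) u)) := by
  rw [ec_apply (c := e), map_sum, ← Finset.add_sum_erase _ _ (Finset.mem_univ 0)]
  congr 1
  · rw [ec_apply, ← Finset.add_sum_erase _ _ (Finset.mem_univ 0), h.zero 0, h.zero 1]
    simp only [map_add, map_sum, map_smul, map_one, End.one_apply]
    rw [Finset.sum_eq_zero fun t ht => by rw [h.R_x1 hu h6 hc (Finset.ne_of_mem_erase ht), smul_zero], h.R_self hu]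
    simp
  · refine Finset.sum_congr rfl fun t ht => ?_
    rw [map_smul, ← h.R_x0 hu, ec_apply, ec_apply, map_sum, map_sum,
      ← Equiv.sum_comp ((Equiv.neg F).trans (Equiv.mulRight₀ t (Finset.ne_of_mem_erase ht)))]
    refine congrArg _ (Finset.sum_congr rfl fun z _ => ?_)
    have e1 := h.rel 6 0 [(1, -1, 1, 1)] (-z) t
    rw [← inv_mul_eq_iff_eq_mul, h.inv 6] at e1
    simp at e1
    have e2 : ρ (x 0 t) (ρ (x 1 (-(z * t))) u) = ρ (x 6 z) (ρ (x 0 t) (ρ (x 6 (-z)) u)) := by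
      rw [← mul_app, ← e1, mul_app, mul_app]
    simp [e2, h6 (-z), h.comm_of 6 (f := R) fun c v hv => h.R_E6 hv]

theorem R_ne {u : V} (hu : u ∈ A 0 0) {c : F} (h6 : u ∈ (E 6) c) (hc : c ≠ 0) (u0 : u ≠ 0) {e : F} (he : e ≠ 0)
    (h1 : finrank ℂ ↥(A 0 0 ⊓ (E 6) c) ≤ 1) (h2 : finrank ℂ ↥(A 0 0 ⊓ (E 6) 0) ≤ 1) :
    (P 0) e ((P 1) 0 u) ≠ 0 := fun e0 => by
  have qq : (q : ℂ) * q ≠ 0 := mul_ne_zero card_ne card_ne
  have hs := h.R_sum hu h6 hc e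
  rw [e0, map_zero] at hs
  have n1 : (-1 : F) ≠ 0 := by simp
  by_cases hv : ∃ v ∈ A 0 0 ⊓ (E 6) 0, v ≠ 0
  swap
  · push Not at hv
    rw [Finset.sum_eq_zero fun t ht => by
      have := hv (ρ (nn D x 6 1) (R (ρ (nn D x 11 (-t⁻¹)) u))) ⟨h.nb_mem one_ne_zero (h.R_mem _), by
        rw [← h.R_nb one_ne_zero]
        exact h.R_E6 (h.nE0 6 6 one_ne_zero (h.nE0 11 5 (by simpa using Finset.ne_of_mem_erase ht) hu.2))⟩
      rw [not_ne_iff.1 fun e => apply_ne_zero ρ _ e this, map_zero, smul_zero], add_zero, eq_comm, smul_eq_zero] at hs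
    exact hs.elim qq u0
  obtain ⟨v, hv, v0⟩ := hv
  have sc := fun w hw => exists_smul_of_le_one h2 hv v0 (u := w) hw
  obtain ⟨K, hK⟩ := sc _ ⟨h.iv6.ec 0 (h.nb_mem one_ne_zero hv.1), h.ec_mem 6 0 _⟩
  have K0 : K ≠ 0 := fun e => v0 (h.hk_inj 6 hv.2 (by rw [hK, e, zero_smul]))
  have hh1 : ∀ l, l ≠ 0 → ρ (hh D x 6 l) v = v := fun l hl => by
    have o := one_ne_zero (α := F)
    obtain ⟨τ, hτ⟩ := sc (ρ (tor x 1 l) v) ⟨⟨h.tE0 o hl hv.1.1, h.tE0 o hl hv.1.2⟩, h.tE0 o hl hv.2⟩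
    have e1 := conj_nn (D := D) (s := 6) (s' := 6) (c := l) (fun z => by simpa using h.tor_n o hl 6 0 1 z)
      (fun z => by simpa [ra, rb, neg_val] using h.tor_x o hl 5 z) 1
    have e2 := ec_mon (ρ := ρ) (ψ := ψ) (h.tor_n o hl 6 0 1) (by simpa) (ρ (nn D x 6 1) v)
    rw [hK, map_smul, hτ, ← mul_app, mul_inv_eq_iff_eq_mul.1 e1, mul_one, mul_app, hτ, map_smul, map_smul, h.nn_hh 6,
      mul_app, h.ec_hh 6 6 hl, hK, map_smul, smul_comm] at e2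
    exact smul_right_injective V (fun e => apply_ne_zero ρ _ v0 (by rw [hτ, e, zero_smul]))
      (smul_right_injective V K0 e2)
  obtain ⟨μ, hμ⟩ := sc (ρ (nn D x 6 (-1)) ((P 5) 0 u)) ⟨h.nb_mem n1 (Iv.ec (W := A 0 0) (fun t v hv =>
    ⟨h.mv1' 5 1 hv.1 hv.2 t, h.mv0 5 hv.2 t⟩) 0 hu), h.nE0 6 6 n1 (h.ec_mem 5 0 u)⟩
  rw [← h.nn_inv 6] at hμ
  replace hμ : (P 5) 0 u = μ • ρ (nn D x 6 1) v := by rw [← map_smul, ← hμ, apply_inv]
  obtain ⟨ν, hν⟩ := exists_smul_of_le_one h1 ⟨hu, h6⟩ u0 ⟨h.iv6.ec c (h.nb_mem one_ne_zero hv.1), h.ec_mem 6 c _⟩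
  have h3 := h.hk3 6 hv.2 hh1 hK hc
  rw [hν, map_smul, hμ, smul_smul] at h3
  replace h3 := smul_left_injective ℂ (apply_ne_zero ρ _ v0) h3
  have h10 : ∀ a, a ≠ 0 → R (ρ (nn D x 10 a) v) = ((q : ℂ) * K) • v := fun a ha => by
    obtain ⟨b, hb, -, e1⟩ := h.nx 7 6 10 one_ne_zero
    obtain ⟨ε, hε⟩ := sc (ρ (nn D x 7 (-1)) v) ⟨⟨h.nE0 7 11 n1 hv.1.1, h.nE0 7 10 n1 hv.2⟩, h.nE0 7 6 n1 hv.1.2⟩
    rw [← h.nn_inv 7] at hε
    rw [R_apply, h.ec_self (h.nE0 10 11 ha hv.2), map_smul, ← mul_inv_cancel_left₀ hb a, ← e1, mul_app, mul_app, hε,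
      h.ec_n 7 6 10 one_ne_zero, map_smul, h.hk_n 6 hh1 (mul_ne_zero (inv_ne_zero hb) ha), map_smul, hK, smul_comm ε,
      ← hε, map_smul, apply_inv, smul_smul]
  have hz : ∀ t, t ≠ 0 → R (ρ (nn D x 11 t) u) = (μ * K) • ρ (nn D x 6 1) v := fun t ht => by
    obtain ⟨b, hb, -, e1⟩ := h.nx 6 11 10 n1
    have e2 := e1 t
    rw [← h.nn_inv 6, inv_inv, mul_assoc, inv_mul_eq_iff_eq_mul] at e2
    refine smul_right_injective V (card_ne (F := F)) ?_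
    have e3 : R ((P 10) 0 (ρ (nn D x 11 t) u)) = (q : ℂ) • R (ρ (nn D x 11 t) u) := by
      rw [h.R_apply', h.ec_self (h.ec_mem 10 0 _), map_smul, h.R_apply']
    simp only
    rw [← e3, h.ec_n 11 5 10 ht, hμ, map_smul, map_smul, ← mul_app, e2, mul_app, h.R_nb one_ne_zero,
      h10 _ (mul_ne_zero hb ht), map_smul, smul_smul, smul_smul]
    congr 1; ring
  rw [Finset.sum_congr rfl (g := fun t => ψ (-(e * t)) • (μ * K * ν) • u) fun t ht => by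
    rw [hz _ (by simpa using Finset.ne_of_mem_erase ht), map_smul, hν, smul_smul (μ * K)], ← Finset.sum_smul,
    h.sum_ne he, smul_smul, ← add_smul, eq_comm, smul_eq_zero] at hs
  refine hs.elim (fun hs => ?_) u0
  rcases h.hk2 6 hv.2 hh1 hK with e1 | e1
  · have : ((q * q + q + 1 : ℕ) : ℂ) = 0 := by
      push_cast; rw [e1] at h3 hs; linear_combination hs - h3
    exact absurd (Nat.cast_eq_zero.1 this) (by omega)
  · rw [e1, h.ec_self hv.2] at hK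
    have := smul_left_injective ℂ v0 hK
    exact qq (by rw [← this] at h3 hs; linear_combination hs + q * h3)

theorem boundB (h3 : (3 : F) ≠ 0) (h4 : 4 < q) {ω : F} (w1 : ω ≠ 1) (w3 : ω ^ 3 = 1) : q ^ 3 + 1 ≤ finrank ℂ V := by
  refine (h.cases3 h3).elim (fun hN => by_contra fun hV => ?_) id
  have o := one_ne_zero (α := F)
  have w0 : ω ≠ 0 := by rintro rfl; simp at w3
  have hM : finrank ℂ (A 0 0) ≤ q := by
    have h1 := h.dimA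
    have : q * q * q = q ^ 3 := by ring
    rw [hN] at h1; omega
  have tM : ∀ {c c' : F}, c ≠ 0 → c' ≠ 0 → ∀ v ∈ A 0 0 ⊓ (E 6) c, ρ (tor x 1 (c / c')) v ∈ A 0 0 ⊓ (E 6) c' :=
    fun {c c'} hc hc' v hv => have h0 := div_ne_zero hc hc'
      ⟨⟨h.tE0 o h0 hv.1.1, h.tE0 o h0 hv.1.2⟩, h.tE o h0 0 1 hv.2 (by field_simp)⟩
  have sp := h.split 6 h.iv6
  have h2 : finrank ℂ ↥(A 0 0 ⊓ (E 6) 0) ≤ 1 := by
    have := sum_erase_le (fun c => finrank ℂ ↥(A 0 0 ⊓ (E 6) c)) 0 fun c hc => h.exM h3 h4 hN hc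
    omega
  have h1 : ∀ c, c ≠ 0 → finrank ℂ ↥(A 0 0 ⊓ (E 6) c) ≤ 1 := fun c hc => by
    by_contra h5
    have := sum_erase_le (N := 2) (fun c => finrank ℂ ↥(A 0 0 ⊓ (E 6) c)) 0 fun c' hc' =>
      (show 2 ≤ _ by omega).trans (finrank_le_of_map _ (tM hc hc'))
    omega
  have sx : ∀ r, r < 12 ∧ ra r % 3 = 0 → ∀ t, tor x ω 1 * x r t * (tor x ω 1)⁻¹ = x r (1 * t) := fun r hr t => by
    rw [h.tor_x w0 o r t hr.1, one_zpow, mul_one, ← Int.emod_add_mul_ediv (ra r) 3, hr.2, zero_add, zpow_mul,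
      zpow_ofNat, w3, one_zpow]
  have sc : ∀ r, r < 12 ∧ ra r % 3 = 0 → ∀ t v, ρ (tor x ω 1) (ρ (x r t) v) = ρ (x r t) (ρ (tor x ω 1) v) :=
    fun r hr t v => by rw [← mul_app, ← mul_app, mul_inv_eq_iff_eq_mul.1 (sx r hr t), one_mul]
  have sE : ∀ r, r < 12 ∧ ra r % 3 = 0 → ∀ c v, v ∈ (E r) c → ρ (tor x ω 1) v ∈ (E r) c := fun r hr c v hv => by
    simpa using E_mon (sx r hr) o hv
  obtain ⟨u, hu, u0⟩ := pos_iff_ex.1 (h.exM h3 h4 hN o)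
  obtain ⟨l, hl⟩ := exists_smul_of_le_one (h1 1 o) hu u0 (u := ρ (tor x ω 1) u)
    ⟨⟨sE 11 (by decide) _ _ hu.1.1, sE 10 (by decide) _ _ hu.1.2⟩, sE 6 (by decide) _ _ hu.2⟩
  obtain ⟨w, hw, w0'⟩ := pos_iff_ex.1 (show 1 ≤ finrank ℂ (B 1 1 0) from
    Nat.pos_of_ne_zero fun e => by have := h.evenA h3 o 1; rw [e] at this; omega)
  obtain ⟨a1, a10, e1⟩ := h.nE 9 9 2 o
  obtain ⟨e, he, e2⟩ := h.nE 9 10 0 o
  obtain ⟨a3, a30, e3⟩ := h.nE 9 0 10 o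
  have hX : finrank ℂ ↥((E 1) 0 ⊓ (E 0) e) ≤ q := by
    rw [← hN, ← h.dimA2 (mul_ne_zero he a30)]
    exact finrank_le_of_map (nn D x 9 1) fun v hv => ⟨h.nE0 9 11 o hv.1, e3 _ _ hv.2⟩
  have m1 : ρ (nn D x 9 1) w ∈ (E 1) 0 ⊓ (E 0) e := ⟨h.nE0 9 1 o hw.1.1, wt (e2 _ _ hw.1.2) (one_mul _)⟩
  have m2 := wt (e1 _ _ hw.2) (one_mul _)
  have m0 := apply_ne_zero ρ (nn D x 9 1) w0'
  generalize ρ (nn D x 9 1) w = y at m0 m1 m2
  have s2 : ∀ c v, v ∈ (E 2) c → ρ (tor x ω 1) v ∈ (E 2) (c * ω ^ 2) := fun c v hv =>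
    wt (E_mon (fun t => h.tor_x w0 o 2 t) (by simp [zpow_ne_zero, w0]) hv) (by simp [ra])
  have ev : ∀ r, r < 12 ∧ ra r % 3 = 0 → Iv x ρ r (End.eigenspace (ρ (tor x ω 1)) l) := fun r hr t v hv => by
    rw [End.mem_eigenspace_iff] at hv ⊢
    rw [sc r hr, hv, map_smul]
  set K := (E 1) 0 ⊓ (E 0) e ⊓ End.eigenspace (ρ (tor x ω 1)) l
  have hK := sum_erase_le (N := 1) (fun c => finrank ℂ ↥(K ⊓ (E 6) c)) 0 fun c hc => by
    have m := tM o hc u hu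
    have h0 := div_ne_zero o hc
    have p := Iv.ec (ψ := ψ) (W := (E 6) c ⊓ End.eigenspace (ρ (tor x ω 1)) l) (fun t v hv => ⟨h.mv0 1 hv.1 t,
      ev 1 (by decide) t v hv.2⟩) 0 ⟨m.2, End.mem_eigenspace_iff.2 (by
        rw [← mul_app, h.tor_comm w0 o o h0, mul_app, hl, map_smul])⟩
    have p' := Iv.ec (ψ := ψ) (W := (E 6) c ⊓ End.eigenspace (ρ (tor x ω 1)) l ⊓ (E 1) 0) (fun t v hv =>
      ⟨⟨h.mv1' 0 1 hv.1.1 hv.2 t, ev 0 (by decide) t v hv.1.2⟩, h.mv0 0 hv.2 t⟩) e ⟨p, h.ec_mem 1 0 _⟩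
    exact pos_iff_ex.2 ⟨_, ⟨⟨⟨p'.2, h.ec_mem 0 e _⟩, p'.1.2⟩, p'.1.1⟩,
      h.R_ne m.1 m.2 hc (apply_ne_zero ρ _ u0) he (h1 c hc) h2⟩
  rw [← h.split 6 (W := K) fun t v hv => ⟨⟨h.mv0 6 hv.1.1 t, h.mv1' 6 (-1) hv.1.2 hv.1.1 t⟩,
    ev 6 (by decide) t v hv.2⟩] at hK
  have l1 : K < K ⊔ Submodule.span ℂ {y} := left_lt_sup.2 fun hy => by
    have := End.mem_eigenspace_iff.1 ((Submodule.span_singleton_le_iff_mem _ _).1 hy).2
    exact apply_ne_zero ρ _ m0 (h.eq_zero (s2 _ _ m2) (this ▸ Submodule.smul_mem _ _ m2) (by grind))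
  have l2 : K ⊔ Submodule.span ℂ {y} < (E 1) 0 ⊓ (E 0) e := lt_of_le_not_ge
    (sup_le inf_le_left ((Submodule.span_singleton_le_iff_mem _ _).2 m1)) fun hy => by
    obtain ⟨k, hk, z, hz, e4⟩ := Submodule.mem_sup.1 (hy (show ρ (tor x ω 1) y ∈ _ from
      ⟨sE 1 (by decide) _ _ m1.1, sE 0 (by decide) _ _ m1.2⟩))
    obtain ⟨μ, rfl⟩ := Submodule.mem_span_singleton.1 hz
    have e5 := congrArg ((P 2) (a1 * ω ^ 2 * ω ^ 2)) (End.mem_eigenspace_iff.1 hk.2)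
    rw [← eq_sub_iff_add_eq] at e4
    simp only [e4, map_sub, map_smul] at e5
    rw [h.ec_self (s2 _ _ (s2 _ _ m2)), h.ec_ne (s2 _ _ m2) (by grind), h.ec_ne m2 (by grind)] at e5
    simp only [smul_zero, sub_zero, smul_eq_zero] at e5
    exact e5.elim card_ne (apply_ne_zero ρ _ (apply_ne_zero ρ _ m0))
  have := Submodule.finrank_lt_finrank_of_lt l1
  have := Submodule.finrank_lt_finrank_of_lt l2
  omega

end Cx

end H65.MG
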