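/- Minimal degrees of `G₂(q)` (S2338): characteristic `3`, the weight spaces of the unipotent subgroup. -/
import Cfsg.Agent.H65.MG2

set_option autoImplicit false
set_option linter.unusedSectionVars false
set_option linter.unusedSimpArgs false
set_option linter.unusedVariables false

namespace H65.MG

open Cfsg.Lie H63 H64 H2.MX Module
open scoped Classical

variable {F : Type*} [Field F] [Fintype F] {G : Type*} [Group G] [Finite G] {x : ℕ → F → G}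
  {V : Type*} [AddCommGroup V] [Module ℂ V] [FiniteDimensional ℂ V] {ρ : Representation ℂ G V} {ψ : AddChar F ℂ}
  {γ : F → F}

local notation "E" r => eig ρ ψ (x r)
local notation "P" r => ec ρ ψ (x r)
local notation "q" => Fintype.card F
local notation "A" => WA x ρ ψ
local notation "B" => WB x ρ ψ

/-- weights of `X₈ X₉ X₁₀ X₁₁` -/
abbrev WC (x : ℕ → F → G) (ρ : Representation ℂ G V) (ψ : AddChar F ℂ) (a b c d : F) : Submodule ℂ V :=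
  WB x ρ ψ b c d ⊓ eig ρ ψ (x 8) a

local notation "C" => WC x ρ ψ

theorem cube_surj (h3 : (3 : F) = 0) (a : F) : ∃ u : F, u ^ 3 = a :=
  Finite.surjective_of_injective (f := fun u : F => u ^ 3) (fun u v e => sub_eq_zero.1 ((pow_eq_zero_iff (n := 3) (by omega)).1
    (by linear_combination e + (u * v ^ 2 - u ^ 2 * v) * h3))) a

theorem psi_uniq (hψ : ψ ≠ 1) {a b : F} (e : ∀ u, ψ (a * u) = ψ (b * u)) : a = b :=
  AddChar.to_mulShift_inj_of_isPrimitive (AddChar.IsPrimitive.of_ne_one hψ) (DFunLike.ext _ _ fun u => by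
    simpa using e u)

theorem exists_gam (hψ : ψ ≠ 1) (h3 : (3 : F) = 0) : ∃ γ : F → F, ∀ a u, ψ (a * u ^ 3) = ψ (γ a * u) := by
  have hs := ((Fintype.bijective_iff_injective_and_card ψ.mulShift).2
    ⟨AddChar.to_mulShift_inj_of_isPrimitive (AddChar.IsPrimitive.of_ne_one hψ), AddChar.card_eq.symm⟩).2
  choose γ hγ using fun a : F => hs ⟨fun u => ψ (a * u ^ 3), by simp, fun u v => by
    rw [← AddChar.map_add_eq_mul]; congr 1; linear_combination (a * (u ^ 2 * v + u * v ^ 2)) * h3⟩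
  exact ⟨γ, fun a u => by simpa using (DFunLike.congr_fun (hγ a) u).symm⟩

theorem Sc.cube (hγ : ∀ a u, ψ (a * u ^ 3) = ψ (γ a * u)) {g : G} {v : V} {z a c u : F} (h : Sc ρ ψ g v z)
    (e : z = c * u + a * u ^ 3) : Sc ρ ψ g v ((c + γ a) * u) := by
  rw [Sc, h, e, add_mul, AddChar.map_add_eq_mul, AddChar.map_add_eq_mul, hγ]

structure C3 (x : ℕ → F → G) (ρ : Representation ℂ G V) (ψ : AddChar F ℂ) (γ : F → F) : Prop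
    extends Cx x ρ ψ where
  h3 : (3 : F) = 0
  h9 : 9 ≤ q
  hγ : ∀ a u, ψ (a * u ^ 3) = ψ (γ a * u)
  hV : finrank ℂ V ≤ q ^ 4 + q ^ 2

namespace Cx
variable (h : Cx x ρ ψ)
include h

theorem le_split (r : ℕ) {W W' : Submodule ℂ V} (hW : Iv x ρ r W) (k : ∀ c u, u ∈ W → u ∈ (E r) c → u ∈ W')
    {v : V} (hv : v ∈ W) (hr : r < 12 := by decide) : v ∈ W' := by
  rw [← Submodule.smul_mem_iff _ (card_ne (F := F)), ← (h.par r hr).sum_ec h.hψ]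
  exact Submodule.sum_mem _ fun c _ => k c _ (hW.ec c hv) (h.ec_mem r c v hr)

theorem wt_line {r : ℕ} {W : Submodule ℂ V} (h1 : finrank ℂ W ≤ 1) {u v : V} {c c' : F} (hu : u ∈ W) (hv : v ∈ W)
    (u0 : u ≠ 0) (v0 : v ≠ 0) (e : u ∈ (E r) c) (e' : v ∈ (E r) c') : c = c' := by
  obtain ⟨k, rfl⟩ := exists_smul_of_le_one h1 hu u0 hv
  exact h.wt_eq e' (Submodule.smul_mem _ _ e) v0

theorem mvz (r : ℕ) {s : ℕ} (u : ℕ) (k : ℤ) (hk : (k : F) = 0) {c : F} {v : V} (hv : v ∈ (E s) c) (t : F)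
    (hl : r < 12 ∧ s < 12 ∧ s ≠ r ∧ s ≠ D.neg r ∧ D.commTerms r s = [(u, k, 1, 1)] := by decide +kernel)
    (hu : u < 12 := by decide) : ρ (x r t) v ∈ (E s) c := fun z => Sc.move (h.rel r s _ t z hl) (by
  simpa [hk, h.zero u hu] using sc_x hv z)

end Cx

namespace C3
variable (h : C3 x ρ ψ γ)
include h

theorem gam_inj {a b : F} (e : γ a = γ b) : a = b := psi_uniq h.hψ fun u => by
  obtain ⟨u, rfl⟩ := cube_surj h.h3 u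
  rw [h.hγ, h.hγ, e]

theorem gam_neg (a : F) : γ (-a) = -γ a := psi_uniq h.hψ fun u => by
  rw [← h.hγ, neg_mul, neg_mul, ← mul_neg (γ a), ← h.hγ]; congr 1; ring

theorem gam_zero : γ 0 = 0 := psi_uniq h.hψ fun u => by rw [← h.hγ, zero_mul, zero_mul]

theorem gam_surj (a : F) : ∃ b, γ b = a := Finite.surjective_of_injective (fun _ _ => h.gam_inj) a

theorem gam_ne (z : F) {d : F} (hd : d ≠ 0) : ∃ t, -(z * t) + γ (-(d * t)) ≠ 0 := by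
  by_contra hc
  push Not at hc
  obtain ⟨u, u0, u1⟩ := exists_pow_ne (F := F) (n := 2) (by omega) (by have := h.h9; omega)
  have k : ∀ u, -(d * u ^ 3) = z * u := fun u => psi_uniq h.hψ fun t => by
    rw [show -(d * u ^ 3) * t = -(d * t) * u ^ 3 by ring, h.hγ, show γ (-(d * t)) = z * t by
      linear_combination hc t, mul_right_comm]
  exact u1 (mul_left_cancel₀ (mul_ne_zero hd u0) (by linear_combination u * k 1 - k u))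

theorem m79 {b : F} {v : V} (hv : v ∈ (E 9) b) (t : F) : ρ (x 7 t) v ∈ (E 9) b :=
  h.mvz 7 10 3 (by simpa using h.h3) hv t
theorem m89 {b : F} {v : V} (hv : v ∈ (E 9) b) (t : F) : ρ (x 8 t) v ∈ (E 9) b :=
  h.mvz 8 11 3 (by simpa using h.h3) hv t

theorem m78 {a b : F} {v : V} (hv : v ∈ (E 8) a) (h9 : v ∈ (E 9) b) (t : F) : ρ (x 7 t) v ∈ (E 8) (a - b * t) :=
  fun z => Sc.move (h.rel 7 8 [(9, -2, 1, 1), (10, -3, 2, 1), (11, 3, 1, 2)] t z) (by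
    simp only [List.map_cons, List.map_nil, wd_cons, wd_nil, mul_one]
    push_cast
    rw [h.h3, neg_zero, zero_mul, zero_mul, zero_mul, zero_mul, h.zero 10, h.zero 11, mul_one, mul_one]
    exact ((sc_x hv z).mul (sc_x h9 _)).of_eq (by linear_combination (b * t * z) * h.h3))

theorem m76 {a c e : F} {v : V} (hv : v ∈ C a 0 c 0) (h6 : v ∈ (E 6) e) (t : F) :
    ρ (x 7 t) v ∈ (E 6) (e + a * t - c * t ^ 3) :=
  fun z => Sc.move (h.rel 7 6 [(8, -1, 1, 1), (9, 1, 2, 1), (10, 1, 3, 1), (11, 1, 3, 2)] t z) (by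
    simp only [List.map_cons, List.map_nil, wd_cons, wd_nil, mul_one]
    exact ((sc_x h6 z).mul ((sc_x hv.2 _).mul ((sc_x hv.1.2 _).mul ((sc_x hv.1.1.2 _).mul
      (sc_x hv.1.1.1 _))))).of_eq (by push_cast; ring))

theorem m67 {a c d e : F} {v : V} (hv : v ∈ C a 0 c d) (h7 : v ∈ (E 7) e) (t : F) :
    ρ (x 6 t) v ∈ (E 7) (e - a * t + γ (c * t + d * t ^ 2)) :=
  fun z => Sc.move (h.rel 6 7 [(8, 1, 1, 1), (9, 1, 1, 2), (10, -1, 1, 3), (11, -2, 2, 3)] t z) (by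
    simp only [List.map_cons, List.map_nil, wd_cons, wd_nil, mul_one]
    exact ((sc_x h7 z).mul ((sc_x hv.2 _).mul ((sc_x hv.1.2 _).mul ((sc_x hv.1.1.2 _).mul
      (sc_x hv.1.1.1 _))))).cube h.hγ (by push_cast; linear_combination (-d * t ^ 2 * z ^ 3) * h.h3))

theorem m58 {a d e : F} {v : V} (hv : v ∈ C a 0 0 d) (h7 : v ∈ (E 7) e) (t : F) :
    ρ (x 5 t) v ∈ C (a + (-(e * t) + γ (-(d * t)))) 0 0 d ⊓ (E 7) e :=
  ⟨⟨⟨⟨h.mv1' 5 1 hv.1.1.1 hv.1.1.2 t, h.mv0 5 hv.1.1.2 t⟩, h.mv0 5 hv.1.2 t⟩, fun z => Sc.move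
    (h.rel 5 8 [(7, 1, 1, 1), (9, -1, 1, 2), (11, 1, 1, 3), (10, 2, 2, 3)] t z) (by
    simp only [List.map_cons, List.map_nil, wd_cons, wd_nil, mul_one, ← add_assoc]
    exact ((sc_x hv.2 z).mul ((sc_x h7 _).mul ((sc_x hv.1.2 _).mul ((sc_x hv.1.1.1 _).mul
      (sc_x hv.1.1.2 _))))).cube h.hγ (by push_cast; ring))⟩, h.mv0 5 h7 t⟩

theorem iv8 (b c d : F) : Iv x ρ 8 (B b c d) := fun t v hv => ⟨⟨h.mv0 8 hv.1.1 t, h.mv0 8 hv.1.2 t⟩, h.m89 hv.2 t⟩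
theorem iv7 (b c d : F) : Iv x ρ 7 (B b c d) := fun t v hv => ⟨⟨h.mv0 7 hv.1.1 t, h.mv0 7 hv.1.2 t⟩, h.m79 hv.2 t⟩
theorem iv7' (a c d : F) : Iv x ρ 7 (C a 0 c d) := fun t v hv =>
  ⟨h.iv7 _ _ _ t v hv.1, by simpa using h.m78 hv.2 hv.1.2 t⟩
theorem iv6 (b c : F) : Iv x ρ 6 (B b c 0) := fun t v hv =>
  ⟨⟨h.mv0 6 hv.1.1 t, h.mv1' 6 1 hv.1.2 hv.1.1 t⟩, h.mv0 6 hv.2 t⟩
theorem iv6' (a b c : F) : Iv x ρ 6 (C a b c 0) := fun t v hv => ⟨h.iv6 _ _ t v hv.1, h.mv0 6 hv.2 t⟩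

theorem dimC1 {b d : F} (hb : b ≠ 0) (hd : d ≠ 0) : finrank ℂ (C 0 b 0 d) = finrank ℂ (C 0 1 0 1) := by
  have k : ∀ {b d b' d' : F}, b ≠ 0 → d ≠ 0 → b' ≠ 0 → d' ≠ 0 → finrank ℂ (C 0 b 0 d) ≤ finrank ℂ (C 0 b' 0 d') :=
    fun {b d b' d'} hb hd hb' hd' => by
      have a0 : (b / b') ^ 2 / (d / d') ≠ 0 := by positivity
      have b0 : (d / d') ^ 2 / (b / b') ^ 3 ≠ 0 := by positivity
      exact finrank_le_of_map _ fun v hv => ⟨⟨⟨h.tE a0 b0 3 2 hv.1.1.1 (by field_simp), h.tE0 a0 b0 hv.1.1.2⟩,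
        h.tE a0 b0 2 1 hv.1.2 (by field_simp)⟩, h.tE0 a0 b0 hv.2⟩
  exact le_antisymm (k hb hd one_ne_zero one_ne_zero) (k one_ne_zero one_ne_zero hb hd)

theorem evenB (a : F) {b : F} (hb : b ≠ 0) (c d : F) : finrank ℂ (B b c d) = q * finrank ℂ (C a b c d) :=
  h.even 8 (h.iv8 b c d) (fun a a' => ⟨x 7 ((a - a') / b), fun v hv h8 =>
    ⟨h.iv7 _ _ _ _ v hv, wt (h.m78 h8 hv.2 _) (by field_simp; ring)⟩⟩) a

theorem dimZ (b : F) {d : F} (hd : d ≠ 0) :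
    finrank ℂ ↥((E 11) d ⊓ (E 9) b ⊓ (E 8) 0 ⊓ (E 6) 0) = finrank ℂ (C 0 b 0 d) := by
  have i10 : Iv x ρ 10 ((E 11) d ⊓ (E 9) b ⊓ (E 8) 0) := fun t v hv =>
    ⟨⟨h.mv0 10 hv.1.1 t, h.mv0 10 hv.1.2 t⟩, h.mv0 10 hv.2 t⟩
  have i6 : Iv x ρ 6 ((E 11) d ⊓ (E 9) b ⊓ (E 8) 0) := fun t v hv =>
    ⟨⟨h.mv0 6 hv.1.1 t, h.mv0 6 hv.1.2 t⟩, h.mv0 6 hv.2 t⟩
  have e1 := h.even 10 i10 (fun c c' => ⟨x 6 ((c - c') / d), fun v hv hc =>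
    ⟨i6 _ v hv, wt (h.mv1 6 1 hc hv.1.1 _) (by field_simp; ring)⟩⟩) 0
  have e2 := h.even 6 i6 (fun c c' => ⟨x 10 ((c' - c) / d), fun v hv hc =>
    ⟨i10 _ v hv, wt (h.mv1 10 (-1) hc hv.1.1 _) (by field_simp; ring)⟩⟩) 0
  rw [Nat.eq_of_mul_eq_mul_left Fintype.card_pos (e2.symm.trans e1)]
  exact le_antisymm (Submodule.finrank_mono fun v hv => ⟨⟨⟨hv.1.1.1, hv.2⟩, hv.1.1.2⟩, hv.1.2⟩)
    (Submodule.finrank_mono fun v hv => ⟨⟨⟨hv.1.1.1, hv.1.2⟩, hv.2⟩, hv.1.1.2⟩)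

theorem dimC2 {a d : F} (ha : a ≠ 0) (hd : d ≠ 0) : finrank ℂ (C a 0 0 d) = finrank ℂ (C 0 1 0 1) := by
  have o := one_ne_zero (α := F)
  obtain ⟨k1, h1, e1⟩ := h.nE 7 8 9 o
  obtain ⟨k2, h2, e2⟩ := h.nE 7 11 11 o
  obtain ⟨k3, h3, e3⟩ := h.nE 7 9 8 o
  refine le_antisymm ?_ ?_
  · rw [← h.dimC1 (mul_ne_zero ha h1) (mul_ne_zero hd h2), ← h.dimZ _ (mul_ne_zero hd h2)]
    exact finrank_le_of_map (nn D x 7 1) fun v hv =>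
      ⟨⟨⟨e2 _ _ hv.1.1.1, e1 _ _ hv.2⟩, h.nE0 7 8 o hv.1.2⟩, h.nE0 7 6 o hv.1.1.2⟩
  · rw [← h.dimC1 (div_ne_zero ha h3) (div_ne_zero hd h2), ← h.dimZ _ (div_ne_zero hd h2)]
    exact finrank_le_of_map (nn D x 7 1) fun v hv => ⟨⟨⟨wt (e2 _ _ hv.1.1.1) (div_mul_cancel₀ _ h2),
      h.nE0 7 10 o hv.2⟩, h.nE0 7 9 o hv.1.2⟩, wt (e3 _ _ hv.1.1.2) (div_mul_cancel₀ _ h3)⟩

theorem dimN {d : F} (hd : d ≠ 0) : finrank ℂ (C 0 0 0 d) + q * (q * finrank ℂ (C 0 1 0 1)) =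
    finrank ℂ (A 0 1) + finrank ℂ (C 0 1 0 1) := by
  have e1 := sum_erase_eq (fun b => finrank ℂ (B b 0 d)) 0 fun b hb => (h.evenB 0 hb 0 d).trans
    (congrArg _ (h.dimC1 hb hd))
  have e2 := sum_erase_eq (fun a => finrank ℂ (C a 0 0 d)) 0 fun a ha => h.dimC2 ha hd
  rw [← h.split 9 (h.iv9 0 d), h.dimA1 0 hd] at e1
  rw [← h.split 8 (h.iv8 0 0 d)] at e2
  omega

theorem m12 : finrank ℂ (C 0 1 0 1) = 1 ∧ ∀ d, d ≠ 0 → finrank ℂ (C 0 0 0 d) ≤ 3 := by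
  have o := one_ne_zero (α := F)
  have h1 : 1 ≤ finrank ℂ (C 0 1 0 1) := by
    by_contra hc
    have e := h.dimN o
    have := h.posA
    rw [show finrank ℂ (C 0 1 0 1) = 0 by omega] at e
    obtain ⟨v, hv, v0⟩ := pos_iff_ex.1 (show 1 ≤ finrank ℂ (C 0 0 0 1) by omega)
    obtain ⟨z, u, hu, u0⟩ := h.ex 7 (h.iv7' 0 0 1) hv v0
    obtain ⟨t, ht⟩ := h.gam_ne z o
    exact hc (h.dimC2 (mt (zero_add _).symm.trans ht) o ▸ pos_iff_ex.2 ⟨_, (h.m58 hu.1 hu.2 t).1, apply_ne_zero ρ _ u0⟩)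
  have h2 := h.dimA
  have h4 := h.hV
  obtain ⟨p, hp⟩ := Nat.exists_eq_add_of_le' (show 1 ≤ q * q from Nat.mul_pos Fintype.card_pos Fintype.card_pos)
  have h5 : 80 ≤ p := by have := h.h9; nlinarith
  rw [show q ^ 4 + q ^ 2 = q * q * (q * q) + q * q by ring, hp] at h4
  rw [hp] at h2
  have k := fun d (hd : d ≠ 0) => h.dimN hd
  simp only [← mul_assoc, hp] at k
  generalize finrank ℂ (C 0 1 0 1) = m at h1 k
  generalize finrank ℂ (A 0 1) = N at h2 k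
  have h6 : p * N ≤ (p + 1) * (p + 1) + (p + 1) := by nlinarith
  have h7 : m = 1 := by
    by_contra hc
    have := k 1 o
    have : p * 2 ≤ N := by nlinarith [Nat.mul_le_mul_left p (show 2 ≤ m by omega)]
    nlinarith [Nat.mul_le_mul_left p this]
  refine ⟨h7, fun d hd => by_contra fun hc => ?_⟩
  have := k d hd
  have : p + 4 ≤ N := by rw [h7] at this; omega
  nlinarith [Nat.mul_le_mul_left p this]

theorem t7 {a a' d z : F} (ha : a ≠ 0) (ha' : a' ≠ 0) (e : F) {v : V} (hv : v ∈ C (e * a) 0 0 d ⊓ (E 7) z) :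
    ρ (tor x ((a' / a) ^ 2) ((a' / a) ^ 3)⁻¹) v ∈ C (e * a') 0 0 d ⊓ (E 7) (z / (a' / a) ^ 2) := by
  have a0 : (a' / a) ^ 2 ≠ 0 := by positivity
  have b0 : ((a' / a) ^ 3)⁻¹ ≠ 0 := by positivity
  exact ⟨⟨⟨⟨h.tE a0 b0 3 2 hv.1.1.1.1 (by field_simp), h.tE0 a0 b0 hv.1.1.1.2⟩, h.tE0 a0 b0 hv.1.1.2⟩,
    h.tE a0 b0 1 1 hv.1.2 (by field_simp)⟩, h.tE a0 b0 1 0 hv.2 (by field_simp)⟩

theorem C07 {d z : F} (hd : d ≠ 0) (hz : z ≠ 0) {v : V} (hv : v ∈ C 0 0 0 d ⊓ (E 7) z) : v = 0 := by_contra fun v0 => by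
  have h1 := Finset.card_le_mul_card_image (f := fun l : F => z / (l / 1) ^ 2) (Finset.univ.erase 0) 2 fun a ha => by
    obtain ⟨l, hl, rfl⟩ := Finset.mem_image.1 ha
    refine (Finset.card_le_card fun l' hl' => ?_).trans (Finset.card_le_two (a := l) (b := -l))
    have := (Finset.mem_filter.1 hl').2
    simpa [hz, sq_eq_sq_iff_eq_or_eq_neg, div_eq_mul_inv] using this
  have h2 := (Finset.card_nsmul_le_sum _ (fun c => finrank ℂ ↥(C 0 0 0 d ⊓ (E 7) c)) 1 fun c hc => by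
    obtain ⟨l, hl, rfl⟩ := Finset.mem_image.1 hc
    exact pos_iff_ex.2 ⟨_, by simpa using h.t7 one_ne_zero (Finset.ne_of_mem_erase hl) 0 (by simpa using hv),
      apply_ne_zero ρ _ v0⟩).trans (Finset.sum_le_sum_of_subset (Finset.subset_univ
        ((Finset.univ.erase 0).image fun l : F => z / (l / 1) ^ 2)))
  rw [← h.split 7 (h.iv7' 0 0 d), smul_eq_mul] at h2
  rw [Finset.card_erase_of_mem (Finset.mem_univ _), Finset.card_univ] at h1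
  have := h.m12.2 d hd
  have := h.h9
  omega

theorem B7 {d : F} (hd : d ≠ 0) {v : V} (hv : v ∈ B 0 0 d) : v ∈ (E 7) 0 := by
  refine h.le_split 8 (h.iv8 0 0 d) (fun a u hu h8 => h.le_split 7 (h.iv7' a 0 d) (fun z w hw h7 => ?_) ⟨hu, h8⟩) hv
  by_cases hz : z = 0
  · exact hz ▸ h7
  by_cases w0 : w = 0
  · exact w0 ▸ Submodule.zero_mem _
  have k0 : ∀ {a w}, w ∈ C a 0 0 d ⊓ (E 7) z → w ≠ 0 → a ≠ 0 := fun hw w0 e => w0 (h.C07 hd hz (e ▸ hw))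
  have k : ∀ {a' w'}, w' ∈ C a' 0 0 d ⊓ (E 7) z → w' ≠ 0 → a' ^ 2 = a ^ 2 := fun {a' w'} hw' w0' => by
    have ha := k0 ⟨hw, h7⟩ w0
    have ha' := k0 hw' w0'
    have m := h.t7 ha ha' 1 (v := w) (by rw [one_mul]; exact ⟨hw, h7⟩)
    rw [one_mul] at m
    have := h.wt_line ((h.dimC2 ha' hd).trans h.m12.1).le hw'.1 m.1 w0' (apply_ne_zero ρ _ w0) hw'.2 m.2
    field_simp at this
    exact this
  obtain ⟨t, ht⟩ := h.gam_ne z hd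
  have e1 := k (h.m58 hw h7 t) (apply_ne_zero ρ _ w0)
  have e2 := k (h.m58 hw h7 (-t)) (apply_ne_zero ρ _ w0)
  rw [mul_neg d, h.gam_neg (-(d * t))] at e2
  exact absurd ((pow_eq_zero_iff (n := 2) (by omega)).1 (by linear_combination (-(z * t) + γ (-(d * t))) ^ 2 * h.h3 - e1 - e2)) ht

theorem evenD (a : F) {d : F} (hd : d ≠ 0) : finrank ℂ (B 0 0 d) = q * finrank ℂ (C a 0 0 d) :=
  h.even 8 (h.iv8 0 0 d) (fun a a' => by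
    obtain ⟨b, hb⟩ := h.gam_surj (a' - a)
    exact ⟨x 5 (-b / d), fun v hv h8 => wt (h := (h.m58 ⟨hv, h8⟩ (h.B7 hd hv) _).1.2) (by
      rw [show -(d * (-b / d)) = b by field_simp, hb]; ring) |> fun e => ⟨(h.m58 ⟨hv, h8⟩ (h.B7 hd hv) _).1.1, e⟩⟩) a

theorem dimD {d : F} (hd : d ≠ 0) : finrank ℂ (B 0 0 d) = q := by
  rw [h.evenD 1 hd, h.dimC2 one_ne_zero hd, h.m12.1, mul_one]

theorem m2 {d : F} (hd : d ≠ 0) : finrank ℂ (C 0 0 0 d) = 1 :=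
  Nat.eq_of_mul_eq_mul_left Fintype.card_pos (by rw [← h.evenD 0 hd, h.dimD hd, mul_one])

theorem B8 {c : F} (hc : c ≠ 0) {v : V} (hv : v ∈ B 0 c 0) : v ∈ (E 8) 0 := by
  have o := one_ne_zero (α := F)
  obtain ⟨k, hk, e⟩ := h.nE 6 10 11 o
  have := h.nE0 6 8 (neg_ne_zero.2 o) (h.B7 (mul_ne_zero hc hk)
    ⟨⟨e _ _ hv.1.2, h.nE0 6 10 o hv.1.1⟩, h.nE0 6 9 o hv.2⟩)
  rwa [← h.nn_inv 6, inv_apply] at this

theorem dimB6 {c : F} (hc : c ≠ 0) : finrank ℂ ↥(B 0 c 0 ⊓ (E 6) 0) = 1 := by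
  have o := one_ne_zero (α := F)
  obtain ⟨k, hk, e⟩ := h.nE 6 10 11 o
  obtain ⟨k', hk', e'⟩ := h.nE 6 11 10 o
  have e1 := h.even 6 (h.iv6 0 c) (fun a a' => by
    obtain ⟨t, ht⟩ := cube_surj h.h3 ((a - a') / c)
    exact ⟨x 7 t, fun v hv h6 => ⟨h.iv7 _ _ _ t v hv, wt (h.m76 ⟨hv, h.B8 hc hv⟩ h6 t) (by
      rw [ht]; field_simp; ring)⟩⟩) 0
  refine Nat.eq_of_mul_eq_mul_left Fintype.card_pos (e1.symm.trans ((le_antisymm ?_ ?_).trans (mul_one _).symm))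
  · exact h.dimD (mul_ne_zero hc hk) ▸ finrank_le_of_map (nn D x 6 1) fun v hv =>
      ⟨⟨e _ _ hv.1.2, h.nE0 6 10 o hv.1.1⟩, h.nE0 6 9 o hv.2⟩
  · exact h.dimD (div_ne_zero hc hk') ▸ finrank_le_of_map (nn D x 6 1) fun v hv =>
      ⟨⟨h.nE0 6 11 o hv.1.2, wt (e' _ _ hv.1.1) (div_mul_cancel₀ _ hk')⟩, h.nE0 6 9 o hv.2⟩

theorem dimM6 {c : F} (hc : c ≠ 0) : finrank ℂ ↥(C 0 0 0 0 ⊓ (E 6) c) = 1 := by
  have o := one_ne_zero (α := F)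
  obtain ⟨k, hk, e⟩ := h.nE 7 6 10 o
  obtain ⟨k', hk', e'⟩ := h.nE 7 10 6 o
  refine le_antisymm ?_ ?_
  · exact h.dimB6 (mul_ne_zero hc hk) ▸ finrank_le_of_map (nn D x 7 1) fun v hv =>
      ⟨⟨⟨h.nE0 7 11 o hv.1.1.1.1, e _ _ hv.2⟩, h.nE0 7 9 o hv.1.2⟩, h.nE0 7 6 o hv.1.1.1.2⟩
  · exact h.dimB6 (div_ne_zero hc hk') ▸ finrank_le_of_map (nn D x 7 1) fun v hv =>
      ⟨⟨⟨⟨h.nE0 7 11 o hv.1.1.1, h.nE0 7 10 o hv.2⟩, h.nE0 7 9 o (h.B8 (div_ne_zero hc hk') hv.1)⟩,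
        h.nE0 7 8 o hv.1.2⟩, wt (e' _ _ hv.1.1.2) (div_mul_cancel₀ _ hk')⟩

theorem iv76 (c : F) : Iv x ρ 7 (C 0 0 0 0 ⊓ (E 6) c) := fun t v hv =>
  ⟨h.iv7' _ _ _ t v hv.1, by simpa using h.m76 hv.1 hv.2 t⟩
theorem iv67 (c : F) : Iv x ρ 6 (C 0 0 0 0 ⊓ (E 7) c) := fun t v hv =>
  ⟨h.iv6' _ _ _ t v hv.1, by simpa [h.gam_zero] using h.m67 hv.1 hv.2 t⟩

theorem M7 {c : F} (hc : c ≠ 0) {v : V} (hv : v ∈ C 0 0 0 0 ⊓ (E 6) c) : v ∈ (E 7) 0 := by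
  have o := one_ne_zero (α := F)
  obtain ⟨α, a0, a1⟩ := exists_pow_ne (F := F) (n := 1) (by omega) (by have := h.h9; omega)
  exact h.line 7 (h.dimM6 hc).le (h.iv76 c) (g := tor x α 1) (fun v hv => ⟨⟨⟨⟨h.tE0 a0 o hv.1.1.1.1,
    h.tE0 a0 o hv.1.1.1.2⟩, h.tE0 a0 o hv.1.1.2⟩, h.tE0 a0 o hv.1.2⟩, h.tE a0 o 0 1 hv.2 (by simp)⟩)
    (fun t => h.tor_n a0 o 7 1 0 t) (by simpa using a1) hv

theorem posC {a : F} (ha : a ≠ 0) : 1 ≤ finrank ℂ (C a 0 0 0) := by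
  have o := one_ne_zero (α := F)
  obtain ⟨k1, h1, e1⟩ := h.nE 6 11 10 o
  obtain ⟨k2, h2, e2⟩ := h.nE 6 9 9 o
  obtain ⟨k3, h3, e3⟩ := h.nE 7 9 8 o
  obtain ⟨k4, h4, e4⟩ := h.nE 7 6 10 o
  have p1 : finrank ℂ (C 0 1 0 1) ≤ finrank ℂ (B (1 * k2) (1 * k1) 0) := finrank_le_of_map (nn D x 6 1) fun v hv =>
    ⟨⟨h.nE0 6 11 o hv.1.1.2, e1 _ _ hv.1.1.1⟩, e2 _ _ hv.1.2⟩
  rw [h.m12.1, h.evenB 0 (mul_ne_zero o h2)] at p1
  obtain ⟨v, hv, v0⟩ := pos_iff_ex.1 (Nat.pos_of_mul_pos_left p1)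
  obtain ⟨μ, u, hu, u0⟩ := h.ex 6 (h.iv6' _ _ _) hv v0
  have m : ρ (nn D x 7 1) u ∈ C (1 * k2 * k3) 0 (μ * k4) 0 :=
    ⟨⟨⟨h.nE0 7 11 o hu.1.1.1.1, e4 _ _ hu.2⟩, h.nE0 7 9 o hu.1.2⟩, e3 _ _ hu.1.1.2⟩
  have m0 := apply_ne_zero ρ (nn D x 7 1) u0
  have h5 : 1 * k2 * k3 ≠ 0 := by positivity
  rw [by_contra fun e : ¬μ * k4 = 0 => h5 (h.wt_eq (h.B8 e m.1) m.2 m0)] at m
  have a0 := div_ne_zero h5 ha
  exact pos_iff_ex.2 ⟨_, ⟨⟨⟨h.tE0 a0 o m.1.1.1, h.tE0 a0 o m.1.1.2⟩, h.tE0 a0 o m.1.2⟩,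
    h.tE a0 o 1 1 m.2 (by field_simp)⟩, apply_ne_zero ρ _ m0⟩

theorem evenC6 {a : F} (ha : a ≠ 0) : finrank ℂ (C a 0 0 0) = q * finrank ℂ ↥(C a 0 0 0 ⊓ (E 6) 0) :=
  h.even 6 (h.iv6' a 0 0) (fun c c' => ⟨x 7 ((c' - c) / a), fun v hv h6 =>
    ⟨h.iv7' _ _ _ _ v hv, wt (h.m76 hv h6 _) (by field_simp; ring)⟩⟩) 0

theorem posB {b : F} (hb : b ≠ 0) : q ≤ finrank ℂ (B b 0 0) := by
  have o := one_ne_zero (α := F)
  obtain ⟨k, hk, e⟩ := h.nE 7 8 9 o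
  have p1 := h.posC (div_ne_zero hb hk)
  rw [h.evenC6 (div_ne_zero hb hk)] at p1
  rw [h.evenB 0 hb]
  exact Nat.le_mul_of_pos_right _ ((Nat.pos_of_mul_pos_left p1).trans_le (finrank_le_of_map (nn D x 7 1) fun v hv =>
    ⟨⟨⟨h.nE0 7 11 o hv.1.1.1.1, h.nE0 7 10 o hv.2⟩, wt (e _ _ hv.1.2) (div_mul_cancel₀ _ hk)⟩,
      h.nE0 7 8 o hv.1.1.2⟩))

theorem posM {z : F} (hz : z ≠ 0) : 1 ≤ finrank ℂ ↥(C 0 0 0 0 ⊓ (E 6) 0 ⊓ (E 7) z) := by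
  have o := one_ne_zero (α := F)
  obtain ⟨k, hk, e⟩ := h.nE 6 8 7 o
  have ha := div_ne_zero hz hk
  have p1 := h.posC ha
  rw [h.even 7 (h.iv7' _ 0 0) (fun c c' => ⟨x 6 ((c - c') / (z / k)), fun v hv h7 =>
    ⟨h.iv6' _ _ _ _ v hv, wt (h.m67 hv h7 _) (by simp [h.gam_zero]; field_simp; ring)⟩⟩) 0] at p1
  obtain ⟨v, hv, v0⟩ := pos_iff_ex.1 (Nat.pos_of_mul_pos_left p1)
  obtain ⟨c, u, hu, u0⟩ := h.ex 6 (h.iv67 z) (v := ρ (nn D x 6 1) v) ⟨⟨⟨⟨h.nE0 6 11 o hv.1.1.1.2,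
    h.nE0 6 10 o hv.1.1.1.1⟩, h.nE0 6 9 o hv.1.1.2⟩, h.nE0 6 8 o hv.2⟩, wt (e _ _ hv.1.2) (div_mul_cancel₀ _ hk)⟩
    (apply_ne_zero ρ _ v0)
  rw [by_contra fun e : ¬c = 0 => hz (h.wt_eq (h.M7 e ⟨hu.1.1, hu.2⟩) hu.1.2 u0)] at hu
  exact pos_iff_ex.2 ⟨u, ⟨⟨hu.1.1, hu.2⟩, hu.1.2⟩, u0⟩

theorem dimU : finrank ℂ ↥(C 0 0 0 0 ⊓ (E 6) 0 ⊓ (E 7) 0) ≤ 2 := by
  have e1 := sum_erase_le (fun b => finrank ℂ (B b 0 0)) 0 fun b hb => h.posB hb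
  have e2 := sum_erase_le (N := q) (fun a => finrank ℂ (C a 0 0 0)) 0 fun a ha => by
    have p1 := h.posC ha
    rw [h.evenC6 ha] at p1 ⊢
    exact Nat.le_mul_of_pos_right _ (Nat.pos_of_mul_pos_left p1)
  have e3 := sum_erase_le (fun c => finrank ℂ ↥(C 0 0 0 0 ⊓ (E 6) c)) 0 fun c hc => (h.dimM6 hc).ge
  have e4 := sum_erase_le (fun c => finrank ℂ ↥(C 0 0 0 0 ⊓ (E 6) 0 ⊓ (E 7) c)) 0 fun c hc => h.posM hc
  rw [← h.split 9 (h.iv9 0 0)] at e1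
  rw [← h.split 8 (h.iv8 0 0 0)] at e2
  rw [← h.split 6 (h.iv6' 0 0 0)] at e3
  rw [← h.split 7 (h.iv76 0)] at e4
  have e5 := h.dimN one_ne_zero
  have e6 := h.dimA
  have e7 := h.hV
  rw [h.m2 one_ne_zero, h.m12.1, mul_one] at e5
  rw [show finrank ℂ (A 0 1) = q * q by omega] at e6
  rw [show q ^ 4 + q ^ 2 = q * q * (q * q) + q * q by ring] at e7
  omega

end C3

end H65.MG
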