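/- Minimal degrees of `G₂(q)` (S2338): characteristic `3`, the fixed space of the unipotent subgroup. -/
import Cfsg.Agent.H65.MG4
import Cfsg.Agent.H64.RGDLevi

set_option autoImplicit false
set_option linter.unusedSectionVars false
set_option linter.unusedSimpArgs false
set_option linter.unusedVariables false

namespace H65.MG

open Cfsg.Lie H63 H64 H2.MX Module
open scoped Classical

variable {F : Type*} [Field F] [Fintype F] {G : Type*} [Group G] [Finite G] {x : ℕ → F → G}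
  {V : Type*} [AddCommGroup V] [Module ℂ V] [FiniteDimensional ℂ V] {ρ : Representation ℂ G V} {ψ : AddChar F ℂ}
  {γ : F → F}

local notation "E" r => eig ρ ψ (x r)
local notation "P" r => ec ρ ψ (x r)
local notation "q" => Fintype.card F
local notation "B" => WB x ρ ψ
local notation "C" => WC x ρ ψ
local notation "H" => hh D x

theorem three {W : Submodule ℂ V} {f g : End ℂ V} {u v w : V} {a a' b b' : ℂ} (hu : u ∈ W) (hv : v ∈ W) (hw : w ∈ W)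
    (u0 : u ≠ 0) (v0 : v ≠ 0) (w0 : w ≠ 0) (fu : f u = a • u) (fv : f v = a • v) (fw : f w = a' • w)
    (gu : g u = b • u) (gv : g v = b' • v) (ha : a ≠ a') (hb : b ≠ b') : 3 ≤ finrank ℂ W := by
  have e := fun (f : End ℂ V) a v => End.mem_eigenspace_iff (f := f) (μ := a) (x := v)
  have l1 := (pos_iff_ex (W := W ⊓ f.eigenspace a ⊓ g.eigenspace b)).2 ⟨u, ⟨⟨hu, (e _ _ _).2 fu⟩, (e _ _ _).2 gu⟩, u0⟩
  have l2 := Submodule.finrank_lt_finrank_of_lt (show W ⊓ f.eigenspace a ⊓ g.eigenspace b < W ⊓ f.eigenspace a from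
    lt_of_le_not_ge inf_le_left fun k => hb (smul_left_injective ℂ v0
      (((e _ _ _).1 (k ⟨hv, (e _ _ _).2 fv⟩).2).symm.trans gv)))
  have l3 := Submodule.finrank_lt_finrank_of_lt (show W ⊓ f.eigenspace a < W from
    lt_of_le_not_ge inf_le_left fun k => ha (smul_left_injective ℂ w0 (((e _ _ _).1 (k hw).2).symm.trans fw)))
  omega

theorem nf_mono {K L : Subgroup G} (hK : K ≤ L) {v : V} (hv : v ∈ nf ρ K) : v ∈ nf ρ L := by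
  have := Fintype.ofFinite K
  have e := congrArg (sm ρ L) ((mem_nf ρ).1 hv)
  rw [sm_apply K, map_sum, Finset.sum_congr rfl fun (y : K) _ => sm_mul (hK y.2) v, Finset.sum_const, map_zero,
    ← Nat.cast_smul_eq_nsmul ℂ, smul_eq_zero] at e
  exact e.resolve_left (by simp)

namespace Cx
variable (h : Cx x ρ ψ)
include h

theorem hx (r s : ℕ) {l : F} (hl : l ≠ 0) (t : F) (hr : r < 12 := by decide) (hs : s < 12 := by decide) :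
    H r l * x s t * (H r l)⁻¹ = x s (l ^ D.pairing r s * t) := h.sN.hh_conj ⟨r, hr⟩ ⟨s, hs⟩ hl t

theorem hx2 (r s : ℕ) {l l' : F} (hl : l ≠ 0) (hl' : l' ≠ 0) {p : ℕ} (hp : p < 12) (t : F) (hr : r < 12 := by decide)
    (hs : s < 12 := by decide) : H r l * H s l' * x p t * (H r l * H s l')⁻¹ =
      x p (l ^ D.pairing r p * (l' ^ D.pairing s p * t)) := by
  rw [← h.hx r p hl _ hr hp, ← h.hx s p hl' _ hs hp]; group

theorem hh_comm (r s : ℕ) {l l' : F} (hl : l ≠ 0) (hl' : l' ≠ 0) (hr : r < 12 := by decide) (hs : s < 12 := by decide) :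
    H r l * H s l' = H s l' * H r l := h.ext fun p hp t => by
  rw [h.hx2 r s hl hl' hp t hr hs, h.hx2 s r hl' hl hp t hs hr, mul_left_comm]

theorem n_hh (r s u : ℕ) {l : F} (hl : l ≠ 0) {v : V} {μ : ℂ} (hv : ρ (H s l) v = μ • v)
    (hr : r < 12 ∧ s < 12 ∧ rf r s = u := by decide +kernel) (hu : u < 12 := by decide) :
    ρ (H u l) (ρ (nn D x r 1) v) = μ • ρ (nn D x r 1) v := by
  obtain ⟨a, ha, -, e⟩ := h.nx r s u one_ne_zero hr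
  have e1 : H u l * H u a = H u (a * l) := h.ext fun p hp t => by
    rw [h.hx2 u u hl ha hp t hu hu, h.hx u p (mul_ne_zero ha hl) t hu hp, mul_zpow]; congr 1; ring
  have e2 : nn D x r 1 * H s l * (nn D x r 1)⁻¹ = H u l := by
    rw [hh_eq, show ∀ a b c : G, a * (b * c) * a⁻¹ = a * b * a⁻¹ * (a * c * a⁻¹) from fun _ _ _ => by group, e, e,
      mul_neg_one, ← h.nn_inv u a hu, h.nn_hh u _ hu, h.nn_hh u a hu, ← e1]
    group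
  rw [← mul_app, ← mul_inv_eq_iff_eq_mul.1 e2, mul_app, hv, map_smul]

theorem hE0 (r : ℕ) {s : ℕ} {l : F} (hl : l ≠ 0) {v : V} (hv : v ∈ (E s) 0) (hr : r < 12 := by decide)
    (hs : s < 12 := by decide) : ρ (H r l) v ∈ (E s) 0 := by
  simpa using E_mon (fun t => h.hx r s hl t hr hs) (zpow_ne_zero _ hl) hv

theorem iv_eig (r s : ℕ) {l : F} (hl : l ≠ 0) (μ : ℂ) (hr : r < 12 ∧ s < 12 ∧ D.pairing r s = 0) :
    Iv x ρ s (End.eigenspace (ρ (H r l)) μ) := fun t v hv => by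
  have e := h.hx r s hl t hr.1 hr.2.1
  rw [hr.2.2, zpow_zero, one_mul, mul_inv_eq_iff_eq_mul] at e
  rw [End.mem_eigenspace_iff] at hv ⊢
  rw [← mul_app, e, mul_app, hv, map_smul]

/-- a cuspidal module for the Levi factor of `b` excludes fixed vectors of the radical for `a` -/
theorem cusp {S : Submodule ℂ V} (i5 : Iv x ρ 5 S) (i6 : Iv x ρ 6 S) (hS : S ≤ C 0 0 0 0 ⊓ (E 7) 0)
    (hH : ∀ r < 12, ∀ l, l ≠ 0 → ∀ v ∈ S, ρ (H r l) v ∈ S) (h6 : ∀ v ∈ S, v ∈ (E 6) 0 → v = 0) {s : V} (hs : s ∈ S)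
    (s0 : s ≠ 0) {v : V} (hv : v ∈ C 0 0 0 0 ⊓ (E 6) 0) : v = 0 := by
  have p : ∀ r : Rt D, (∀ i : Fin D.rank, 0 ≤ certG2.rtc r i) → r.1 ∈ [6, 7, 8, 9, 10, 11] ∧
      ((∀ i : Fin D.rank, ¬i = ⟨0, by decide⟩ → certG2.rtc r i = 0) ↔ r.1 = 7) ∧
        (certG2.lenc r = 3 → r.1 ≠ 7) := by decide +kernel
  have := h.irr
  set T := h.ad.toStB.rgd
  set Q := T.UJ {⟨0, by decide⟩}
  have hX : ∀ r : Rt D, Iv x ρ r S → XR D x r ≤ Pres ρ S := fun r k g hg => by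
    obtain ⟨t, rfl⟩ := h.st.mem_XR.1 hg
    exact mem_Pres (k t)
  have hB : T.B ≤ Pres ρ S := sup_le (gen_le fun r hr => hX r fun t u hu => by
      have k := (p r hr).1
      have m := hS hu
      simp only [List.mem_cons, List.not_mem_nil, or_false] at k
      rcases k with k | k | k | k | k | k <;> rw [k]
      exacts [i6 t u hu, (fx m.2 t).symm ▸ hu, (fx m.1.2 t).symm ▸ hu, (fx m.1.1.2 t).symm ▸ hu,
        (fx m.1.1.1.2 t).symm ▸ hu, (fx m.1.1.1.1 t).symm ▸ hu])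
    ((Subgroup.closure_le _).2 (by rintro _ ⟨r, t, ht, rfl⟩; exact mem_Pres (hH r r.2 t ht)))
  have k : ∀ r : Rt D, Iv x ρ r S → (∀ v ∈ S, v ∈ (E r) 0 → v = 0) → ∀ u ∈ S, u ∈ nf ρ (XR D x r) :=
    fun r i e u hu => e _ (sm_mem (hX r i) hu) fun t => by simpa using sm_mem_fix _ u _ (x_mem_XR D x r t)
  have k6 := k ⟨6, by decide⟩ i6 h6
  have k5 := k (negR ⟨6, by decide⟩) i5 fun u hu e => not_ne_iff.1 fun u0 => apply_ne_zero ρ (nn D x 6 1) u0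
    (h6 _ (by rw [nn_eq, mul_app, mul_app]; exact i6 _ _ (i5 _ _ (i6 _ _ hu))) (h.nE0 6 6 one_ne_zero e))
  have hQ : ∀ r : Rt D, Pos r → len r = 3 → XR D x r ≤ Q := fun r h1 h2 =>
    le_gen T.X (c := r) ⟨h1, fun e => (p r h1).2.2 h2 ((p r h1).2.1.1 (H64.mem_PhiJ_iff.1 e))⟩
  rcases H29.eq_bot_or_eq_top_of_invariant ρ (⨅ g, (nf ρ Q).comap (ρ g)) (fun g u hu => by
    simp only [Submodule.mem_iInf, Submodule.mem_comap, ← mul_app] at hu ⊢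
    exact fun g' => hu _) with e | e
  · refine absurd (e.le ((Submodule.mem_iInf _).2 fun g => ?_)) s0
    obtain ⟨w, b, hb, m, -, b', hb', hw, rfl⟩ := T.exists_cell (h.ad.Gp_eq ▸ Subgroup.mem_top g)
    rw [Submodule.mem_comap, mul_app, mul_app]
    refine nf_conj (Subgroup.mem_normalizer_iff.1 (T.PJ_le_normalizer_UJ _ (T.B_le_PJ _ hb))) ?_
    by_cases h1 : Pos (w.1 ⟨6, by decide⟩)
    · exact nf_mono (hQ _ h1 ((H64.len_apply w.2 _).trans (by decide +kernel)))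
        (nf_conj (hw _) (k6 _ (Pres.app (hB hb') hs)))
    · exact nf_mono (hQ _ ((H64.wdata D).w_neg w _ ▸ pos_negR.2 h1) ((H64.len_apply w.2 _).trans (by decide +kernel)))
        (nf_conj (hw _) (k5 _ (Pres.app (hB hb') hs)))
  · refine eq_zero_of_fix_nf (show v ∈ fix ρ Q from (mem_fix_iff ρ).2 (gen_le fun r hr g hg => ?_))
      (by simpa using (Submodule.mem_iInf _).1 (e.ge (Submodule.mem_top (x := v))) 1)
    obtain ⟨t, rfl⟩ := h.st.mem_XR.1 hg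
    have k := (p r hr.1).1
    have k7 : r.1 ≠ 7 := fun e => hr.2 (H64.mem_PhiJ_iff.2 ((p r hr.1).2.1.2 e))
    simp only [List.mem_cons, List.not_mem_nil, or_false, k7, false_or] at k
    rcases k with k | k | k | k | k <;> rw [mem_Fx, k]
    exacts [fx hv.2 t, fx hv.1.2 t, fx hv.1.1.2 t, fx hv.1.1.1.2 t, fx hv.1.1.1.1 t]

end Cx

namespace C3
variable (h : C3 x ρ ψ γ)
include h

theorem C7 {c : F} {v : V} (hv : v ∈ C 0 0 c 1) : v ∈ (E 7) (γ (c ^ 2)) := by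
  have m : ρ (x 6 c) v ∈ C 0 0 0 1 := ⟨⟨⟨h.mv0 6 hv.1.1.1 c, wt (h.mv1 6 1 hv.1.1.2 hv.1.1.1 c) (by simp)⟩,
    h.mv0 6 hv.1.2 c⟩, h.mv0 6 hv.2 c⟩
  have := h.m67 m (h.B7 one_ne_zero m.1) (-c)
  rw [← h.inv 6, inv_apply] at this
  simpa using this

/-- the torus of `a` acts nontrivially on the line -/
theorem lam : ∃ w ∈ C 0 0 0 1, w ≠ 0 ∧ ∃ (l : F) (μ : ℂ), l ≠ 0 ∧ μ ≠ 1 ∧ ρ (H 7 l) w = μ • w := by
  have o := one_ne_zero (α := F)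
  obtain ⟨w, hw, w0⟩ := pos_iff_ex.1 (h.m2 o).ge
  refine ⟨w, hw, w0, by_contra fun hc => ?_⟩
  push Not at hc
  have sc := fun u hu => exists_smul_of_le_one (h.m2 o).le hw w0 (u := u) hu
  have hh1 : ∀ l, l ≠ 0 → ρ (H 7 l) w = w := fun l hl => by
    obtain ⟨μ, e⟩ := sc (ρ (H 7 l) w) ⟨⟨⟨by
      simpa [show D.pairing 7 11 = 0 by decide +kernel] using E_mon (fun t => h.hx 7 11 hl t) (zpow_ne_zero _ hl) hw.1.1.1,
      h.hE0 7 hl hw.1.1.2⟩, h.hE0 7 hl hw.1.2⟩, h.hE0 7 hl hw.2⟩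
    rw [e, by_contra fun k : ¬μ = 1 => hc l μ hl k e, one_smul]
  have w7 := h.B7 o hw.1
  have m : ρ (nn D x 7 1) w ∈ (E 11) 1 ⊓ (E 9) 0 ⊓ (E 8) 0 := ⟨⟨by
    rw [nn_eq, mul_app, mul_app]; exact h.mv0 7 (h.mv0 4 (h.mv0 7 hw.1.1.1 _) _) _, h.nE0 7 9 o hw.2⟩,
    h.nE0 7 8 o hw.1.2⟩
  have i10 : Iv x ρ 10 ((E 11) 1 ⊓ (E 9) 0 ⊓ (E 8) 0) := fun t v hv =>
    ⟨⟨h.mv0 10 hv.1.1 t, h.mv0 10 hv.1.2 t⟩, h.mv0 10 hv.2 t⟩
  obtain ⟨K, hK⟩ := sc _ (h.le_split 10 (W' := (C 0 0 0 1).comap ((P 7) 0)) i10 (fun c u hu e => by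
    have m : u ∈ C 0 0 c 1 := ⟨⟨⟨hu.1.1, e⟩, hu.1.2⟩, hu.2⟩
    by_cases hc : c = 0
    · exact (h.iv7' 0 0 1).ec 0 (hc ▸ m)
    · rw [Submodule.mem_comap, h.ec_ne (h.C7 m) fun e => pow_ne_zero 2 hc (h.gam_inj (e.trans h.gam_zero.symm))]
      exact Submodule.zero_mem _) m)
  obtain ⟨ν, hν⟩ := FiniteField.exists_nonsquare (F := F) (by rw [ringChar_eq_of_cast Nat.prime_three h.h3]; omega)
  have e0 := h.le_split 10 (W' := LinearMap.ker ((P 7) (γ ν))) i10 (fun c u hu e =>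
    h.ec_ne (h.C7 ⟨⟨⟨hu.1.1, e⟩, hu.1.2⟩, hu.2⟩) fun e => hν ⟨c, by rw [← h.gam_inj e, sq]⟩) m
  have e1 := h.hk3 7 w7 hh1 hK (z := γ ν) fun e => hν (h.gam_inj (e.trans h.gam_zero.symm) ▸ IsSquare.zero)
  rw [LinearMap.mem_ker.1 e0, map_zero, eq_comm, smul_eq_zero] at e1
  replace e1 := e1.resolve_right (apply_ne_zero ρ _ w0)
  rcases h.hk2 7 w7 hh1 hK with e | e
  · exact absurd (show ((q + 1 : ℕ) : ℂ) = 0 by push_cast; linear_combination e1 + e) (Nat.cast_ne_zero.2 (by omega))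
  · have w6 := h.nE0 7 6 o hw.1.1.2
    have := h.mv1 6 1 hw.1.1.2 hw.1.1.1 1
    rw [e] at w6
    rw [fx w6] at this
    simpa using h.wt_eq this hw.1.1.2 w0

theorem exU : ∃ l μ, l ≠ 0 ∧ μ ≠ 1 ∧ ∃ v ∈ C 0 0 0 0 ⊓ (E 7) 0 ⊓ End.eigenspace (ρ (H 9 l)) μ,
    v ∈ (E 6) 0 ∧ v ≠ 0 := by
  have o := one_ne_zero (α := F)
  obtain ⟨w, hw, w0, l, μ, hl, hμ, e⟩ := h.lam
  obtain ⟨k, hk, e1⟩ := h.nE 6 11 10 o
  obtain ⟨k', hk', e2⟩ := h.nE 7 10 6 o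
  have m1 : ρ (nn D x 6 1) w ∈ C 0 0 k 0 := ⟨⟨⟨h.nE0 6 11 o hw.1.1.2, wt (e1 _ _ hw.1.1.1) (one_mul _)⟩,
    h.nE0 6 9 o hw.1.2⟩, h.nE0 6 8 o (h.B7 o hw.1)⟩
  have m2 := h.nE0 6 7 o hw.2
  have m3 := h.n_hh 6 7 8 hl e
  have m0 := apply_ne_zero ρ (nn D x 6 1) w0
  generalize ρ (nn D x 6 1) w = y at m0 m1 m2 m3
  have n1 := (h.iv6' 0 0 k).ec (ψ := ψ) 0 m1
  have n2 := h.ec_mem 6 0 y
  have n3 : ρ (H 8 l) ((P 6) 0 y) = μ • (P 6) 0 y := by rw [← h.ec_hh 8 6 hl, m3, map_smul]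
  have n0 : (P 6) 0 y ≠ 0 := fun e => by
    have := congrArg ((P 7) 0) e
    rw [ec_apply (x := x 6), map_sum, Finset.sum_eq_single 0 (fun t _ ht => by
      rw [map_smul, h.ec_ne (h.m67 m1 m2 t) fun e => mul_ne_zero hk ht (h.gam_inj (by simpa [h.gam_zero] using e)),
        smul_zero]) (by simp)] at this
    simp [h.zero 6, h.ec_self m2, m0] at this
  generalize (P 6) 0 y = z at n0 n1 n2 n3
  have p1 : ρ (nn D x 7 1) z ∈ C 0 0 0 0 ⊓ (E 6) (k * k') := ⟨⟨⟨⟨h.nE0 7 11 o n1.1.1.1, h.nE0 7 10 o n2⟩,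
    h.nE0 7 9 o n1.2⟩, h.nE0 7 8 o n1.1.2⟩, e2 _ _ n1.1.1.2⟩
  refine ⟨l, μ, hl, hμ, by_contra fun hc => ?_⟩
  push Not at hc
  obtain ⟨v, hv, v0⟩ := pos_iff_ex.1 (h.posM o)
  refine v0 (h.cusp (S := C 0 0 0 0 ⊓ (E 7) 0 ⊓ End.eigenspace (ρ (H 9 l)) μ) (fun t u hu =>
    ⟨by simpa [h.gam_zero] using h.m58 hu.1.1 hu.1.2 t, h.iv_eig 9 5 hl μ (by decide +kernel) t u hu.2⟩)
    (fun t u hu => ⟨h.iv67 0 t u hu.1, h.iv_eig 9 6 hl μ (by decide +kernel) t u hu.2⟩) inf_le_left (fun r hr a ha u hu =>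
      ⟨⟨⟨⟨⟨h.hE0 r ha hu.1.1.1.1.1 hr, h.hE0 r ha hu.1.1.1.1.2 hr⟩, h.hE0 r ha hu.1.1.1.2 hr⟩,
        h.hE0 r ha hu.1.1.2 hr⟩, h.hE0 r ha hu.1.2 hr⟩, End.mem_eigenspace_iff.2 ?_⟩) hc
    ⟨⟨p1.1, h.M7 (mul_ne_zero hk hk') p1⟩, End.mem_eigenspace_iff.2 (h.n_hh 7 8 9 hl n3)⟩
    (apply_ne_zero ρ _ n0) hv.1)
  rw [← mul_app, h.hh_comm 9 r hl ha (by decide) hr, mul_app, End.mem_eigenspace_iff.1 hu.2, map_smul]

theorem false3 : False := by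
  have o := one_ne_zero (α := F)
  obtain ⟨l, μ, hl, hμ, v, hv, v6, v0⟩ := h.exU
  set U := C 0 0 0 0 ⊓ (E 6) 0 ⊓ (E 7) 0
  let Wt : ℂ → ℂ → Prop := fun a b => ∃ v ∈ U, v ≠ 0 ∧ ρ (H 9 l) v = a • v ∧ ρ (H 11 l) v = b • v
  have nz : ∀ {a b}, Wt a b → a ≠ 0 ∧ b ≠ 0 := fun ⟨v, _, v0, e1, e2⟩ =>
    ⟨fun e => apply_ne_zero ρ _ v0 (by rw [e1, e, zero_smul]), fun e => apply_ne_zero ρ _ v0 (by rw [e2, e, zero_smul])⟩
  have p : ∀ r < 12, D.pairing 8 r + D.pairing 9 r = D.pairing 11 r + D.pairing 11 r + D.pairing 11 r ∧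
    D.pairing 10 r + D.pairing 11 r = D.pairing 9 r := by decide +kernel
  have e8 : H 8 l * H 9 l = H 11 l * (H 11 l * H 11 l) := h.ext fun r hr t => by
    rw [h.hx2 8 9 hl hl hr, show ∀ a b y : G, a * b * y * (a * b)⁻¹ = a * (b * y * b⁻¹) * a⁻¹ from fun _ _ _ => by group,
      h.hx2 11 11 hl hl hr, h.hx 11 r hl _ (by decide) hr, ← mul_assoc, ← mul_assoc, ← mul_assoc, ← zpow_add₀ hl,
      ← zpow_add₀ hl, ← zpow_add₀ hl, (p r hr).1]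
  have e10 : H 10 l * H 11 l = H 9 l := h.ext fun r hr t => by
    rw [h.hx2 10 11 hl hl hr, h.hx 9 r hl _ (by decide) hr, ← mul_assoc, ← zpow_add₀ hl, (p r hr).2]
  have sa : ∀ {a b}, Wt a b → Wt (b ^ 3 / a) b := fun {a b} hw => by
    obtain ⟨v, hv, v0, e1, e2⟩ := id hw
    have e3 : ρ (H 8 l) v = (b ^ 3 / a) • v := smul_right_injective V (nz hw).1 (by
      simp only [← map_smul, ← e1, ← mul_app, e8]
      simp only [mul_app, e2, map_smul, smul_smul, e1]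
      congr 1; field_simp [(nz hw).1])
    exact ⟨(P 7) 0 (ρ (nn D x 7 1) v), ⟨(h.iv76 0).ec 0 ⟨⟨⟨⟨h.nE0 7 11 o hv.1.1.1.1.1, h.nE0 7 10 o hv.1.2⟩,
      h.nE0 7 9 o hv.1.1.2⟩, h.nE0 7 8 o hv.1.1.1.2⟩, h.nE0 7 6 o hv.1.1.1.1.2⟩, h.ec_mem 7 0 _⟩,
      fun e => v0 (h.hk_inj 7 hv.2 e), by rw [← h.ec_hh 9 7 hl, h.n_hh 7 8 9 hl e3, map_smul],
      by rw [← h.ec_hh 11 7 hl, h.n_hh 7 11 11 hl e2, map_smul]⟩
  have sb : ∀ {a b}, Wt a b → Wt a (a / b) := fun {a b} hw => by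
    obtain ⟨v, hv, v0, e1, e2⟩ := id hw
    have e3 : ρ (H 10 l) v = (a / b) • v := smul_right_injective V (nz hw).2 (by
      simp only [← map_smul, ← e2, ← mul_app, e10]
      simp only [e1, smul_smul]
      congr 1; field_simp [(nz hw).2])
    have m := (h.iv67 0).ec (ψ := ψ) 0 (v := ρ (nn D x 6 1) v) ⟨⟨⟨⟨h.nE0 6 11 o hv.1.1.1.1.2,
      h.nE0 6 10 o hv.1.1.1.1.1⟩, h.nE0 6 9 o hv.1.1.1.2⟩, h.nE0 6 8 o hv.2⟩, h.nE0 6 7 o hv.1.1.2⟩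
    exact ⟨(P 6) 0 (ρ (nn D x 6 1) v), ⟨⟨m.1, h.ec_mem 6 0 _⟩, m.2⟩,
      fun e => v0 (h.hk_inj 6 hv.1.2 e), by rw [← h.ec_hh 9 6 hl, h.n_hh 6 9 9 hl e1, map_smul],
      by rw [← h.ec_hh 11 6 hl, h.n_hh 6 10 11 hl e3, map_smul]⟩
  have t3 : ∀ {a a' b b' c}, Wt a b → Wt a b' → Wt a' c → a ≠ a' → b ≠ b' → False :=
    fun ⟨u, hu, u0, u1, u2⟩ ⟨v, hv, v0, v1, v2⟩ ⟨w, hw, w0, w1, _⟩ ha hb =>
      absurd ((three hu hv hw u0 v0 w0 u1 v1 w1 u2 v2 ha hb).trans h.dimU) (by omega)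
  have hf : ∀ u ∈ U ⊓ End.eigenspace (ρ (H 9 l)) μ, ρ (H 11 l) u ∈ U ⊓ End.eigenspace (ρ (H 9 l)) μ := fun u hu =>
    ⟨⟨⟨⟨⟨⟨h.hE0 11 hl hu.1.1.1.1.1.1, h.hE0 11 hl hu.1.1.1.1.1.2⟩, h.hE0 11 hl hu.1.1.1.1.2⟩,
      h.hE0 11 hl hu.1.1.1.2⟩, h.hE0 11 hl hu.1.1.2⟩, h.hE0 11 hl hu.1.2⟩, End.mem_eigenspace_iff.2 (by
        rw [← mul_app, h.hh_comm 9 11 hl hl, mul_app, End.mem_eigenspace_iff.1 hu.2, map_smul])⟩
  have : Nontrivial ↥(U ⊓ End.eigenspace (ρ (H 9 l)) μ) :=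
    ⟨⟨⟨v, ⟨⟨hv.1.1, v6⟩, hv.1.2⟩, hv.2⟩, 0, fun e => v0 (congrArg Subtype.val e)⟩⟩
  obtain ⟨y, hy⟩ := End.exists_eigenvalue (LinearMap.restrict (ρ (H 11 l)) hf)
  obtain ⟨u, hu⟩ := hy.exists_hasEigenvector
  have w1 : Wt μ y := ⟨u, u.2.1, fun e => hu.2 (Subtype.ext e), End.mem_eigenspace_iff.1 u.2.2,
    congrArg Subtype.val hu.apply_eq_smul⟩
  obtain ⟨μ0, y0⟩ := nz w1
  by_cases c1 : y = μ / y
  · have e : μ = y * y := by field_simp at c1; linear_combination -c1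
    have w2 := sa w1
    rw [show y ^ 3 / μ = y by rw [e]; field_simp] at w2
    have y1 : y ≠ 1 := by rintro rfl; exact hμ (by simpa using e)
    exact t3 w2 (sb w2) w1 (fun k => y1 (mul_left_cancel₀ y0 (by rw [← e, ← k, mul_one]))) (by rwa [div_self y0])
  by_cases c2 : μ = y ^ 3 / μ
  · refine t3 w1 (sb w1) (sa (sb w1)) (fun k => hμ (k.trans ?_)) c1
    field_simp at c2 ⊢
    exact c2
  · exact t3 w1 (sb w1) (sa w1) c2 c1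

end C3

theorem Cx.boundC (h : Cx x ρ ψ) (h3 : (3 : F) = 0) (h9 : 9 ≤ q) : q ^ 4 + q ^ 2 + 1 ≤ finrank ℂ V := by
  obtain ⟨γ, hγ⟩ := exists_gam h.hψ h3
  exact by_contra fun hV => C3.false3 ⟨h, h3, h9, hγ, by omega⟩

end H65.MG
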