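import Cfsg.Agent.H65.O84K

/-! O84 (S3384): the centralisers of the two quadruples; `Cert5`. -/

set_option autoImplicit false

namespace H65.O84

open H36.O84 Matrix

theorem ent {X A : M4} (h : X * A = A * X) (a b : Fin 4) :
    X a 0 * A 0 b + X a 1 * A 1 b + X a 2 * A 2 b + X a 3 * A 3 b =
      A a 0 * X 0 b + A a 1 * X 1 b + A a 2 * X 2 b + A a 3 * X 3 b := by
  simpa only [Matrix.mul_apply, Fin.sum_univ_four] using congrFun (congrFun h a) b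

theorem R0 : R 0 = !![1, 0, 0, 3; 0, 1, 0, 1; 0, 0, 1, 2; 0, 0, 0, 4] := by decide +kernel
theorem R1 : R 1 = !![1, 0, 3, 2; 0, 1, 1, 4; 0, 0, 3, 3; 0, 0, 4, 2] := by decide +kernel
theorem R11 : R 11 = !![1, 0, 0, 0; 2, 4, 2, 3; 1, 4, 2, 4; 1, 4, 1, 0] := by decide +kernel
theorem R46 : R 46 = !![4, 0, 2, 3; 3, 1, 2, 3; 4, 0, 2, 4; 4, 0, 1, 0] := by decide +kernel
theorem R50 : R 50 = !![0, 2, 4, 2; 4, 3, 4, 2; 3, 4, 4, 4; 3, 4, 3, 0] := by decide +kernel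

theorem cen0 {X : M4} (h0 : X * R 0 = R 0 * X) (h1 : X * R 1 = R 1 * X) (h11 : X * R 11 = R 11 * X) (h46 : X * R 46 = R 46 * X) :
    X = X 0 0 • (1 : M4) := by
  have h5 : (5 : ZMod 5) = 0 := rfl
  rw [R0] at h0
  rw [R1] at h1
  rw [R11] at h11
  rw [R46] at h46
  have e0 : X 0 0 * 1 + X 0 1 * 0 + X 0 2 * 0 + X 0 3 * 0 =
      1 * X 0 0 + 0 * X 1 0 + 0 * X 2 0 + 3 * X 3 0 := ent h0 0 0
  have e1 : X 0 0 * 0 + X 0 1 * 1 + X 0 2 * 0 + X 0 3 * 0 =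
      1 * X 0 1 + 0 * X 1 1 + 0 * X 2 1 + 3 * X 3 1 := ent h0 0 1
  have e2 : X 0 0 * 0 + X 0 1 * 0 + X 0 2 * 1 + X 0 3 * 0 =
      1 * X 0 2 + 0 * X 1 2 + 0 * X 2 2 + 3 * X 3 2 := ent h0 0 2
  have e3 : X 0 0 * 3 + X 0 1 * 1 + X 0 2 * 2 + X 0 3 * 4 =
      1 * X 0 3 + 0 * X 1 3 + 0 * X 2 3 + 3 * X 3 3 := ent h0 0 3
  have e7 : X 1 0 * 3 + X 1 1 * 1 + X 1 2 * 2 + X 1 3 * 4 =
      0 * X 0 3 + 1 * X 1 3 + 0 * X 2 3 + 1 * X 3 3 := ent h0 1 3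
  have e11 : X 2 0 * 3 + X 2 1 * 1 + X 2 2 * 2 + X 2 3 * 4 =
      0 * X 0 3 + 0 * X 1 3 + 1 * X 2 3 + 2 * X 3 3 := ent h0 2 3
  have e16 : X 0 0 * 1 + X 0 1 * 0 + X 0 2 * 0 + X 0 3 * 0 =
      1 * X 0 0 + 0 * X 1 0 + 3 * X 2 0 + 2 * X 3 0 := ent h1 0 0
  have e17 : X 0 0 * 0 + X 0 1 * 1 + X 0 2 * 0 + X 0 3 * 0 =
      1 * X 0 1 + 0 * X 1 1 + 3 * X 2 1 + 2 * X 3 1 := ent h1 0 1
  have e18 : X 0 0 * 3 + X 0 1 * 1 + X 0 2 * 3 + X 0 3 * 4 =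
      1 * X 0 2 + 0 * X 1 2 + 3 * X 2 2 + 2 * X 3 2 := ent h1 0 2
  have e19 : X 0 0 * 2 + X 0 1 * 4 + X 0 2 * 3 + X 0 3 * 2 =
      1 * X 0 3 + 0 * X 1 3 + 3 * X 2 3 + 2 * X 3 3 := ent h1 0 3
  have e22 : X 1 0 * 3 + X 1 1 * 1 + X 1 2 * 3 + X 1 3 * 4 =
      0 * X 0 2 + 1 * X 1 2 + 1 * X 2 2 + 4 * X 3 2 := ent h1 1 2
  have e32 : X 0 0 * 1 + X 0 1 * 2 + X 0 2 * 1 + X 0 3 * 1 =
      1 * X 0 0 + 0 * X 1 0 + 0 * X 2 0 + 0 * X 3 0 := ent h11 0 0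
  have e36 : X 1 0 * 1 + X 1 1 * 2 + X 1 2 * 1 + X 1 3 * 1 =
      2 * X 0 0 + 4 * X 1 0 + 2 * X 2 0 + 3 * X 3 0 := ent h11 1 0
  have e37 : X 1 0 * 0 + X 1 1 * 4 + X 1 2 * 4 + X 1 3 * 4 =
      2 * X 0 1 + 4 * X 1 1 + 2 * X 2 1 + 3 * X 3 1 := ent h11 1 1
  have e49 : X 0 0 * 0 + X 0 1 * 1 + X 0 2 * 0 + X 0 3 * 0 =
      4 * X 0 1 + 0 * X 1 1 + 2 * X 2 1 + 3 * X 3 1 := ent h46 0 1
  have t01 : X 0 1 = 0 := by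
    linear_combination 3 * e17 + 3 * e49 + ((2) * X 0 1 + (3) * X 2 1 + (3) * X 3 1) * h5
  have t02 : X 0 2 = 0 := by
    linear_combination 3 * e0 + 1 * e3 + 3 * e11 + 3 * e16 + 2 * e18 + 2 * e2 + 1 * e1 + 3 * e19 + 1 * e32 + 4 * e49 + ((-3) * X 0 0 + (-1) * X 0 1 + (-3) * X 0 2 + (-3) * X 0 3 + (1) * X 2 1 + (3) * X 3 0 + (3) * X 3 1 + (2) * X 3 2 + (3) * X 3 3) * h5
  have t03 : X 0 3 = 0 := by
    linear_combination 3 * e18 + 3 * e2 + 4 * e3 + 4 * e17 + 4 * e1 + 2 * e16 + 2 * e0 + 2 * e11 + 2 * e19 + ((-5) * X 0 0 + (-3) * X 0 1 + (-4) * X 0 2 + (-5) * X 0 3 + (2) * X 2 1 + (1) * X 2 2 + (2) * X 3 0 + (4) * X 3 1 + (3) * X 3 2 + (4) * X 3 3) * h5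
  have t10 : X 1 0 = 0 := by
    linear_combination 1 * e7 + 2 * e22 + 1 * e16 + 3 * e3 + 1 * e18 + 2 * e37 + 2 * e32 + 1 * e36 + 3 * e49 + ((-2) * X 0 0 + (1) * X 0 1 + (-2) * X 0 2 + (-3) * X 0 3 + (-1) * X 1 0 + (-1) * X 1 1 + (-3) * X 1 2 + (-4) * X 1 3 + (1) * X 2 0 + (2) * X 2 1 + (1) * X 2 2 + (1) * X 3 0 + (3) * X 3 1 + (2) * X 3 2 + (2) * X 3 3) * h5
  have t11 : X 1 1 = X 0 0 := by
    linear_combination 2 * e3 + 4 * e18 + 1 * e17 + 2 * e16 + 3 * e32 + 2 * e36 + 4 * e7 + 3 * e22 + 1 * e37 + ((-3) * X 0 0 + (-2) * X 0 1 + (-3) * X 0 2 + (-5) * X 0 3 + (-3) * X 1 0 + (-2) * X 1 1 + (-4) * X 1 2 + (-6) * X 1 3 + (2) * X 2 0 + (1) * X 2 1 + (3) * X 2 2 + (2) * X 3 0 + (1) * X 3 1 + (4) * X 3 2 + (2) * X 3 3) * h5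
  have t12 : X 1 2 = 0 := by
    linear_combination 4 * e49 + 2 * e1 + 1 * e16 + 1 * e0 + 1 * e11 + 1 * e18 + 4 * e2 + 1 * e19 + 1 * e7 + 4 * e22 + 4 * e37 + ((-1) * X 0 0 + (3) * X 0 1 + (-1) * X 0 2 + (-1) * X 0 3 + (-3) * X 1 0 + (-1) * X 1 1 + (-5) * X 1 2 + (-7) * X 1 3 + (3) * X 2 1 + (1) * X 2 2 + (1) * X 3 0 + (6) * X 3 1 + (6) * X 3 2 + (1) * X 3 3) * h5
  have t13 : X 1 3 = 0 := by
    linear_combination 1 * e22 + 1 * e2 + 4 * e7 + 3 * e17 + 3 * e1 + 4 * e16 + 4 * e0 + 4 * e11 + 4 * e19 + 4 * e18 + ((-4) * X 0 0 + (-4) * X 0 1 + (-4) * X 0 2 + (-4) * X 0 3 + (-3) * X 1 0 + (-1) * X 1 1 + (-2) * X 1 2 + (-3) * X 1 3 + (1) * X 2 1 + (1) * X 2 2 + (4) * X 3 0 + (3) * X 3 1 + (3) * X 3 2 + (4) * X 3 3) * h5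
  have t20 : X 2 0 = 0 := by
    linear_combination 3 * e16 + 3 * e0 + ((2) * X 2 0 + (3) * X 3 0) * h5
  have t21 : X 2 1 = 0 := by
    linear_combination 3 * e17 + 3 * e1 + ((2) * X 2 1 + (3) * X 3 1) * h5
  have t22 : X 2 2 = X 0 0 := by
    linear_combination 1 * e3 + 3 * e17 + 1 * e1 + 3 * e16 + 3 * e0 + 3 * e11 + 3 * e19 + 4 * e32 + 2 * e49 + ((-2) * X 0 0 + (-3) * X 0 1 + (-3) * X 0 2 + (-2) * X 0 3 + (2) * X 2 1 + (-1) * X 2 2 + (3) * X 3 0 + (3) * X 3 1 + (3) * X 3 3) * h5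
  have t23 : X 2 3 = 0 := by
    linear_combination 4 * e19 + 4 * e18 + 4 * e2 + 2 * e17 + 2 * e1 + 1 * e16 + 1 * e0 + 1 * e11 + ((-4) * X 0 0 + (-4) * X 0 1 + (-4) * X 0 2 + (-4) * X 0 3 + (1) * X 2 1 + (2) * X 2 2 + (2) * X 2 3 + (1) * X 3 0 + (2) * X 3 1 + (4) * X 3 2 + (2) * X 3 3) * h5
  have t30 : X 3 0 = 0 := by
    linear_combination 3 * e0 + ((2) * X 3 0) * h5
  have t31 : X 3 1 = 0 := by
    linear_combination 3 * e1 + ((2) * X 3 1) * h5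
  have t32 : X 3 2 = 0 := by
    linear_combination 3 * e2 + ((2) * X 3 2) * h5
  have t33 : X 3 3 = X 0 0 := by
    linear_combination 1 * e3 + 1 * e18 + 1 * e2 + 3 * e1 + 4 * e16 + 4 * e0 + 4 * e11 + 4 * e19 + 4 * e32 + 2 * e49 + ((-3) * X 0 0 + (-4) * X 0 1 + (-4) * X 0 2 + (-3) * X 0 3 + (-1) * X 2 2 + (4) * X 3 0 + (3) * X 3 1 + (1) * X 3 2 + (4) * X 3 3) * h5
  ext a b
  fin_cases a <;> fin_cases b <;> simp [t01, t02, t03, t10, t11, t12, t13, t20, t21, t22, t23, t30, t31, t32, t33]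

theorem cen1 {X : M4} (h0 : X * R 0 = R 0 * X) (h1 : X * R 1 = R 1 * X) (h11 : X * R 11 = R 11 * X) (h50 : X * R 50 = R 50 * X) :
    X = X 0 0 • (1 : M4) := by
  have h5 : (5 : ZMod 5) = 0 := rfl
  rw [R0] at h0
  rw [R1] at h1
  rw [R11] at h11
  rw [R50] at h50
  have e0 : X 0 0 * 1 + X 0 1 * 0 + X 0 2 * 0 + X 0 3 * 0 =
      1 * X 0 0 + 0 * X 1 0 + 0 * X 2 0 + 3 * X 3 0 := ent h0 0 0
  have e1 : X 0 0 * 0 + X 0 1 * 1 + X 0 2 * 0 + X 0 3 * 0 =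
      1 * X 0 1 + 0 * X 1 1 + 0 * X 2 1 + 3 * X 3 1 := ent h0 0 1
  have e2 : X 0 0 * 0 + X 0 1 * 0 + X 0 2 * 1 + X 0 3 * 0 =
      1 * X 0 2 + 0 * X 1 2 + 0 * X 2 2 + 3 * X 3 2 := ent h0 0 2
  have e3 : X 0 0 * 3 + X 0 1 * 1 + X 0 2 * 2 + X 0 3 * 4 =
      1 * X 0 3 + 0 * X 1 3 + 0 * X 2 3 + 3 * X 3 3 := ent h0 0 3
  have e7 : X 1 0 * 3 + X 1 1 * 1 + X 1 2 * 2 + X 1 3 * 4 =
      0 * X 0 3 + 1 * X 1 3 + 0 * X 2 3 + 1 * X 3 3 := ent h0 1 3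
  have e11 : X 2 0 * 3 + X 2 1 * 1 + X 2 2 * 2 + X 2 3 * 4 =
      0 * X 0 3 + 0 * X 1 3 + 1 * X 2 3 + 2 * X 3 3 := ent h0 2 3
  have e16 : X 0 0 * 1 + X 0 1 * 0 + X 0 2 * 0 + X 0 3 * 0 =
      1 * X 0 0 + 0 * X 1 0 + 3 * X 2 0 + 2 * X 3 0 := ent h1 0 0
  have e17 : X 0 0 * 0 + X 0 1 * 1 + X 0 2 * 0 + X 0 3 * 0 =
      1 * X 0 1 + 0 * X 1 1 + 3 * X 2 1 + 2 * X 3 1 := ent h1 0 1
  have e18 : X 0 0 * 3 + X 0 1 * 1 + X 0 2 * 3 + X 0 3 * 4 =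
      1 * X 0 2 + 0 * X 1 2 + 3 * X 2 2 + 2 * X 3 2 := ent h1 0 2
  have e19 : X 0 0 * 2 + X 0 1 * 4 + X 0 2 * 3 + X 0 3 * 2 =
      1 * X 0 3 + 0 * X 1 3 + 3 * X 2 3 + 2 * X 3 3 := ent h1 0 3
  have e22 : X 1 0 * 3 + X 1 1 * 1 + X 1 2 * 3 + X 1 3 * 4 =
      0 * X 0 2 + 1 * X 1 2 + 1 * X 2 2 + 4 * X 3 2 := ent h1 1 2
  have e32 : X 0 0 * 1 + X 0 1 * 2 + X 0 2 * 1 + X 0 3 * 1 =
      1 * X 0 0 + 0 * X 1 0 + 0 * X 2 0 + 0 * X 3 0 := ent h11 0 0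
  have e36 : X 1 0 * 1 + X 1 1 * 2 + X 1 2 * 1 + X 1 3 * 1 =
      2 * X 0 0 + 4 * X 1 0 + 2 * X 2 0 + 3 * X 3 0 := ent h11 1 0
  have e37 : X 1 0 * 0 + X 1 1 * 4 + X 1 2 * 4 + X 1 3 * 4 =
      2 * X 0 1 + 4 * X 1 1 + 2 * X 2 1 + 3 * X 3 1 := ent h11 1 1
  have e48 : X 0 0 * 0 + X 0 1 * 4 + X 0 2 * 3 + X 0 3 * 3 =
      0 * X 0 0 + 2 * X 1 0 + 4 * X 2 0 + 2 * X 3 0 := ent h50 0 0
  have t01 : X 0 1 = 0 := by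
    linear_combination 1 * e32 + 2 * e18 + 1 * e3 + 4 * e17 + 4 * e16 + 3 * e0 + 2 * e36 + 2 * e7 + 4 * e22 + 4 * e37 + 1 * e48 + ((-1) * X 0 0 + (-2) * X 0 2 + (-3) * X 0 3 + (-2) * X 1 0 + (-2) * X 1 1 + (-6) * X 1 2 + (-8) * X 1 3 + (4) * X 2 0 + (4) * X 2 1 + (2) * X 2 2 + (5) * X 3 0 + (4) * X 3 1 + (4) * X 3 2 + (1) * X 3 3) * h5
  have t02 : X 0 2 = 0 := by
    linear_combination 1 * e36 + 2 * e0 + 4 * e3 + 1 * e7 + 3 * e11 + 3 * e18 + 2 * e2 + 3 * e17 + 1 * e1 + 3 * e19 + 2 * e22 + 4 * e32 + 2 * e37 + 3 * e48 + ((-5) * X 0 0 + (-7) * X 0 1 + (-7) * X 0 2 + (-8) * X 0 3 + (-1) * X 1 1 + (-3) * X 1 2 + (-4) * X 1 3 + (1) * X 2 0 + (2) * X 2 1 + (1) * X 2 2 + (3) * X 3 0 + (3) * X 3 1 + (4) * X 3 2 + (5) * X 3 3) * h5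
  have t03 : X 0 3 = 0 := by
    linear_combination 3 * e18 + 3 * e2 + 4 * e3 + 4 * e17 + 4 * e1 + 2 * e16 + 2 * e0 + 2 * e11 + 2 * e19 + ((-5) * X 0 0 + (-3) * X 0 1 + (-4) * X 0 2 + (-5) * X 0 3 + (2) * X 2 1 + (1) * X 2 2 + (2) * X 3 0 + (4) * X 3 1 + (3) * X 3 2 + (4) * X 3 3) * h5
  have t10 : X 1 0 = 0 := by
    linear_combination 3 * e7 + 1 * e22 + 1 * e17 + 3 * e0 + 4 * e3 + 3 * e18 + 1 * e37 + 3 * e32 + 3 * e36 + 1 * e48 + ((-3) * X 0 0 + (-3) * X 0 1 + (-4) * X 0 2 + (-6) * X 0 3 + (-2) * X 1 1 + (-3) * X 1 2 + (-4) * X 1 3 + (2) * X 2 0 + (1) * X 2 1 + (2) * X 2 2 + (4) * X 3 0 + (1) * X 3 1 + (2) * X 3 2 + (3) * X 3 3) * h5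
  have t11 : X 1 1 = X 0 0 := by
    linear_combination 2 * e3 + 4 * e18 + 1 * e17 + 2 * e16 + 3 * e32 + 2 * e36 + 4 * e7 + 3 * e22 + 1 * e37 + ((-3) * X 0 0 + (-2) * X 0 1 + (-3) * X 0 2 + (-5) * X 0 3 + (-3) * X 1 0 + (-2) * X 1 1 + (-4) * X 1 2 + (-6) * X 1 3 + (2) * X 2 0 + (1) * X 2 1 + (3) * X 2 2 + (2) * X 3 0 + (1) * X 3 1 + (4) * X 3 2 + (2) * X 3 3) * h5
  have t12 : X 1 2 = 0 := by
    linear_combination 3 * e48 + 2 * e7 + 1 * e11 + 3 * e16 + 2 * e18 + 4 * e2 + 3 * e3 + 3 * e17 + 2 * e1 + 1 * e19 + 1 * e22 + 3 * e32 + 1 * e36 + 1 * e37 + ((-3) * X 0 0 + (-5) * X 0 1 + (-5) * X 0 2 + (-6) * X 0 3 + (-1) * X 1 1 + (-2) * X 1 2 + (-3) * X 1 3 + (4) * X 2 0 + (2) * X 2 1 + (1) * X 2 2 + (3) * X 3 0 + (3) * X 3 1 + (4) * X 3 2 + (3) * X 3 3) * h5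
  have t13 : X 1 3 = 0 := by
    linear_combination 1 * e22 + 1 * e2 + 4 * e7 + 3 * e17 + 3 * e1 + 4 * e16 + 4 * e0 + 4 * e11 + 4 * e19 + 4 * e18 + ((-4) * X 0 0 + (-4) * X 0 1 + (-4) * X 0 2 + (-4) * X 0 3 + (-3) * X 1 0 + (-1) * X 1 1 + (-2) * X 1 2 + (-3) * X 1 3 + (1) * X 2 1 + (1) * X 2 2 + (4) * X 3 0 + (3) * X 3 1 + (3) * X 3 2 + (4) * X 3 3) * h5
  have t20 : X 2 0 = 0 := by
    linear_combination 3 * e16 + 3 * e0 + ((2) * X 2 0 + (3) * X 3 0) * h5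
  have t21 : X 2 1 = 0 := by
    linear_combination 3 * e17 + 3 * e1 + ((2) * X 2 1 + (3) * X 3 1) * h5
  have t22 : X 2 2 = X 0 0 := by
    linear_combination 2 * e17 + 1 * e1 + 4 * e16 + 3 * e11 + 3 * e18 + 3 * e19 + 3 * e32 + 3 * e36 + 3 * e7 + 1 * e22 + 1 * e37 + 4 * e48 + ((-2) * X 0 0 + (-7) * X 0 1 + (-6) * X 0 2 + (-6) * X 0 3 + (1) * X 1 0 + (-2) * X 1 1 + (-3) * X 1 2 + (-4) * X 1 3 + (5) * X 2 0 + (1) * X 2 1 + (1) * X 2 2 + (5) * X 3 0 + (2) * X 3 1 + (2) * X 3 2 + (3) * X 3 3) * h5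
  have t23 : X 2 3 = 0 := by
    linear_combination 4 * e19 + 4 * e18 + 4 * e2 + 2 * e17 + 2 * e1 + 1 * e16 + 1 * e0 + 1 * e11 + ((-4) * X 0 0 + (-4) * X 0 1 + (-4) * X 0 2 + (-4) * X 0 3 + (1) * X 2 1 + (2) * X 2 2 + (2) * X 2 3 + (1) * X 3 0 + (2) * X 3 1 + (4) * X 3 2 + (2) * X 3 3) * h5
  have t30 : X 3 0 = 0 := by
    linear_combination 3 * e0 + ((2) * X 3 0) * h5
  have t31 : X 3 1 = 0 := by
    linear_combination 3 * e1 + ((2) * X 3 1) * h5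
  have t32 : X 3 2 = 0 := by
    linear_combination 3 * e2 + ((2) * X 3 2) * h5
  have t33 : X 3 3 = X 0 0 := by
    linear_combination 4 * e18 + 1 * e2 + 4 * e17 + 3 * e1 + 1 * e0 + 4 * e11 + 4 * e19 + 3 * e32 + 3 * e36 + 3 * e7 + 1 * e22 + 1 * e37 + 4 * e48 + ((-3) * X 0 0 + (-8) * X 0 1 + (-7) * X 0 2 + (-7) * X 0 3 + (1) * X 1 0 + (-2) * X 1 1 + (-3) * X 1 2 + (-4) * X 1 3 + (2) * X 2 0 + (2) * X 2 1 + (1) * X 2 2 + (4) * X 3 0 + (4) * X 3 1 + (3) * X 3 2 + (4) * X 3 3) * h5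
  ext a b
  fin_cases a <;> fin_cases b <;> simp [t01, t02, t03, t10, t11, t12, t13, t20, t21, t22, t23, t30, t31, t32, t33]

theorem smul_one_eq : ∀ s : ZMod 5, s • (1 : M4) = mat (s.val * one) := by decide +kernel

theorem v5_eq : v5 = mat (evc [20, 6, 1, 0]) := by
  rw [mat_evc, v5, r_eq, r_eq, r_eq, r_eq]
  simp [ev, mul_assoc]

theorem v5_lit : v5 = !![1, 3, 0, 3; 3, 4, 4, 3; 1, 1, 4, 1; 3, 3, 2, 0] := by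
  rw [v5_eq]; decide +kernel

theorem v5_pow : v5 ^ 5 = 1 := by rw [v5_lit]; decide +kernel

theorem v5_fix {a : V} (h : v5 *ᵥ a = a) : a = a 0 • ![1, 4, 3, 1] := by
  rw [v5_lit] at h
  have k : ∀ x y z w : ZMod 5, !![1, 3, 0, 3; 3, 4, 4, 3; 1, 1, 4, 1; 3, 3, 2, 0] *ᵥ ![x, y, z, w] =
      ![x, y, z, w] → ![x, y, z, w] = x • ![1, 4, 3, 1] := by decide +kernel
  have e : a = ![a 0, a 1, a 2, a 3] := by ext i; fin_cases i <;> rfl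
  rw [e] at h
  exact e.trans (k _ _ _ _ h)

theorem cert5 : Cert5 := by
  refine ⟨v5_pow, fun k h0 h5 => ?_⟩
  have p : ∀ (M : M4) (a : V), M *ᵥ a = a → ∀ n : ℕ, (M ^ n) *ᵥ a = a := fun M a h n => by
    induction n with
    | zero => simp
    | succ n ih => rw [pow_succ, ← mulVec_mulVec, h, ih]
  have q : ∃ j m : ℕ, k * j = 5 * m + 1 := by
    interval_cases k
    exacts [⟨1, 0, rfl⟩, ⟨3, 1, rfl⟩, ⟨2, 1, rfl⟩, ⟨4, 3, rfl⟩]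
  obtain ⟨j, m, hj⟩ := q
  refine (Set.ncard_le_ncard (t := (fun s : ZMod 5 => s • (![1, 4, 3, 1] : V)) '' Set.univ)
    fun a ha => ⟨a 0, trivial, (v5_fix ?_).symm⟩).trans ((Set.ncard_image_le).trans ?_)
  · have := p _ a ha j
    rwa [← pow_mul, hj, pow_succ, pow_mul, v5_pow, one_pow, one_mul] at this
  · rw [Set.ncard_univ, Nat.card_zmod]

end H65.O84
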