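import Cfsg.Agent.H65.O84K

/-! O84 (S3384): the certificate `CertQ`. -/

set_option autoImplicit false

namespace H65.O84

open H36.O84 Matrix

def TW : List (List ℕ) := [[], [59], [57], [15, 27], [1, 5], [49], [50], [54], [51], [1, 8], [46], [45], [3], [5, 27], [1, 15], [36], [42], [5, 38], [1, 19], [27], [37], [38], [1, 26], [5, 16], [26], [1, 21], [24], [19], [5, 20], [33], [32], [1, 30], [30], [29], [1, 33], [5, 29], [15], [20], [21], [5, 32], [1, 37], [5, 24], [16], [1, 42], [5, 36], [11], [10], [13], [15, 32], [5], [6], [8], [15, 29], [1, 50], [7], [1, 54], [15, 24], [2], [17], [1]]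

theorem tw_ok : ∀ l < 60, (∀ g ∈ TW.getD l [], g < 60) ∧ aw (TW.getD l []) l = 0 := by
  decide +kernel

/-- the points of the hyperplane fixed by `r 0`, as first columns -/
def PT : List ℕ := [16777216, 4096, 16781312, 33558528, 50335744, 67112960, 1, 16777217, 33554433, 50331649, 67108865, 4097, 16781313, 33558529, 50335745, 67112961, 8193, 16785409, 33562625, 50339841, 67117057, 12289, 16789505, 33566721, 50343937, 67121153, 16385, 16793601, 33570817, 50348033, 67125249]
/-- bit `j` of entry `l`: `r l` fixes point `j` -/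
def ZT : List ℕ := [2147483647, 69273666, 1090785348, 63489, 63489, 286263456, 271062024, 570495264, 168036872, 63489, 138547330, 545393668, 63489, 63, 63, 1108378626, 272728580, 302137424, 302137424, 143163488, 101195908, 277094658, 302137424, 302137424, 542122056, 63, 542122056, 143163488, 1985, 1075978784, 84050184, 2080374785, 84050184, 1075978784, 65011713, 63, 1108378626, 101195908, 277094658, 554189314, 71582752, 137380100, 272728580, 1082212488, 2031617, 545393668, 138547330, 63, 63489, 286263456, 271062024, 168036872, 1078462736, 539263120, 570495264, 151069712, 76550672, 1090785348, 302137424, 69273666]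

theorem zt_ok : ∀ j < 31, (mu one (PT.getD j 0) = PT.getD j 0 ∧ PT.getD j 0 ≠ 0 ∧
    (ZT.getD 0 0).testBit j = true) ∧
    ∀ l < 60, (ZT.getD l 0).testBit j = true → mu (rc l) (PT.getD j 0) = PT.getD j 0 := by
  decide +kernel

theorem zt_lt : ∀ l < 60, ZT.getD l 0 < 2 ^ 31 := by decide +kernel

def Qs (i : ℕ) : List ℕ := if i = 0 then [0, 1, 11, 46] else [0, 1, 11, 50]

def CQ : List (ℕ × ℕ × List ℕ) := [(70368744179714, 0, []), (1125899906844674, 1, []), (18014398509484034, 1, [56]), (144115188075857922, 0, [56]), (9663676418, 1, [0, 34, 53]), (144115189149597698, 1, [41, 44]), (144115196665790466, 1, [41]), (4535485464578, 1, [0, 40, 53]), (70506183131138, 1, [44]), (74766790688770, 1, [41, 56]), (144185556820033538, 0, [41]), (19140298416324610, 1, [0, 53]), (35184372089860, 0, [58]), (562949953422340, 1, [58]), (2251799813686276, 1, [47]), (576460752303424516, 0, [47]), (4831838212, 1, [31, 55]), (576460752840294404, 1, [0, 41]), (576460756598390788, 1, [12, 41]), (343597383684,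 1, [28, 43]), (35253091565572, 1, [0, 28]), (35459249995780, 1, [12, 28]), (576495936675512324, 0, [12]), (2814749767106564, 1, [3, 9]), (70368744177952, 1, [47, 55]), (1125899906842912, 0, [47, 53]), (18014398509482272, 0, [47, 55]), (144115188075856160, 1, [47, 53]), (68720525344, 1, [31, 56]), (1125899907891232, 1, [0, 40, 44]), (4311744544, 1, [31]), (18014398526259232, 1, [0, 31, 41]), (18014402804449312, 1, [0, 31, 39]), (1125968626319392, 1, [0, 28, 55]), (144185556820033568, 1, [0, 58]), (19140298416324640, 0, [0, 53]), (35184372089024, 1, [55]), (562949953421504, 0, [53]), (2251799813685440, 0, [55]), (576460752303423680, 1, [53]), (137438986304, 1, [0, 40]), (562949953454144, 1, [28, 55]), (8590458944, 1, [0, 34]), (2251799814209600, 1, [34, 39]), (2251808403619904, 1, [34, 41]), (563087392374848, 1, [40, 44]), (576495936675512384, 1, [0]), (2814749767106624, 0, [3, 9]), (4398048608384, 1, [12, 43]), (2251799815782528, 1, [43, 44]), (1140850816, 1, [12, 31]), (562950020530304,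 1, [31, 41]), (562951027163264, 1, [31, 39]), (2256197860196480, 1, [28, 53]), (576495936675512448, 1, [12]), (2814749767106688, 0, [3, 4]), (274877972736, 1, [43]), (18014398509547776, 1, [0, 28, 53]), (671088896, 1, [34, 43]), (1125900041060608, 1, [0, 34, 39]), (1125900443713792, 1, [0, 34, 41]), (18014673387389184, 1, [0, 43, 44]), (144185556820033792, 1, [0, 47]), (19140298416324864, 0, [0, 55]), (1115136, 1, [43, 55]), (576460752303490048, 1, [12, 44]), (576460752304473088, 1, [0, 44]), (150995968, 1, [31, 53]), (35184388867072, 1, [12, 39]), (35184506307584, 1, [0, 39]), (576495936675513344, 0, [0]), (2814749767107584, 1, [3, 4]), (2131968, 1, [0, 28, 40]), (144115188075890688, 1, [28]), (67635200, 1, [0, 34, 55]), (70368744704000, 1, [39]), (144115188077955072, 1, [28, 39]), (70368811288576, 1, [28, 56]), (144185556820035584, 0, [28]), (19140298416326656, 1, [0, 55]), (137441083392, 0, [12, 40]), (4398048641024, 0, [12, 43]), (144115188077985792, 1, [0, 28, 43]), (553680896, 1,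 [28, 31]), (4398063321088, 1, [0, 13, 14]), (4398583414784, 1, [0, 39, 40]), (4535485497344, 0, [0, 40]), (563087392407552, 1, [12, 40]), (68720590848, 0, [40]), (274879021056, 0, [43]), (576460752304537600, 1, [40, 53]), (8657108992, 1, [0, 17, 22]), (68786651136, 1, [13, 14]), (77309476864, 1, [39, 40]), (343597449216, 0, [13, 14]), (18014673387454464, 1, [34, 56]), (1075314688, 1, [0, 28, 34]), (274879479808, 1, [39, 43]), (1141374976, 0, [0, 31]), (8657567744, 0, [0, 34]), (70368811810816, 1, [0, 31, 53]), (9664200704, 0, [12, 34]), (275952173056, 1, [0, 17, 18]), (2251808404144128, 1, [12, 34]), (275952697344, 1, [13, 25]), (343598432256, 0, [13, 25]), (1125968627367936, 1, [40]), (4431282176, 1, [17, 18]), (137575268352, 1, [0, 39, 43]), (141736017920, 1, [0, 13, 25]), (4535487561728, 0, [0, 43]), (2256197862293504, 1, [0, 43]), (687865856, 0, [34]), (4445962240, 0, [31]), (35184523083776, 1, [34, 55]), (4848615424, 0, [17, 22]), (4398600159232, 1, [17, 22]), (18014402821226496,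 1, [31, 40]), (9730785280, 0, [12, 31]), (562951094272000, 1, [0, 31]), (77376520192, 1, [0, 28, 31]), (4966055936, 0, [17, 18]), (1125900577931264, 1, [34]), (141868138496, 1, [28, 34]), (576460757135261696, 1, [34, 53]), (144115197739532288, 1, [0, 31, 55]), (35527969472512, 1, [28, 40]), (74904229642240, 1, [0, 43, 55])]

/-- the word `c.2` maps the points `q` onto the points `Qs c.1` -/
def okW (q : List ℕ) (c : ℕ × List ℕ) : Bool := decide (c.1 < 2) && c.2.all (· < 60) &&
  (q.map (aw c.2)).all (· ∈ Qs c.1) && (Qs c.1).all (· ∈ q.map (aw c.2))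

def ok3 (a b c : ℕ) : Prop := ac 0 c = ac c 0 → ac a c = c → ac b c = c →
  ZT.getD a 0 &&& ZT.getD b 0 &&& ZT.getD c 0 = 0 →
    okW [0, a, b, c] ((CQ.lookup (1 <<< a ||| 1 <<< b ||| 1 <<< c)).getD (0, [])) = true

instance (a b c : ℕ) : Decidable (ok3 a b c) := by unfold ok3; infer_instance

def ok2 (a b : ℕ) : Prop := ac 0 b = ac b 0 → ac a b = b → ∀ c < 60, ok3 a b c

instance (a b : ℕ) : Decidable (ok2 a b) := by unfold ok2; infer_instance

theorem cq_ok : ∀ a < 60, ac 0 a = ac a 0 → ∀ b < 60, ok2 a b := by decide +kernel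

/-- `Quad` on numbers -/
structure QN (q : Fin 4 → ℕ) : Prop where
  lt : ∀ k, q k < 60
  braid : ∀ k, k ≠ 0 → R (q 0) * R (q k) * R (q 0) = R (q k) * R (q 0) * R (q k)
  comm : ∀ j k, j ≠ 0 → k ≠ 0 → R (q j) * R (q k) = R (q k) * R (q j)
  rank : ∀ A : M4, (∀ k, R (q k) * A = A) → A = 0

theorem QN.step {q : Fin 4 → ℕ} (h : QN q) {g : ℕ} (hg : g < 60) : QN fun k => ac g (q k) := by
  have e : ∀ k, R (ac g (q k)) = R g * R (q k) * R g := fun k => R_conj hg (h.lt k)
  have s : ∀ X : M4, R g * (R g * X) = X := fun X => by rw [← mul_assoc, R_sq hg, one_mul]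
  refine ⟨fun k => ac_lt hg (h.lt k), fun k hk => ?_, fun j k hj hk => ?_, fun A hA => ?_⟩
  · have := congrArg (fun X => R g * X * R g) (h.braid k hk)
    simpa only [e, mul_assoc, s] using this
  · have := congrArg (fun X => R g * X * R g) (h.comm j k hj hk)
    simpa only [e, mul_assoc, s] using this
  · rw [← s A, h.rank (R g * A) fun k => ?_, mul_zero]
    have := congrArg (R g * ·) (hA k)
    simpa only [e, mul_assoc, s] using this

theorem QN.word {q : Fin 4 → ℕ} (h : QN q) : ∀ w : List ℕ, (∀ g ∈ w, g < 60) →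
    QN fun k => aw w (q k)
  | [], _ => h
  | g :: w, hw => (h.word w fun x hx => hw x (by simp [hx])).step (hw g (by simp))

theorem QN.br {q : Fin 4 → ℕ} (h : QN q) {k : Fin 4} (hk : k ≠ 0) : ac (q 0) (q k) = ac (q k) (q 0) :=
  R_inj (ac_lt (h.lt _) (h.lt _)) (ac_lt (h.lt _) (h.lt _)) (by
    rw [R_conj (h.lt _) (h.lt _), R_conj (h.lt _) (h.lt _), h.braid k hk])

theorem QN.cm {q : Fin 4 → ℕ} (h : QN q) {j k : Fin 4} (hj : j ≠ 0) (hk : k ≠ 0) :
    ac (q j) (q k) = q k := R_inj (ac_lt (h.lt _) (h.lt _)) (h.lt _) (by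
  rw [R_conj (h.lt _) (h.lt _), h.comm j k hj hk, mul_assoc, R_sq (h.lt _), mul_one])

theorem QN.zt {q : Fin 4 → ℕ} (h : QN q) (h0 : q 0 = 0) :
    ZT.getD (q 1) 0 &&& ZT.getD (q 2) 0 &&& ZT.getD (q 3) 0 = 0 := by
  by_contra hne
  obtain ⟨j, hj⟩ := Nat.exists_testBit_of_ne_zero hne
  simp only [Nat.testBit_and, Bool.and_eq_true] at hj
  have hj31 : j < 31 := by
    by_contra hlt
    have := Nat.testBit_lt_two_pow ((zt_lt _ (h.lt 3)).trans_le
      (Nat.pow_le_pow_right (by norm_num) (not_lt.1 hlt)))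
    rw [this] at hj
    exact absurd hj.2 (by simp)
  obtain ⟨⟨h1, h2, h3⟩, h4⟩ := zt_ok j hj31
  have k : ∀ k, (ZT.getD (q k) 0).testBit j = true := fun k => by
    fin_cases k
    exacts [h0.symm ▸ h3, hj.1.1, hj.1.2, hj.2]
  refine h2 (eq_of_mat h1 (by decide +kernel) ((h.rank _ fun k' => ?_).trans (by decide +kernel)))
  rw [R, ← mat_mu, h4 _ (h.lt k') (k k')]

theorem chi_r : ∀ l : Fin 60, χ l ᵥ* r l = -χ l := by decide +kernel

theorem qn_of {q : Fin 4 → Fin 60} (h : Quad q) : QN fun k => (q k).val := by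
  refine ⟨fun k => (q k).2, fun k hk => by simpa only [r_eq] using h.braid k hk,
    fun j k hj hk => by simpa only [r_eq] using h.comm j k hj hk, fun A hA => ?_⟩
  ext i j
  refine congrFun (h.rank (fun i => A i j) fun k => ?_) i
  have h1 : r (q k) *ᵥ (fun i => A i j) = fun i => A i j := by
    ext i
    have := congrFun (congrFun (hA k) i) j
    rw [← r_eq] at this
    exact this
  have h2 := dotProduct_mulVec (χ (q k)) (r (q k)) fun i => A i j
  rw [h1, chi_r, neg_dotProduct] at h2
  generalize χ (q k) ⬝ᵥ (fun i => A i j) = x at h2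
  revert x
  decide

theorem mem_Qs : ∀ i : Fin 2, ∀ x, x ∈ Qs i.val ↔ ∃ k, x = (Q i k).val := by
  intro i x
  fin_cases i <;> simp [Qs, Q, Fin.exists_fin_succ]

theorem mem_four {q : Fin 4 → ℕ} {x : ℕ} : x ∈ [q 0, q 1, q 2, q 3] ↔ ∃ k, x = q k := by
  simp [Fin.exists_fin_succ]

theorem certQ : CertQ := by
  intro q hq
  obtain ⟨t1, t2⟩ := tw_ok _ (q 0).2
  generalize TW.getD (q 0).val [] = w at t1 t2
  have h := (qn_of hq).word w t1
  have k := cq_ok _ (h.lt 1) (t2 ▸ h.br (k := 1) (by decide)) _ (h.lt 2)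
    (t2 ▸ h.br (k := 2) (by decide)) (h.cm (j := 1) (k := 2) (by decide) (by decide)) _ (h.lt 3)
    (t2 ▸ h.br (k := 3) (by decide)) (h.cm (j := 1) (k := 3) (by decide) (by decide))
    (h.cm (j := 2) (k := 3) (by decide) (by decide)) (h.zt t2)
  generalize (CQ.lookup _).getD (0, []) = c at k
  simp only [okW, Bool.and_eq_true, decide_eq_true_eq, List.all_eq_true] at k
  obtain ⟨⟨⟨k1, k2⟩, k3⟩, k4⟩ := k
  have e : ∀ j, ev c.2 * ev w * r (q j) = R (aw c.2 (aw w (q j).val)) * (ev c.2 * ev w) := fun j => by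
    rw [r_eq, mul_assoc, (ev_aw (q j).2 w t1).2, ← mul_assoc, (ev_aw (h.lt j) _ k2).2, mul_assoc]
  have m : ∀ x, x ∈ List.map (aw c.2) [0, aw w (q 1).val, aw w (q 2).val, aw w (q 3).val] ↔
      ∃ j, x = aw c.2 (aw w (q j).val) := fun x => by
    rw [← t2]
    exact mem_four (q := fun j => aw c.2 (aw w (q j).val))
  refine ⟨⟨c.1, k1⟩, ev c.2 * ev w, mul_mem (ev_mem fun g hg => R_mem (k2 g hg))
    (ev_mem fun g hg => R_mem (t1 g hg)), fun j => ?_, fun j => ?_⟩
  · obtain ⟨j', hj⟩ := (mem_Qs ⟨c.1, k1⟩ _).1 (k3 _ ((m _).2 ⟨j, rfl⟩))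
    exact ⟨j', by rw [e, hj, r_eq]⟩
  · obtain ⟨j', hj⟩ := (m _).1 (k4 _ ((mem_Qs ⟨c.1, k1⟩ _).2 ⟨j, rfl⟩))
    exact ⟨j', by rw [e, ← hj, r_eq]⟩

end H65.O84
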