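import Cfsg.Agent.H65.O84Q
import Cfsg.Agent.H65.O84C

/-! O84 (S3384): the certificates `CertW`, `CertD`, `CertS`, and `Certs`. -/

set_option autoImplicit false

namespace H65.O84

open H36.O84 Matrix

/-- the codes of the elements of `W i` -/
def LL (i : ℕ) : List ℕ := if i = 0 then [140741783453700, 35214445380612, 109970493408900, 18428837277700, 17672738579649, 145154865497732, 53630393431044, 52874294731969, 87991003513860, 141589173810820, 140833075109889, 6675893919897, 48947737691329, 4682643289092, 52780853231620, 141580579681924, 140824480982529, 147404788146329, 48956327625921, 145411537514500, 53622872257540, 52866773557249, 37462219497625, 18176435847169, 35468968866820, 145162586601092, 52867332187329, 151770589364377, 145162402144257, 53622860461060, 18455682134020, 17699583436289, 37453625368729, 158896746432001, 35460374736900, 109969620383364, 17674365969601, 151736229626009, 109969435928065, 18429894242308, 147440228442265, 18154961010689, 145446977812100, 52788575645700, 52854442303489,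 6635054497945, 52788391191745, 53609970578436, 18180933005524, 145447524642820, 145170028855297, 147440204849305, 18180748386305, 6702740086937, 158909631333889, 4709489456772, 87990131799044, 17695842117121, 41785066848409, 87989947344065, 18451370389508, 158909837717716, 4684270679044, 109968478995969, 6676950884505, 158909653100033, 140776350724100, 140842218692609, 6608210952345, 140776166270465, 141597746968196, 48939344965844, 145440015267460, 52796028388545, 147432695472281, 48939160347841, 6634181636100, 141601113223380, 140773458837508, 140845014360065, 6633997017241, 35206052492292, 140833624565249, 41792583041177, 35205868036097, 141589152839300, 48947934900436, 4711116846724, 87988990411969, 6703797051545, 48947750282433, 41792788116484, 141592529580244, 35203171091460, 140836430718465, 41792603496601, 158917353910484, 35478112449540, 140767689475585, 37470792655001, 158917169292801, 151762207127172, 18427897295060, 109972104021636, 17671798432961, 151762022506649, 37474169398465, 140764405346308,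 158917279973588, 35480918602756, 140764891981313, 18154089459924, 35469518319620, 35197391241217, 37462198526105, 18153904840705, 151770797061764, 53620859318484, 145165066045060, 52864760456385, 151770612441241, 37465575269569, 35194107114500, 18179791618260, 35472324472836, 35194593746945, 41800304309252, 18454743462100, 87987245417476, 17698644600321, 41800119689369, 6674953936897, 109970559907460, 158881846493396, 4681703142404, 109971046540801, 17672754734273, 41800240858116, 18428954259668, 6607338090500, 53613339455700, 52785685069828, 52857240592385, 6607153471641, 147438214194689, 145172116059780, 18152948072660, 145444963397636, 145172602691585, 52857126823105, 6633040248836, 53613326348500, 6701800103937, 87991071323140, 48930683715796, 4708549310084, 87991557956801, 140810537181185, 41807757050884, 141566736707796, 4682659443716, 6676010901505, 147430694331905, 52798105104388, 48939273650388, 145437443536516, 52798591739073, 140844903212545, 6606196703236, 141601102737620, 145437329764356, 147430681224705,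 52849606959105, 151753545877124, 53605806485716, 35489391096836, 37482742555841, 145136608641025, 17699600901633, 151762135811716, 18455800426708, 35480796966916, 37474148426945, 109969418520065, 145429809903236, 147423161361921, 52805557847233, 4709505611396, 6702857068545, 87989929936065, 140755744097793, 35185445863425] else [140741783453700, 35214445380612, 109970493408900, 18428837277700, 9493125863000, 145154865497732, 53630393431044, 44694679917656, 87991003513860, 141589173810820, 154649063658200, 6675893919897, 40768115983960, 15608337774217, 52780853231620, 141580579681924, 154640467433176, 147404788146329, 40776714306648, 156337229901961, 53622872257540, 44687158221080, 37462219497625, 10002193335000, 46394663351945, 145162586601092, 44687037662756, 160290513650467, 145165775868632, 53619479086729, 18455682134020, 9519968097560, 37453625368729, 150722501822168, 46386067124361, 109969620383364, 9494081930788, 160256151814435, 109972807554776, 18426521256073, 147440228442265, 9975356344600, 156372667053065,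 52788575645700, 44679526449380, 15154978784035, 52786396206680, 53611969709705, 10001236169226, 156372547805776, 145173404074712, 147442204001059, 9999139517144, 6702740086937, 150730016179480, 15635178697737, 87990131799044, 9520924165348, 50304989036835, 87987950261336, 18453367423113, 150730140881418, 15609293842000, 109971852117720, 6678947938595, 150728042133208, 140776350724100, 154657534083300, 15128141793315, 140774168663320, 141599740855305, 40759647604810, 156365035284240, 52794024412760, 147429324604195, 40762920187480, 15154023113296, 141599034118666, 140775541477968, 154653638046424, 15157211284259, 35206052492292, 154648937858276, 50312513882147, 35203870431512, 141591146726409, 40768235444298, 15636134765840, 87986994824280, 6700424085795, 40771508024408, 50312629593680, 141590450475530, 35205243246160, 154645052307160, 50315815665955, 150737655238730, 46403133777040, 140765692052760, 37472786565155, 150740925199640, 160282045458192, 18425817665610, 109968814806800, 9495558272600, 160279866753827,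 37471492605476, 140767075353168, 150741040890378, 46403934029449, 140764891981313, 9974399178826, 46394548037776, 35195404306712, 37464202922019, 9977671235864, 160290633295120, 53618777593930, 145161774732560, 44688518198360, 160288454590755, 37462908962340, 35196777121360, 10003552535050, 46395348287625, 35194593746945, 50320143950992, 18452662521930, 87989326222480, 9522400507160, 50323328714787, 6677655814372, 109973228078864, 150705604264010, 15610099074697, 109971046540801, 9496515651108, 50323528128080, 18428954259668, 15127186122896, 53611266906186, 52787774265488, 44681006987544, 15130372982819, 147440913974500, 145174782133520, 9976714233930, 156373357232265, 145172602691585, 44680887739940, 15156338004560, 53613326348500, 6704500670692, 87988369474704, 40754441486410, 15636939998217, 87991557956801, 154619158798564, 50331052971152, 141566736707796, 15611726251600, 6676010901505, 147433392800996, 52795401160848, 40763039811658, 156365834224649, 52798591739073, 154653522732260, 15129501014160, 141601102737620,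 156366396572240, 147430681224705, 44667996020964, 160271471777552, 53605806485716, 46413086049424, 37482742555841, 145136608641025, 9517987865828, 160280059614480, 18455800426708, 46404489824400, 37474148426945, 109969418520065, 156358874875664, 147423161361921, 52805557847233, 15638568486160, 6702857068545, 87989929936065, 140755744097793, 35185445863425]
/-- the points of the `D₄` -/
def DD (i : ℕ) : List ℕ := if i = 0 then [0, 1, 2, 10, 11, 12, 45, 46, 47, 57, 58, 59] else [0, 1, 6, 7, 11, 12, 45, 50, 53, 54, 55, 59]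
/-- words moving `0` to a point of `DD i` -/
def DW (i : ℕ) : List (ℕ × List ℕ) := if i = 0 then [(0, []), (1, [0, 1]), (2, [46, 11, 1]), (10, [46]), (11, [0, 11]), (12, [11, 1]), (45, [11]), (46, [0, 46]), (47, [46, 1]), (57, [0, 46, 11, 1]), (58, [46, 11]), (59, [1])] else [(0, []), (1, [0, 1]), (6, [50]), (7, [50, 11, 1]), (11, [0, 11]), (12, [11, 1]), (45, [11]), (50, [0, 50]), (53, [50, 1]), (54, [0, 50, 11, 1]), (55, [50, 11]), (59, [1])]
/-- words normalising the leaves -/
def CS (i : ℕ) : List (ℕ × List ℕ) := if i = 0 then [(70368744179714, []), (144115188075857922, [1, 0, 11, 0, 1, 0]), (144185556820033538, [1, 0, 46, 0, 1, 0]), (35184372089860, [11, 0, 46, 0, 11]), (576460752303424516, [1, 0, 46, 0, 1]), (576495936675512324, [1, 0, 11, 0, 1]), (576495936675513344, [0]), (144185556820035584, [11, 0, 46, 0, 11, 0])] else [(1125899906844674, []), (18014398509484034, [1, 0, 11, 0, 1, 0]), (19140298416324610, [1, 0, 50, 0, 1, 0]), (35184372089024, [11, 0, 50, 0, 11]), (576460752303423680, [1, 0, 50,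 0, 1]), (576495936675512384, [0]), (576495936675512448, [1, 0, 11, 0, 1]), (19140298416326656, [11, 0, 50, 0, 11, 0])]
/-- the diagram automorphisms: leaves, matrix, inverse, a point that is not mapped to a point -/
def BS (i : ℕ) : List (List ℕ × ℕ × ℕ × ℕ) := if i = 0 then [([1, 11, 46], 35185445863425, 35185445863425, 60), ([1, 46, 11], 35185445863436, 35185445863436, 60), ([11, 1, 46], 35206053315784, 35206053315784, 60), ([11, 46, 1], 35205868721352, 35206053314572, 60), ([46, 1, 11], 35206053314572, 35205868721352, 60), ([46, 11, 1], 35205868720129, 35205868720129, 60)] else [([1, 11, 50], 35185445863425, 35185445863425, 60), ([1, 50, 11], 35185446129860, 35185446129860, 2), ([11, 1, 50], 35206053315784, 35206053315784, 60), ([11, 50, 1], 35203872011529, 35206050494738, 2), ([50, 1, 11], 35206050494738, 35203872011529, 2), ([50, 11, 1], 35203870234768, 35203870234768, 2)]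
/-- coset representatives -/
def RP (i : ℕ) : List (List ℕ) := if i = 0 then [[], [3], [13], [17], [13, 3], [17, 3], [53, 4], [53, 4, 3], [18, 13, 4], [53, 14, 4], [18, 13, 4, 3], [53, 14, 4, 3]] else [[], [3], [49, 2], [49, 3, 2]]

/-- each element is a generator times a later element -/
def chk (i : ℕ) : List ℕ → Bool
  | [] => true
  | y :: L => (y == one || (Qs i).any fun g => L.elem (mu (rc g) y)) && chk i L

theorem chk_ok : ∀ i < 2, chk i (LL i) = true := by decide +kernel

theorem ll_ok : ∀ i < 2, (one ∈ LL i ∧ (LL i).Nodup ∧ (LL i).length = 192) ∧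
    ∀ y ∈ LL i, mu one y = y ∧ ∀ g ∈ Qs i, mu (rc g) y ∈ LL i := by decide +kernel

theorem dd_ok : ∀ i < 2, (∀ l < 60, rc l ∈ LL i ↔ l ∈ DD i) ∧ (∀ g ∈ Qs i, g < 60) ∧
    ∀ l ∈ DD i, (l < 60 ∧ ∀ g ∈ Qs i, ac g l ∈ DD i) ∧
      (∀ g ∈ ((DW i).lookup l).getD [], g ∈ Qs i) ∧ aw (((DW i).lookup l).getD []) 0 = l := by
  decide +kernel

/-- the normalising word -/
def nw (i a b c d : ℕ) : List ℕ :=
  ((CS i).lookup (1 <<< aw (((DW i).lookup a).getD []).reverse b |||
    1 <<< aw (((DW i).lookup a).getD []).reverse c |||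
    1 <<< aw (((DW i).lookup a).getD []).reverse d)).getD [] ++ (((DW i).lookup a).getD []).reverse

def okN (i : ℕ) (q w : List ℕ) : Bool :=
  w.all (· ∈ Qs i) && (BS i).any fun e => q.map (aw w) == 0 :: e.1

def s3 (i a b c d : ℕ) : Prop := a ≠ d → b ≠ d → c ≠ d → ac a d = ac d a → ac b d = d → ac c d = d →
  okN i [a, b, c, d] (nw i a b c d) = true

instance (i a b c d : ℕ) : Decidable (s3 i a b c d) := by unfold s3; infer_instance

def s2 (i a b c : ℕ) : Prop := a ≠ c → b ≠ c → ac a c = ac c a → ac b c = c → ∀ d ∈ DD i, s3 i a b c d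

instance (i a b c : ℕ) : Decidable (s2 i a b c) := by unfold s2; infer_instance

def s1 (i a b : ℕ) : Prop := a ≠ b → ac a b = ac b a → ∀ c ∈ DD i, s2 i a b c

instance (i a b : ℕ) : Decidable (s1 i a b) := by unfold s1; infer_instance

theorem s_ok : ∀ i < 2, ∀ a ∈ DD i, ∀ b ∈ DD i, s1 i a b := by decide +kernel

def okB (i : ℕ) (e : List ℕ × ℕ × ℕ × ℕ) : Prop := mu e.2.1 e.2.2.1 = one ∧
  (∀ k < 4, mu e.2.2.1 (rc ((0 :: e.1).getD k 0)) = mu (rc ((Qs i).getD k 0)) e.2.2.1) ∧
  if e.2.2.2 < 60 then ∀ l < 60, mu e.2.1 (rc e.2.2.2) ≠ mu (rc l) e.2.1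
  else ∀ s < 5, s ≠ 0 → ∃ c ∈ RP i, mu (mu e.2.1 (s * one)) (evc c.reverse) ∈ LL i

instance (i : ℕ) (e : List ℕ × ℕ × ℕ × ℕ) : Decidable (okB i e) := by unfold okB; infer_instance

theorem bs_ok : ∀ i < 2, ∀ e ∈ BS i, okB i e := by decide +kernel

theorem rp_ok : ∀ i < 2, (RP i).Nodup ∧ ∀ c ∈ RP i, ((∀ g ∈ c, g < 60) ∧ ∀ l ∈ Qs i, aw c l ∈ DD i) ∧
    ∀ c' ∈ RP i, mu one (evc (c' ++ c.reverse)) ∈ LL i → c = c' := by decide +kernel

theorem q_ok : ∀ i : Fin 2, (Q i 0).val = 0 ∧ 192 * (RP i.val).length = nSt i ∧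
    (∀ k : Fin 4, (Qs i.val).getD k.val 0 = (Q i k).val) ∧
    (∀ k, k ≠ 0 → ac (Q i 0).val (Q i k).val = ac (Q i k).val (Q i 0).val) ∧
    (∀ j k, j ≠ 0 → k ≠ 0 → ac (Q i j).val (Q i k).val = (Q i k).val) ∧
    ∀ j k, (Q i j).val = (Q i k).val → j = k := by decide +kernel

variable {i : Fin 2}

theorem Qs_lt {g : ℕ} (h : g ∈ Qs i.val) : g < 60 := (dd_ok _ i.2).2.1 g h

theorem R_mem_W {g : ℕ} (h : g ∈ Qs i.val) : R g ∈ W i := by
  obtain ⟨k, rfl⟩ := (mem_Qs i g).1 h
  exact Submonoid.subset_closure ⟨k, r_eq _⟩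

theorem chk_mem : ∀ L : List ℕ, chk i.val L = true → ∀ y ∈ L, mat y ∈ W i
  | [], _, _, hy => absurd hy (by simp)
  | z :: L, h, y, hy => by
    simp only [chk, Bool.and_eq_true, Bool.or_eq_true, beq_iff_eq, List.any_eq_true,
      List.elem_eq_mem, decide_eq_true_eq] at h
    have ih := chk_mem L h.2
    rcases List.mem_cons.1 hy with rfl | hy
    · rcases h.1 with h1 | ⟨g, hg, h1⟩
      · rw [h1, mat_one]; exact one_mem _
      · have := mul_mem (R_mem_W hg) (ih _ h1)
        rwa [mat_mu, ← R, ← mul_assoc, R_sq (Qs_lt hg), one_mul] at this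
    · exact ih y hy

theorem W_ind {p : M4 → Prop} (h1 : p 1) (h2 : ∀ g ∈ Qs i.val, ∀ x, p x → p (R g * x)) {x : M4}
    (hx : x ∈ W i) : p x := by
  induction hx using Submonoid.closure_induction_left with
  | one => exact h1
  | mul_left a ha x _ ih =>
    obtain ⟨k, rfl⟩ := ha
    simp only [r_eq]
    exact h2 _ ((mem_Qs i _).2 ⟨k, rfl⟩) x ih

theorem mem_W {x : M4} : x ∈ W i ↔ ∃ y ∈ LL i.val, mat y = x := by
  refine ⟨W_ind (p := fun x => ∃ y ∈ LL i.val, mat y = x) ⟨one, (ll_ok _ i.2).1.1, mat_one⟩ ?_,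
    fun ⟨y, hy, e⟩ => e ▸ chk_mem _ (chk_ok _ i.2) y hy⟩
  rintro g hg _ ⟨y, hy, rfl⟩
  exact ⟨_, ((ll_ok _ i.2).2 y hy).2 g hg, mat_mu _ _⟩

theorem mu_mem {x : ℕ} (h : mat x ∈ W i) : mu one x ∈ LL i.val := by
  obtain ⟨y, hy, e⟩ := mem_W.1 h
  rwa [mu_congr (a := one) (b := x) (c := one) (d := y) (by rw [e]), ((ll_ok _ i.2).2 y hy).1]

theorem R_mem_iff {l : ℕ} (hl : l < 60) : R l ∈ W i ↔ l ∈ DD i.val := by
  rw [← (dd_ok _ i.2).1 l hl]
  exact ⟨fun h => (rc_ok l hl).2.1 ▸ mu_mem h, fun h => mem_W.2 ⟨_, h, rfl⟩⟩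

theorem mat_injOn : Set.InjOn mat ((LL i.val).toFinset : Set ℕ) := fun a ha b hb h =>
  eq_of_mat ((ll_ok _ i.2).2 a (by simpa using ha)).1 ((ll_ok _ i.2).2 b (by simpa using hb)).1 h

theorem certW : CertW := fun i => by
  have : (W i : Set M4) = mat '' ((LL i.val).toFinset : Set ℕ) := by
    ext x; simp [mem_W]
  rw [this, mat_injOn.ncard_image, Set.ncard_coe_finset,
    List.toFinset_card_of_nodup (ll_ok _ i.2).1.2.1, (ll_ok _ i.2).1.2.2]

theorem certD : CertD := fun i l h => by
  rw [r_eq, R_mem_iff l.2] at h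
  obtain ⟨-, h1, h2⟩ := (dd_ok _ i.2).2.2 _ h
  refine ⟨ev _, ev_mem fun g hg => R_mem_W (h1 g hg), 0, ?_⟩
  rw [r_eq, r_eq, (q_ok i).1, (ev_aw (by norm_num) _ fun g hg => Qs_lt (h1 g hg)).2, h2]

theorem W_inv {x : M4} (h : x ∈ W i) : ∃ y ∈ W i, y * x = 1 := by
  refine W_ind (p := fun x => ∃ y ∈ W i, y * x = 1) ⟨1, one_mem _, mul_one _⟩ ?_ h
  rintro g hg x ⟨y, hy, e⟩
  exact ⟨y * R g, mul_mem hy (R_mem_W hg), by
    rw [mul_assoc, ← mul_assoc (R g), R_sq (Qs_lt hg), one_mul, e]⟩

theorem W_D {x : M4} (h : x ∈ W i) : ∀ l ∈ DD i.val, ∃ l' ∈ DD i.val, x * R l = R l' * x := by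
  refine W_ind (p := fun x => ∀ l ∈ DD i.val, ∃ l' ∈ DD i.val, x * R l = R l' * x)
    (fun l hl => ⟨l, hl, by simp⟩) (fun g hg x ih l hl => ?_) h
  obtain ⟨l', h1, h2⟩ := ih l hl
  have := ((dd_ok _ i.2).2.2 l' h1).1
  exact ⟨_, this.2 g hg, by rw [mul_assoc, h2, ← mul_assoc, R_ac (Qs_lt hg) this.1, mul_assoc]⟩

theorem W_le : W i ≤ G31 := fun _ h =>
  W_ind (one_mem _) (fun _ hg _ ih => mul_mem (R_mem (Qs_lt hg)) ih) h

theorem G31_perm {x : M4} (h : x ∈ G31) : IsUnit x ∧ ∀ l, ∃ l', x * r l = r l' * x := by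
  induction h using Submonoid.closure_induction_left with
  | one => exact ⟨isUnit_one, fun l => ⟨l, by simp⟩⟩
  | mul_left a ha x _ ih =>
    obtain ⟨g, rfl⟩ := ha
    refine ⟨(IsUnit.of_mul_eq_one _ (certR.2.1 g)).mul ih.1, fun l => ?_⟩
    obtain ⟨l', e⟩ := ih.2 l
    exact ⟨⟨_, ac_lt g.2 l'.2⟩, by
      rw [mul_assoc, e, ← mul_assoc, r_eq, r_eq, r_eq, R_ac g.2 l'.2, mul_assoc]⟩

theorem ev_rev : ∀ w : List ℕ, (∀ g ∈ w, g < 60) → ev w.reverse * ev w = 1
  | [], _ => by simp [ev]
  | g :: w, h => by
    have := ev_rev w fun x hx => h x (by simp [hx])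
    simp only [ev, List.reverse_cons, List.map_append, List.prod_append, List.map_cons, List.map_nil,
      List.prod_cons, List.prod_nil, mul_one] at this ⊢
    rw [mul_assoc, ← mul_assoc (R g), R_sq (h g (by simp)), one_mul, this]

theorem ev_rev' {w : List ℕ} (h : ∀ g ∈ w, g < 60) : ev w * ev w.reverse = 1 := by
  have := ev_rev w.reverse (by simpa using h)
  rwa [List.reverse_reverse] at this

theorem cj_ac {M : M4} {a b c d : ℕ} (ha : a < 60) (hb : b < 60) (hc : c < 60) (hd : d < 60)
    (h1 : M * R a = R b * M) (h2 : M * R c = R d * M) : M * R (ac a c) = R (ac b d) * M := by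
  rw [R_conj ha hc, R_conj hb hd, ← mul_assoc, ← mul_assoc, h1, mul_assoc (R b), h2, mul_assoc,
    mul_assoc, h1, mul_assoc, mul_assoc]

theorem cen {X : M4} (h : ∀ k, X * R (Q i k).val = R (Q i k).val * X) : X = X 0 0 • (1 : M4) := by
  fin_cases i
  exacts [cen0 (h 0) (h 1) (h 2) (h 3), cen1 (h 0) (h 1) (h 2) (h 3)]

theorem St_sub {M : M4} (h : M ∈ St i) : ∃ c ∈ RP i.val, ∃ w ∈ W i, M = w * ev c := by
  obtain ⟨hu, hp, h3⟩ := h
  choose m hm1 hm2 using h3
  simp only [r_eq] at hm1 hm2 hp
  have hD : ∀ k, (m k).val ∈ DD i.val := fun k => (R_mem_iff (m k).2).1 (hm1 k)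
  obtain ⟨-, -, q2, q3, q4, q5⟩ := q_ok i
  have u : ∀ {a b c : ℕ}, b < 60 → c < 60 → M * R a = R b * M → M * R a = R c * M → b = c :=
    fun hb hc e1 e2 => R_inj hb hc (hu.mul_right_cancel (e1.symm.trans e2))
  have c2 := fun j k => cj_ac (Q i j).2 (m j).2 (Q i k).2 (m k).2 (hm2 j) (hm2 k)
  have br : ∀ k, k ≠ 0 → ac (m 0).val (m k).val = ac (m k).val (m 0).val := fun k hk =>
    u (ac_lt (m 0).2 (m k).2) (ac_lt (m k).2 (m 0).2) (c2 0 k) (q3 k hk ▸ c2 k 0)
  have cm : ∀ j k, j ≠ 0 → k ≠ 0 → ac (m j).val (m k).val = (m k).val := fun j k hj hk =>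
    u (ac_lt (m j).2 (m k).2) (m k).2 (q4 j k hj hk ▸ c2 j k) (hm2 k)
  have ne : ∀ j k, j ≠ k → (m j).val ≠ (m k).val := fun j k hjk e => hjk (q5 j k
    (R_inj (Q i j).2 (Q i k).2 (hu.mul_left_cancel (by rw [hm2, hm2, e]))))
  have k := s_ok _ i.2 _ (hD 0) _ (hD 1) (ne 0 1 (by decide)) (br 1 (by decide)) _ (hD 2)
    (ne 0 2 (by decide)) (ne 1 2 (by decide)) (br 2 (by decide)) (cm 1 2 (by decide) (by decide))
    _ (hD 3) (ne 0 3 (by decide)) (ne 1 3 (by decide)) (ne 2 3 (by decide)) (br 3 (by decide))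
    (cm 1 3 (by decide) (by decide)) (cm 2 3 (by decide) (by decide))
  generalize nw _ _ _ _ _ = w at k
  simp only [okN, Bool.and_eq_true, List.all_eq_true, decide_eq_true_eq, List.any_eq_true,
    beq_iff_eq] at k
  obtain ⟨k1, e, he, k2⟩ := k
  have k3 : ∀ g ∈ w, g < 60 := fun g hg => Qs_lt (k1 g hg)
  obtain ⟨b1, b2, b3⟩ := bs_ok _ i.2 e he
  obtain ⟨t, B, Bi, bad⟩ := e
  have k4 : ∀ k : Fin 4, (0 :: t).getD k.val 0 = aw w (m k).val := fun k => by
    rw [← k2]; fin_cases k <;> rfl
  have n1 : ∀ a (b : Fin 60), M * R a = R b.val * M →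
      ev w * M * R a = R (aw w b.val) * (ev w * M) := fun a b e => by
    rw [mul_assoc, e, ← mul_assoc, (ev_aw b.2 w k3).2, mul_assoc]
  have hB : mat B * mat Bi = 1 := by rw [← mat_mu, b1, mat_one]
  have hX := cen (i := i) (X := mat Bi * (ev w * M)) fun k => by
    have := congrArg mat (b2 k.val k.2)
    rw [mat_mu, mat_mu, k4, q2] at this
    rw [mul_assoc, n1 _ _ (hm2 k), ← mul_assoc, ← mul_assoc (R _)]
    exact congrArg (· * (ev w * M)) this
  generalize (mat Bi * (ev w * M)) 0 0 = s at hX
  have hN : ev w * M = mat B * (s • (1 : M4)) := by rw [← hX, ← mul_assoc, hB, one_mul]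
  have hs : s ≠ 0 := fun h0 => by
    rw [h0, zero_smul, mul_zero] at hN
    haveI : Nontrivial M4 := ⟨⟨0, 1, by decide +kernel⟩⟩
    have := ((G31_perm (ev_mem fun g hg => R_mem (k3 g hg))).1.mul hu).ne_zero
    exact this hN
  split_ifs at b3 with hb
  · obtain ⟨l', e⟩ := hp ⟨bad, hb⟩
    haveI : Fact (Nat.Prime 5) := ⟨by norm_num⟩
    have := n1 _ _ e
    rw [hN, mul_smul_comm, mul_one, smul_mul_assoc, mul_smul_comm] at this
    exact absurd (mu_congr (smul_right_injective _ hs this)) (b3 _ (ev_aw l'.2 w k3).1)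
  · obtain ⟨c, hc, e⟩ := b3 s.val (ZMod.val_lt s) (fun h0 => hs ((ZMod.val_eq_zero s).1 h0))
    refine ⟨c, hc, _, mul_mem (ev_mem (w := w.reverse) fun g hg => R_mem_W (k1 g (by simpa using hg)))
      (mem_W.2 ⟨_, e, rfl⟩), ?_⟩
    rw [mat_mu, mat_mu, mat_evc, ← smul_one_eq, ← hN, mul_assoc, mul_assoc,
      ev_rev c ((rp_ok _ i.2).2 c hc).1.1, mul_one, ← mul_assoc, ev_rev w k3, one_mul]

theorem sub_G31 {c : List ℕ} (hc : c ∈ RP i.val) {w : M4} (hw : w ∈ W i) : w * ev c ∈ G31 :=
  mul_mem (W_le hw) (ev_mem fun g hg => R_mem (((rp_ok _ i.2).2 c hc).1.1 g hg))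

theorem sub_St {c : List ℕ} (hc : c ∈ RP i.val) {w : M4} (hw : w ∈ W i) : w * ev c ∈ St i := by
  obtain ⟨h1, h2⟩ := ((rp_ok _ i.2).2 c hc).1
  refine ⟨(G31_perm (sub_G31 hc hw)).1, (G31_perm (sub_G31 hc hw)).2, fun k => ?_⟩
  obtain ⟨l, hl, e⟩ := W_D hw _ (h2 _ ((mem_Qs i _).2 ⟨k, rfl⟩))
  have h3 := ((dd_ok _ i.2).2.2 l hl).1.1
  refine ⟨⟨l, h3⟩, by rw [r_eq]; exact (R_mem_iff h3).2 hl, ?_⟩
  rw [r_eq, r_eq, mul_assoc, (ev_aw (Q i k).2 c h1).2, ← mul_assoc, e, mul_assoc]

theorem certS : CertS := fun i => by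
  refine ⟨?_, fun M h => ?_⟩
  · have e : St i = (fun p : ℕ × List ℕ => mat p.1 * ev p.2) ''
        ((LL i.val).toFinset ×ˢ (RP i.val).toFinset : Finset (ℕ × List ℕ)) := by
      ext M
      refine ⟨fun h => ?_, ?_⟩
      · obtain ⟨c, hc, w, hw, rfl⟩ := St_sub h
        obtain ⟨y, hy, rfl⟩ := mem_W.1 hw
        exact ⟨(y, c), by simp [hy, hc], rfl⟩
      · rintro ⟨⟨y, c⟩, h, rfl⟩
        simp only [Finset.coe_product, List.coe_toFinset, Set.mem_prod, Set.mem_setOf_eq] at h
        exact sub_St h.2 (mem_W.2 ⟨y, h.1, rfl⟩)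
    rw [e, Set.InjOn.ncard_image, Set.ncard_coe_finset, Finset.card_product,
      List.toFinset_card_of_nodup (ll_ok _ i.2).1.2.1, (ll_ok _ i.2).1.2.2,
      List.toFinset_card_of_nodup (rp_ok _ i.2).1, (q_ok i).2.1]
    rintro ⟨y, c⟩ h ⟨y', c'⟩ h' (e : mat y * ev c = mat y' * ev c')
    simp only [Finset.coe_product, List.coe_toFinset, Set.mem_prod, Set.mem_setOf_eq] at h h'
    obtain ⟨⟨h1, -⟩, h2⟩ := (rp_ok _ i.2).2 c h.2
    obtain ⟨z, hz, e1⟩ := W_inv (mem_W.2 ⟨y', h'.1, rfl⟩)
    have e2 : mat (evc (c' ++ c.reverse)) = z * mat y := by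
      rw [mat_evc, ev, List.map_append, List.prod_append, ← ev, ← ev, ← mul_one (mat y), ← ev_rev' h1,
        ← mul_assoc (mat y), e, ← mul_assoc, ← mul_assoc, e1, one_mul]
    obtain rfl := h2 c' h'.2 (mu_mem (e2 ▸ mul_mem hz (mem_W.2 ⟨y, h.1, rfl⟩)))
    have e3 : mat y = mat y' := by
      rw [← mul_one (mat y), ← ev_rev' h1, ← mul_assoc, e, mul_assoc, ev_rev' h1, mul_one]
    rw [mat_injOn (i := i) (by simpa using h.1) (by simpa using h'.1) e3]
  · obtain ⟨c, hc, w, hw, rfl⟩ := St_sub h
    exact sub_G31 hc hw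

theorem certs : Certs := ⟨certR, certQ, certW, certD, certS, cert5⟩

end H65.O84
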