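/- STD-R (S3323): job RT. -/
import Cfsg.Agent.H65.SRDW

set_option autoImplicit false
set_option linter.unusedSectionVars false
set_option linter.unusedVariables false
set_option linter.unusedSimpArgs false

open Subgroup H63.Oc H64.SG
open scoped commutatorElement

universe u v

namespace H65.SR

attribute [-simp] Subgroup.mem_map

theorem comm_of_cyc {G M : Type*} [Group G] [Group M] [Finite M] [IsCyclic M] {N S : Subgroup G} (hN : N ≤ Cs S)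
    (f : M → G) (hf : ∀ x, f x ∈ S) (hm : ∀ x y, f x * f y * (f (x * y))⁻¹ ∈ N) (x y : M) : Commute (f x) (f y) := by
  obtain ⟨g, hg⟩ := IsCyclic.exists_monoid_generator (α := M)
  have key : ∀ n : ℕ, ∃ z ∈ N, f (g ^ n) = z * f g ^ n := fun n => by
    induction n with
    | zero => exact ⟨f 1, by simpa using hm 1 1, by simp⟩
    | succ n ih =>
      obtain ⟨z, hz, e⟩ := ih
      refine ⟨_, mul_mem (inv_mem (hm (g ^ n) g)) hz, ?_⟩
      rw [pow_succ (f g), mul_assoc, ← mul_assoc z, ← e, pow_succ]; group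
  obtain ⟨n, rfl⟩ := hg x
  obtain ⟨m, rfl⟩ := hg y
  obtain ⟨z, hz, e⟩ := key n
  obtain ⟨z', hz', e'⟩ := key m
  have c : Commute (f (g ^ n)) z' := mem_Cs.1 (hN hz') _ (hf _)
  have c' : Commute (f g ^ m) z := mem_Cs.1 (hN hz) _ (pow_mem (hf _) _)
  simp only
  rw [e']
  refine c.mul_right ?_
  rw [e]
  exact c'.symm.mul_left (Commute.pow_pow_self _ _ _)

variable {K : Type*} [Field K] [Fintype K] [CharP K 2] {T : TF K} {G : Type*} [Group G] [Finite G]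
  {A : AD T G} {t : G} {P : Par A t (K × K)} {sw : Bool} {π : G → K × K}

/-- the unit `(x, y)` -/
def uu (x y : Kˣ) : (K × K)ˣ := MulEquiv.prodUnits.symm (x, y)
theorem uu_val (x y : Kˣ) : (uu x y : K × K) = ((x : K), (y : K)) := rfl
theorem uu_inv (x y : Kˣ) : ((uu x y)⁻¹ : (K × K)ˣ) = uu x⁻¹ y⁻¹ := rfl
theorem uu_mul (x y x' y' : Kˣ) : uu (x * x') (y * y') = uu x y * uu x' y' := rfl
theorem uu_surj (r : (K × K)ˣ) : ∃ x y, r = uu x y :=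
  ⟨_, _, (MulEquiv.prodUnits.symm_apply_apply r).symm⟩

/-- the torus of `⟨B₁, B₉⟩` -/
def Par.hh (P : Par A t (K × K)) (r : (K × K)ˣ) : G := P.nn r * A.n1

theorem H1.tw_inj (h : H1 A t) {R : Type*} [CommRing R] [Algebra K R] (P : Par A t R) {v v' : R × R × R}
    (e : Cg (A4 A t ⊔ A6 A t) (P.tw v) (P.tw v')) : v = v' := by
  haveI := P.char2
  rw [Cg, h.db7.inv1 (h.tw_mem P _), ← h.tw_add] at e
  obtain ⟨e3, e5, e7⟩ := h.a7_uniq (P.mb3 _) (P.mb _) (P.mb7 _) e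
  have f3 := P.b_eq_one (c3_inj (A := A) (e3.trans c3_one.symm))
  have f5 := P.b_eq_one e5
  have f7 := P.b_eq_one (c3_inj (A := A) (c6_inj (A := A) (e7.trans (by rw [c3_one, c6_one]))))
  simp only [Prod.fst_add, Prod.snd_add] at f3 f5 f7
  ext <;> grind

namespace H8
variable (h : H8 P sw π)
include h

theorem n1S : A.n1 ∈ B1 A t ⊔ B9 A t := h.sl.nn1 ▸ h.nn_mem P 1
theorem hh_mem (r : (K × K)ˣ) : P.hh r ∈ B1 A t ⊔ B9 A t := mul_mem (h.nn_mem P r) h.n1S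

theorem hh_inv (r : (K × K)ˣ) : (P.hh r)⁻¹ = A.n1 * P.nn r := by
  rw [Par.hh, mul_inv_rev, n1_inv, inv_eq_of_mul_eq_one_right (h.sl.nn_sq r)]

theorem n1_hh (r : (K × K)ˣ) : A.n1 * (P.hh r)⁻¹ * A.n1⁻¹ = P.hh r := by
  rw [h.hh_inv, n1_n1, n1_inv]; rfl

theorem hh_comm (r s : (K × K)ˣ) : Commute (P.hh r) (P.hh s) := by
  let n' : K → K → G := fun a a' => c1 A (P.b (a, 0)) * c9 A (P.b (a', 0)) * c1 A (P.b (a, 0))
  let n'' : K → K → G := fun a a' => c1 A (P.b (0, a)) * c9 A (P.b (0, a')) * c1 A (P.b (0, a))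
  have c11 : ∀ r s, Commute (c1 A (P.b r)) (c1 A (P.b s)) := fun r s => mem_Cs.1 (h.dbB1.ab (P.mb1 s)) _ (P.mb1 r)
  have c99 : ∀ r s, Commute (c9 A (P.b r)) (c9 A (P.b s)) := fun r s => mem_Cs.1 (h.dbB9.ab (P.mb9 s)) _ (P.mb9 r)
  have c91 : ∀ x y, Commute (c9 A (P.b (x, 0))) (c1 A (P.b (0, y))) := fun x y =>
    (h.c19 P h.sl (r := (0, y)) (s := (x, 0)) (by simp)).symm
  have cc : ∀ a a' b b', Commute (n' a a') (n'' b b') := fun a a' b b' =>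
    have e1 := ((c11 (a, 0) (0, b)).mul_right (h.rp.c19 a b')).mul_right (c11 (a, 0) (0, b))
    (e1.mul_left (((c91 a' b).mul_right (c99 _ _)).mul_right (c91 a' b))).mul_left e1
  have e : ∀ x y : Kˣ, P.nn (uu x y) = n' x (x⁻¹ : Kˣ) * n'' y (y⁻¹ : Kˣ) := fun x y => by
    have e1 : ∀ a b : K, P.b (a, b) = P.b (a, 0) * P.b (0, b) := fun a b => by rw [← P.b_add]; simp
    rw [Par.nn, uu_inv, uu_val, uu_val, e1, e1 (x⁻¹ : Kˣ), c1_mul, c9_eq, c1_mul, c6_mul, ← c9_eq, ← c9_eq,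
      (c91 _ _).symm.mul_mul_mul_comm, ((c11 _ _).mul_left (h.rp.c19 _ _).symm).mul_mul_mul_comm]
  have s1 : ∀ a a', n' a a' * n' a a' = 1 := fun a a' => by
    rw [← cj_mul2 _ (h.dbB1.sq1 (P.mb1 _)), h.dbB9.sq1 (P.mb9 _), mul_one, h.dbB1.sq1 (P.mb1 _)]
  have s2 : ∀ a a', n'' a a' * n'' a a' = 1 := fun a a' => by
    rw [← cj_mul2 _ (h.dbB1.sq1 (P.mb1 _)), h.dbB9.sq1 (P.mb9 _), mul_one, h.dbB1.sq1 (P.mb1 _)]
  have en : A.n1 = P.nn (uu 1 1) := h.sl.nn1.symm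
  have k12 : ∀ x y, Commute (P.hh (uu x 1)) (P.hh (uu 1 y)) := fun x y => by
    rw [Par.hh, Par.hh, en, e, e, e, (cc _ _ _ _).symm.mul_mul_mul_comm, (cc _ _ _ _).symm.mul_mul_mul_comm, s1, s2,
      mul_one, one_mul]
    exact ((cc _ _ _ _).mul_right (cc _ _ _ _)).mul_left ((cc _ _ _ _).mul_right (cc _ _ _ _))
  have k11 := comm_of_cyc h.sl.cen (fun x : Kˣ => P.hh (uu x 1)) (fun x => h.hh_mem _) fun x y => by
    have := h.sl.mul (uu x 1) (uu y 1)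
    rwa [← uu_mul, mul_one] at this
  have k22 := comm_of_cyc h.sl.cen (fun x : Kˣ => P.hh (uu 1 x)) (fun x => h.hh_mem _) fun x y => by
    have := h.sl.mul (uu 1 x) (uu 1 y)
    rwa [← uu_mul, mul_one] at this
  have dec : ∀ x y, ∃ z ∈ N1 A t, P.hh (uu x y) = z * (P.hh (uu x 1) * P.hh (uu 1 y)) := fun x y => by
    have := h.sl.mul (uu x 1) (uu 1 y)
    rw [← uu_mul, mul_one, one_mul] at this
    exact ⟨_, inv_mem this, by simp only [Par.hh]; group⟩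
  obtain ⟨x, y, rfl⟩ := uu_surj r
  obtain ⟨x', y', rfl⟩ := uu_surj s
  obtain ⟨z, hz, e1⟩ := dec x y
  obtain ⟨z', hz', e2⟩ := dec x' y'
  rw [e2]
  refine Commute.mul_right (mem_Cs.1 (h.sl.cen hz') _ (h.hh_mem _)) ?_
  rw [e1]
  exact Commute.mul_left (mem_Cs.1 (h.sl.cen hz) _ (mul_mem (h.hh_mem _) (h.hh_mem _))).symm
    (((k11 x x').mul_right (k12 x y')).mul_left ((k12 x' y).symm.mul_right (k22 y y')))

theorem hh_H (r : (K × K)ˣ) : P.hh r ∈ Cs A.h.range := mem_Cs.2 (by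
  rintro _ ⟨p, rfl⟩
  obtain ⟨c, hc⟩ := sq_surj (p.1 : K)
  have c0 : c ≠ 0 := by rintro rfl; exact p.1.ne_zero (by simpa using hc.symm)
  have e : A.h (Units.mk0 c c0 ^ 2, (Units.mk0 c c0)⁻¹) = P.hh (dU (Units.mk0 c c0)) := by
    rw [← h.la.hn, Par.hh, Par.nn, ← map_inv, c9, ← c1_x5, ← c1_x5, ← P.b_alg, ← P.b_alg]; rfl
  rw [show p = (Units.mk0 c c0 ^ 2, (Units.mk0 c c0)⁻¹) * (1, Units.mk0 c c0 * p.2) by
    ext <;> simp [hc], map_mul, e]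
  exact Commute.mul_left (h.hh_comm _ _) (mem_Cs.1 (h.S1_T (h.hh_mem r)) _ (h_mem_TT A (by simp [wt]))))

theorem hh_ns (r : (K × K)ˣ) {i : ℕ} (hi : Ui A t i ≤ Qbs A t) : P.hh r ∈ Ns (Ui A t i) := by
  have e : Qbs A t ⊓ Cs (TT A i) = Ui A t i := le_antisymm
    ((inf_le_inf_right _ (sup_le_sup_right h.I27_Qs _)).trans (h.cT i).le) (le_inf hi (h.Ui_T i))
  exact e ▸ ns_inf (sup_le h.b1b (cjs_eq h.n1b ▸ ns_cj h.b1b) (h.hh_mem r))
    (ns_cs (cs_le_ns (cs_anti (TT_le_H A i) (h.hh_H r))))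

theorem hh_a (r : (K × K)ˣ) (s : K × K) : P.hh r * P.a s * (P.hh r)⁻¹ = P.a (r * s) := by
  simpa [Par.ww, P.a_zero, c6_one, Par.hh] using ((h.acnn P r).mul (h.acn P)) (s, 0)

theorem hh_a6 (r : (K × K)ˣ) (s : K × K) :
    P.hh r * c6 A (P.a s) * (P.hh r)⁻¹ = c6 A (P.a ((r⁻¹ : (K × K)ˣ) * s)) := by
  simpa [Par.ww, P.a_zero, c6_one, Par.hh] using ((h.acnn P r).mul (h.acn P)) (0, s)

theorem hh_b (r : (K × K)ˣ) (s : K × K) : P.hh r * P.b s * (P.hh r)⁻¹ = P.b s :=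
  cj_eq_of_cs' (cs_symm h.sl.c5 (P.mb s)) (h.hh_mem r)

theorem hh_3 (r : (K × K)ˣ) : DB P (P.hh r) (c3 A) (th T sw r) := fun s => by
  haveI := P.char2
  have hβ : ∀ r s, Cg (A4 A t) ⁅c1 A (P.b r), c7 A (P.b s)⁆ (P.vw (0, th T sw r * s, th T sw s * r, 0)) := fun r s => by
    rw [Cg, h.dbV.inv1 (h.vw_mem P _)]
    simpa [Par.vw, P.a_zero, c2, c6_one, A.n8_sq, mul_comm r] using h.sp.R2 r s
  have x := h.ac31 P hβ
  have a := ((((x r).mul (((h.ac3n P).mul (x (r⁻¹ : (K × K)ˣ))).mul (h.ac3n P))).mul (x r)).mul (h.ac3n P)).2 (s, 0, 0)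
  obtain ⟨y, hy, e⟩ := mem_cjs'.1 (cj_mem (h.hh_ns r (i := 3) ((h.i3.trans h.I37_I27).trans le_sup_left)) (P.mb3 s))
  obtain ⟨s', rfl⟩ := (P.b_mem _).1 hy
  have e0 : ∀ s, P.tw (s, 0, 0) = c3 A (P.b s) := fun s => by simp [Par.tw, P.b_zero, c7, c3_one, A.n1_sq]
  rw [← c3_eq] at e
  rw [e0] at a
  change Cg _ (P.hh r * _ * (P.hh r)⁻¹) _ at a
  rw [e, ← e0] at a
  have := congrArg Prod.fst (h.tw_inj P a)
  have e1 := congrArg (th T sw) r.mul_inv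
  rw [map_mul, map_one] at e1
  simp only [Function.comp] at this
  rw [e, show s' = th T sw r * s by grind]

theorem dg_hh (r : (K × K)ˣ) : Dg P sw π (P.hh r) (r ^ 2 : (K × K)ˣ) (r⁻¹ : (K × K)ˣ) := by
  haveI := P.char2
  have h1 := h.toH1
  have e0 := r.mul_inv
  have e1 := congrArg (th T sw) r.mul_inv
  rw [map_mul, map_one] at e1
  have d7 : DB P (P.hh r) (c7 A) (th T sw (r⁻¹ : (K × K)ˣ)) :=
    h.n1_hh r ▸ ((h.hh_3 r).inv e1).cj A.n1 fun g _ => c6_eq _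
  have d2 : DU P π (P.hh r) (c2 A) r (r * th T sw r) := by
    have k : ∀ y ∈ U4s A t, ∃ y' ∈ U4s A t, P.hh r * c2 A y * (P.hh r)⁻¹ = c2 A y' ∧ π y' = r * π y := fun y hy => by
      obtain ⟨y', hy', e⟩ := mem_cjs'.1 (U2s_eq.le (cj_mem (h.hh_ns r (i := 2) (h.i2.trans le_sup_left)) (c2_mem2 hy)))
      rw [← cj_c2] at e
      have R : ∀ y ∈ U4s A t, c2 A y * P.b 1 * (c2 A y)⁻¹ = P.b 1 * P.a (π y) := fun y hy => by
        have := congrArg (c3 A) (h.rp.R3 y hy 1)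
        rwa [c3_mul, c3_mul, c3_mul, c3_c3, h.c3_A4 (P.ma _), c3_c6, c3_eq, ← conj_inv, ← c3_eq, c3_c6, mul_one] at this
      have := congrArg (fun x => P.hh r * x * (P.hh r)⁻¹) (R y hy)
      simp only [← conj_mul, ← conj_inv, e, h.hh_b, h.hh_a, R y' hy', mul_right_inj] at this
      exact ⟨y', hy', e, P.a_inj this⟩
    refine ⟨fun s => ?_, k⟩
    obtain ⟨y', hy', e, e'⟩ := k _ (h.db4.le0 (P.ma s))
    rw [(h.rp.ker _ (h.db4.le0 (P.ma s))).2 (P.ma s), mul_zero, h.rp.ker _ hy'] at e'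
    obtain ⟨s', rfl⟩ := (P.a_mem _).1 e'
    have := congrArg (fun x => P.hh r * x * (P.hh r)⁻¹) (h.R1' P 1 s)
    simp only [← conj_mul, ← conj_inv, e, d7 1, h.hh_a] at this
    rw [h.R1', mul_right_inj] at this
    have := P.a_inj this
    rw [e, show s' = r * th T sw r * s by grind]
  have d6 : DU P π (P.hh r) (c6 A) (r * th T sw (r⁻¹ : (K × K)ˣ)) (r⁻¹ : (K × K)ˣ) := by
    refine ⟨h.hh_a6 r, fun y hy => ?_⟩
    obtain ⟨y', hy', e⟩ := mem_cjs'.1 (cj_mem (h.hh_ns r (i := 6) ((h.i6.trans h.I37_I27).trans le_sup_left)) (c6_mem6 hy))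
    rw [← c6_eq] at e
    have := congrArg (fun x => P.hh r * x * (P.hh r)⁻¹) (h.rp.R3 y hy 1)
    simp only [← conj_mul, ← conj_inv, e, h.hh_3 r 1, h.hh_a, h.rp.R3 y' hy', mul_right_inj] at this
    have := P.a_inj this
    exact ⟨y', hy', e, by grind⟩
  have d8 : DU P π (P.hh r) (c8 A) (r⁻¹ : (K × K)ˣ) ((r⁻¹ : (K × K)ˣ) * th T sw (r⁻¹ : (K × K)ˣ)) :=
    h.n1_hh r ▸ (d2.inv cj_c2 r.inv_mul (by grind)).cj h1 A.n1 fun g _ => c6_eq _
  have d4 : DU P π (P.hh r) id ((r⁻¹ : (K × K)ˣ) * th T sw r) r :=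
    h.n1_hh r ▸ (d6.inv c6_eq (by grind) r.inv_mul).cj h1 A.n1 fun g _ => by rw [← c6_eq, c6_c6]; rfl
  have d1 : DB P (P.hh r) (c1 A) (r ^ 2) := fun s => by
    have := h.sl.nn_b r (r ^ 2 * s)
    rw [← mul_assoc, ← mul_pow, r.inv_mul, one_pow, one_mul] at this
    rw [h.hh_inv, Par.hh, mul_assoc (P.nn r), ← mul_assoc, mul_assoc (P.nn r), ← c9, ← this, ← mul_assoc, ← mul_assoc,
      h.sl.nn_sq, one_mul, mul_assoc, h.sl.nn_sq, mul_one]
  have d5 : DB P (P.hh r) id 1 := fun s => by rw [id, h.hh_b, one_mul, id]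
  refine ⟨h.hh_H r, d1, (h.hh_3 r).of_eq ?_, d5.of_eq ?_, d7.of_eq ?_, ?_, ?_, ?_, d8⟩
  rotate_left 3
  · convert d2 using 1 <;> simp only [wt, Units.val_pow_eq_pow_val, map_mul, map_pow] <;> grind
  · convert d4 using 1 <;> simp only [wt, Units.val_pow_eq_pow_val, map_mul, map_pow, th_th] <;> grind
  · convert d6 using 1 <;> simp only [wt, Units.val_pow_eq_pow_val, map_mul, map_pow, th_th] <;> grind
  all_goals simp only [wt, Units.val_pow_eq_pow_val, map_mul, map_pow]; grind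

theorem dg2_hh (r : (K × K)ˣ) : Dg2 P sw π (P.hh r) (r ^ 2) r⁻¹ := by
  have wf := h.wf
  have e9 : ∀ g ∈ B5 A t, w0 A * c9 A g * (w0 A)⁻¹ = c1 A g := fun g hg => by
    rw [← wf.c9 g hg, ← cj_cj, wf.sq, one_mul, inv_one, mul_one]
  refine ⟨h.dg_hh r, ?_⟩
  rw [show w0 A * P.hh r * (w0 A)⁻¹ = (P.hh r)⁻¹ by
    rw [h.hh_inv, Par.hh, Par.nn, ← conj_mul, ← conj_mul, ← conj_mul, wf.c9 _ (P.mb _), e9 _ (P.mb _), wf.n1.eq,
      mul_inv_cancel_right]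
    simp only [c9, mul_assoc, n1_n1, A.n1_sq, mul_one]]
  exact (h.dg_hh r).inv (r ^ 2).mul_inv r⁻¹.mul_inv

end H8

theorem jobRT : JobRT.{u, v} := fun kit K _ _ _ T G _ _ A t P sw π h a b => by
  obtain ⟨r, hr⟩ : ∃ r : (K × K)ˣ, r ^ 2 = a := by
    obtain ⟨x, y, rfl⟩ := uu_surj a
    obtain ⟨c, hc⟩ := sq_surj (x : K)
    obtain ⟨d, hd⟩ := sq_surj (y : K)
    have c0 : c ≠ 0 := by rintro rfl; exact x.ne_zero (by simpa using hc.symm)
    have d0 : d ≠ 0 := by rintro rfl; exact y.ne_zero (by simpa using hd.symm)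
    exact ⟨uu (Units.mk0 c c0) (Units.mk0 d d0), by ext <;> simp [uu_val, hc, hd]⟩
  have tt : ∀ x : (K × K)ˣ, thU T sw (thU T sw x) = x ^ 2 := fun x => Units.ext (th_th sw (x : K × K))
  have := (h.dg2_hh r).mul (h.dw.n8 (h.dw.n1 (h.dw.n8 (h.dg2_hh (b * r * thU T sw (b * r))))))
  refine ⟨_, by
    convert this using 1 <;> simp only [← hr, thU, map_mul, map_inv, map_pow, tt] <;>
      apply Additive.ofMul.injective <;> simp only [ofMul_mul, ofMul_inv, ofMul_pow] <;> abel⟩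

end H65.SR
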