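/- STD-R (S3323): job SM. -/
import Cfsg.Agent.H65.SRRT

set_option autoImplicit false
set_option linter.unusedSectionVars false
set_option linter.unusedVariables false
set_option linter.unusedSimpArgs false

open Subgroup H63.Oc H64.SG
open scoped commutatorElement

universe u v

namespace H65.SR

attribute [-simp] Subgroup.mem_map

variable {K : Type*} [Field K] [Fintype K] [CharP K 2] {T : TF K} {G : Type*} [Group G] [Finite G]
  {A : AD T G} {t : G} {P : Par A t (K × K)} {sw : Bool} {π : G → K × K}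

theorem vv_eq (m : Fin 4 → K × K) : vv P m = P.vw (m 0, m 1, m 2, m 3) := rfl

theorem Act.cg {g : G} {M : Matrix (Fin 4) (Fin 4) (K × K)} (h : Act P g M) (m : Fin 4 → K × K) :
    Cg (A4 A t) (g * vv P m * g⁻¹) (vv P (M.mulVec m)) := h.2 m

theorem Act.mul {g g' : G} {M M' : Matrix (Fin 4) (Fin 4) (K × K)} (h : Act P g M) (h' : Act P g' M') :
    Act P (g * g') (M * M') :=
  ⟨mul_mem h.1 h'.1, fun m => by
    rw [cj_cj, ← Matrix.mulVec_mulVec]; exact ((h'.cg m).cj h.1).trans (h.cg _)⟩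

theorem Act.inv {g : G} {M M' : Matrix (Fin 4) (Fin 4) (K × K)} (h : Act P g M) (e : M * M' = 1) : Act P g⁻¹ M' :=
  ⟨inv_mem h.1, fun m => by
    have := (h.cg (M'.mulVec m)).symm.cj (inv_mem h.1)
    rw [Matrix.mulVec_mulVec, e, Matrix.one_mulVec, ← cj_cj, inv_mul_cancel, one_mul, inv_one, mul_one] at this
    exact this⟩

theorem Act.of_eq {g : G} {M M' : Matrix (Fin 4) (Fin 4) (K × K)} (h : Act P g M) (e : M = M') : Act P g M' := e ▸ h

theorem exists_units (hK : 8 ≤ Fintype.card K) (r : K × K) : ∃ u u' : (K × K)ˣ, r = u + u' := by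
  classical
  have key : ∀ x : K, ∃ c d : Kˣ, x = c + d := fun x => by
    obtain ⟨c, hc⟩ : ∃ c : K, c ∉ ({0, x} : Finset K) := by
      by_contra hc
      push Not at hc
      have := (Finset.card_le_card (fun c _ => hc c : Finset.univ ⊆ {0, x})).trans Finset.card_le_two
      rw [Finset.card_univ] at this
      omega
    simp only [Finset.mem_insert, Finset.mem_singleton, not_or] at hc
    exact ⟨Units.mk0 c hc.1, Units.mk0 (x + c) (by grind), by simp; grind⟩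
  obtain ⟨c, d, e⟩ := key r.1
  obtain ⟨c', d', e'⟩ := key r.2
  exact ⟨uu c c', uu d d', Prod.ext e e'⟩

theorem exists_nu (l : (K × K)ˣ) : ∃ a : (K × K)ˣ, (a : K × K) * th T sw a = l := by
  refine ⟨thU T sw l * l⁻¹, ?_⟩
  have e0 := l.mul_inv
  have e1 := congrArg (th T sw) e0
  rw [map_mul, map_one] at e1
  simp only [Units.val_mul, Units.coe_map, MonoidHom.coe_coe, map_mul, th_th]
  grind

theorem vvL (P : Par A t (K × K)) (m : Fin 4 → K) :
    vv P (fun i => algebraMap K (K × K) (m i)) = A.ι (x2 T (m 0) * x3 T (m 1) * x5 T (m 2) * x6 T (m 3)) := by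
  simp only [vv, P.a_alg, P.b_alg, c2, c6, c3, n1_x4, n8_x6, n8_x5, map_mul]

namespace H1
variable (h : H1 A t)
include h

theorem vv_inj {m m' : Fin 4 → K × K} (e : Cg (A4 A t) (vv P m) (vv P m')) : m = m' := by
  rw [vv_eq, vv_eq] at e
  have := h.vw_inj P e
  simp only [Prod.mk.injEq] at this
  funext i
  fin_cases i
  exacts [this.1, this.2.1, this.2.2.1, this.2.2.2]

theorem vv_surj (P : Par A t (K × K)) {g : G} (hg : g ∈ Vs A t) : ∃ m, Cg (A4 A t) g (vv P m) := by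
  obtain ⟨m, e⟩ := h.vw_surj P hg
  exact ⟨![m.1, m.2.1, m.2.2.1, m.2.2.2], e⟩

theorem vv_add (m m' : Fin 4 → K × K) : vv P (m + m') = vv P m * vv P m' := by
  rw [vv_eq, vv_eq, vv_eq]; exact h.vw_add P (m 0, m 1, m 2, m 3) (m' 0, m' 1, m' 2, m' 3)

theorem vv_mem (m : Fin 4 → K × K) : vv P m ∈ Vs A t := by
  rw [vv_eq]; exact h.vw_mem P (m 0, m 1, m 2, m 3)

theorem act_uniq {g : G} {M M' : Matrix (Fin 4) (Fin 4) (K × K)} (a : Act P g M) (a' : Act P g M') : M = M' :=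
  Matrix.mulVec_injective (funext fun m => h.vv_inj ((a.cg m).symm.trans (a'.cg m)))

theorem act_ker {g : G} (a : Act P g 1) : g ∈ Cm (Vs A t) (A4 A t) := ⟨a.1, fun v hv => by
  obtain ⟨m, e⟩ := h.vv_surj P hv
  exact ((e.cj a.1).trans (by simpa using a.cg m)).trans e.symm⟩

theorem act_n : Act P A.n8 !![0, 0, 0, 1; 0, 0, 1, 0; 0, 1, 0, 0; 1, 0, 0, 0] :=
  ⟨h.N4 (h.C_le_N n8_C), fun m => Cg.of_eq (by
    rw [← c3_eq, vv_eq, h.c3_vw, vv_eq]
    simp [Matrix.mulVec, dotProduct, Fin.sum_univ_four])⟩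

theorem act_d {k : G} {a b : K × K} (d : Dg P sw π k a b) : Act P k (Matrix.diagonal
    ![wt (th T sw) a b 2 * th T sw (wt (th T sw) a b 2), wt (th T sw) a b 3, wt (th T sw) a b 5,
      wt (th T sw) a b 6 * th T sw (wt (th T sw) a b 6)]) :=
  ⟨mem_ns_of fun g hg => by
    obtain ⟨r, rfl⟩ := (P.a_mem _).1 hg
    exact (d.d4.1 r).symm ▸ P.ma _, fun m => Cg.of_eq (by
    have e5 := d.d5 (m 2)
    simp only [id] at e5
    simp only [vv, ← conj_mul, d.d2.1, d.d3 _, e5, d.d6.1, Matrix.mulVec_diagonal]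
    rfl)⟩

theorem S8_c4 : U8s A t ⊔ U0s A t ≤ Cs (A4 A t) := sup_le h.U8s_c4 (h.cjs8_A4 ▸ cs_cj h.U8s_c4)

theorem S8_N8 : U8s A t ⊔ U0s A t ≤ Ns (N8 A t) := fun g hg =>
  ns_inf (le_normalizer hg) (ns_cm (sup_le h.nV (h.cjs8_Vs ▸ ns_cj h.nV) hg) (cs_le_ns (h.S8_c4 hg)))

theorem N8_ker : Odd (Nat.card (N8 A t)) ∧ ∀ x ∈ Ns (N8 A t), ⁅t, x⁆ ∈ Cs (N8 A t) := by
  have := ker_lemma h.cf.inv (N := N8 A t) (ns_inf (ns_sup h.fr8.tY (h.fr8.cj h.cf.n8t).tY)
    (ns_cm h.dbV.tY h.sa.db.tY)) (eq_bot_iff.2 fun g hg => by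
      have c4 := h.S8_c4 hg.1.1
      have cz := cs_anti h.sa.db.leX c4
      obtain ⟨c, hc, rfl⟩ := (h.lt.cvz g hg.2 ⟨cs_le_ns cz, fun v hv => h.sa.db.fix1 (hg.1.2.2 v (h.V_Vs hv))
        (comm_mem_left (le_normalizer hg.2) (h.cf.imt _ hv))⟩ cz).resolve_right (h.not_tV c4)
      have := h.la.memT ⟨c, rfl⟩ (sup_le h.U8s_T ((cs_cj h.U8s_T).trans (by rw [cjs_eq (cs_le_ns h.la.tt88)])) hg.1.1)
      rw [mem_bot, ι_eq_one]
      ext <;> simp_all [sU])
  exact ⟨this.1, this.2.2.2⟩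

theorem N8_cen : N8 A t ≤ Cs (U8s A t ⊔ U0s A t) := by
  have n8 : A.n8 ∈ Ns (N8 A t) := ns_inf (ns_of_cjs_eq (by rw [cjs_sup, U0s, cjs88, sup_comm]))
    (ns_cm (h.C_Vs n8_C) (h.N4 (h.C_le_N n8_C)))
  obtain ⟨h4, hn⟩ := h.la.n8m (Cs (N8 A t)) (fun z hz => by
      obtain ⟨a, ha, rfl⟩ := h.db8.onto1 hz
      exact h.N8_ker.2 a (h.S8_N8 (mem_sup_left (h.dbU8.le0 ha))))
    (fun u hu => ns_cs (h.S8_N8 (mem_sup_left (h.dbU8.leX hu)))) (ns_cs n8)
  obtain ⟨k, hk, k1⟩ := h.la.exT 4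
  have b : U8s A t ≤ Cs (N8 A t) := fun y hy => by
    obtain ⟨y', hy', rfl⟩ := surj_of_fpf (h.HU8 (TT_le_H A 4 hk))
      (h.fp hk k1 h.fr8 fun c => by simp +contextual [sU, Co.ext_iff]) y hy
    exact comm_mem_left (ns_cs (h.S8_N8 (mem_sup_left hy'))) (h4 hk)
  exact cs_symm (sup_le b ((cjs_mono b).trans (cjs_eq (le_normalizer hn)).le))

end H1

namespace H10
variable (h : H10 P sw π)
include h

theorem act_lin {g : G} (hg : g ∈ U8s A t) : ∃ M, Act P g M := by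
  have n4 := cs_le_ns (h.U8s_c4 hg)
  choose F hF using fun m => h.vv_surj P (cj_mem (h.nV hg) (h.vv_mem (P := P) m))
  have add : ∀ m m', F (m + m') = F m + F m' := fun m m' => h.vv_inj ((hF _).symm.trans (by
    rw [h.vv_add, h.vv_add, ← conj_mul]
    exact (hF m).mul (hF m') (cs_le_ns (h.Vs_c4 (cj_mem (h.nV hg) (h.vv_mem m))))))
  have sm : ∀ (l : (K × K)ˣ) m, F ((l : K × K) • m) = (l : K × K) • F m := fun l m => by
    obtain ⟨a, e⟩ := exists_nu (T := T) (sw := sw) l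
    obtain ⟨k, hk⟩ := h.tor a 1
    have a1 : Act P k ((l : K × K) • 1) := (h.act_d hk.1).of_eq (by
      ext i j : 1
      fin_cases i <;> fin_cases j <;> simp [wt, e])
    have c := mem_Cs.1 (h.dw.cen hk 8 rfl) g hg
    have e1 := (a1.cg m).symm.cj n4
    rw [← cj_cj, c, cj_cj] at e1
    have e2 := (e1.trans ((hF m).cj a1.1)).trans (a1.cg _)
    simp only [Matrix.smul_mulVec, Matrix.one_mulVec] at e2
    exact h.vv_inj ((hF _).symm.trans e2)
  let L : (Fin 4 → K × K) →ₗ[K × K] Fin 4 → K × K :=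
    { toFun := F
      map_add' := add
      map_smul' := fun r m => by
        obtain ⟨u, u', rfl⟩ := exists_units h.cf.card r
        rw [add_smul, add, sm, sm, RingHom.id_apply, add_smul] }
  exact ⟨LinearMap.toMatrix' L, n4, fun m => by rw [LinearMap.toMatrix'_mulVec]; exact hF m⟩

theorem act_L {c : Co T} (hc : c ∈ sU8 T) {M : Matrix (Fin 4) (Fin 4) (K × K)} (f : (Fin 4 → K) → Fin 4 → K)
    (h1 : ∀ m : Fin 4 → K, M.mulVec (fun i => algebraMap K (K × K) (m i)) = fun i => algebraMap K (K × K) (f m i))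
    (h2 : ∀ m : Fin 4 → K, c * (x2 T (m 0) * x3 T (m 1) * x5 T (m 2) * x6 T (m 3)) * c⁻¹ *
      (x2 T (f m 0) * x3 T (f m 1) * x5 T (f m 2) * x6 T (f m 3))⁻¹ ∈ sZ T) : Act P (A.ι c) M := by
  obtain ⟨M', a⟩ := h.act_lin (h.dbU8.leX ((ι_mem_im A).2 hc))
  refine a.of_eq (Matrix.ext fun i j => ?_)
  have key : ∀ m : Fin 4 → K, M'.mulVec (fun i => algebraMap K (K × K) (m i)) =
      M.mulVec fun i => algebraMap K (K × K) (m i) := fun m => h.vv_inj ((a.cg _).symm.trans (by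
    rw [h1, vvL, vvL, Cg, ← map_inv, ← map_inv, ← map_mul, ← map_mul, ← map_mul]
    exact h.sa.db.leX ((ι_mem_im A).2 (h2 m))))
  have := congrFun (key (Pi.single j 1)) i
  rwa [show (fun i => algebraMap K (K × K) ((Pi.single j 1 : Fin 4 → K) i)) = Pi.single j 1 by
    ext i : 1; by_cases e : i = j <;> simp [e, Pi.single_apply], Matrix.mulVec_single_one,
    Matrix.mulVec_single_one] at this

theorem act_a (s : K × K) : Act P (c8 A (P.a s)) !![1, 0, 0, 0; 0, 1, 0, 0; s, 0, 1, 0; th T sw s, s, 0, 1] := by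
  haveI := P.char2
  have a1 : Act P (c8 A (P.a 1)) !![1, 0, 0, 0; 0, 1, 0, 0; 1, 0, 1, 0; 1, 1, 0, 1] := by
    rw [P.a_one, c8, c2, c6, n1_x4, n8_x6, n1_x2]
    refine h.act_L (by simp) (fun m => ![m 0, m 1, m 0 + m 2, m 0 + m 1 + m 3]) (fun m => ?_) fun m => ?_
    · ext i : 1; fin_cases i <;> simp [Matrix.mulVec, dotProduct, Fin.sum_univ_four]
    · simp; grind
  have au : ∀ s : (K × K)ˣ, Act P (c8 A (P.a s)) !![1, 0, 0, 0; 0, 1, 0, 0; s, 0, 1, 0; th T sw s, s, 0, 1] := fun s => by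
    obtain ⟨b, e⟩ := exists_nu (T := T) (sw := sw) s
    obtain ⟨k, hk⟩ := h.tor 1 b
    have := ((h.act_d hk.1).mul a1).mul (h.act_d (h.dw.inv hk).1)
    rw [hk.1.d8.1, mul_one] at this
    have e0 := b.mul_inv
    have e1 := congrArg (th T sw) e0
    rw [map_mul, map_one] at e1
    rw [← e]
    refine this.of_eq ?_
    ext i j : 1
    simp only [Matrix.mul_diagonal, Matrix.diagonal_mul]
    fin_cases i <;> fin_cases j <;>
      simp [-Units.val_inv_eq_inv_val, -map_units_inv, wt, th_th, inv_one] <;> grind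
  obtain ⟨u, u', rfl⟩ := exists_units h.cf.card s
  rw [P.a_add, c8_eq, c6_mul, c3_mul, c6_mul]
  refine ((au u).mul (au u')).of_eq ?_
  ext i j : 1
  fin_cases i <;> fin_cases j <;> simp [Matrix.mul_apply, Fin.sum_univ_four, add_comm]

theorem act_y {y : G} (hy : y ∈ U4s A t) : ∃ u v w, Act P (c8 A y)
    !![1, 0, 0, 0; π y, 1, 0, 0; u, th T sw (π y), 1, 0; w, v, π y, 1] := by
  haveI := P.char2
  have c8m : ∀ a b, c8 A (a * b) = c8 A a * c8 A b := fun a b => by simp only [c8_eq, c6_mul, c3_mul]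
  have mul : ∀ {g g' : G} {s s' : K × K}, (∃ u v w, Act P g !![1, 0, 0, 0; s, 1, 0, 0; u, th T sw s, 1, 0; w, v, s, 1]) →
      (∃ u v w, Act P g' !![1, 0, 0, 0; s', 1, 0, 0; u, th T sw s', 1, 0; w, v, s', 1]) →
      ∃ u v w, Act P (g * g') !![1, 0, 0, 0; s + s', 1, 0, 0; u, th T sw (s + s'), 1, 0; w, v, s + s', 1] := by
    rintro g g' s s' ⟨u, v, w, a⟩ ⟨u', v', w', a'⟩
    refine ⟨u + th T sw s * s' + u', v + s * th T sw s' + v', w + v * s' + s * u' + w', (a.mul a').of_eq ?_⟩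
    ext i j : 1
    fin_cases i <;> fin_cases j <;> simp [Matrix.mul_apply, Fin.sum_univ_four, add_comm]
  have m1 : A.ι (y4 T 1 * x4 T 0) ∈ U4s A t := h.db4.leX ((ι_mem_im A).2 (by simp))
  have a1 : Act P (c8 A (A.ι (y4 T 1 * x4 T 0))) !![1, 0, 0, 0; 1, 1, 0, 0; 1, 1, 1, 0; 1, 0, 1, 1] := by
    rw [x4_zero, mul_one, c8, c2, c6, n1_y4, n8_y6, n1_y2]
    refine h.act_L (by simp) (fun m => ![m 0, m 0 + m 1, m 0 + m 1 + m 2, m 0 + m 2 + m 3]) (fun m => ?_) fun m => ?_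
    · ext i : 1; fin_cases i <;> simp [Matrix.mulVec, dotProduct, Fin.sum_univ_four]
    · simp; grind
  have au : ∀ b : (K × K)ˣ, ∃ y ∈ U4s A t, π y = b ∧ ∃ u v w, Act P (c8 A y)
      !![1, 0, 0, 0; b, 1, 0, 0; u, th T sw b, 1, 0; w, v, b, 1] := fun b => by
    obtain ⟨k, hk⟩ := h.tor 1 b
    obtain ⟨y, hy, e2, e3⟩ := hk.1.d8.2 _ m1
    have := ((h.act_d hk.1).mul a1).mul (h.act_d (h.dw.inv hk).1)
    rw [e2] at this
    have e0 := b.mul_inv
    have e1 := congrArg (th T sw) e0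
    rw [map_mul, map_one] at e1
    refine ⟨y, hy, by rw [e3, h.rp.piL]; exact mul_one _, b * th T sw b, 0, b ^ 2 * th T sw b, this.of_eq ?_⟩
    ext i j : 1
    simp only [Matrix.mul_diagonal, Matrix.diagonal_mul]
    fin_cases i <;> fin_cases j <;>
      simp [-Units.val_inv_eq_inv_val, -map_units_inv, wt, th_th, inv_one] <;> grind
  obtain ⟨u, u', e⟩ := exists_units h.cf.card (π y)
  obtain ⟨y₁, h1, e1, a₁⟩ := au u
  obtain ⟨y₂, h2, e2, a₂⟩ := au u'
  obtain ⟨s, e3⟩ := (P.a_mem _).1 (h.rp.eq (mul_mem h1 h2) hy (by rw [h.rp.mul _ h1 _ h2, e1, e2, e]))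
  have := mul (s := 0) ⟨s, s, th T sw s, by simpa using h.act_a s⟩ (mul a₁ a₂)
  rwa [← c8m, ← c8m, ← e3, inv_mul_cancel_right, zero_add, ← e] at this

end H10

theorem jobSM : JobSM.{u, v} := fun kit K _ _ _ T G _ _ A t P sw π h =>
  ⟨h.N8_ker.1, h.N8_cen, Act.mul, Act.inv, h.act_uniq, h.act_ker, fun y hy => h.act_y hy, h.act_a, h.act_n, h.act_d⟩

end H65.SR
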