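import Cfsg.Agent.H0.SimSpec
import Cfsg.Agent.H98.Core

/-! S3694: transport into the automorphism group of the socle. -/

set_option autoImplicit false

namespace H65.SimTR

open Subgroup Cfsg H98 H0.Sim

universe u

theorem le_range {G X : Type*} [Group G] [Group X] {f : G →* X} {K : Subgroup X} {H : Subgroup G}
    (h : K ≤ H.map f) : (K.comap f).map f = K :=
  map_comap_eq_self (h.trans (map_le_range f H))

theorem am_map {G X : Type*} [Group G] [Finite G] [Group X] {f : G →* X} (hf : Function.Injective f)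
    {N L H A : Subgroup G} {p : ℕ} {g : G} (h : Am N L H A p g) :
    Am (N.map f) (L.map f) (H.map f) (A.map f) p (f g) := by
  have : Fact p.Prime := ⟨h.pp⟩
  have e := map_pCoreOf_of_injective (p := p) hf H
  refine ⟨h.pp, map_mono h.NG, map_le_normalizer_map f h.nN, ?_, fun K h1 h2 => ?_,
    fun k => h.nH ((map_le_map_iff_of_injective hf).1 k), ?_, e ▸ map_mono h.AQ,
    map_le_normalizer_map f h.nA, fun k => h.ne ((map_eq_bot_iff_of_injective _ hf).1 k),
    fun A₁ h1 h2 => ?_, mem_map_of_mem f h.gN, ?_, fun k => h.Bne ?_, ?_⟩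
  · exact (map_lt_map_iff_of_injective hf).2 h.HG
  · rw [← le_range h2]
    refine (h.mx _ (map_le_iff_le_comap.1 h1) ?_).imp (congrArg _) (congrArg _)
    rw [← comap_map_eq_self_of_injective hf L]
    exact comap_mono h2
  · intro x hx hc
    rw [← e] at hc ⊢
    have : x ∈ (H ⊓ centralizer (pCoreOf p H : Set G)).map f := by
      rw [map_inf_centralizer hf]
      exact ⟨hx, hc⟩
    obtain ⟨y, hy, rfl⟩ := this
    exact mem_map_of_mem f (h.ch y hy.1 hy.2)
  · rw [← le_range h1]
    refine (h.mn _ ?_ ((map_le_iff_le_comap.1 h2).trans (le_normalizer_comap f))).imp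
      (fun k => by rw [k, Subgroup.map_bot]) (congrArg _)
    rw [← comap_map_eq_self_of_injective hf A]
    exact comap_mono h1
  · rw [← map_cj, ← e]
    exact map_mono h.BQ
  · rw [← map_cj] at k
    exact map_injective hf k
  · rintro _ ⟨x, hx, rfl⟩
    rw [← map_cj, ← map_cj]
    exact map_le_normalizer_map f (h.nb x hx)

theorem jobTR : JobTR.{u} := by
  intro G _ _ N H A p g hN hC h T _ ⟨e⟩
  let f : G →* MulAut T := (MulAut.congr e).toMonoidHom.comp (MulAut.conjNormal (H := N))
  have hf : Function.Injective f := by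
    rw [injective_iff_map_eq_one]
    intro x hx
    have h1 : MulAut.conjNormal (H := N) x = 1 := (map_eq_one_iff _ (MulAut.congr e).injective).1 hx
    rw [← mem_bot, ← hC]
    intro n hn
    have := MulAut.conjNormal_apply (H := N) x ⟨n, hn⟩
    rw [h1] at this
    exact eq_mul_inv_iff_mul_eq.1 this
  have key : ∀ n : N, f n = MulAut.conj (e n) := fun n => by
    ext t
    simp [f, MulAut.conjNormal_val]
  have hI : N.map f = Inn T := by
    ext φ
    constructor
    · rintro ⟨n, hn, rfl⟩
      exact ⟨e ⟨n, hn⟩, (key ⟨n, hn⟩).symm⟩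
    · rintro ⟨t, rfl⟩
      exact ⟨e.symm t, (e.symm t).2, by rw [key, e.apply_symm_apply]⟩
  exact ⟨_, _, _, _, hI ▸ am_map hf h, (card_map_of_injective hf)⟩

end H65.SimTR
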